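import Cfsg.Agent.BG.Prod
import Cfsg.Agent.H1.Generation

/-! A coprime operator of prime order that centralizes the centralizer of an involution:
the counting argument. -/

set_option autoImplicit false
set_option linter.style.haveILetI false

namespace Cfsg.Agent.H25.CInv

open Subgroup Cfsg.Agent.H20 Cfsg.Agent.H21
open scoped commutatorElement

variable {X : Type*} [Group X] [Finite X] {G R R' U W : Subgroup X} {t g x a b : X}

structure Act (G R : Subgroup X) : Prop where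
  rp : (♯R).Prime
  cop : (♯G).Coprime (♯R)
  nG : R ≤ N⟦G⟧

structure Hyp (G R : Subgroup X) (t : X) : Prop extends Act G R where
  tG : t ∈ G
  ord : orderOf t = 2
  cen : G ⊓ C₁⟦t⟧ ≤ C⟦R⟧

theorem Act.sol (h : Act G R) : Group.IsSolvable R := sol_of_card_prime h.rp

omit [Finite X] in
theorem Act.cj (h : Act G R) (hg : g ∈ G) : Act G (cj g R) :=
  ⟨by rw [card_cj]; exact h.rp, by rw [card_cj]; exact h.cop,
    by have := norm_cj g h.nG; rwa [cj_eq_of_mem hg] at this⟩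

omit [Finite X] in
theorem cj_le_sup (hg : g ∈ G) : cj g R ≤ G ⊔ R :=
  cj_le_of_mem ((le_sup_left : G ≤ _) hg) le_sup_right

theorem Act.conj_in (h : Act G R) (h1 : R' ≤ G ⊔ R) (h2 : ♯R' = ♯R) (hR : R ≤ W) (hR' : R' ≤ W) :
    ∃ n ∈ G ⊓ W, H20.cj n R' = R := by
  have hG : G ⊔ R ≤ N⟦G⟧ := sup_le (le_norm_self G) h.nG
  obtain ⟨n, hn, e⟩ := exists_cj_le_of_coprime (N := G ⊓ W) (U := R') (H := R)
    (norm_inf (h1.trans hG) (norm_of_le hR')) (norm_inf h.nG (norm_of_le hR))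
    (by rw [h2]; exact (coprime_of_le_left h.cop inf_le_left).symm)
    (Or.inl (sol_of_card_prime (h2 ▸ h.rp)))
    (by rw [← modular_right (Or.inr h.nG) hR]; exact le_inf h1 hR')
  exact ⟨n, hn, eq_of_le_card e (by rw [card_cj, h2])⟩

theorem Act.eq_of (h : Act G R) (h1 : R' ≤ G ⊔ R) (h2 : ♯R' = ♯R) (hR : R ≤ W) (hR' : R' ≤ W)
    (hW : G ⊓ W ≤ C⟦R⟧) : R' = R := by
  obtain ⟨n, hn, e⟩ := h.conj_in h1 h2 hR hR'
  rw [cj_eq_iff, cj_eq_of_mem_norm (cent_le_norm R (inv_mem (hW hn)))] at e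
  exact e

theorem Act.norm_le (h : Act G R) (hU : U ≤ C⟦R⟧) (hc : G ⊓ C⟦U⟧ ≤ C⟦R⟧) : G ⊓ N⟦U⟧ ≤ C⟦R⟧ := by
  have hn : R ≤ N⟦G ⊓ N⟦U⟧⟧ := norm_inf_norm h.nG (norm_of_cent (cent_symm hU))
  refine cent_symm (coprime_cent_of_commg_cent hn (coprime_of_le_left h.cop inf_le_left)
    (le_trans (le_inf ((commg_le_left hn).trans inf_le_left) ?_) hc))
  exact (commutator_mono le_rfl (cent_symm hU)).trans (commg_le_right (norm_cent inf_le_right))

omit [Finite X] in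
theorem Hyp.sq (h : Hyp G R t) : t * t = 1 := by rw [← pow_two, ← h.ord, pow_orderOf_eq_one]

omit [Finite X] in
theorem Hyp.ne (h : Hyp G R t) : t ≠ 1 := fun e => by simpa [e] using h.ord

omit [Finite X] in
theorem Hyp.tR (h : Hyp G R t) : t ∈ C⟦R⟧ := h.cen ⟨h.tG, self_mem_cent1 t⟩

omit [Finite X] in
theorem Hyp.cj (h : Hyp G R t) (hg : g ∈ G) : Hyp G (cj g R) (g * t * g⁻¹) :=
  { h.toAct.cj hg with
    tG := G.mul_mem (G.mul_mem hg h.tG) (G.inv_mem hg)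
    ord := by rw [← h.ord]; exact (MulAut.conj g).orderOf_eq t
    cen := by
      rw [← cj_cent, ← cj_cent1]
      conv_lhs => rw [← cj_eq_of_mem hg]
      rw [← cj_inf]; exact cj_mono g h.cen }

theorem Hyp.uniq (h : Hyp G R t) (hg : g ∈ G) (ht : t ∈ C⟦H20.cj g R⟧) : H20.cj g R = R :=
  h.toAct.eq_of (cj_le_sup hg) (card_cj g R) (le_cent1_iff.2 h.tR) (le_cent1_iff.2 ht) h.cen

theorem Hyp.conj (h : Hyp G R t) (hg : g ∈ G) (ht : g * t * g⁻¹ ∈ C⟦R⟧) : Hyp G R (g * t * g⁻¹) := by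
  have h1 := h.cj hg
  have := h1.uniq (G.inv_mem hg) (by rwa [cj_inv_cj])
  rw [cj_inv_cj] at this
  rwa [← this] at h1

theorem Hyp.pg (h : Hyp G R t) : IsPGroup 2 (zpowers t) :=
  isPGroup_of_card_prime (by rw [Nat.card_zpowers, h.ord])

theorem Hyp.two (h : Hyp G R t) (hU : IsPGroup 2 U) (hUG : U ≤ G) (hR : R ≤ N⟦U⟧) : U ≤ C⟦R⟧ := by
  have ht : zpowers t ≤ C⟦R⟧ := zpowers_le.2 h.tR
  obtain ⟨S, hS, hRS, htS⟩ := exists_inv_sylow_ge h.nG h.cop (Or.inl h.sol) h.pg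
    (zpowers_le.2 h.tG) (norm_of_cent (cent_symm ht))
  have h1 : R ≤ C⟦S⟧ := coprime_nil_cent_of_self_cent hS.isPGroup.isNilpotent hRS
    (coprime_of_le_left h.cop hS.le) (le_inf inf_le_left (le_trans (inf_le_inf hS.le
      (cent_le_cent1 ⟨htS (mem_zpowers t), h.tR⟩)) h.cen))
  obtain ⟨S', hS', hRS', hUS⟩ := exists_inv_sylow_ge h.nG h.cop (Or.inl h.sol) hU hUG hR
  obtain ⟨c, hc, e⟩ := inv_sylow_exists_cj_eq h.nG h.cop (Or.inl h.sol) hS hRS hS' hRS'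
  rw [← e] at hUS
  exact hUS.trans (cj_le_of_mem hc.2 (cent_symm h1))

theorem Hyp.fix (h : Hyp G R t) (hg : g ∈ G) (hU : U ≤ C⟦H20.cj g R⟧) (ht : t ∈ N⟦U⟧) :
    U ≤ C⟦R⟧ := by
  have h' := h.cj hg
  obtain ⟨T, hT, hRT⟩ := exists_inv_sylow 2 (norm_inf_norm h'.nG (norm_of_cent (cent_symm hU)))
    (coprime_of_le_left h'.cop inf_le_left) (Or.inl h'.sol)
  have h1 := h'.two hT.isPGroup (hT.le.trans inf_le_left) hRT
  obtain ⟨n, hn, e⟩ := hT.exists_le_cj h.pg (zpowers_le.2 ⟨h.tG, ht⟩)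
  have h2 : H20.cj (n * g) R = R := h.uniq (G.mul_mem hn.1 hg) (by
    rw [cj_mul]; exact (e.trans (cent_cj n h1)) (mem_zpowers t))
  have := cent_cj n hU
  rwa [← cj_mul, h2, cj_eq_of_mem_norm hn.2] at this

theorem Hyp.two' (h : Hyp G R t) (hU : IsPGroup 2 U) (hUG : U ≤ G) (ht : t ∈ N⟦U⟧) : U ≤ C⟦R⟧ := by
  obtain ⟨S, hS, hRS⟩ := exists_inv_sylow 2 h.nG h.cop (Or.inl h.sol)
  obtain ⟨g, hg, e⟩ := hS.exists_le_cj hU hUG
  exact h.fix hg (e.trans (cent_cj g (h.two hS.isPGroup hS.le hRS))) ht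

/-- A minimal configuration. -/
structure Min (G R : Subgroup X) : Prop where
  ih : ∀ H < G, ∀ t, Hyp H R t → Odd ♯⁅H, R⁆
  core : ∀ N ≤ G, G ≤ N⟦N⟧ → N ≤ C⟦R⟧ → N = ⊥

omit [Finite X] in
theorem Min.eq_one (m : Min G R) (ha : a ∈ G) (h : ∀ g ∈ G, g * a * g⁻¹ ∈ C⟦R⟧) : a = 1 := by
  have := m.core (closure {x | ∃ g ∈ G, g * a * g⁻¹ = x})
    ((closure_le _).2 (by rintro _ ⟨g, hg, rfl⟩; exact G.mul_mem (G.mul_mem hg ha) (G.inv_mem hg)))
    (norm_closure (by rintro x hx _ ⟨g, hg, rfl⟩; exact ⟨x * g, G.mul_mem hx hg, by group⟩))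
    ((closure_le _).2 (by rintro _ ⟨g, hg, rfl⟩; exact h g hg))
  exact mem_bot.1 (this ▸ subset_closure ⟨1, G.one_mem, by group⟩)

/-- `[N_G(U), R]`. -/
def Ou (G R U : Subgroup X) : Subgroup X := ⁅G ⊓ N⟦U⟧, R⁆

omit [Finite X] in
theorem Act.Ou_le (h : Act G R) (hU : U ≤ C⟦R⟧) : Ou G R U ≤ G ⊓ C⟦U⟧ :=
  le_inf ((commg_le_left (norm_inf_norm h.nG (norm_of_cent (cent_symm hU)))).trans inf_le_left)
    ((commutator_mono le_rfl (cent_symm hU)).trans (commg_le_right (norm_cent inf_le_right)))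

omit [Finite X] in
theorem norm_Ou : G ⊓ N⟦U⟧ ≤ N⟦Ou G R U⟧ := le_sup_left.trans (sup_le_norm_commg _ _)

omit [Finite X] in
theorem Min.odd (m : Min G R) (h : Hyp G R t) (hUG : U ≤ G) (hU : U ≤ C⟦R⟧) (h0 : U ≠ ⊥)
    (ht : t ∈ N⟦U⟧) : Odd ♯(Ou G R U) :=
  m.ih _ (lt_of_le_of_ne inf_le_left fun e => h0 (m.core U hUG (e ▸ inf_le_right) hU)) t
    { rp := h.rp, cop := coprime_of_le_left' h.cop, ord := h.ord, tG := ⟨h.tG, ht⟩
      nG := norm_inf_norm h.nG (norm_of_cent (cent_symm hU))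
      cen := (inf_le_inf_right _ inf_le_left).trans h.cen }
where coprime_of_le_left' {n : ℕ} (h : (♯G).Coprime n) : (♯(G ⊓ N⟦U⟧)).Coprime n :=
  h.coprime_dvd_left (card_dvd inf_le_left)

theorem Act.trans (h : Act G R) (hU : U ≤ C⟦R⟧) (hg : g ∈ G) (hU' : U ≤ C⟦H20.cj g R⟧) :
    ∃ o ∈ Ou G R U, H20.cj o (H20.cj g R) = R := by
  obtain ⟨n, hn, e⟩ := h.conj_in (cj_le_sup hg) (card_cj g R) (cent_symm hU) (cent_symm hU')
  obtain ⟨o, ho, c, hc, e2⟩ := coprime_commg_prod (K := G ⊓ N⟦U⟧)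
    (norm_inf_norm h.nG (norm_of_cent (cent_symm hU))) (coprime_of_le_left h.cop inf_le_left)
    (Or.inl h.sol) n⁻¹ (inv_mem ⟨hn.1, cent_le_norm U hn.2⟩)
  refine ⟨o⁻¹, inv_mem ho, ?_⟩
  rw [cj_eq_iff, ← e2, cj_mul, cj_eq_of_mem_norm (cent_le_norm R hc.2)] at e
  rw [e, cj_inv_cj]

omit [Finite X] in
theorem inv_of_mem (ha : a * a = 1) (ht : t * t = 1) (hx : x ∈ zpowers (a * t)) :
    t * x * t⁻¹ = x⁻¹ := by
  obtain ⟨k, rfl⟩ := mem_zpowers_iff.1 hx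
  have : t * (a * t) * t⁻¹ = (a * t)⁻¹ := by
    rw [mul_inv_rev, inv_eq_of_mul_eq_one_right ha, inv_eq_of_mul_eq_one_right ht, mul_assoc,
      mul_assoc, ht, mul_one]
  rw [← conj_zpow, this, inv_zpow]

theorem norm_zpowers_of_inv (h : t * x * t⁻¹ = x⁻¹) : t ∈ N⟦zpowers x⟧ :=
  mem_norm_iff_cj.2 (by rw [cj_zpowers, h, zpowers_inv])

theorem isPiElt_of_odd (h : Odd ♯U) (hx : x ∈ U) : IsPiElt {2}ᶜ x :=
  ((isPi_compl_singleton_iff Nat.prime_two).2 fun e =>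
    (Nat.not_even_iff_odd.2 h) (even_iff_two_dvd.2 e)).elt hx

/-- Decomposition of an involution that is not conjugate to `t`. -/
theorem Hyp.dec (h : Hyp G R t) (ha : a ∈ G) (haa : a * a = 1) :
    ∃ y ∈ G, Commute y (BG.piPart {2} (a * t)) ∧ a = BG.piPart {2} (a * t) * (y * t * y⁻¹) ∧
      Odd (orderOf (y * t * y⁻¹ * t)) ∧ Commute (y * t * y⁻¹ * t) (BG.piPart {2} (a * t)) := by
  obtain ⟨h1, -, h3⟩ := BG.piPart_spec {2} (a * t)
  set f := BG.piPart {2} (a * t)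
  set d := f⁻¹ * (a * t) with hd
  have hdz : d ∈ zpowers (a * t) := mul_mem (inv_mem h1) (mem_zpowers _)
  have ho : Odd (orderOf d) := Nat.not_even_iff_odd.1 fun e =>
    h3 2 Nat.prime_two (even_iff_two_dvd.1 e) rfl
  obtain ⟨k, hk⟩ := ho
  have hyz : d ^ (k + 1) ∈ zpowers (a * t) := pow_mem hdz _
  have hy : d ^ (k + 1) * t * (d ^ (k + 1))⁻¹ * t = d := by
    have e1 := inv_of_mem haa h.sq (inv_mem hyz)
    rw [inv_inv, inv_eq_of_mul_eq_one_right h.sq] at e1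
    rw [show d ^ (k + 1) * t * (d ^ (k + 1))⁻¹ * t = d ^ (k + 1) * (t * (d ^ (k + 1))⁻¹ * t) by group,
      e1, ← pow_add, show k + 1 + (k + 1) = orderOf d + 1 by omega, pow_succ, pow_orderOf_eq_one,
      one_mul]
  have hc : ∀ z ∈ zpowers (a * t), Commute z f := fun z hz =>
    comm_iff.1 (comm_of_cyclic inferInstance) _ hz _ h1
  refine ⟨d ^ (k + 1), zpowers_le.2 (G.mul_mem ha h.tG) hyz, hc _ hyz, ?_, by rw [hy]; exact ⟨k, hk⟩,
    by rw [hy]; exact hc _ hdz⟩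
  rw [eq_mul_inv_of_mul_eq hy, hd]; group

/-- The counting lemma. -/
theorem Min.key (m : Min G R) (h : Hyp G R t) (ha : a ∈ G) (haa : a * a = 1) (ha1 : a ≠ 1)
    (hnc : ∀ g ∈ G, g * t * g⁻¹ ≠ a) (h2 : IsPiElt {2} (a * t)) (hc : G ⊓ C₁⟦a * t⟧ ≤ C⟦R⟧) :
    False := by
  classical
  set F : X → X := fun b => BG.piPart {2} (b * t) with hF
  have hA : ∀ g ∈ G, g * a * g⁻¹ ∈ G ∧ (g * a * g⁻¹) * (g * a * g⁻¹) = 1 := fun g hg =>
    ⟨G.mul_mem (G.mul_mem hg ha) (G.inv_mem hg), by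
      rw [show g * a * g⁻¹ * (g * a * g⁻¹) = g * (a * a) * g⁻¹ by group, haa]; group⟩
  have hy := fun (b : X) (hb : b ∈ G ∧ b * b = 1) => h.dec hb.1 hb.2
  choose! y hyG hy1 hy2 hy3 hy4 using hy
  have hFG : ∀ b ∈ G, F b ∈ G := fun b hb => BG.piPart_mem _ (G.mul_mem hb h.tG)
  have hFt : ∀ b, b * b = 1 → t * F b * t⁻¹ = (F b)⁻¹ := fun b hb =>
    inv_of_mem hb h.sq (BG.piPart_mem_zpowers _ _)
  have hFR : ∀ b, b ∈ G ∧ b * b = 1 → zpowers (F b) ≤ C⟦R⟧ := fun b hb =>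
    h.two' (BG.isPiElt_piPart {2} (b * t)).zpowers.isPGroup (zpowers_le.2 (hFG b hb.1))
      (norm_zpowers_of_inv (hFt b hb.2))
  have ho : ∀ (f : X) (R' : Subgroup X), (∃ o ∈ Ou G R (zpowers f), cj o R' = R) →
      ∃ o ∈ Ou G R (zpowers f), cj o R' = R := fun _ _ h => h
  choose! o ho1 ho2 using ho
  have hex : ∀ b, b ∈ G ∧ b * b = 1 → ∃ o ∈ Ou G R (zpowers (F b)), cj o (cj (y b) R) = R :=
    fun b hb => h.toAct.trans (hFR b hb) (hyG b hb) (by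
      have := cent_cj (y b) (hFR b hb)
      rwa [cj_zpowers, (hy1 b hb).eq, mul_inv_cancel_right] at this)
  set φ : X → X := fun b => o (F b) (cj (y b) R) * b * (o (F b) (cj (y b) R))⁻¹ with hφ
  have hoc : ∀ b, b ∈ G ∧ b * b = 1 → o (F b) (cj (y b) R) ∈ G ⊓ C₁⟦F b⟧ := fun b hb => by
    rw [← cent_zpowers]; exact h.toAct.Ou_le (hFR b hb) (ho1 _ _ (hex b hb))
  have hφ1 : ∀ b, b ∈ G ∧ b * b = 1 → φ b =
      F b * (o (F b) (cj (y b) R) * (y b * t * (y b)⁻¹) * (o (F b) (cj (y b) R))⁻¹) := fun b hb => by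
    have e := mem_cent1.1 (hoc b hb).2
    show _ * b * _ = _
    conv_lhs => enter [1, 2]; rw [hy2 b hb]
    rw [← mul_assoc _ (BG.piPart _ _), e]; group
  have hφR : ∀ b, b ∈ G ∧ b * b = 1 → φ b ∈ C⟦R⟧ := fun b hb => by
    rw [hφ1 b hb]
    refine mul_mem (hFR b hb (mem_zpowers _)) ?_
    have := conj_mem_cj (g := o (F b) (cj (y b) R)).2 (conj_mem_cj (g := y b).2 h.tR)
    rwa [cj_cent, cj_cent, ho2 _ _ (hex b hb)] at this
  have hφF : ∀ g ∈ G, F (φ (g * a * g⁻¹)) = F (g * a * g⁻¹) := fun g hg => by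
    have hb := hA g hg
    set b := g * a * g⁻¹ with hbdef
    have h0 : zpowers (F b) ≠ ⊥ := fun e => by
      have e1 := hy2 b hb
      rw [show BG.piPart {2} (b * t) = 1 from zpowers_eq_bot.1 e, one_mul] at e1
      exact hnc (g⁻¹ * y b) (G.mul_mem (G.inv_mem hg) (hyG b hb)) (by
        rw [show g⁻¹ * y b * t * (g⁻¹ * y b)⁻¹ = g⁻¹ * (y b * t * (y b)⁻¹) * g by group, ← e1, hbdef]
        group)
    have hodd := m.odd h (zpowers_le.2 (hFG b hb.1)) (hFR b hb) h0 (norm_zpowers_of_inv (hFt b hb.2))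
    set O := Ou G R (zpowers (F b))
    set d := y b * t * (y b)⁻¹ * t with hd
    set s := y b * t * (y b)⁻¹ with hs
    set p := o (F b) (cj (y b) R) with hp
    have hdG : d ∈ G := G.mul_mem (h.cj (hyG b hb)).tG h.tG
    have hdc : d ∈ C⟦zpowers (F b)⟧ := by rw [cent_zpowers]; exact mem_cent1.2 (hy4 b hb)
    have hsN : s ∈ N⟦O⟧ := norm_Ou ⟨(h.cj (hyG b hb)).tG, by
      rw [show s = d * t⁻¹ by rw [hd]; group]
      exact Subgroup.mul_mem _ (cent_le_norm _ hdc)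
        (Subgroup.inv_mem _ (norm_zpowers_of_inv (hFt b hb.2)))⟩
    have hw : p * s * p⁻¹ * t ∈ O ⊔ zpowers d := by
      rw [show p * s * p⁻¹ * t = p * (s * p⁻¹ * s⁻¹) * d by rw [hd]; group]
      exact mul_mem (mem_sup_left (mul_mem (ho1 _ _ (hex b hb))
        (conj_mem_of_norm hsN (inv_mem (ho1 _ _ (hex b hb)))))) (mem_sup_right (mem_zpowers d))
    have hodd2 : Odd ♯(O ⊔ zpowers d) := odd_sup hodd (by rw [Nat.card_zpowers]; exact hy3 b hb)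
      (Or.inr (zpowers_le.2 (norm_Ou ⟨hdG, cent_le_norm _ hdc⟩)))
    have hwc : p * s * p⁻¹ * t ∈ C₁⟦F b⟧ := by
      rw [← cent_zpowers]
      exact sup_le ((h.toAct.Ou_le (hFR b hb)).trans inf_le_right) (zpowers_le.2 hdc) hw
    show BG.piPart {2} (φ b * t) = F b
    rw [hφ1 b hb, mul_assoc]
    exact BG.piPart_eq_of_mul (BG.isPiElt_piPart _ _) (isPiElt_of_odd hodd2 hw)
      (mem_cent1.1 hwc).symm
  set s : Set X := {b | (∃ g ∈ G, g * a * g⁻¹ = b) ∧ b ∈ C⟦R⟧} with hs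
  have hFa : F a = a * t := BG.piPart_eq_self h2
  have haR : a ∈ C⟦R⟧ := by
    have := mul_mem (hFR a ⟨ha, haa⟩ (mem_zpowers _)) (inv_mem h.tR)
    rwa [hFa, mul_inv_cancel_right] at this
  have main : ∀ g ∈ G, (o (a * t) R)⁻¹ * a * o (a * t) R ∈ C⟦cj g R⟧ := fun g hg => by
    have hm : Set.MapsTo (fun b => φ (g * b * g⁻¹)) s s := by
      rintro _ ⟨⟨k, hk, rfl⟩, -⟩
      have hb := hA (g * k) (G.mul_mem hg hk)
      rw [show g * k * a * (g * k)⁻¹ = g * (k * a * k⁻¹) * g⁻¹ by group] at hb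
      exact ⟨⟨o (F _) (cj (y _) R) * g * k, G.mul_mem (G.mul_mem (hoc _ hb).1 hg) hk,
        by simp only [hφ]; group⟩, hφR _ hb⟩
    have hi : Set.InjOn (fun b => φ (g * b * g⁻¹)) s := by
      rintro _ ⟨⟨k, hk, rfl⟩, hk1⟩ _ ⟨⟨l, hl, rfl⟩, hl1⟩ e
      have hb := hA (g * k) (G.mul_mem hg hk)
      have hb' := hA (g * l) (G.mul_mem hg hl)
      have e1 := hφF (g * k) (G.mul_mem hg hk)
      have e2 := hφF (g * l) (G.mul_mem hg hl)
      have hk2 : g * (k * a * k⁻¹) * g⁻¹ ∈ C⟦cj g R⟧ := by rw [← cj_cent]; exact conj_mem_cj.2 hk1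
      have hl2 : g * (l * a * l⁻¹) * g⁻¹ ∈ C⟦cj g R⟧ := by rw [← cj_cent]; exact conj_mem_cj.2 hl1
      rw [show g * k * a * (g * k)⁻¹ = g * (k * a * k⁻¹) * g⁻¹ by group] at hb e1
      rw [show g * l * a * (g * l)⁻¹ = g * (l * a * l⁻¹) * g⁻¹ by group] at hb' e2
      suffices g * (k * a * k⁻¹) * g⁻¹ = g * (l * a * l⁻¹) * g⁻¹ by simpa using this
      beta_reduce at e
      generalize g * (k * a * k⁻¹) * g⁻¹ = b at *
      generalize g * (l * a * l⁻¹) * g⁻¹ = c at *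
      have ef : F b = F c := by rw [← e1, ← e2, e]
      have h1 := h.cj (hyG b hb)
      have h1' := h.cj (hyG c hb')
      have eb : b = F b * (y b * t * (y b)⁻¹) := hy2 b hb
      have ec : c = F b * (y c * t * (y c)⁻¹) := ef ▸ hy2 c hb'
      generalize y b * t * (y b)⁻¹ = u at *
      generalize y c * t * (y c)⁻¹ = v at *
      have ez : c * b = v * u := by
        rw [← inv_eq_of_mul_eq_one_right hb'.2, ← inv_eq_of_mul_eq_one_right h1'.sq]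
        conv_lhs => rw [eb, ec]
        group
      have h3 : zpowers (v * u) ≤ C⟦cj (y b) R⟧ := by
        refine h1.fix (g := g * (y b)⁻¹) (G.mul_mem hg (G.inv_mem (hyG b hb))) ?_
          (norm_zpowers_of_inv (inv_of_mem h1'.sq h1.sq (mem_zpowers _)))
        rw [cj_mul, cj_inv_cj, zpowers_le, ← ez]
        exact mul_mem hl2 hk2
      have h4 : cj (y b) R = cj (y c) R := by
        have := h1'.uniq (g := y b * (y c)⁻¹) (G.mul_mem (hyG b hb) (G.inv_mem (hyG c hb'))) (by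
          rw [cj_mul, cj_inv_cj]
          have := mul_mem (h3 (mem_zpowers _)) (inv_mem h1.tR)
          rwa [mul_inv_cancel_right] at this)
        rwa [cj_mul, cj_inv_cj] at this
      simp only [hφ, ef, h4] at e
      simpa using e
    obtain ⟨_, ⟨⟨k, hk, rfl⟩, hk1⟩, e⟩ := (((Set.toFinite s).injOn_iff_bijOn_of_mapsTo hm).1 hi).surjOn
      (show a ∈ s from ⟨⟨1, G.one_mem, by group⟩, haR⟩)
    have hb := hA (g * k) (G.mul_mem hg hk)
    have e1 := hφF (g * k) (G.mul_mem hg hk)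
    have hk2 : g * (k * a * k⁻¹) * g⁻¹ ∈ C⟦cj g R⟧ := by rw [← cj_cent]; exact conj_mem_cj.2 hk1
    rw [show g * k * a * (g * k)⁻¹ = g * (k * a * k⁻¹) * g⁻¹ by group] at hb e1
    beta_reduce at e
    generalize g * (k * a * k⁻¹) * g⁻¹ = b at *
    rw [e, hFa] at e1
    have h5 : cj (y b) R = R := cj_eq_of_mem_norm (cent_le_norm R (hc ⟨hyG b hb, by
      rw [e1]; exact mem_cent1.2 (hy1 b hb)⟩))
    simp only [hφ, ← e1, h5] at e
    generalize o (a * t) R = q at e ⊢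
    rw [show q⁻¹ * a * q = b by rw [← e]; group]
    exact hk2
  have hp := hoc a ⟨ha, haa⟩
  have h5 : cj (y a) R = R := cj_eq_of_mem_norm (cent_le_norm R (hc ⟨hyG a ⟨ha, haa⟩, by
      rw [← hFa]; exact mem_cent1.2 (hy1 a ⟨ha, haa⟩)⟩))
  rw [h5, hFa] at hp
  have := m.eq_one (G.mul_mem (G.mul_mem (G.inv_mem hp.1) ha) hp.1) fun g hg => by
    have := main g⁻¹ (G.inv_mem hg)
    rw [← cj_cent, mem_cj, inv_inv] at this
    exact this
  rw [mul_assoc, inv_mul_eq_one] at this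
  exact ha1 (by simpa using this)

end Cfsg.Agent.H25.CInv
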