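import Cfsg.Agent.H25.CInv1
import Cfsg.Agent.H6.ZStar
import Cfsg.Agent.S1220

/-! If a coprime operator group `R` of prime order centralizes the centralizer of an involution
of `G` then `[G,R]` has odd order. -/

set_option autoImplicit false
set_option linter.style.haveILetI false

namespace Cfsg.Agent.H25.CInv

open Subgroup Cfsg.Agent.H20 Cfsg.Agent.H21
open scoped commutatorElement

universe u

section
variable {X : Type*} [Group X] [Finite X] {G R U V N : Subgroup X} {t g x a b c : X}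

/-- The conjugacy class of `t` under `G`. -/
def Cl (G : Subgroup X) (t b : X) : Prop := ∃ g ∈ G, g * t * g⁻¹ = b

omit [Finite X] in
theorem Cl.conj (h : Cl G t b) (hg : g ∈ G) : Cl G t (g * b * g⁻¹) := by
  obtain ⟨k, hk, rfl⟩ := h
  exact ⟨g * k, G.mul_mem hg hk, by group⟩

theorem Hyp.cl (h : Hyp G R t) (hb : Cl G t b) (hR : b ∈ C⟦R⟧) : Hyp G R b := by
  obtain ⟨k, hk, rfl⟩ := hb
  exact h.conj hk hR

omit [Finite X] in
theorem isPiElt_two (h : a * a = 1) : IsPiElt {2} a := fun p hp hd =>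
  (Nat.prime_dvd_prime_iff_eq hp Nat.prime_two).1
    (hd.trans (orderOf_dvd_of_pow_eq_one (by rw [pow_two, h])))

theorem Min.mul (m : Min G R) (h : Hyp G R t) (hb : Cl G t b) (hc : Cl G t c) (hbR : b ∈ C⟦R⟧)
    (hcR : c ∈ C⟦R⟧) (hne : b ≠ c) (hbc : Commute b c) : Cl G t (b * c) := by
  by_contra hn
  have h1 := h.cl hb hbR
  have h2 := h.cl hc hcR
  have e : b * c * c = b := by rw [mul_assoc, h2.sq, mul_one]
  refine m.key h2 (G.mul_mem h1.tG h2.tG) (by rw [← pow_two, hbc.mul_pow, pow_two, pow_two, h1.sq,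
    h2.sq, one_mul]) (fun e1 => hne (by rw [← e, e1, one_mul])) (fun g hg e1 => hn (e1 ▸ hc.conj hg))
    (by rw [e]; exact isPiElt_two h1.sq) (by rw [e]; exact h1.cen)

theorem Min.four (m : Min G R) (h : Hyp G R t) (hb : Cl G t b) (hbR : b ∈ C⟦R⟧) (hne : t ≠ b)
    (hc : Commute t b) (hx : x ∈ G) (hx1 : x ≠ 1) (h1 : Commute t x) (h2 : Commute b x) :
    G ⊓ C₁⟦x⟧ ≤ C⟦R⟧ := by
  have ht : Cl G t t := ⟨1, G.one_mem, by group⟩
  have hb' := h.cl hb hbR
  have htb := h.cl (m.mul h ht hb h.tR hbR hne hc) (mul_mem h.tR hbR)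
  have hxR : zpowers x ≤ C⟦R⟧ := zpowers_le.2 (h.cen ⟨hx, mem_cent1.2 h1.symm⟩)
  have hn : ∀ y, Commute y x → y ∈ N⟦zpowers x⟧ := fun y hy =>
    cent_le_norm _ (by rw [cent_zpowers]; exact mem_cent1.2 hy)
  have hodd := m.odd h (zpowers_le.2 hx) hxR (fun e => hx1 (zpowers_eq_bot.1 e)) (hn t h1)
  have hO := h.toAct.Ou_le hxR
  have i1 := inv_eq_of_mul_eq_one_right h.sq
  have i2 := inv_eq_of_mul_eq_one_right hb'.sq
  let A : Subgroup X :=
    { carrier := {y | y = 1 ∨ y = t ∨ y = b ∨ y = t * b}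
      one_mem' := Or.inl rfl
      inv_mem' := by
        rintro _ (rfl | rfl | rfl | rfl)
        · simp
        · simp [i1]
        · simp [i2]
        · simp [i1, i2, hc.eq]
      mul_mem' := by
        have e1 : t * (t * b) = b := by rw [← mul_assoc, h.sq, one_mul]
        have e2 : b * (t * b) = t := by rw [hc.eq, ← mul_assoc, hb'.sq, one_mul]
        have e3 : t * b * t = b := by rw [hc.eq, mul_assoc, h.sq, mul_one]
        have e4 : t * b * b = t := by rw [mul_assoc, hb'.sq, mul_one]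
        rintro _ _ (rfl | rfl | rfl | rfl) (rfl | rfl | rfl | rfl) <;>
          simp [h.sq, hb'.sq, htb.sq, e1, e2, e3, e4, ← hc.eq] }
  have hA : ∀ y ∈ A, y = 1 ∨ y = t ∨ y = b ∨ y = t * b := fun _ h => h
  have hsq : ∀ y ∈ A, y * y = 1 := by
    rintro _ (rfl | rfl | rfl | rfl)
    exacts [one_mul 1, h.sq, hb'.sq, htb.sq]
  haveI : IsMulCommutative A := comm_iff.2 fun y hy z hz => by
    rw [← inv_eq_of_mul_eq_one_right (hsq _ (A.mul_mem hy hz)), mul_inv_rev,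
      inv_eq_of_mul_eq_one_right (hsq y hy), inv_eq_of_mul_eq_one_right (hsq z hz)]
  have hA2 : IsPGroup 2 A := fun y => ⟨1, Subtype.ext (by simpa [pow_two] using hsq y y.2)⟩
  have hnc : ¬ IsCyclic A := fun hcy => by
    obtain ⟨⟨y, hy⟩, e⟩ := hcy.exists_zpow_surjective
    have k : ∀ z ∈ A, z = 1 ∨ z = y := fun z hz => by
      obtain ⟨n, hn⟩ := e ⟨z, hz⟩
      have hn : y ^ n = z := congrArg Subtype.val hn
      have y2 : y ^ (2 : ℤ) = 1 := by rw [zpow_two, hsq y hy]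
      rw [← hn, ← Int.mul_ediv_add_emod n 2, zpow_add, zpow_mul, y2, one_zpow, one_mul]
      rcases Int.emod_two_eq_zero_or_one n with e | e <;> simp [e]
    rcases k t (Or.inr (Or.inl rfl)) with e1 | e1
    · exact h.ne e1
    rcases k b (Or.inr (Or.inr (Or.inl rfl))) with e2 | e2
    · exact hb'.ne e2
    exact hne (e1.trans e2.symm)
  have k : Ou G R (zpowers x) ≤ C⟦R⟧ := by
    refine H1.le_of_forall_centralizer_singleton_le hnc ?_
      (coprime_of_isPGroup hA2 (Nat.coprime_two_right.2 hodd)) ?_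
    · rintro _ (rfl | rfl | rfl | rfl)
      · exact one_mem _
      · exact norm_Ou ⟨h.tG, hn _ h1⟩
      · exact norm_Ou ⟨hb'.tG, hn _ h2⟩
      · exact norm_Ou ⟨htb.tG, hn _ (h1.mul_left h2)⟩
    · rintro _ (rfl | rfl | rfl | rfl) hy
      · exact absurd rfl hy
      · exact (inf_le_inf_right _ (hO.trans inf_le_left)).trans h.cen
      · exact (inf_le_inf_right _ (hO.trans inf_le_left)).trans hb'.cen
      · exact (inf_le_inf_right _ (hO.trans inf_le_left)).trans htb.cen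
  refine le_trans (inf_le_inf_left _ fun y hy => hn y (mem_cent1.1 hy)) (cent_symm ?_)
  exact coprime_cent_of_commg_cent (norm_inf_norm h.nG (norm_of_cent (cent_symm hxR)))
    (coprime_of_le_left h.cop inf_le_left) k

theorem Min.one_class (m : Min G R) (h : Hyp G R t) (hb : Cl G t b) (hne : t ≠ b)
    (hc : Commute t b) (ha : a ∈ G) (ha2 : orderOf a = 2) : Cl G t a := by
  by_contra hn
  have ht : Cl G t t := ⟨1, G.one_mem, by group⟩
  have hbG : b ∈ G := by obtain ⟨k, hk, rfl⟩ := hb; exact (h.cj hk).tG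
  have hbR : b ∈ C⟦R⟧ := h.cen ⟨hbG, mem_cent1.2 hc.symm⟩
  have hb' := h.cl hb hbR
  obtain ⟨S, hS, hVS⟩ := exists_sylowOf_ge (p := 2) (P := zpowers t ⊔ zpowers b) (H := G)
    (isPGroup_sup h.pg hb'.pg (Or.inl (norm_of_cent (by
      rw [cent_zpowers]; exact zpowers_le.2 (mem_cent1.2 hc)))))
    (sup_le (zpowers_le.2 h.tG) (zpowers_le.2 hbG))
  have htS : t ∈ S := hVS (mem_sup_left (mem_zpowers t))
  have hbS : b ∈ S := hVS (mem_sup_right (mem_zpowers b))
  have hSR : S ≤ C⟦R⟧ := h.two' hS.isPGroup hS.le (le_norm_self S htS)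
  obtain ⟨g, hg, e⟩ := hS.exists_cj_le (Q := zpowers a)
    (isPGroup_of_card_prime (by rw [Nat.card_zpowers, ha2])) (zpowers_le.2 ha)
  rw [cj_zpowers, zpowers_le] at e
  have hn' : ¬ Cl G t (g * a * g⁻¹) := fun e => hn (by
    simpa [mul_assoc] using e.conj (G.inv_mem hg))
  have ha' : orderOf (g * a * g⁻¹) = 2 := by rw [← ha2]; exact (MulAut.conj g).orderOf_eq a
  generalize g * a * g⁻¹ = s at e hn' ha'
  have hss : s * s = 1 := by rw [← pow_two, ← ha', pow_orderOf_eq_one]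
  have hs1 : s ≠ 1 := fun e => by simp [e] at ha'
  have hpi : ∀ c ∈ S, IsPiElt {2} (s * c) := fun c hc => hS.isPi.elt (S.mul_mem e hc)
  have hcomm : ∀ c ∈ S, Cl G t c → Commute c s := fun c hcS hcl => by
    by_contra hnc
    have h1 := h.cl hcl (hSR hcS)
    have h2 : zpowers ((s * c) ^ 2) ≠ ⊥ := fun e2 => hnc (by
      have e3 := inv_eq_of_mul_eq_one_right ((pow_two _).symm.trans (zpowers_eq_bot.1 e2))
      rwa [mul_inv_rev, inv_eq_of_mul_eq_one_right hss, inv_eq_of_mul_eq_one_right h1.sq] at e3)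
    have h3 : zpowers ((s * c) ^ 2) ≤ S := zpowers_le.2 (S.pow_mem (S.mul_mem e hcS) 2)
    obtain ⟨u, hu, hu2⟩ := exists_prime_order_mem Nat.prime_two
      (dvd_card_of_isPGroup (hS.isPGroup.to_le h3) h2)
    have huS := h3 hu
    obtain ⟨k, hk⟩ := mem_zpowers_iff.1 hu
    have hw : c * (s * c) ^ k * c⁻¹ = ((s * c) ^ k)⁻¹ := inv_of_mem hss h1.sq (zpow_mem_zpowers _ k)
    have huw : u = (s * c) ^ k * (s * c) ^ k := by
      rw [← hk, ← zpow_natCast, ← zpow_mul, ← zpow_add]; congr 1; push_cast; ring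
    have hwG : (s * c) ^ k ∈ G := hS.le (S.zpow_mem (S.mul_mem e hcS) k)
    have hfu : Commute (s * c) u := by rw [huw]; exact (Commute.self_zpow _ k).mul_right (.self_zpow _ k)
    generalize (s * c) ^ k = w at hw huw hwG
    have huu : u * u = 1 := by rw [← pow_two, ← hu2, pow_orderOf_eq_one]
    have hcw : c * w⁻¹ = w * c := by
      rw [← hw, ← mul_assoc, ← mul_assoc, h1.sq, one_mul, inv_eq_of_mul_eq_one_right h1.sq]
    have hcu : Commute u c := by
      have : c * u * c⁻¹ = u⁻¹ := by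
        rw [huw, show c * (w * w) * c⁻¹ = c * w * c⁻¹ * (c * w * c⁻¹) by group, hw, mul_inv_rev]
      rw [inv_eq_of_mul_eq_one_right huu, mul_inv_eq_iff_eq_mul] at this
      exact this.symm
    have h4 : Cl G t (u * c) := by
      have := hcl.conj hwG
      rwa [mul_assoc, hcw, ← mul_assoc, ← huw] at this
    have h5 := m.mul h h4 hcl (hSR (S.mul_mem huS hcS)) (hSR hcS)
      (fun e => by simp [mul_eq_right.1 e] at hu2) (hcu.mul_left (Commute.refl c))
    rw [mul_assoc, h1.sq, mul_one] at h5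
    refine m.key h1 (hS.le e) hss hs1 (fun g hg e => hn' (e ▸ hcl.conj hg)) (hpi c hcS)
      (le_trans (inf_le_inf_left _ ?_) (h.cl h5 (hSR huS)).cen)
    rw [← cent_zpowers, ← cent_zpowers]
    exact cent_anti ((zpowers_le.2 hu).trans (zpowers_le.2 (pow_mem (mem_zpowers _) 2)))
  have c1 := hcomm t htS ht
  have c2 := hcomm b hbS hb
  refine m.key h (hS.le e) hss hs1 (fun g hg e => hn' ⟨g, hg, e⟩) (hpi t htS)
    (m.four h hb hbR hne hc (G.mul_mem (hS.le e) h.tG) (fun e => hn' ?_)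
      (c1.mul_right (Commute.refl t)) (c2.mul_right hc.symm))
  rw [eq_inv_of_mul_eq_one_left e, inv_eq_of_mul_eq_one_right h.sq]
  exact ht

theorem Min.false (m : Min G R) (h : Hyp G R t) (hO : piCoreOf {2}ᶜ G = ⊥) : False := by
  haveI : Fact (Nat.Prime 2) := ⟨Nat.prime_two⟩
  have hO' : pPrimeCore 2 G = ⊥ :=
    (Subgroup.map_eq_bot_iff_of_injective _ G.subtype_injective).1 ((map_pPrimeCore 2 G).trans hO)
  obtain ⟨b, hb, hne, hc⟩ : ∃ b, Cl G t b ∧ t ≠ b ∧ Commute t b := by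
    by_contra hn
    have := H6.mem_center_of_isolated hO' (u := ⟨t, h.tG⟩) (by rw [← orderOf_coe]; exact h.ord)
      fun g hg => by
        by_contra e
        exact hn ⟨g * t * g⁻¹, ⟨g, g.2, rfl⟩, fun e2 => e (Subtype.ext e2.symm),
          congrArg Subtype.val hg⟩
    refine h.ne (m.eq_one h.tG fun g hg => ?_)
    have e : g * t = t * g := congrArg Subtype.val (mem_center_iff.1 this ⟨g, hg⟩)
    rw [e, mul_inv_cancel_right]; exact h.tR
  have hGn : G ⊓ N⟦R⟧ = G ⊓ C⟦R⟧ := coprime_inf_norm h.nG h.cop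
  have hmem : ∀ g ∈ G, cj g R = R → g ∈ C⟦R⟧ := fun g hg e =>
    (hGn.le ⟨hg, mem_norm_iff_cj.2 e⟩).2
  set H := C⟦R⟧.subgroupOf G with hH
  have hHt : H ≠ ⊤ := fun e => h.ne (mem_bot.1
    (m.core G le_rfl (le_norm_self G) (subgroupOf_eq_top.1 e) ▸ h.tG))
  have hse : IsStronglyEmbedded H := by
    refine ⟨hHt, even_iff_two_dvd.2 ?_, fun g hg => Nat.not_even_iff_odd.1 fun e => hg ?_⟩
    · have := orderOf_dvd_card_of_mem (show (⟨t, h.tG⟩ : G) ∈ H from h.tR)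
      rwa [← orderOf_coe, h.ord] at this
    · obtain ⟨s, hs, hs2⟩ := exists_prime_order_mem Nat.prime_two (even_iff_two_dvd.1 e)
      have h1 := h.cl (m.one_class h hb hne hc s.2 (by rw [orderOf_coe, hs2])) hs.1
      refine hmem g g.2 (h1.uniq g.2 ?_)
      rw [← cj_cent, mem_cj]
      exact (mem_cj (g := g) (x := s) (H := H)).1 hs.2
  rcases S1220.result H hse with h2 | ⟨-, h2⟩
  swap
  · rw [show oddCore G = ⊥ from hO', bot_sup_eq] at h2
    exact hHt h2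
  obtain ⟨g, hg⟩ : ∃ g, g ∉ H := by
    by_contra hn
    exact hHt (eq_top_iff.2 fun g _ => by_contra fun e => hn ⟨g, e⟩)
  obtain ⟨α, hα, hα1⟩ := exists_ne_one (ne_bot_of_card_prime h.rp)
  have hαC : α ∈ N⟦C⟦R⟧⟧ := norm_cent (le_norm_self R) hα
  obtain ⟨k, hk, e⟩ := h2 g ⟨α * g * α⁻¹, conj_mem_of_norm (h.nG hα) g.2⟩ hg (fun e => hg (by
    have := conj_mem_of_norm' hαC (show α * g * α⁻¹ ∈ C⟦R⟧ from e)
    rw [show α⁻¹ * (α * g * α⁻¹) * α = g by group] at this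
    exact this))
  have e : (α * g * α⁻¹)⁻¹ * (k * g) ∈ C⟦R⟧ := e
  have hk : (k : X) ∈ C⟦R⟧ := hk
  have h3 : α⁻¹ * k ∈ N⟦cj (g : X) R⟧ := mem_norm_iff_cj.2 (by
    rw [← cj_mul, show α⁻¹ * k * g = g * (α⁻¹ * ((α * g * α⁻¹)⁻¹ * (k * g))) by group, cj_mul,
      cj_eq_of_mem_norm (mul_mem (le_norm_self R (R.inv_mem hα)) (cent_le_norm R e))])
  have h4 : α⁻¹ ^ (♯G) ∈ N⟦cj (g : X) R⟧ := by
    have := pow_mem h3 (♯G)
    rwa [(show Commute α⁻¹ (k : X) from mem_cent.1 hk _ (R.inv_mem hα)).mul_pow,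
      show (k : X) ^ ♯G = 1 from congrArg Subtype.val (pow_card_eq_one' (x := k)), mul_one] at this
  have h5 : R ≤ N⟦cj (g : X) R⟧ := by
    refine (prime_inf_eq_bot_or_le h.rp).resolve_left fun e => hα1 ?_
    have h6 : α⁻¹ ^ (♯G) = 1 := mem_bot.1 (e ▸ ⟨R.pow_mem (R.inv_mem hα) _, h4⟩)
    exact inv_eq_one.1 (orderOf_eq_one_iff.1 (Nat.eq_one_of_dvd_coprimes h.cop
      (orderOf_dvd_of_pow_eq_one h6) (orderOf_dvd_card_of_mem (R.inv_mem hα))))
  have h' := h.toAct.cj g.2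
  have h6 := h'.eq_of (R' := R) (by
      have := cj_le_sup (G := G) (R := cj (g : X) R) (G.inv_mem g.2)
      rwa [cj_inv_cj] at this) (card_cj _ _).symm (le_norm_self _) h5
    ((coprime_inf_norm h'.nG h'.cop).le.trans inf_le_right)
  exact hg (hmem g g.2 h6.symm)

theorem Hyp.quot (h : Hyp G R t) (hN : N ⊴ G) (hR : R ≤ N⟦N⟧) (ht : t ∉ N)
    (hc : quo G N ⊓ C₁⟦cos N t⟧ ≤ quo (G ⊓ C⟦R⟧) N) : Hyp (quo G N) (quo R N) (cos N t) := by
  have hcard : ♯(quo R N) = ♯R :=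
    card_quo_of_disjoint hR (inf_eq_bot_coprime (coprime_of_le_left h.cop hN.le).symm)
  exact
    { rp := hcard ▸ h.rp, cop := hcard ▸ coprime_quo h.cop N, nG := quo_norm N h.nG
      tG := cos_mem_quo h.tG
      ord := ((Nat.dvd_prime Nat.prime_two).1 (h.ord ▸ orderOf_cos_dvd (hN.norm h.tG))).resolve_left
        fun e => ht ((cos_eq_one_iff (hN.norm h.tG)).1 (orderOf_eq_one_iff.1 e))
      cen := hc.trans (quo_cent N inf_le_right) }

end

theorem odd_aux (n : ℕ) : ∀ {X : Type u} [Group X] [Finite X] (G R : Subgroup X) (t : X),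
    ♯G = n → Hyp G R t → Odd ♯⁅G, R⁆ := by
  induction n using Nat.strong_induction_on with
  | _ n ih =>
  intro X _ _ G R t hn h
  subst hn
  haveI : Fact (Nat.Prime 2) := ⟨Nat.prime_two⟩
  have hK : ⁅G, R⁆ ⊴ G := ⟨commg_le_left h.nG, le_sup_left.trans (sup_le_norm_commg _ _)⟩
  have hq : ∀ N, N ⊴ G → N ≠ ⊥ → R ≤ N⟦N⟧ → t ∉ N →
      quo G N ⊓ C₁⟦cos N t⟧ ≤ quo (G ⊓ C⟦R⟧) N → Odd ♯(quo ⁅G, R⁆ N) := fun N h1 h2 h3 h4 h5 => by
    rw [quo_commg h1.norm h3]
    exact ih _ (card_quo_lt h1 h2) _ _ _ rfl (h.quot h1 h3 h4 h5)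
  have triv : ⁅G, R⁆ ≤ C⟦R⟧ → Odd ♯⁅G, R⁆ := fun e => by
    rw [commg_eq_bot.2 (cent_symm (coprime_cent_of_commg_cent h.nG h.cop e)), card_bot]
    exact odd_one
  by_cases hO : piCoreOf {2}ᶜ G = ⊥
  swap
  · have h1 := piCoreOf_normalIn {2}ᶜ G
    have h2 := isPi_piCoreOf {2}ᶜ G
    have h3 : (♯(piCoreOf {2}ᶜ G)).Coprime 2 := h2.coprime_prime Nat.prime_two
    have := hq _ h1 hO (norm_piCoreOf _ h.nG)
      (fun e => h2.elt e 2 Nat.prime_two (h.ord ▸ dvd_rfl) rfl) (by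
        rw [← coprime_quo_cent1 h1.le (h1.norm h.tG) (h.ord ▸ h3)]
        exact quo_mono _ (le_inf inf_le_left h.cen))
    rw [← card_inf_mul_card_quo (hK.le.trans h1.norm)]
    exact (odd_of_le (Nat.coprime_two_right.1 h3) inf_le_left).mul this
  by_cases hc : ∀ N ≤ G, G ≤ N⟦N⟧ → N ≤ C⟦R⟧ → N = ⊥
  · exact (Min.false ⟨fun H hH s hs => ih _ (card_lt hH) H R s rfl hs, hc⟩ h hO).elim
  push Not at hc
  obtain ⟨N, h1, h2, h3, h4⟩ := hc
  have hKN : ⁅G, R⁆ ≤ C⟦N⟧ :=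
    (commutator_mono le_rfl (cent_symm h3)).trans (commg_le_right (norm_cent h2))
  by_cases ht : t ∈ N
  · exact triv ((le_inf hK.le (hKN.trans (cent_le_cent1 ht))).trans h.cen)
  have htN : zpowers t ≤ N⟦N⟧ := zpowers_le.2 (h2 h.tG)
  have hodd := hq N ⟨h1, h2⟩ h4 (norm_of_cent (cent_symm h3)) ht (by
    have hU : zpowers t ⊔ N ≤ C⟦R⟧ := sup_le (zpowers_le.2 h.tR) h3
    have := h.toAct.norm_le hU ((inf_le_inf_left _ (cent_le_cent1
      (mem_sup_left (mem_zpowers t)))).trans h.cen)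
    refine le_trans ?_ (quo_mono _ (le_inf inf_le_left this))
    rw [quo_inf_norm_eq (NormalIn.sup_right htN), quo_sup_self htN, quo_zpowers (h2 h.tG),
      ← cent_zpowers]
    exact inf_le_inf_left _ (cent_le_norm _))
  obtain ⟨T, hT⟩ := exists_sylowOf 2 ⁅G, R⁆
  have hTN : T ≤ N := hT.isPi.le_of_normalIn hT.le (hK.le.trans h2) (by
    rw [← card_quo (hK.le.trans h2), PiNat.compl_singleton_iff_coprime Nat.prime_two]
    exact Nat.coprime_two_right.2 hodd)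
  have hTc : ⁅G, R⁆ ≤ C⟦T⟧ := hKN.trans (cent_anti hTN)
  obtain ⟨E, hE⟩ := hT.exists_compl ⟨hT.le, norm_of_cent hTc⟩
  have hE0 : E = ⊥ := eq_bot_iff.2 (hO ▸ (le_piCoreOf ⟨hE.right_le, by
    rw [← hE.sup_eq]
    exact sup_le (norm_of_cent (cent_symm (hE.right_le.trans hTc))) (le_norm_self E)⟩
    (hT.compl_isPi hE)).trans (piCoreOf_le_of_normalIn hK))
  refine triv ?_
  rw [← hE.sup_eq, hE0, sup_bot_eq]
  exact hTN.trans h3

theorem Hyp.odd {X : Type*} [Group X] [Finite X] {G R : Subgroup X} {t : X} (h : Hyp G R t) :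
    Odd ♯⁅G, R⁆ := odd_aux _ G R t rfl h

end Cfsg.Agent.H25.CInv
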