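import Cfsg.Agent.H25.AbInv
import Cfsg.Agent.H25.Baer
import Cfsg.Agent.H25.PrimeOrd
import Cfsg.Agent.H26.Prod
import Cfsg.Agent.H26.Frob2
import Cfsg.Agent.FT
import Cfsg.Agent.S0231
import Cfsg.Agent.S0338
import Cfsg.Agent.S1147

/-! Groups in which the centralizer of every element is a TI-subgroup. -/

set_option autoImplicit false

namespace Cfsg.Agent.H25
open Subgroup Cfsg.Agent.H20 Cfsg.Agent.H21 Cfsg.Agent.BG

variable {G : Type*} [Group G] [Finite G]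

theorem nil_of_comm_conj {H : Subgroup G} (h : ∀ x ∈ H, ∀ g ∈ H, g * x * g⁻¹ ∈ C₁⟦x⟧) : Group.IsNilpotent H := by
  have h1 : fittingSubgroup H = ⊤ := top_le_iff.1 fun x _ => (mem_fitting_iff_engel x).2 fun g => ⟨2, by
    have h2 : g * x * g⁻¹ * x = x * (g * x * g⁻¹) :=
      Subtype.ext (mem_centralizer_singleton_iff.1 (h x x.2 g g.2))
    show g * x * g⁻¹ * x⁻¹ * x * (g * x * g⁻¹ * x⁻¹)⁻¹ * x⁻¹ = 1
    calc _ = (g * x * g⁻¹ * x) * (g * x * g⁻¹)⁻¹ * x⁻¹ := by group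
      _ = 1 := by rw [h2]; group⟩
  exact nil_top_iff.1 (h1 ▸ nil_fittingSubgroup)

theorem mul_succ_le_of_lt {A B : Subgroup G} {d : ℕ} (h : A < B) (hA : d ∣ ♯A - 1) (hB : d ∣ ♯B - 1) :
    ♯A * (d + 1) ≤ ♯B := by
  obtain ⟨k, hk⟩ := card_dvd h.le
  have h1 := H21.card_lt h
  have h2 := card_pos A
  have h3 : 1 < k := by
    by_contra h3
    have : ♯A * k ≤ ♯A * 1 := Nat.mul_le_mul_left _ (by omega)
    omega
  have h4 : d ∣ k - 1 := by
    have e : ♯B - 1 = (♯A - 1) * k + (k - 1) := by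
      rw [hk, Nat.sub_mul]
      have : 1 * k ≤ ♯A * k := Nat.mul_le_mul_right _ h2
      omega
    exact (Nat.dvd_add_right (hA.mul_right k)).1 (e ▸ hB)
  rw [hk]
  exact Nat.mul_le_mul_left _ (by have := Nat.le_of_dvd (by omega) h4; omega)

theorem exists_frob_of_cent {H : Subgroup G} [H.Normal] (h0 : H ≠ ⊥) (h1 : H ≠ ⊤)
    (h : ∀ x ∈ H, x ≠ 1 → C₁⟦x⟧ ≤ H) : ∃ E, Frob ⊤ H E := by
  obtain ⟨E, hE⟩ := exists_compl_of_coprime (NormalIn.of_normal H) (Nat.coprime_of_dvd fun q hq h2 h3 => by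
    haveI := Fact.mk hq
    obtain ⟨y, hy, hyq⟩ := exists_prime_order_mem hq h2
    obtain ⟨Q, hQ, hyQ⟩ := exists_sylowOf_ge (H := ⊤)
      (isPGroup_of_card_prime (A := zpowers y) (by rw [Nat.card_zpowers, hyq])) le_top
    have hy1 : y ≠ 1 := by rintro rfl; exact hq.one_lt.ne (by simpa using hyq)
    obtain ⟨w, hw, hw1⟩ := exists_ne_one (inf_cent_ne_bot_of_nil (A := H ⊓ Q) hQ.isPGroup.isNilpotent
      ⟨inf_le_right, norm_inf le_normalizer_of_normal le_normalizer⟩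
      (ne_bot_of_mem ⟨hy, hyQ (mem_zpowers y)⟩ hy1))
    have h4 : Q ≤ H := fun a ha => h w hw.1.1 hw1 (mem_centralizer_singleton_iff.2 (mem_cent.1 hw.2 a ha))
    exact hQ.not_dvd (h3.trans (relIndex_dvd_of_le_left _ h4)))
  refine ⟨E, hE.sup_eq ▸ frob_mk le_normalizer_of_normal h0 ?_ (semiregular_iff.2 fun x hx hx1 y hy hc => ?_)⟩
  · rintro rfl
    exact h1 (by simpa using hE.sup_eq)
  · by_contra hy1
    exact hx1 (Subgroup.mem_bot.1 (hE.inf_eq ▸ ⟨h y hy hy1 (mem_centralizer_singleton_iff.2 hc.symm), hx⟩))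

/-- all centralizers of elements are TI-subgroups -/
def CTI (G : Type*) [Group G] : Prop :=
  ∀ x y g : G, y ≠ 1 → y ∈ C₁⟦x⟧ → g * y * g⁻¹ ∈ C₁⟦x⟧ → g ∈ N⟦C₁⟦x⟧⟧

namespace CTI
variable (h : CTI G)
include h

omit [Finite G] in
theorem comm_conj {z x g : G} (hz : z ≠ 1) (hx : x ∈ C₁⟦z⟧) (hg : g ∈ C₁⟦z⟧) : g * x * g⁻¹ ∈ C₁⟦x⟧ := by
  have h1 : z ∈ C₁⟦x⟧ := mem_centralizer_singleton_iff.2 (mem_centralizer_singleton_iff.1 hx).symm
  refine (mem_normalizer_iff.1 (h x z g hz h1 ?_) x).1 (mem_centralizer_singleton_iff.2 rfl)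
  rwa [mem_centralizer_singleton_iff.1 hg, mul_inv_cancel_right]

theorem nil {z : G} (hz : z ≠ 1) : Group.IsNilpotent C₁⟦z⟧ :=
  nil_of_comm_conj fun _ hx _ hg => h.comm_conj hz hx hg

theorem cent_le {p : ℕ} [hp : Fact p.Prime] {P : Subgroup G} (hP : SylowOf p P ⊤) {z x : G} (hz : z ∈ P ⊓ C⟦P⟧)
    (hx : x ∈ C₁⟦z⟧) (hx1 : x ≠ 1) : C₁⟦x⟧ ≤ C₁⟦z⟧ := by
  have h1 : z ∈ C₁⟦x⟧ := mem_centralizer_singleton_iff.2 (mem_centralizer_singleton_iff.1 hx).symm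
  have h2 : P ≤ C₁⟦z⟧ := fun a ha => mem_centralizer_singleton_iff.2 (mem_cent.1 hz.2 a ha)
  refine le_of_nil_forall_pCoreOf (h.nil hx1) (fun r hr _ => ?_)
  by_cases e : r = p
  · subst e
    refine IsPi.le_of_normalIn (isPi_piCoreOf _ _) ((piCoreOf_le _ _).trans fun u hu => h z x u hx1 hx ?_) le_rfl
      ((hP.piNat.of_dvd (relIndex_dvd_of_le_left _ h2)).of_dvd (relIndex_dvd_of_le_right le_normalizer le_top))
    rwa [mem_centralizer_singleton_iff.1 hu, mul_inv_cancel_right]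
  · rw [← cent_zpowers z]
    exact cent_of_nil_isPi (π := {r}) (h.nil hx1) (piCoreOf_le _ _) (zpowers_le.2 h1) (isPi_piCoreOf _ _)
      (fun q hq hd (e' : q = r) => e (e'.symm.trans (hP.isPi.of_le (zpowers_le.2 hz.1) q hq hd)))

theorem cent_eq {p : ℕ} [hp : Fact p.Prime] {P : Subgroup G} (hP : SylowOf p P ⊤) {z : G} (hz : z ∈ P ⊓ C⟦P⟧)
    (hz1 : z ≠ 1) : C₁⟦z⟧ = P ⊔ C⟦P⟧ ∧ P = piCoreOf {p} C₁⟦z⟧ := by
  have h2 : P ≤ C₁⟦z⟧ := fun a ha => mem_centralizer_singleton_iff.2 (mem_cent.1 hz.2 a ha)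
  have h3 := hall_eq_piCoreOf_of_nil (h.nil hz1) (hP.of_le h2 le_top)
  refine ⟨le_antisymm ?_ (sup_le h2 fun a ha => mem_centralizer_singleton_iff.2 (mem_cent.1 ha z hz.1).symm), h3⟩
  refine (piCoreOf_sup_compl_of_nil {p} (h.nil hz1)).ge.trans (sup_le_sup h3.ge ?_)
  rw [h3]
  exact cent_symm (piCoreOf_cent_compl _ _)

theorem frob_case {E : Subgroup G} (hE : IsFrobeniusComplement E) :
    IsCyclic E ∨ ∃ m : ℕ, Odd m ∧ Nonempty (E ≃* Multiplicative (ZMod m) × QuaternionGroup 2) := by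
  obtain ⟨K, -, _, -, hK, hf, -⟩ := H26.exists_frobeniusKernel hE
  have hz := H1.center_ne_bot_of_fpf hK hE.1 le_normalizer_of_normal hf
  obtain ⟨z, hz, hz1⟩ := exists_ne_one hz
  have hz1' : (z : G) ≠ 1 := fun e => hz1 (Subtype.ext e)
  have h1 : E ≤ C₁⟦(z : G)⟧ := fun a ha =>
    mem_centralizer_singleton_iff.2 (congrArg Subtype.val (mem_center_iff.1 hz ⟨a, ha⟩))
  have hn := nil_of_le (h.nil hz1') h1
  have hc : ∀ (A : Subgroup G) (p : ℕ), p.Prime → A ≤ E → IsCyclic (piCoreOf {p} A) ∨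
      (p = 2 ∧ ∃ n : ℕ, 1 ≤ n ∧ Nonempty (piCoreOf {p} A ≃* QuaternionGroup (2 ^ n))) := fun A p hp hA =>
    haveI := Fact.mk hp
    H1.isCyclic_or_quaternion_of_fpf (isPGroup_piCoreOf p A) hK le_normalizer_of_normal
      (fun a ha => hf a (hA (piCoreOf_le _ _ ha)))
  rcases hc E 2 Nat.prime_two le_rfl with h2 | ⟨-, n, hn1, ⟨e⟩⟩
  · refine Or.inl (cyclic_of_nil_forall_sylow hn fun p hp _ => (hc E p hp le_rfl).elim id ?_)
    rintro ⟨rfl, -⟩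
    exact h2
  right
  have hO : IsCyclic (piCoreOf {2}ᶜ E) := by
    refine cyclic_of_nil_forall_sylow (nil_of_le hn (piCoreOf_le _ _)) fun p hp hd =>
      (hc _ p hp (piCoreOf_le _ _)).resolve_right fun e => isPi_piCoreOf _ _ p hp hd e.1
  obtain rfl : n = 1 := by
    have h3 := h.comm_conj hz1' (h1 (piCoreOf_le _ _ (e.symm (.xa 0)).2)) (h1 (piCoreOf_le _ _ (e.symm (.a 1)).2))
    have h4 : e.symm (.a 1) * e.symm (.xa 0) * (e.symm (.a 1))⁻¹ * e.symm (.xa 0) =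
        e.symm (.xa 0) * (e.symm (.a 1) * e.symm (.xa 0) * (e.symm (.a 1))⁻¹) :=
      Subtype.ext (mem_centralizer_singleton_iff.1 h3)
    simp only [← map_inv, ← map_mul, EmbeddingLike.apply_eq_iff_eq] at h4
    have h5 : (QuaternionGroup.a 1 : QuaternionGroup (2 ^ n))⁻¹ = .a (-1) := rfl
    simp only [h5, QuaternionGroup.a_mul_xa, QuaternionGroup.xa_mul_a, QuaternionGroup.xa_mul_xa,
      QuaternionGroup.a.injEq] at h4
    have h6 : ((4 : ℕ) : ZMod (2 * 2 ^ n)) = 0 := by push_cast; linear_combination h4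
    rw [ZMod.natCast_eq_zero_iff] at h6
    by_contra hne
    have : 2 ^ 2 ≤ 2 ^ n := Nat.pow_le_pow_right two_pos (by omega)
    have := Nat.le_of_dvd (by norm_num) h6
    omega
  refine ⟨♯(piCoreOf {2}ᶜ E), ?_, ?_⟩
  · exact Nat.odd_iff.2 (by have := isPi_piCoreOf {2}ᶜ E 2 Nat.prime_two; simp at this; omega)
  obtain ⟨f⟩ := H26.nonempty_mulEquiv_prod_sup (cent_symm (piCoreOf_cent_compl {2} E))
    (by rw [inf_comm]; exact piCoreOf_inf_compl _ _ _)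
  rw [sup_comm, piCoreOf_sup_compl_of_nil {2} hn] at f
  exact ⟨f.trans ((zmodCyclicMulEquiv hO).symm.prodCongr e)⟩

theorem not_noncomm (hc : TIC G) {T : Subgroup G} (hT : SylowOf 2 T ⊤) (h1 : T ⊔ C⟦T⟧ = T) :
    IsMulCommutative T := by
  by_contra hna
  obtain ⟨u, hu, huM⟩ := hc.exists_inv_notMem hT
  have h1u : ((1 : G) : G ⧸ N⟦T⟧) ≠ u := by rw [Ne, QuotientGroup.eq]; simpa using huM
  haveI : Fintype (G ⧸ N⟦T⟧) := Fintype.ofFinite _
  have hq := hc.card_quot hT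
  rw [h1] at hq
  obtain ⟨t, htT, ht⟩ := hc.exists_inv hT
  have hT0 : T ≠ ⊥ := ne_bot_of_mem htT (inv_ne_one ht)
  haveI := S0338.result (hc.isZassenhaus hT) (by
    rw [← Nat.card_eq_fintype_card, ← hq]
    exact (even_iff_two_dvd.2 (ht ▸ orderOf_dvd_card_of_mem htT)).add_one)
  have hne : ∀ g : G, (g : G ⧸ N⟦T⟧) ≠ ((1 : G) : G ⧸ N⟦T⟧) → g ∉ N⟦T⟧ := fun g hg e =>
    hg (QuotientGroup.eq.2 (by simpa using e))
  obtain ⟨n, -, hn1, h2, -, h3, -⟩ := S1147.result (hc.isZassenhaus hT) h1u T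
    (by rw [TIC.stabilizer_mk, cj_one]; exact le_normalizer)
    (by rw [TIC.stabilizer_mk, cj_one]; exact fun g hg x hx => (mem_normalizer_iff.1 hg x).1 hx)
    (fun c d => by
      induction c using QuotientGroup.induction_on with | H c => ?_
      induction d using QuotientGroup.induction_on with | H d => ?_
      intro a b
      obtain ⟨k, hk, e⟩ := hc.two_trans hT (hne c a) (hne d b)
      refine ⟨⟨k, h1.le hk⟩, TIC.smul_mk_eq_iff.2 e, fun y hy => Subtype.ext ?_⟩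
      have e2 : (k⁻¹ * y : G) • (c : G ⧸ N⟦T⟧) = c := by
        rw [mul_smul, hy, ← TIC.smul_mk_eq_iff.2 e, inv_smul_smul]
      exact (inv_mul_eq_one.1 (hc.eq_one_of_TC hT (hne c a) (mul_mem (inv_mem hk) (h1.ge y.2))
        (TIC.smul_mk_eq_self_iff.1 e2))).symm)
    hT.isPGroup (by
      by_contra hh
      push Not at hh
      exact hna (comm_iff.2 hh))
  rw [TIC.stabilizer_mk, TIC.stabilizer_mk, cj_one] at h3
  set D := N⟦T⟧ ⊓ cj u N⟦T⟧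
  have hd : ∀ A ≤ T, D ≤ N⟦A⟧ → ♯D ∣ ♯A - 1 := fun A hA hn => regular_norm_dvd_pred hn
    (semiregular_iff.2 fun x hx hx1 y hy e => hc.fpf hT huM hx.1 hx.2 hx1 (h1.ge (hA hy)) e)
  obtain ⟨x, hx, hxZ⟩ : ∃ x ∈ T, x ∉ C⟦T⟧ := by
    by_contra hh
    push Not at hh
    exact hna (comm_iff.2 fun a ha b hb => mem_cent.1 (hh b hb) a ha)
  have hZ := center_ne_bot_of_nil hT.isPGroup.isNilpotent hT0
  obtain ⟨z, hz, hz1⟩ := exists_ne_one hZ
  have hZC : T ⊓ C⟦T⟧ ≤ C₁⟦x⟧ := fun a ha => mem_centralizer_singleton_iff.2 (mem_cent.1 ha.2 x hx).symm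
  have n1 : D ≤ N⟦T ⊓ C⟦T⟧⟧ := norm_inf_cent inf_le_left inf_le_left
  have n2 : D ≤ N⟦T ⊓ C₁⟦x⟧⟧ := norm_inf inf_le_left fun g hg =>
    h x z g hz1 (hZC hz) (hZC ((mem_normalizer_iff.1 (n1 hg) z).1 hz))
  have a1 := mul_succ_le_of_lt (bot_lt_iff_ne_bot.2 hZ) (by simp) (hd _ inf_le_left n1)
  have a2 := mul_succ_le_of_lt (A := T ⊓ C⟦T⟧) (B := T ⊓ C₁⟦x⟧)
    (lt_of_le_not_ge (le_inf inf_le_left hZC) fun e => hxZ (e ⟨hx, mem_centralizer_singleton_iff.2 rfl⟩).2)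
    (hd _ inf_le_left n1) (hd _ inf_le_left n2)
  have a3 := mul_succ_le_of_lt (A := T ⊓ C₁⟦x⟧) (B := T) (lt_of_le_not_ge inf_le_left fun e => hxZ
    (mem_cent.2 fun a ha => mem_centralizer_singleton_iff.1 (e ha).2)) (hd _ inf_le_left n2) (hd _ le_rfl inf_le_left)
  have e1 : ♯D + 1 = 2 ^ n := by have := Nat.one_le_two_pow (n := n); omega
  have e2 : ♯T = 2 ^ n * 2 ^ n := by rw [← pow_add, ← two_mul]; omega
  have e3 : 2 ≤ 2 ^ n := Nat.le_self_pow (by omega) 2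
  rw [card_bot, e1] at a1
  rw [e1] at a2 a3
  generalize 2 ^ n = q at *
  have : q * q * q ≤ q * q := by
    calc q * q * q ≤ ♯(T ⊓ C⟦T⟧) * q * q := by gcongr; omega
      _ ≤ _ := (Nat.mul_le_mul_right _ a2).trans (a3.trans e2.le)
  nlinarith

theorem main : Group.IsNilpotent G ∨ (∃ H : Subgroup G, IsFrobeniusComplement H) ∨ (AI G ∧ center G = ⊥) := by
  by_cases hnil : Group.IsNilpotent G
  · exact Or.inl hnil
  right
  by_cases hF : ∃ H : Subgroup G, IsFrobeniusComplement H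
  · exact Or.inl hF
  right
  have htop : ∀ z : G, z ≠ 1 → C₁⟦z⟧ ≠ ⊤ := fun z hz e => hnil (nil_top_iff.1 (e ▸ h.nil hz))
  have hnn : ∀ (p : ℕ) [Fact p.Prime] (P : Subgroup G), SylowOf p P ⊤ → ∀ z ∈ P ⊓ C⟦P⟧, z ≠ 1 → N⟦C₁⟦z⟧⟧ ≠ ⊤ := by
    intro p _ P hP z hz hz1 e
    haveI := normalizer_eq_top_iff.1 e
    obtain ⟨E, hE⟩ := exists_frob_of_cent (ne_bot_of_mem (mem_centralizer_singleton_iff.2 rfl) hz1) (htop z hz1)
      (fun x hx hx1 => h.cent_le hP hz hx hx1)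
    exact hF ⟨E, (isFrobeniusComplement_of_frob hE).1⟩
  have h2 : 2 ∣ Nat.card G := by
    by_contra h2
    have hs := sol_top_iff.2 (FT.solvable_of_odd (G := G) (Nat.odd_iff.2 (by omega)))
    obtain ⟨p, hp, h0⟩ := exists_pCoreOf_ne_bot hs (H := ⊤) (fun e => hnil (nil_top_iff.1 (by rw [e]; infer_instance)))
    haveI := Fact.mk hp
    obtain ⟨P, hP, hle⟩ := exists_sylowOf_ge (H := ⊤) (isPGroup_piCoreOf p (⊤ : Subgroup G)) le_top
    obtain ⟨z, hz, hz1⟩ := exists_ne_one (center_ne_bot_of_nil hP.isPGroup.isNilpotent (ne_bot_of_le_ne_bot h0 hle))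
    obtain ⟨v, hv, hv1⟩ := exists_ne_one h0
    have h3 : P ≤ C₁⟦z⟧ := fun a ha => mem_centralizer_singleton_iff.2 (mem_cent.1 hz.2 a ha)
    exact hnn p P hP z hz hz1 (top_le_iff.1 fun g _ => h z v g hv1 (h3 (hle hv))
      (h3 (hle ((piCoreOf_normalIn {p} ⊤).normal.conj_mem v hv g))))
  have hz : ∀ T : Subgroup G, SylowOf 2 T ⊤ → ∃ z ∈ T ⊓ C⟦T⟧, orderOf z = 2 := by
    intro T hT
    have h0 : T ≠ ⊥ := by
      rintro rfl
      exact hT.not_dvd (by simpa using h2)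
    exact exists_prime_order_mem Nat.prime_two (dvd_card_of_isPGroup (hT.isPGroup.to_le inf_le_left)
      (center_ne_bot_of_nil hT.isPGroup.isNilpotent h0))
  have hti : ∀ T : Subgroup G, SylowOf 2 T ⊤ → ∀ x ∈ T ⊔ C⟦T⟧, x ≠ 1 → ∀ g : G, g * x * g⁻¹ ∈ T ⊔ C⟦T⟧ → g ∈ N⟦T⟧ := by
    intro T hT x hx hx1 g hg
    obtain ⟨z, hzT, hz2⟩ := hz T hT
    obtain ⟨e1, e2⟩ := h.cent_eq hT hzT (inv_ne_one hz2)
    rw [← e1] at hx hg
    rw [e2]
    exact norm_piCoreOf {2} le_rfl (h z x g hx1 hx hg)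
  have hnT : ∀ T : Subgroup G, SylowOf 2 T ⊤ → N⟦T⟧ ≠ ⊤ := by
    intro T hT e
    obtain ⟨z, hzT, hz2⟩ := hz T hT
    refine hnn 2 T hT z hzT (inv_ne_one hz2) (top_le_iff.1 ?_)
    rw [(h.cent_eq hT hzT (inv_ne_one hz2)).1, ← e]
    exact norm_le_norm_TC T
  have hinv : ∀ T : Subgroup G, SylowOf 2 T ⊤ → ∀ t ∈ T, orderOf t = 2 → t ∈ C⟦T⟧ := by
    intro T hT t htT ht
    obtain ⟨z, hzT, hz2⟩ := hz T hT
    obtain ⟨S, rfl⟩ := hT.exists_sylow_top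
    obtain ⟨g, rfl⟩ := isConj_iff.1 (S0231.result S (fun e => hnT _ hT (normalizer_eq_top_iff.2 e)) (fun g hg => by
      by_contra h0
      obtain ⟨_, ⟨⟨x, hx, rfl⟩, hx2⟩, hx1⟩ := exists_ne_one h0
      exact hg (mem_norm_iff_cj.1 (hti _ hT x (mem_sup_left hx) (by rintro rfl; simp at hx1) g (mem_sup_left hx2))))
      z t hz2 ht)
    exact (mem_normalizer_iff.1 (norm_le_norm_cent _ (hti _ hT z (mem_sup_left hzT.1) (inv_ne_one hz2) g
      (mem_sup_left htT))) z).1 hzT.2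
  have hc : TIC G := by
    refine ⟨⟨fun T hT t htT ht => (h.cent_eq hT ⟨htT, hinv T hT t htT ht⟩ (inv_ne_one ht)).1, fun T hT => ?_, hnT⟩,
      fun T hT c hc hc1 => ?_⟩
    · obtain ⟨z, hzT, hz2⟩ := hz T hT
      by_contra hh
      push Not at hh
      obtain ⟨e1, -⟩ := h.cent_eq hT hzT (inv_ne_one hz2)
      refine hF ⟨C₁⟦z⟧, ne_bot_of_mem (mem_centralizer_singleton_iff.2 rfl) (inv_ne_one hz2),
        htop z (inv_ne_one hz2), fun g hg => ?_⟩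
      by_contra h0
      obtain ⟨_, ⟨hx2, x, hx, rfl⟩, hx1⟩ := exists_ne_one h0
      have h3 := hti T hT x (e1 ▸ hx) (by rintro rfl; simp at hx1) g (e1 ▸ hx2)
      exact hg (mem_centralizer_singleton_iff.2 (mul_inv_eq_iff_eq_mul.1
        (hh _ ((mem_normalizer_iff.1 h3 z).1 hzT.1) z hzT.1 (inv_conj hz2 g) hz2)))
    · obtain ⟨z, hzT, hz2⟩ := hz T hT
      obtain ⟨e1, -⟩ := h.cent_eq hT hzT (inv_ne_one hz2)
      exact (h.cent_le hT hzT (e1 ▸ hc) hc1).trans (e1 ▸ TC_le_norm T)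
  refine ⟨⟨fun t ht => ?_, hc.two, hnT⟩, eq_bot_iff.2 fun z hz => by_contra fun hz1 => htop z hz1
    (top_le_iff.1 fun g _ => mem_centralizer_singleton_iff.2 (mem_center_iff.1 hz g))⟩
  obtain ⟨T, hT, htT⟩ := exists_sylow_mem_inv ht
  rw [hc.cent T hT t htT ht]
  rcases hc.elem_or_noncomm hT with e | ⟨e, e'⟩
  · exact comm_of_sq fun x hx => by rw [sq, e x hx]
  · exact absurd (h.not_noncomm hc hT e) e'

end CTI

end Cfsg.Agent.H25
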