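import Cfsg.Agent.H1.LieGrp

/-! Generalized Kreknin theorem and nilpotent action of solvable homogeneous Lie subrings. -/

set_option autoImplicit false

namespace Cfsg.Agent.H25.GK

open AddSubgroup TensorProduct Cfsg.Agent.H1.Lie

universe u

variable {L : Type*} [LieRing L]

theorem br_iSup_le {ι κ : Sort*} {A : ι → AddSubgroup L} {B : κ → AddSubgroup L} {C : AddSubgroup L}
    (h : ∀ i j, br (A i) (B j) ≤ C) : br (⨆ i, A i) (⨆ j, B j) ≤ C :=
  br_le (lie_mem_of_iSup fun i j _ ha _ hb => h i j (mem_br ha hb))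

theorem br_iSup_left {ι : Sort*} (A : ι → AddSubgroup L) (B : AddSubgroup L) :
    br (⨆ i, A i) B ≤ ⨆ i, br (A i) B :=
  br_le fun _ ha b hb => (iSup_le fun i _ ha => mem_iSup_of_mem i (mem_br ha hb) :
    _ ≤ (⨆ i, br (A i) B).comap (adr b)) ha

theorem br_sup_left (A B C : AddSubgroup L) : br (A ⊔ B) C ≤ br A C ⊔ br B C :=
  br_le fun _ ha b hb => (sup_le (fun _ ha => mem_sup_left (mem_br ha hb))
    (fun _ ha => mem_sup_right (mem_br ha hb)) : _ ≤ (br A C ⊔ br B C).comap (adr b)) ha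

theorem br_sup_right (A B C : AddSubgroup L) : br A (B ⊔ C) ≤ br A B ⊔ br A C :=
  br_le fun a ha _ hb => (sup_le (fun _ hb => mem_sup_left (mem_br ha hb))
    (fun _ hb => mem_sup_right (mem_br ha hb)) : _ ≤ (br A B ⊔ br A C).comap (adl a)) hb

theorem br_bot_left (B : AddSubgroup L) : br ⊥ B = ⊥ :=
  eq_bot_iff.2 (br_le fun a ha b _ => by rw [mem_bot.1 ha, zero_lie]; exact zero_mem _)

theorem br_bot_right (B : AddSubgroup L) : br B ⊥ = ⊥ :=
  eq_bot_iff.2 (br_le fun a _ b hb => by rw [mem_bot.1 hb, lie_zero]; exact zero_mem _)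

theorem itr_succ' (A S : AddSubgroup L) (m : ℕ) : itr A S (m + 1) = itr (br A S) S m := by
  rw [add_comm, itr_add]; rfl

theorem itr_mono2 {A B S T : AddSubgroup L} (h : A ≤ B) (h' : S ≤ T) (m : ℕ) :
    itr A S m ≤ itr B T m := by
  induction m with
  | zero => exact h
  | succ m ih => exact br_mono ih h'

theorem itr_le_self {A S : AddSubgroup L} (h : br A S ≤ A) (m : ℕ) : itr A S m ≤ A := by
  induction m with
  | zero => exact le_rfl
  | succ m ih => exact (br_mono ih le_rfl).trans h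

theorem itr_sup_left (A B S : AddSubgroup L) (m : ℕ) : itr (A ⊔ B) S m ≤ itr A S m ⊔ itr B S m := by
  induction m with
  | zero => exact le_rfl
  | succ m ih => exact (br_mono ih le_rfl).trans (br_sup_left _ _ _)

theorem itr_iSup_left {ι : Sort*} (A : ι → AddSubgroup L) (S : AddSubgroup L) (m : ℕ) :
    itr (⨆ i, A i) S m ≤ ⨆ i, itr (A i) S m := by
  induction m with
  | zero => exact le_rfl
  | succ m ih => exact (br_mono ih le_rfl).trans (br_iSup_left _ _)

theorem lie_lie_eq (a s x : L) : ⁅⁅a, s⁆, x⁆ = ⁅⁅a, x⁆, s⁆ + ⁅a, ⁅s, x⁆⁆ := by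
  rw [leibniz_lie a s x, ← lie_skew ⁅a, x⁆ s]; abel

theorem br_br_le {A S K B : AddSubgroup L} (h1 : br (br A K) S ≤ B) (h2 : br A (br S K) ≤ B) :
    br (br A S) K ≤ B :=
  br_le fun _ hz x hx => (br_le fun a ha s hs => by
    show ⁅⁅a, s⁆, x⁆ ∈ B
    rw [lie_lie_eq]
    exact add_mem (h1 (mem_br (mem_br ha hx) hs)) (h2 (mem_br ha (mem_br hs hx))) :
      br A S ≤ B.comap (adr x)) hz

theorem itr_sup {K S T B : AddSubgroup L} (hK : br K K ≤ K) (hS : S ≤ K) (hT : T ≤ K)
    (hB : br B K ≤ B) (N : ℕ) : ∀ (m n : ℕ) (A : AddSubgroup L), m + n = N → br A K ≤ A →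
    br A (br K K) ≤ B → itr A S m ≤ B → itr A T n ≤ B → itr A (S ⊔ T) N ≤ B := by
  have hST : S ⊔ T ≤ K := sup_le hS hT
  have key : ∀ (A : AddSubgroup L) (N : ℕ), A ≤ B → itr A (S ⊔ T) N ≤ B := fun A N h =>
    (itr_mono h _ _).trans (itr_le_self ((br_mono le_rfl hST).trans hB) _)
  have inv : ∀ A R : AddSubgroup L, R ≤ K → br A K ≤ A → br A (br K K) ≤ B →
      br (br A R ⊔ B) K ≤ br A R ⊔ B ∧ br (br A R ⊔ B) (br K K) ≤ B := fun A R hR h1 h2 =>
    ⟨(br_sup_left _ _ _).trans (sup_le (br_br_le ((br_mono h1 le_rfl).trans le_sup_left)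
      (((br_mono le_rfl (br_mono hR le_rfl)).trans h2).trans le_sup_right)) (hB.trans le_sup_right)),
     (br_sup_left _ _ _).trans (sup_le ((br_mono ((br_mono le_rfl hR).trans h1) le_rfl).trans h2)
      ((br_mono le_rfl hK).trans hB))⟩
  have aux : ∀ (A R R' : AddSubgroup L) (m : ℕ), R' ≤ K → itr (br A R) R' m ≤ B →
      itr (br A R ⊔ B) R' m ≤ B := fun A R R' m hR h =>
    (itr_sup_left _ _ _ _).trans (sup_le h (itr_le_self ((br_mono le_rfl hR).trans hB) _))
  induction N with
  | zero =>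
    intro m n A e _ _ h3 _
    obtain rfl : m = 0 := by omega
    exact h3
  | succ N ih =>
    intro m n A e h1 h2 h3 h4
    rcases m with _ | m
    · exact key _ _ h3
    rcases n with _ | n
    · exact key _ _ h4
    rw [itr_succ']
    refine (itr_mono (br_sup_right _ _ _) _ _).trans ((itr_sup_left _ _ _ _).trans (sup_le ?_ ?_))
    · refine (itr_mono le_sup_left _ _).trans (ih m (n + 1) _ (by omega) (inv A S hS h1 h2).1
        (inv A S hS h1 h2).2 (aux _ _ _ _ hS (itr_succ' A S m ▸ h3)) (aux _ _ _ _ hT ?_))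
      exact (itr_mono ((br_mono le_rfl hS).trans h1) _ _).trans h4
    · refine (itr_mono le_sup_left _ _).trans (ih (m + 1) n _ (by omega) (inv A T hT h1 h2).1
        (inv A T hT h1 h2).2 (aux _ _ _ _ hS ?_) (aux _ _ _ _ hT (itr_succ' A T n ▸ h4)))
      exact (itr_mono ((br_mono le_rfl hT).trans h1) _ _).trans h3

theorem itr_biSup {ι : Type*} {K A B : AddSubgroup L} (hK : br K K ≤ K) (hB : br B K ≤ B)
    (h1 : br A K ≤ A) (h2 : br A (br K K) ≤ B) (S : ι → AddSubgroup L) (m : ℕ) (s : Finset ι) :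
    (∀ i ∈ s, S i ≤ K ∧ itr A (S i) m ≤ B) → itr A (⨆ i ∈ s, S i) (s.card * m + 1) ≤ B := by
  classical
  induction s using Finset.induction_on with
  | empty =>
    intro _
    simp only [Finset.notMem_empty, iSup_false, iSup_bot, Finset.card_empty, zero_mul, zero_add]
    show br A ⊥ ≤ B
    rw [br_bot_right]; exact bot_le
  | insert i s hi ih =>
    intro h
    rw [Finset.iSup_insert, Finset.card_insert_of_notMem hi]
    refine itr_sup hK (h i (Finset.mem_insert_self _ _)).1
      (iSup₂_le fun j hj => (h j (Finset.mem_insert_of_mem hj)).1) hB _ m (s.card * m + 1) A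
      (by ring) h1 h2 (h i (Finset.mem_insert_self _ _)).2
      (ih fun j hj => h j (Finset.mem_insert_of_mem hj))

/-- The derived subring. -/
def dS (K : AddSubgroup L) : AddSubgroup L := br K K

theorem dS_iter_mono {K K' : AddSubgroup L} (h : K ≤ K') (r : ℕ) : dS^[r] K ≤ dS^[r] K' := by
  induction r with
  | zero => exact h
  | succ r ih => rw [Function.iterate_succ_apply', Function.iterate_succ_apply']; exact br_mono ih ih

theorem nil_act {ι : Type*} (U : ι → AddSubgroup L) (s : Finset ι) (m : ℕ)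
    (hU : ∀ i ∈ s, itr ⊤ (U i) m = ⊥) (r : ℕ) : ∀ K : AddSubgroup L, br K K ≤ K →
    (∀ j, dS^[j] K ≤ ⨆ i ∈ s, dS^[j] K ⊓ U i) → dS^[r] K = ⊥ →
    itr ⊤ K ((s.card * m + 1) ^ r) = ⊥ := by
  induction r with
  | zero =>
    intro K _ _ h
    obtain rfl : K = ⊥ := h
    exact br_bot_right _
  | succ r ih =>
    intro K hK hH h
    have h1 := ih (dS K) (br_mono hK hK) (fun j => hH (j + 1)) h
    have h2 : ∀ j, br (itr ⊤ (dS K) j) K ≤ itr ⊤ (dS K) j := fun j => by
      induction j with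
      | zero => exact le_top
      | succ j ih => exact br_br_le (br_mono ih le_rfl) (br_mono le_rfl (br_mono hK le_rfl))
    have h3 : ∀ j, itr ⊤ K (j * (s.card * m + 1)) ≤ itr ⊤ (dS K) j := fun j => by
      induction j with
      | zero => simp only [zero_mul]; exact le_rfl
      | succ j ih =>
        rw [add_mul, one_mul, itr_add]
        refine (itr_mono2 ih (hH 0) _).trans (itr_biSup hK (h2 (j + 1)) (h2 j) le_rfl _ m s
          fun i hi => ⟨inf_le_left, ?_⟩)
        exact (itr_mono2 le_top inf_le_right m).trans ((hU i hi).le.trans bot_le)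
    rw [pow_succ]
    exact eq_bot_iff.2 ((h3 _).trans h1.le)

section Graded

variable {n : ℕ}

theorem gen_mono {k : ℕ} {M N : ZMod n → AddSubgroup L} (h : ∀ i, N i ≤ M i) {i x}
    (hx : Gen k N i x) : Gen k M i x := by
  induction hx with
  | base h1 h2 => exact .base h1 (h _ h2)
  | lie _ _ h1 h2 => exact h1.lie h2
  | zero => exact .zero _
  | sub _ _ h1 h2 => exact h1.sub h2

theorem gen_zero {k : ℕ} {M : ZMod n → AddSubgroup L} (h : Gr M M) {y : L} (hy : y ∈ M 0) {i x}
    (hx : Gen k M i x) : Gen k M i ⁅x, y⁆ := by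
  induction hx with
  | base h1 h2 => exact .base h1 (by simpa using h _ _ _ h2 _ hy)
  | @lie i j a b ha hb h1 h2 =>
    have e : ⁅⁅a, b⁆, y⁆ = ⁅⁅a, y⁆, b⁆ + ⁅a, ⁅b, y⁆⁆ := lie_lie_eq a b y
    rw [e]
    exact (genS k M (i + j)).add_mem (h1.lie hb) (ha.lie h2)
  | zero => rw [zero_lie]; exact .zero _
  | sub _ _ h1 h2 => rw [sub_lie]; exact h1.sub h2

theorem br_genS {k : ℕ} {M : ZMod n → AddSubgroup L} (h : Gr M M) (i : ZMod n) :
    br (genS k M i) (M 0) ≤ genS k M i := br_le fun _ ha _ hb => gen_zero h hb ha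

variable [NeZero n]

theorem gen_lie_succ {k : ℕ} {M : ZMod n → AddSubgroup L} (h : Gr M M) {u a}
    (ha : Gen k M u a) : ∀ v, ∀ w ∈ M v, (v + u).val = k + 1 →
    ⁅w, a⁆ ∈ genS (k + 1) M (v + u) ⊔ br (M (v + u)) (M 0) := by
  induction ha with
  | @base j x h1 h2 =>
    intro v w hw e
    by_cases hv : v = 0
    · subst hv
      rw [← lie_skew, zero_add]
      exact mem_sup_right (neg_mem (mem_br h2 hw))
    have h3 := ZMod.val_lt v
    have h4 := ZMod.val_lt j
    have h5 : v.val ≠ 0 := by simpa using hv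
    have h6 : n ≤ v.val + j.val := by
      by_contra h6
      rw [ZMod.val_add_of_lt (by omega)] at e
      rcases (by omega : j.val = k + 1 ∨ k + 1 < j.val) with _ | _ <;> omega
    rw [ZMod.val_add_of_le h6] at e
    exact mem_sup_left ((Gen.base (by omega) hw).lie (.base (by omega) h2))
  | @lie i j x y hx hy h1 h2 =>
    intro v w hw e
    rw [leibniz_lie, ← lie_skew x, ← sub_eq_add_neg]
    refine sub_mem ?_ ?_
    · rw [← add_assoc] at e ⊢
      exact h2 _ _ (h _ _ _ hw _ (hx.mem h)) e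
    · rw [add_comm i, ← add_assoc] at e ⊢
      exact h1 _ _ (h _ _ _ hw _ (hy.mem h)) e
  | zero => intro v w _ _; rw [lie_zero]; exact zero_mem _
  | sub _ _ h1 h2 => intro v w hw e; rw [lie_sub]; exact sub_mem (h1 v w hw e) (h2 v w hw e)

/-- The bound in the generalized Kreknin theorem. -/
def kb (u : ℕ) : ℕ → ℕ
  | 0 => u
  | k + 1 => kb u k + u * (kb u k + 1)

theorem gk_aux (u k : ℕ) : ∀ {M : ZMod n → AddSubgroup L}, Gr M M →
    (∀ i, itr (M i) (M 0) u = ⊥) → ∀ v, ∀ x ∈ der^[kb u k] M v, Gen k M v x := by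
  induction k with
  | zero =>
    intro M h h0 v x hx
    by_cases hv : v = 0
    swap
    · exact .base (by simpa [Nat.pos_iff_ne_zero] using hv) ((h.der _).2 v hx)
    subst hv
    have : ∀ j, der^[j] M 0 ≤ genS 0 M 0 ⊔ itr (M 0) (M 0) j := fun j => by
      induction j with
      | zero => exact le_sup_right
      | succ j ih =>
        rw [Function.iterate_succ_apply']
        refine brF_le fun a b e x hx y hy => ?_
        by_cases ha : a = 0
        · obtain rfl : b = 0 := by simpa [ha] using e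
          subst ha
          exact ((br_sup_left _ _ _).trans (sup_le_sup_right (br_genS h 0) _))
            (mem_br (ih hx) ((h.der j).2 0 hy))
        · have hb : b ≠ 0 := fun hb => ha (by simpa [hb] using e)
          refine mem_sup_left ?_
          rw [← e]
          exact (Gen.base (by simpa [Nat.pos_iff_ne_zero] using ha) ((h.der j).2 a hx)).lie
            (.base (by simpa [Nat.pos_iff_ne_zero] using hb) ((h.der j).2 b hy))
    have h1 := this u hx
    rwa [h0, sup_bot_eq] at h1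
  | succ k ih =>
    have P : ∀ (i : ZMod n), i.val = k + 1 → ∀ j, ∀ {M : ZMod n → AddSubgroup L}, Gr M M →
        (∀ i, itr (M i) (M 0) u = ⊥) →
        der^[j * (kb u k + 1)] M i ≤ genS (k + 1) M i ⊔ itr (M i) (M 0) j := fun i hi j => by
      induction j with
      | zero => intro M _ _; simp only [zero_mul]; exact le_sup_right
      | succ j ihj =>
        intro M h h0
        obtain ⟨h2, h3⟩ := h.der (kb u k + 1)
        have h4 : der^[kb u k + 1] M i ≤ genS (k + 1) M i ⊔ br (M i) (M 0) := by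
          rw [Function.iterate_succ_apply']
          exact brF_le fun a b e x hx y hy =>
            e ▸ gen_lie_succ h (ih h h0 b y hy) a x ((h.der _).2 a hx) (e ▸ hi)
        rw [add_mul, one_mul, Function.iterate_add_apply]
        refine (ihj h2 fun i => eq_bot_iff.2 ((itr_mono2 (h3 i) (h3 0) u).trans (h0 i).le)).trans
          (sup_le (le_sup_of_le_left fun _ hx => gen_mono h3 hx) ?_)
        refine (itr_mono2 h4 (h3 0) j).trans ((itr_sup_left _ _ _ _).trans (sup_le_sup ?_ ?_))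
        · exact itr_le_self (br_genS h i) j
        · rw [itr_succ']
    intro M h h0 v x hx
    rw [kb, Function.iterate_add_apply] at hx
    obtain ⟨h2, h3⟩ := h.der (u * (kb u k + 1))
    have h4 := ih h2 (fun i => eq_bot_iff.2 ((itr_mono2 (h3 i) (h3 0) u).trans (h0 i).le)) v x hx
    clear hx
    induction h4 with
    | @base i x h4 h5 =>
      rcases (by omega : k + 1 < i.val ∨ i.val = k + 1) with h6 | h6
      · exact .base h6 (h3 i h5)
      have h7 := P i h6 u h h0 h5
      rwa [h0, sup_bot_eq] at h7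
    | lie _ _ h4 h5 => exact h4.lie h5
    | zero => exact .zero _
    | sub _ _ h4 h5 => exact h4.sub h5

theorem gk {u : ℕ} {M : ZMod n → AddSubgroup L} (h : Gr M M) (h0 : ∀ i, itr (M i) (M 0) u = ⊥) :
    dS^[kb u (n - 1)] (⨆ i, M i) = ⊥ := by
  have h1 : ∀ j, dS^[j] (⨆ i, M i) = ⨆ i, der^[j] M i := fun j => by
    induction j with
    | zero => rfl
    | succ j ih =>
      simp only [Function.iterate_succ_apply']
      rw [ih]; exact (iSup_brF _ _).symm
  rw [h1]
  refine eq_bot_iff.2 (iSup_le fun v x hx => ?_)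
  have h1 := gk_aux u _ h h0 v x hx
  clear hx
  induction h1 with
  | @base i _ h1 => have := ZMod.val_lt i; omega
  | lie _ _ h1 => rw [mem_bot.mp h1, zero_lie]; exact zero_mem _
  | zero => exact zero_mem _
  | sub _ _ h1 h2 => exact sub_mem h1 h2

end Graded

theorem gk_aut_aux {p u : ℕ} [hp : Fact p.Prime] {L : Type u} [LieRing L]
    {R A : Type} [CommRing R] [LieAlgebra R L] [CommRing A] [Algebra R A] [Module.Flat R A]
    (t : ZMod p → A) (ht0 : t 0 = 1)
    (ht : ∀ i j, t (i + j) = t i * t j) (l : A →ₗ[R] R) (hl : l (p - ∑ i, t i) = -1)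
    (α : L →ₗ[R] L) (hα : ∀ x y, α ⁅x, y⁆ = ⁅α x, α y⁆) (h1 : α ^ p = 1) (C : AddSubgroup L)
    (hC : ∀ x, α x = x → x ∈ C) (hu : itr ⊤ C u = ⊥) :
    ∃ e, ∀ x ∈ dS^[kb u (p - 1)] (⊤ : AddSubgroup L), p ^ e • x = 0 := by
  let N : A := ∑ i, t i
  have hN : ∀ i, t i * N = N := fun i => by
    rw [Finset.mul_sum]
    simp only [← ht]
    exact Fintype.sum_equiv (Equiv.addLeft i) _ _ fun _ => rfl
  have hNN : N * N = p * N := by
    rw [Finset.sum_mul]
    simp [hN]
  let β : A ⊗[R] L →ₗ[A] A ⊗[R] L := α.baseChange A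
  have hβ : ∀ x y, β ⁅x, y⁆ = ⁅β x, β y⁆ := fun x y => by
    induction x with
    | zero => simp
    | add a b ha hb => simp [add_lie, ha, hb]
    | tmul a x => induction y with
      | zero => simp
      | add a b ha hb => simp [lie_add, ha, hb]
      | tmul b y => simp [β, hα]
  let M : ZMod p → AddSubgroup (A ⊗[R] L) := fun i =>
    (LinearMap.ker (β - t i • LinearMap.id)).toAddSubgroup
  have hM : ∀ i x, x ∈ M i ↔ β x = t i • x := fun i x => by
    simp [M, sub_eq_zero]
  let T : AddSubgroup L → AddSubgroup (A ⊗[R] L) := fun W =>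
    ⨆ a : A, W.map (TensorProduct.mk R A L a).toAddMonoidHom
  have hT : ∀ (W : AddSubgroup L) (a : A), ∀ x ∈ W, a ⊗ₜ[R] x ∈ T W := fun W a x hx =>
    mem_iSup_of_mem a ⟨x, hx, rfl⟩
  have hTb : ∀ W W' : AddSubgroup L, br (T W) (T W') ≤ T (br W W') := fun W W' =>
    br_iSup_le fun a b => br_le (by
      rintro _ ⟨x, hx, rfl⟩ _ ⟨y, hy, rfl⟩
      exact hT _ (a * b) _ (mem_br hx hy))
  have hT0 : M 0 ≤ T C := fun x hx => by
    have h3 : (α - 1).lTensor A x = 0 := by
      rw [hM] at hx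
      rw [LinearMap.lTensor_sub, LinearMap.sub_apply, sub_eq_zero]
      refine hx.trans ?_
      rw [ht0, one_smul, Module.End.one_eq_id, LinearMap.lTensor_id]; rfl
    obtain ⟨z, rfl⟩ := (Module.Flat.lTensor_exact A (LinearMap.exact_subtype_ker_map (α - 1)) x).mp h3
    clear hx h3
    induction z with
    | zero => simp
    | add a b ha hb => rw [map_add]; exact add_mem ha hb
    | tmul a x => exact hT C a x (hC x (sub_eq_zero.mp x.2))
  have hT1 : ∀ m, itr ⊤ (M 0) m ≤ T (itr ⊤ C m) := fun m => by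
    induction m with
    | zero =>
      intro z _
      induction z with
      | zero => exact zero_mem _
      | add a b ha hb => exact add_mem (ha trivial) (hb trivial)
      | tmul a x => exact hT _ a x trivial
    | succ m ih => exact (br_mono ih hT0).trans (hTb _ _)
  have h2 := gk (u := u) (M := M) (fun i j x hx y hy => by
    rw [hM] at *
    rw [hβ, hx, hy, smul_lie, lie_smul, ht, mul_smul]) (fun i => eq_bot_iff.2
      ((itr_mono le_top _ _).trans ((hT1 u).trans (by rw [hu]; simp [T]))))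
  set S := ⨆ i, M i
  let a : ZMod p → Module.End R L := fun k => α ^ k.val
  have ha : ∀ k x, α (a k x) = a (k + 1) x := fun k x => by
    simp only [a, ZMod.val_add, ZMod.val_one]
    rw [← pow_eq_pow_mod _ h1, pow_succ']; rfl
  have h4 : ∀ x : L, (p - N) ⊗ₜ[R] x ∈ S := fun x => by
    have h5 : ∀ i, ∑ k, t (-(i * k)) ⊗ₜ[R] a k x ∈ M i := fun i => by
      rw [hM, map_sum, Finset.smul_sum]
      refine Fintype.sum_equiv (Equiv.addRight 1) _ _ fun k => ?_
      simp only [β, LinearMap.baseChange_tmul, ha, Equiv.coe_addRight, smul_tmul', smul_eq_mul, ← ht]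
      congr 2; ring
    have h6 : N ⊗ₜ[R] ∑ k, a k x ∈ M 0 := by
      rw [hM, ht0, one_smul]
      simp only [β, LinearMap.baseChange_tmul, map_sum, ha]
      congr 1
      exact Fintype.sum_equiv (Equiv.addRight 1) _ _ fun k => rfl
    convert sub_mem (sum_mem fun i (_ : i ∈ Finset.univ) => mem_iSup_of_mem i (h5 i))
      (mem_iSup_of_mem 0 h6) using 1
    rw [Finset.sum_comm, tmul_sum, ← Finset.sum_sub_distrib, Finset.sum_eq_single 0]
    · simp [a, ← sum_tmul, sub_tmul, ht0, smul_tmul']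
    · intro k _ hk
      rw [← sum_tmul, sub_eq_zero]
      congr 1
      exact Fintype.sum_equiv (Equiv.mulRight₀ (-k) (neg_ne_zero.mpr hk)) _ _ fun i => by simp
    · simp
  have h7 : ∀ m, ∃ e, ∀ x ∈ dS^[m] (⊤ : AddSubgroup L), p ^ e • (p - N) ⊗ₜ[R] x ∈ dS^[m] S :=
    fun m => by
    induction m with
    | zero => exact ⟨0, by simpa using h4⟩
    | succ m ih =>
      obtain ⟨e, ih⟩ := ih
      refine ⟨e + e + 1, ?_⟩
      simp only [Function.iterate_succ_apply']
      refine fun x hx => (br_le fun x hx y hy => ?_ : _ ≤ (dS (dS^[m] S)).comap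
        (p ^ (e + e + 1) • (TensorProduct.mk R A L (p - N)).toAddMonoidHom)) hx
      convert (mem_br (ih x hx) (ih y hy) : _ ∈ dS (dS^[m] S))
      rw [mem_comap, nsmul_lie, lie_nsmul, LieAlgebra.ExtendScalars.bracket_tmul,
        show (p - N) * (p - N) = p • (p - N) by rw [nsmul_eq_mul]; linear_combination hNN,
        ← smul_tmul', smul_smul, smul_smul, ← pow_add, ← pow_succ]
      rfl
  obtain ⟨e, h7⟩ := h7 (kb u (p - 1))
  refine ⟨e, fun x hx => ?_⟩
  have h9 := h7 x hx
  rw [h2, mem_bot] at h9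
  have h8 := congrArg (TensorProduct.lift (LinearMap.lsmul R L ∘ₗ l)) h9
  simp only [map_nsmul, lift.tmul, LinearMap.comp_apply, show l (p - N) = -1 from hl] at h8
  simpa [mul_smul] using h8

theorem gk_aut {p u : ℕ} [hp : Fact p.Prime] {L : Type u} [LieRing L]
    (α : L →ₗ[ℤ] L) (hα : ∀ x y, α ⁅x, y⁆ = ⁅α x, α y⁆) (h1 : α ^ p = 1) (C : AddSubgroup L)
    (hC : ∀ x, α x = x → x ∈ C) (hu : itr ⊤ C u = ⊥) :
    ∃ e, ∀ x ∈ dS^[kb u (p - 1)] (⊤ : AddSubgroup L), p ^ e • x = 0 := by
  haveI : Module.Free ℤ (AddMonoidAlgebra ℤ (ZMod p)) :=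
    Module.Free.of_basis (AddMonoidAlgebra.basis (ZMod p) ℤ)
  refine gk_aut_aux (A := AddMonoidAlgebra ℤ (ZMod p)) (fun i => AddMonoidAlgebra.single i 1) rfl
    (fun i j => by simp) (Finsupp.lapply 1 ∘ₗ (AddMonoidAlgebra.coeffLinearEquiv ℤ).toLinearMap)
    ?_ α hα h1 C hC hu
  simp [AddMonoidAlgebra.natCast_def, Finsupp.single_apply]

end Cfsg.Agent.H25.GK
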