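import Cfsg.Agent.H25.GK1

/-! Bounding the class of a nilpotent group through its Lie ring. -/

set_option autoImplicit false

namespace Cfsg.Agent.H25.GK

open Subgroup Cfsg.Agent.H1.Lie
open scoped commutatorElement

universe u

variable {H : Type u} [Group H]

/-- Images of `S ∩ γ_w`. -/
def E (S : Subgroup H) (w : ℕ) : AddSubgroup (LR H) where
  carrier := {z | ∃ y ∈ S, y ∈ lcs H w ∧ mk w y = z}
  zero_mem' := ⟨1, one_mem _, one_mem _, mk_zero (one_mem _)⟩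
  add_mem' := by
    rintro _ _ ⟨x, hx, hx', rfl⟩ ⟨y, hy, hy', rfl⟩
    exact ⟨x * y, mul_mem hx hy, mul_mem hx' hy', mk_mul hx' hy'⟩
  neg_mem' := by
    rintro _ ⟨x, hx, hx', rfl⟩
    exact ⟨x⁻¹, inv_mem hx, inv_mem hx', mk_inv hx'⟩

/-- The Lie subring attached to a subgroup. -/
def Ls (S : Subgroup H) : AddSubgroup (LR H) := ⨆ w, E S w

/-- Preimage of an additive subgroup in degree `w`. -/
def pre (K : AddSubgroup (LR H)) (w : ℕ) : Subgroup H where
  carrier := {g | g ∈ lcs H w ∧ mk w g ∈ K}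
  one_mem' := ⟨one_mem _, by rw [mk_zero (one_mem _)]; exact zero_mem _⟩
  mul_mem' := fun ha hb => ⟨mul_mem ha.1 hb.1, by rw [mk_mul ha.1 hb.1]; exact add_mem ha.2 hb.2⟩
  inv_mem' := fun ha => ⟨inv_mem ha.1, by rw [mk_inv ha.1]; exact neg_mem ha.2⟩

theorem mem_Ls {S : Subgroup H} {w : ℕ} {y : H} (h : y ∈ S) (h' : y ∈ lcs H w) : mk w y ∈ Ls S :=
  AddSubgroup.mem_iSup_of_mem w ⟨y, h, h', rfl⟩

theorem br_Ls (S T : Subgroup H) : br (Ls S) (Ls T) ≤ Ls ⁅S, T⁆ :=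
  br_iSup_le fun i j => br_le (by
    rintro _ ⟨x, hx, hx', rfl⟩ _ ⟨y, hy, hy', rfl⟩
    rw [lie_mk hx' hy']
    exact mem_Ls (commutator_mem_commutator hx hy) (lcs_comm hx' hy'))

theorem Ls_bot : Ls (⊥ : Subgroup H) = ⊥ :=
  eq_bot_iff.2 (iSup_le fun w => by
    rintro _ ⟨x, hx, -, rfl⟩
    rw [mem_bot.1 hx, mk_zero (one_mem _)]; exact zero_mem _)

theorem itr_Ls (S T : Subgroup H) (m : ℕ) :
    itr (Ls S) (Ls T) m ≤ Ls ((fun X => ⁅X, T⁆)^[m] S) := by
  induction m with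
  | zero => exact le_rfl
  | succ m ih => rw [Function.iterate_succ_apply']; exact (br_mono ih le_rfl).trans (br_Ls _ _)

theorem dS_Ls (S : Subgroup H) (m : ℕ) : dS^[m] (Ls S) ≤ Ls ((fun X => ⁅X, X⁆)^[m] S) := by
  induction m with
  | zero => exact le_rfl
  | succ m ih =>
    rw [Function.iterate_succ_apply', Function.iterate_succ_apply']
    exact (br_mono ih ih).trans (br_Ls _ _)

theorem aut_lcs (α : MulAut H) {i : ℕ} {x : H} (hx : x ∈ lcs H i) : α x ∈ lcs H i :=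
  (characteristic_iff_le_comap.mp inferInstance α) hx

/-- The automorphism of the Lie ring induced by a group automorphism. -/
noncomputable def bet (α : MulAut H) : LR H →+ LR H := LR.lift (fun i x => mk i (α x))
  (fun i x y => by rw [coe_mul, map_mul, mk_mul (aut_lcs α x.2) (aut_lcs α y.2)])
  fun _ _ hx => mk_zero (aut_lcs α hx)

theorem bet_mk (α : MulAut H) {i : ℕ} {x : H} (hx : x ∈ lcs H i) : bet α (mk i x) = mk i (α x) :=
  LR.lift_mk _ _ hx

theorem bet_lie (α : MulAut H) (a b : LR H) : bet α ⁅a, b⁆ = ⁅bet α a, bet α b⁆ := by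
  have : LR.brk.compr₂ (bet α) = (LR.brk.compl₂ (bet α)).comp (bet α) :=
    LR.ext fun i x hx => LR.ext fun j y hy => by
      simp [LR.brk_mk, bet_mk, hx, hy, aut_lcs, bet_mk α (lcs_comm hx hy), map_commutatorElement]
  exact DFunLike.congr_fun (DFunLike.congr_fun this a) b

theorem bet_mul (α β : MulAut H) (z : LR H) : bet (α * β) z = bet α (bet β z) :=
  DFunLike.congr_fun (LR.ext (f := bet (α * β)) (g := (bet α).comp (bet β)) fun i x hx => by
    rw [AddMonoidHom.comp_apply, bet_mk _ hx, bet_mk _ hx, bet_mk _ (aut_lcs β hx)]; rfl) z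

theorem bet_one (z : LR H) : bet 1 z = z :=
  DFunLike.congr_fun (LR.ext (f := bet 1) (g := AddMonoidHom.id _) fun i x hx => by
    rw [bet_mk _ hx]; rfl) z

theorem bet_pow (α : MulAut H) (n : ℕ) (z : LR H) :
    ((bet α).toIntLinearMap ^ n) z = bet (α ^ n) z := by
  induction n with
  | zero => rw [pow_zero, pow_zero, bet_one]; rfl
  | succ n ih => rw [pow_succ', pow_succ', Module.End.mul_apply, ih, bet_mul]; rfl

/-- Invariance of a subgroup. -/
def Inv (Φ : Set (MulAut H)) (T : Subgroup H) : Prop := ∀ α ∈ Φ, ∀ x ∈ T, α x ∈ T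

/-- Invariance of an additive subgroup. -/
def InvL (Φ : Set (MulAut H)) (K : AddSubgroup (LR H)) : Prop := ∀ α ∈ Φ, ∀ x ∈ K, bet α x ∈ K

theorem InvL.br {Φ : Set (MulAut H)} {K K' : AddSubgroup (LR H)} (h : InvL Φ K) (h' : InvL Φ K') :
    InvL Φ (br K K') := fun α hα _ hx => (br_le fun a ha b hb => by
  show bet α ⁅a, b⁆ ∈ H1.Lie.br K K'
  rw [bet_lie]
  exact mem_br (h α hα a ha) (h' α hα b hb) : _ ≤ (H1.Lie.br K K').comap (bet α)) hx

theorem InvL.pre {Φ : Set (MulAut H)} {K : AddSubgroup (LR H)} (h : InvL Φ K) (w : ℕ) :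
    Inv Φ (pre K w) := fun α hα x hx =>
  ⟨aut_lcs α hx.1, by rw [← bet_mk α hx.1]; exact h α hα _ hx.2⟩

theorem Inv.inf {Φ : Set (MulAut H)} {S T : Subgroup H} (h : Inv Φ S) (h' : Inv Φ T) :
    Inv Φ (S ⊓ T) := fun α hα x hx => ⟨h α hα x hx.1, h' α hα x hx.2⟩

theorem Inv.comm {Φ : Set (MulAut H)} {S T : Subgroup H} (h : Inv Φ S) (h' : Inv Φ T) :
    Inv Φ ⁅S, T⁆ := fun α hα _ hx => (commutator_le.2 fun a ha b hb => by
  show α ⁅a, b⁆ ∈ ⁅S, T⁆
  rw [map_commutatorElement]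
  exact commutator_mem_commutator (h α hα a ha) (h' α hα b hb) :
    _ ≤ (⁅S, T⁆).comap α.toMonoidHom) hx

/-- The data needed to bound the class. -/
structure Fam (Φ : Set (MulAut H)) (𝒞 : Set (Subgroup H)) (F : Finset (Subgroup H)) (m : ℕ) :
    Prop where
  inv : ∀ J ∈ F, Inv Φ J
  top : ⨆ J ∈ F, J = ⊤
  gen : ∀ T D : Subgroup H, Inv Φ T → (∀ C ∈ 𝒞, T ⊓ C ≤ D) → T ≤ D
  cl : ∀ J₁ ∈ F, ∀ J₂ ∈ F, ∀ C ∈ 𝒞, ∃ J ∈ F, ⁅J₁, J₂⁆ ⊓ C ≤ J
  nil : ∀ J ∈ F, ∀ C ∈ 𝒞, (fun X => ⁅X, J⁆)^[m] C = ⊥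

/-- The homogeneous part. -/
def Gs (F : Finset (Subgroup H)) (K : AddSubgroup (LR H)) : AddSubgroup (LR H) :=
  ⨆ i : {J // J ∈ F} × ℕ, K ⊓ E i.1.1 i.2

theorem mem_Gs {F : Finset (Subgroup H)} {K : AddSubgroup (LR H)} {J : Subgroup H} (hJ : J ∈ F)
    {w : ℕ} {z : LR H} (h : z ∈ K) (h' : z ∈ E J w) : z ∈ Gs F K :=
  AddSubgroup.mem_iSup_of_mem (⟨⟨J, hJ⟩, w⟩ : {J // J ∈ F} × ℕ) ⟨h, h'⟩

theorem Gs_mono {F : Finset (Subgroup H)} {K K' : AddSubgroup (LR H)} (h : K ≤ K') :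
    Gs F K ≤ Gs F K' := iSup_mono fun _ => inf_le_inf_right _ h

theorem Gs_le {F : Finset (Subgroup H)} (K : AddSubgroup (LR H)) :
    Gs F K ≤ ⨆ J ∈ F, K ⊓ Ls J :=
  iSup_le fun i => le_iSup₂_of_le (f := fun J (_ : J ∈ F) => K ⊓ Ls J) i.1.1 i.1.2
    (inf_le_inf_left _ (le_iSup (E i.1.1) i.2))

namespace Fam

variable {Φ : Set (MulAut H)} {𝒞 : Set (Subgroup H)} {F : Finset (Subgroup H)} {m : ℕ}
  (h : Fam Φ 𝒞 F m)
include h

theorem br_Gs {K : AddSubgroup (LR H)} (hK : InvL Φ K) : br (Gs F K) (Gs F K) ≤ Gs F (br K K) :=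
  br_iSup_le fun i j => br_le (by
    rintro _ ⟨ha, x, hx, hx', rfl⟩ _ ⟨hb, y, hy, hy', rfl⟩
    have h1 := h.gen (pre (br K K) (i.2 + j.2 + 1) ⊓ ⁅i.1.1, j.1.1⁆)
      (pre (Gs F (br K K)) (i.2 + j.2 + 1))
      (((hK.br hK).pre _).inf ((h.inv _ i.1.2).comm (h.inv _ j.1.2))) (fun C hC g hg => by
        obtain ⟨J, hJ, hle⟩ := h.cl _ i.1.2 _ j.1.2 C hC
        exact ⟨hg.1.1.1, mem_Gs hJ hg.1.1.2 ⟨g, hle ⟨hg.1.2, hg.2⟩, hg.1.1.1, rfl⟩⟩)
    rw [lie_mk hx' hy']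
    exact (h1 ⟨⟨lcs_comm hx' hy', lie_mk hx' hy' ▸ mem_br ha hb⟩,
      commutator_mem_commutator hx hy⟩).2)

theorem hom_top (z : LR H) : z ∈ Gs F ⊤ := by
  have h0 : ∀ x, H1.Lie.mk 0 x ∈ Gs F ⊤ := fun x => by
    have : (⨆ J ∈ F, J) ≤ pre (Gs F ⊤) 0 := iSup₂_le fun J hJ y hy =>
      ⟨trivial, mem_Gs (w := 0) hJ trivial ⟨y, hy, trivial, rfl⟩⟩
    exact (this (h.top ▸ mem_top x)).2
  have h1 : ∀ w, lcs H w ≤ pre (Gs F ⊤) w := fun w => by
    induction w with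
    | zero => exact fun x _ => ⟨trivial, h0 x⟩
    | succ w ih =>
      refine commutator_le.2 fun a ha b hb => ⟨lcs_comm (j := 0) ha hb, ?_⟩
      rw [← lie_mk (j := 0) ha hb]
      exact Gs_mono le_top (h.br_Gs (K := ⊤) (fun _ _ _ _ => trivial) (mem_br (ih ha).2 (h0 b)))
  induction z using LR.ind with
  | h0 => exact zero_mem _
  | h1 i x hx => exact (h1 i hx).2
  | h2 a b ha hb => exact add_mem ha hb

theorem hom_der {K : AddSubgroup (LR H)} (hK : InvL Φ K) (h1 : K ≤ Gs F K) (j : ℕ) :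
    dS^[j] K ≤ ⨆ J ∈ F, dS^[j] K ⊓ Ls J := by
  suffices InvL Φ (dS^[j] K) ∧ dS^[j] K ≤ Gs F (dS^[j] K) from this.2.trans (Gs_le _)
  induction j with
  | zero => exact ⟨hK, h1⟩
  | succ j ih =>
    rw [Function.iterate_succ_apply']
    exact ⟨ih.1.br ih.1, (br_mono ih.2 ih.2).trans (h.br_Gs ih.1)⟩

theorem itr_top {J : Subgroup H} (hJ : J ∈ F) : itr ⊤ (Ls J) m = ⊥ := by
  have h1 : (⊤ : AddSubgroup (LR H)) ≤ ⨆ C : 𝒞, Ls C.1 := fun z _ => by
    induction z using LR.ind with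
    | h0 => exact zero_mem _
    | h1 i x hx =>
      exact (h.gen (lcs H i) (pre (⨆ C : 𝒞, Ls C.1) i) (fun α _ x hx => aut_lcs α hx)
        (fun C hC g hg => ⟨hg.1, AddSubgroup.mem_iSup_of_mem (⟨C, hC⟩ : 𝒞) (mem_Ls hg.2 hg.1)⟩) hx).2
    | h2 a b ha hb => exact add_mem (ha trivial) (hb trivial)
  refine eq_bot_iff.2 ((itr_mono h1 _ _).trans ((itr_iSup_left _ _ _).trans (iSup_le fun C => ?_)))
  refine (itr_Ls _ _ _).trans ?_
  rw [h.nil J hJ C.1 C.2, Ls_bot]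

end Fam

theorem exists_fixed [Finite H] {p : ℕ} [Fact p.Prime] (hc : (Nat.card H).Coprime p) {α : MulAut H}
    (h1 : α ^ p = 1) {N : Subgroup H} (hN : ∀ x ∈ N, α x ∈ N) {y : H} (hy : y⁻¹ * α y ∈ N) :
    ∃ c, α c = c ∧ y⁻¹ * c ∈ N := by
  classical
  let f : N → N := fun n => ⟨y⁻¹ * α (y * n), by
    rw [map_mul, ← mul_assoc]; exact mul_mem hy (hN _ n.2)⟩
  have hf : Function.Injective f := fun a b e => by
    have := congrArg Subtype.val e
    simp only [f, mul_right_inj, EmbeddingLike.apply_eq_iff_eq] at this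
    exact Subtype.ext this
  haveI := Fintype.ofFinite N
  let σ : Equiv.Perm N := Equiv.ofBijective f (Finite.injective_iff_bijective.1 hf)
  have h2 : ∀ k (n : N), ((σ ^ k) n : H) = y⁻¹ * (α ^ k) (y * n) := fun k n => by
    induction k with
    | zero => simp
    | succ k ih =>
      rw [pow_succ', pow_succ', Equiv.Perm.mul_apply, MulAut.mul_apply]
      show y⁻¹ * α (y * ((σ ^ k) n : H)) = _
      rw [ih, mul_inv_cancel_left]
  obtain ⟨n, hn⟩ := Equiv.Perm.exists_fixed_point_of_prime (p := p) (n := 1) (σ := σ)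
    (by
      rw [← Nat.card_eq_fintype_card]
      exact fun hd => (Fact.out : p.Prime).one_lt.ne'
        (Nat.Coprime.eq_one_of_dvd hc.symm (hd.trans (card_subgroup_dvd_card N))))
    (by
      ext n
      rw [pow_one, h2, h1]; simp)
  refine ⟨y * n, ?_, by simp⟩
  have := congrArg Subtype.val hn
  change y⁻¹ * α (y * n) = n at this
  rw [← mul_inv_cancel_left y (α (y * n)), this]

theorem card_smul_LR [Finite H] (z : LR H) : Nat.card H • z = 0 := by
  induction z using LR.ind with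
  | h0 => exact smul_zero _
  | h1 i x hx => rw [← mk_pow hx, pow_card_eq_one', mk_zero (one_mem _)]
  | h2 a b ha hb => rw [smul_add, ha, hb, add_zero]

theorem mem_of_smul [Finite H] {n : ℕ} (hc : (Nat.card H).Coprime n) {K : AddSubgroup (LR H)}
    {z : LR H} (h : n • z ∈ K) : z ∈ K := by
  have h1 : (1 : ℤ) = Nat.card H * (Nat.card H).gcdA n + n * (Nat.card H).gcdB n := by
    rw [← Nat.gcd_eq_gcd_ab, hc]; rfl
  have h2 : z = (Nat.card H).gcdA n • (Nat.card H • z) + (Nat.card H).gcdB n • (n • z) := by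
    rw [← natCast_zsmul, ← natCast_zsmul, smul_smul, smul_smul, ← add_smul, mul_comm, mul_comm _ (n : ℤ),
      ← h1, one_smul]
  rw [h2, card_smul_LR, smul_zero, zero_add]
  exact zsmul_mem h _

/-- The class bound. -/
def cb (p t m r : ℕ) : ℕ := (t * m + 1) ^ kb ((t * m + 1) ^ r) (p - 1)

theorem Fam.cls [Finite H] {p : ℕ} [hp : Fact p.Prime] (hc : (Nat.card H).Coprime p)
    {Φ : Set (MulAut H)} {𝒞 : Set (Subgroup H)} {F : Finset (Subgroup H)} {m : ℕ}
    (h : Fam Φ 𝒞 F m) (hnil : Group.IsNilpotent H) {α : MulAut H} (hα : α ∈ Φ) (h1 : α ^ p = 1)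
    (hcomm : ∀ β ∈ Φ, β * α = α * β) {C : Subgroup H} (hC : ∀ x, α x = x → x ∈ C) {r : ℕ}
    (hr : (fun X => ⁅X, X⁆)^[r] C = ⊥) : lcs H (cb p F.card m r) = ⊥ := by
  let K : AddSubgroup (LR H) := (bet α).eqLocus (AddMonoidHom.id _)
  have hK : ∀ z, z ∈ K ↔ bet α z = z := fun z => Iff.rfl
  have hKi : InvL Φ K := fun β hβ z hz => by
    rw [hK] at hz ⊢
    rw [← bet_mul, ← hcomm β hβ, bet_mul, hz]
  let σ : LR H →+ LR H := ∑ k ∈ Finset.range p, bet (α ^ k)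
  have hσ : ∀ z, σ z = ∑ k ∈ Finset.range p, bet (α ^ k) z := fun z => by
    simp [σ]
  have hσK : ∀ z, σ z ∈ K := fun z => by
    rw [hK, hσ, map_sum]
    simp only [← bet_mul, ← pow_succ']
    have := Finset.sum_range_succ' (fun k => bet (α ^ k) z) p
    rw [Finset.sum_range_succ, h1, pow_zero] at this
    exact (add_right_cancel this).symm
  have hG : K ≤ Gs F K := fun z hz => by
    have h2 : Gs F ⊤ ≤ (Gs F K).comap σ := iSup_le fun i z hz => by
      refine mem_Gs i.1.2 (w := i.2) (hσK z) ?_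
      rw [hσ]
      refine sum_mem fun k _ => ?_
      obtain ⟨-, x, hx, hx', rfl⟩ := hz
      refine ⟨(α ^ k) x, ?_, aut_lcs _ hx', (bet_mk _ hx').symm⟩
      clear * - h hx hα
      induction k with
      | zero => exact hx
      | succ k ih => rw [pow_succ']; exact h.inv _ i.1.2 α hα _ ih
    have h3 : σ z ∈ Gs F K := h2 (h.hom_top z)
    have h4 : ∀ k, bet (α ^ k) z = z := fun k => by
      induction k with
      | zero => rw [pow_zero, bet_one]
      | succ k ih => rw [pow_succ', bet_mul, ih, (hK z).1 hz]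
    rw [hσ] at h3
    simp only [h4, Finset.sum_const, Finset.card_range] at h3
    exact mem_of_smul hc h3
  have hL : K ≤ Ls C := hG.trans (iSup_le fun i => by
    rintro _ ⟨hz, x, -, hx, rfl⟩
    have h2 : x⁻¹ * α x ∈ lcs H (i.2 + 1) := by
      rw [← mk_eq_zero (mul_mem (inv_mem hx) (aut_lcs α hx)), mk_mul (inv_mem hx) (aut_lcs α hx),
        mk_inv hx, ← bet_mk α hx, (hK _).1 hz, neg_add_cancel]
    obtain ⟨c, hc1, hc2⟩ := exists_fixed hc h1 (fun x hx => aut_lcs α hx) h2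
    have h3 := lcs_anti (Nat.le_succ _) hc2
    have h4 : H1.Lie.mk i.2 x = H1.Lie.mk i.2 c := by
      rw [show c = x * (x⁻¹ * c) by group, mk_mul hx h3, mk_zero hc2, add_zero]
    rw [h4]
    exact mem_Ls (hC c hc1) (by simpa using mul_mem hx h3))
  have h2 := nil_act Ls F m (fun J hJ => h.itr_top hJ) r K
    (br_le fun a ha b hb => by rw [hK, bet_lie, (hK a).1 ha, (hK b).1 hb]) (h.hom_der hKi hG)
    (eq_bot_iff.2 ((dS_iter_mono hL r).trans ((dS_Ls C r).trans (by rw [hr, Ls_bot]))))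
  obtain ⟨e, he⟩ := gk_aut (p := p) (bet α).toIntLinearMap (bet_lie α)
    (LinearMap.ext fun z => by rw [bet_pow, h1, bet_one]; rfl) K (fun x hx => hx) h2
  have h3 := nil_act Ls F m (fun J hJ => h.itr_top hJ) _ ⊤ le_top
    (h.hom_der (fun _ _ _ _ => trivial) fun z _ => h.hom_top z)
    (eq_bot_iff.2 fun z hz => mem_of_smul (hc.pow_right e) (by rw [he z hz]; exact zero_mem _))
  have h4 : lcs H (cb p F.card m r) ≤ lcs H (cb p F.card m r + 1) := fun x hx => by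
    have := mk_mem_itr _ x hx
    rw [cb, h3] at this
    exact (mk_eq_zero hx).1 this
  obtain ⟨n, hn⟩ := Subgroup.nilpotent_iff_lowerCentralSeries.mp hnil
  have h5 : ∀ d, lcs H (cb p F.card m r) ≤ lcs H (cb p F.card m r + d) := fun d => by
    induction d with
    | zero => exact le_rfl
    | succ d ih => exact h4.trans (commutator_mono ih le_rfl)
  exact eq_bot_iff.2 ((h5 n).trans ((lcs_anti (Nat.le_add_left _ _)).trans hn.le))

end Cfsg.Agent.H25.GK
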