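import Cfsg.Agent.H25.GK2
import Cfsg.Agent.S3757
import Cfsg.Agent.H21.Hol
import Cfsg.Agent.H21.Base5

/-! Special subgroups for coprime action of elementary abelian groups. -/

set_option autoImplicit false
set_option linter.style.haveILetI false

namespace Cfsg.Agent.H25.GK

open Subgroup Cfsg.Agent.H20 Cfsg.Agent.H21 Cfsg.Agent.H1.Lie
open scoped commutatorElement

universe u

theorem nil_of_fam {H : Type u} [Group H] [Finite H] (hs : Group.IsSolvable H)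
    {𝒞 F : Set (Subgroup H)} (top : ∀ D : Subgroup H, (∀ J ∈ F, J ≤ D) → D = ⊤)
    (gen : ∀ n, ∀ D : Subgroup H, (∀ C ∈ 𝒞, lcs H n ⊓ C ≤ D) → lcs H n ≤ D)
    (hq : ∀ J ∈ F, ∀ C ∈ 𝒞, ∀ π : Set ℕ, ∀ y ∈ J, IsPiElt π y → ∀ x ∈ C, IsPiElt π ⁅x, y⁆) :
    Group.IsNilpotent H := by
  suffices ∀ (n : ℕ) (Q : Type u) [Group Q] [Finite Q] (f : H →* Q), Function.Surjective f →
      Nat.card Q = n → Group.IsNilpotent Q from this _ H (MonoidHom.id H) Function.surjective_id rfl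
  intro n
  induction n using Nat.strong_induction_on with
  | _ n ih =>
  intro Q _ _ f hf hn
  rcases subsingleton_or_nontrivial Q with h | h
  · infer_instance
  have hQ : Group.IsSolvable Q := Group.isSolvable_of_surjective hf
  obtain ⟨q, V, hq', hV, -, hVn, hVe⟩ := exists_elem_normalIn (NormalIn.refl (⊤ : Subgroup Q))
    (sol_top_iff.2 hQ) top_ne_bot
  haveI := Fact.mk hq'
  haveI hVN : V.Normal := normalizer_eq_top_iff.1 (top_le_iff.1 hV.2.1)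
  have hlt : ∀ (D : Subgroup Q) [D.Normal], V ≤ D → Group.IsNilpotent (Q ⧸ D) := fun D _ hD => by
    refine ih _ ?_ (Q ⧸ D) ((QuotientGroup.mk' D).comp f)
      ((QuotientGroup.mk'_surjective D).comp hf) rfl
    rw [← hn, card_eq_card_quotient_mul_card_subgroup D]
    have := (D.one_lt_card_iff_ne_bot).2 (ne_bot_of_le_ne_bot hV.1 hD)
    have := Nat.card_pos (α := Q ⧸ D)
    nlinarith
  obtain ⟨m, hm⟩ := Subgroup.nilpotent_iff_lowerCentralSeries.1 (hlt V le_rfl)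
  rw [← map_top_of_surjective _ (QuotientGroup.mk'_surjective V), ← map_lowerCentralSeries,
    Subgroup.map_eq_bot_iff, QuotientGroup.ker_mk'] at hm
  rcases hV.eq_bot_or_eq hm (le_normalizer_of_normal) with h0 | h0
  · exact Subgroup.nilpotent_iff_lowerCentralSeries.2 ⟨m, h0⟩
  have hVf : V = (lcs H m).map f := by
    rw [map_lowerCentralSeries, map_top_of_surjective _ hf, h0]
  have hVq : IsPi {q} V := isPi_singleton_iff.2 (isPGroup_of_elem hVe)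
  haveI : (C⟦V⟧).Normal := inferInstance
  have hVD : V ≤ C⟦V⟧ := comm_iff_le_cent.1 hVe.1
  have hW := nil_top_iff.2 (hlt _ hVD)
  set g := (QuotientGroup.mk' C⟦V⟧).comp f with hg
  have h1 : (piCoreOf {q} ⊤).comap g = ⊤ := top _ fun J hJ y hy => by
    have h2 : zpowers y ≤ (piCoreOf {q} ⊤).comap g := by
      rw [← piCoreOf_sup_compl_of_nil {q} (nil_of_cyclic (A := zpowers y) inferInstance)]
      refine sup_le (map_le_iff_le_comap.1 (le_piCoreOf_of_nil hW le_top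
        ((isPi_piCoreOf _ _).map g))) fun z hz => ?_
      have h3 : z ∈ J := zpowers_le.2 hy (piCoreOf_le _ _ hz)
      have h4 : lcs H m ≤ (C₁⟦f z⟧).comap f := gen m _ fun C hC x hx => by
        have h5 := hq J hJ C hC _ z h3 ((isPi_piCoreOf _ _).elt hz) x hx.2
        have h6 : f ⁅x, z⁆ ∈ V ⊓ (zpowers ⁅x, z⁆).map f := ⟨by
          rw [hVf]
          exact mem_map_of_mem f (commg_le_left le_normalizer_of_normal
            (commutator_mem_commutator hx.1 (mem_top z))), mem_map_of_mem f (mem_zpowers _)⟩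
        rw [hVq.inf_eq_bot ((isPi_zpowers.2 h5).map f), mem_bot, map_commutatorElement,
          commutatorElement_eq_one_iff_mul_comm] at h6
        exact mem_centralizer_singleton_iff.2 h6
      have h7 : g z = 1 := by
        rw [hg, MonoidHom.comp_apply, QuotientGroup.mk'_apply, QuotientGroup.eq_one_iff,
          ← le_cent1_iff, hVf]
        exact map_le_iff_le_comap.2 h4
      rw [mem_comap, h7]; exact one_mem _
    exact h2 (mem_zpowers y)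
  have hWq : IsPi {q} (⊤ : Subgroup (Q ⧸ C⟦V⟧)) := by
    refine (isPi_piCoreOf {q} ⊤).of_le fun w _ => ?_
    obtain ⟨x, rfl⟩ := ((QuotientGroup.mk'_surjective C⟦V⟧).comp hf) w
    exact (h1 ▸ mem_top x : x ∈ (piCoreOf {q} ⊤).comap g)
  obtain ⟨S, hS⟩ := exists_sylowOf (p := q) (⊤ : Subgroup Q)
  have h2 := (hS.map (QuotientGroup.mk' C⟦V⟧))
  rw [map_top_of_surjective _ (QuotientGroup.mk'_surjective _)] at h2
  have h3 := h2.eq_of_le hWq le_top le_rfl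
  have h4 : S ⊔ C⟦V⟧ = ⊤ := by
    have := congrArg (comap (QuotientGroup.mk' C⟦V⟧)) h3
    rwa [comap_map_eq, QuotientGroup.ker_mk', comap_top, eq_comm] at this
  haveI := (isPi_singleton_iff.1 hS.isPi).isNilpotent
  have h5 := inf_cent_ne_bot_of_nil (A := V) (H := S) inferInstance
    ⟨hS.normalIn_le hVq hVn, le_normalizer_of_normal⟩ hV.1
  have h6 : V ⊓ C⟦S⟧ ≤ C⟦(⊤ : Subgroup Q)⟧ := by
    rw [← h4]
    exact le_cent_sup inf_le_right (inf_le_left.trans (le_centralizer_iff.1 le_rfl))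
  have h7 := hV.2.2 _ inf_le_left (norm_of_cent (le_centralizer_iff.1 h6)) h5
  refine Subgroup.nilpotent_iff_lowerCentralSeries.2 ⟨m + 1, ?_⟩
  rw [Subgroup.lowerCentralSeries_succ, h0, commg_eq_bot, ← h7]
  exact h6

theorem comm_sSup_left {X : Type*} [Group X] {𝒮 : Set (Subgroup X)} {W N : Subgroup X}
    (h1 : sSup 𝒮 ≤ N⟦N⟧) (h2 : ∀ J ∈ 𝒮, ⁅J, W⁆ ≤ N) : ⁅sSup 𝒮, W⁆ ≤ N := by
  let D : Subgroup X :=
    { carrier := {x | x ∈ N⟦N⟧ ∧ ∀ y ∈ W, ⁅x, y⁆ ∈ N}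
      one_mem' := ⟨one_mem _, fun y _ => by simp⟩
      mul_mem' := fun {a b} ha hb => ⟨mul_mem ha.1 hb.1, fun y hy => by
        have : ⁅a * b, y⁆ = a * ⁅b, y⁆ * a⁻¹ * ⁅a, y⁆ := by simp only [commutatorElement_def]; group
        rw [this]
        exact mul_mem ((mem_normalizer_iff.1 ha.1 _).1 (hb.2 y hy)) (ha.2 y hy)⟩
      inv_mem' := fun {a} ha => ⟨inv_mem ha.1, fun y hy => by
        have : ⁅a⁻¹, y⁆ = a⁻¹ * ⁅a, y⁆⁻¹ * a⁻¹⁻¹ := by simp only [commutatorElement_def]; group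
        rw [this]
        exact (mem_normalizer_iff.1 (inv_mem ha.1) _).1 (inv_mem (ha.2 y hy))⟩ }
  have : sSup 𝒮 ≤ D := sSup_le fun J hJ x hx =>
    ⟨h1 (le_sSup hJ hx), fun y hy => h2 J hJ (commutator_mem_commutator hx hy)⟩
  exact commutator_le.2 fun x hx y hy => (this hx).2 y hy

section amb

variable {X : Type u} [Group X] (p : ℕ) (A G : Subgroup X)

/-- Centralizers of hyperplanes. -/
def C0 : Set (Subgroup X) := {C | ∃ B ≤ A, B.relIndex A = p ∧ C = G ⊓ C⟦B⟧}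

/-- Product of families. -/
def star (𝒮 𝒯 : Set (Subgroup X)) : Set (Subgroup X) :=
  {K | ∃ J₁ ∈ 𝒮, ∃ J₂ ∈ 𝒯, ∃ C ∈ C0 p A G, K = ⁅J₁, J₂⁆ ⊓ C}

/-- Refinement of families. -/
def Le (𝒮 𝒯 : Set (Subgroup X)) : Prop := ∀ J ∈ 𝒮, ∃ K ∈ 𝒯, J ≤ K

/-- The standing hypotheses. -/
structure Amb : Prop where
  ea : IsElementaryAbelian p A
  ne : A ≠ ⊥
  norm : A ≤ N⟦G⟧
  cop : (♯G).Coprime p

/-- Good families. -/
structure Good (𝒮 : Set (Subgroup X)) (e t : ℕ) (Φ : Subgroup X → Subgroup X) : Prop where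
  inv : ∀ J ∈ 𝒮, A ≤ N⟦J⟧
  sub : Le 𝒮 (C0 p A G)
  cd : ∀ J ∈ 𝒮, ∃ B ≤ A, B.relIndex A ≤ p ^ e ∧ J ≤ Φ (G ⊓ C⟦B⟧)
  card : 𝒮.ncard ≤ t
  mono : Monotone Φ

variable {p A G} {𝒮 𝒮' 𝒯 𝒯' : Set (Subgroup X)}

theorem Le.refl (𝒮 : Set (Subgroup X)) : Le 𝒮 𝒮 := fun J hJ => ⟨J, hJ, le_rfl⟩

theorem Le.trans (h : Le 𝒮 𝒮') (h' : Le 𝒮' 𝒯) : Le 𝒮 𝒯 := fun J hJ => by
  obtain ⟨K, hK, h1⟩ := h J hJ
  obtain ⟨K', hK', h2⟩ := h' K hK
  exact ⟨K', hK', h1.trans h2⟩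

theorem Le.sSup (h : Le 𝒮 𝒯) : sSup 𝒮 ≤ sSup 𝒯 := sSup_le fun J hJ => by
  obtain ⟨K, hK, h1⟩ := h J hJ
  exact h1.trans (le_sSup hK)

theorem Le.star (h : Le 𝒮 𝒮') (h' : Le 𝒯 𝒯') : Le (star p A G 𝒮 𝒯) (star p A G 𝒮' 𝒯') := by
  rintro _ ⟨J₁, h1, J₂, h2, C, hC, rfl⟩
  obtain ⟨K₁, h3, h4⟩ := h J₁ h1
  obtain ⟨K₂, h5, h6⟩ := h' J₂ h2
  exact ⟨_, ⟨K₁, h3, K₂, h5, C, hC, rfl⟩, inf_le_inf_right _ (commutator_mono h4 h6)⟩

theorem star_le : Le (star p A G 𝒮 𝒯) (C0 p A G) := by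
  rintro _ ⟨J₁, -, J₂, -, C, hC, rfl⟩
  exact ⟨C, hC, inf_le_right⟩

theorem Le.le_G (h : Le 𝒮 (C0 p A G)) {J : Subgroup X} (hJ : J ∈ 𝒮) : J ≤ G := by
  obtain ⟨_, ⟨B, -, -, rfl⟩, h1⟩ := h J hJ
  exact h1.trans inf_le_left

variable [Finite X] [hp : Fact p.Prime]

theorem Amb.gen (h : Amb p A G) {T D : Subgroup X} (hT : T ≤ G) (hA : A ≤ N⟦T⟧)
    (hD : ∀ C ∈ C0 p A G, T ⊓ C ≤ D) : T ≤ D :=
  H10.le_of_forall_hyperplane h.ea h.ne hA (H10.coprime_card_of_le hT h.cop) fun B hB e =>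
    le_trans (le_inf inf_le_left (inf_le_inf_right _ hT)) (hD _ ⟨B, hB, e, rfl⟩)

theorem Amb.good0 (h : Amb p A G) : Good p A G (C0 p A G) 1 (2 ^ ♯A) id := by
  refine ⟨?_, Le.refl _, ?_, ?_, monotone_id⟩
  · rintro _ ⟨B, hB, -, rfl⟩
    exact norm_inf_cent h.norm (le_norm_of_comm h.ea.1 le_rfl hB)
  · rintro _ ⟨B, hB, e, rfl⟩
    exact ⟨B, hB, by rw [e, pow_one], le_rfl⟩
  · have h1 : C0 p A G ⊆ Set.range fun s : Set A => G ⊓ centralizer (Subtype.val '' s) := by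
      rintro _ ⟨B, hB, -, rfl⟩
      refine ⟨(B.subgroupOf A : Set A), ?_⟩
      have : Subtype.val '' (B.subgroupOf A : Set A) = B := by
        exact congrArg (fun U : Subgroup X => (U : Set X)) (map_subgroupOf_eq_of_le hB)
      simp only [this]
    refine (Set.ncard_le_ncard h1).trans ?_
    rw [← Set.image_univ]
    refine (Set.ncard_image_le).trans ?_
    haveI := Fintype.ofFinite A
    classical
    rw [Set.ncard_univ, Nat.card_eq_fintype_card, Fintype.card_set, Nat.card_eq_fintype_card]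

theorem Amb.sSup0 (h : Amb p A G) : sSup (C0 p A G) = G :=
  le_antisymm (sSup_le fun _ hJ => (Le.refl _).le_G hJ)
    (h.gen le_rfl h.norm fun _ hC => inf_le_right.trans (le_sSup hC))

theorem Good.star (h : Amb p A G) {e e' t t' : ℕ} {Φ Ψ : Subgroup X → Subgroup X}
    (h1 : Good p A G 𝒮 e t Φ) (h2 : Good p A G 𝒯 e' t' Ψ) :
    Good p A G (star p A G 𝒮 𝒯) (e + e') (t * (t' * 2 ^ ♯A)) fun Y => ⁅Φ Y, Ψ Y⁆ := by
  refine ⟨?_, star_le, ?_, ?_, fun Y Z hYZ => commutator_mono (h1.mono hYZ) (h2.mono hYZ)⟩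
  · rintro _ ⟨J₁, h3, J₂, h4, C, hC, rfl⟩
    exact norm_inf (norm_commutator (h1.inv _ h3) (h2.inv _ h4)) (h.good0.inv _ hC)
  · rintro _ ⟨J₁, h3, J₂, h4, C, hC, rfl⟩
    obtain ⟨B, hB, h5, h6⟩ := h1.cd _ h3
    obtain ⟨B', hB', h7, h8⟩ := h2.cd _ h4
    refine ⟨B ⊓ B', inf_le_left.trans hB, relIndex_inf_le.trans ?_, inf_le_left.trans
      (commutator_mono (h6.trans (h1.mono (inf_le_inf_left _ (centralizer_le inf_le_left))))
        (h8.trans (h2.mono (inf_le_inf_left _ (centralizer_le inf_le_right)))))⟩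
    rw [pow_add]; exact Nat.mul_le_mul h5 h7
  · have h3 : GK.star p A G 𝒮 𝒯 ⊆ (fun x : Subgroup X × Subgroup X × Subgroup X =>
        ⁅x.1, x.2.1⁆ ⊓ x.2.2) '' (𝒮 ×ˢ (𝒯 ×ˢ C0 p A G)) := by
      rintro _ ⟨J₁, h3, J₂, h4, C, hC, rfl⟩
      exact ⟨(J₁, J₂, C), ⟨h3, h4, hC⟩, rfl⟩
    refine (Set.ncard_le_ncard h3).trans (le_trans (Set.ncard_image_le (Set.toFinite _)) ?_)
    rw [Set.ncard_prod, Set.ncard_prod]
    exact Nat.mul_le_mul h1.card (Nat.mul_le_mul h2.card h.good0.card)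

theorem Good.sSup_star (h : Amb p A G) {e e' t t' : ℕ} {Φ Ψ : Subgroup X → Subgroup X}
    (h1 : Good p A G 𝒮 e t Φ) (h2 : Good p A G 𝒯 e' t' Ψ) (h3 : Le (GK.star p A G 𝒮 𝒯) 𝒮)
    (h4 : sSup 𝒮 ≤ sSup 𝒯) : sSup (GK.star p A G 𝒮 𝒯) = ⁅sSup 𝒮, sSup 𝒯⁆ := by
  refine le_antisymm (sSup_le ?_) ?_
  · rintro _ ⟨J₁, h3, J₂, h4, C, hC, rfl⟩
    exact inf_le_left.trans (commutator_mono (le_sSup h3) (le_sSup h4))
  set N := sSup (GK.star p A G 𝒮 𝒯)
  have h5 : ∀ J₁ ∈ 𝒮, ∀ J₂ ∈ 𝒯, ⁅J₁, J₂⁆ ≤ N := fun J₁ h5 J₂ h6 =>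
    h.gen (commg_le_of_le (h1.sub.le_G h5) (h2.sub.le_G h6))
      (norm_commutator (h1.inv _ h5) (h2.inv _ h6)) fun C hC => le_sSup ⟨J₁, h5, J₂, h6, C, hC, rfl⟩
  have h6 : sSup 𝒯 ≤ N⟦N⟧ := sSup_le fun J hJ => norm_of_commg_le
    (comm_sSup_left le_normalizer fun K hK => by
      obtain ⟨K', hK', hle⟩ := h3 K hK
      exact (commutator_mono hle le_rfl).trans (h5 K' hK' J hJ))
  refine comm_sSup_left (h4.trans h6) fun J hJ => ?_
  rw [commutator_comm]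
  refine comm_sSup_left h6 fun J' hJ' => ?_
  rw [commutator_comm]; exact h5 J hJ J' hJ'

/-- The final bound. -/
def fb (p t c r : ℕ) : ℕ := (Finset.range (t + 1)).sup fun j => cb p j (c + 1) r

theorem Good.main (h : Amb p A G) {k e t c r : ℕ} {Φ : Subgroup X → Subgroup X}
    (hA : ♯A = p ^ k) (hk : 3 ≤ k) (he : e + 2 ≤ k) (h1 : Good p A G 𝒮 e t Φ)
    (hcl : Le (GK.star p A G 𝒮 𝒮) 𝒮)
    (hΦ : ∀ a ∈ A, a ≠ 1 → G ⊓ C₁⟦a⟧ ≤ N⟦Φ (G ⊓ C₁⟦a⟧)⟧ ∧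
      (Φ (G ⊓ C₁⟦a⟧)).lowerCentralSeries c = ⊥ ∧ (fun Y => ⁅Y, Y⁆)^[r] (G ⊓ C₁⟦a⟧) = ⊥) :
    (sSup 𝒮).lowerCentralSeries (fb p t c r) = ⊥ := by
  classical
  have hF : ∀ J ∈ 𝒮, ∀ C ∈ C0 p A G, ∃ F : Subgroup X, J ≤ F ∧ C ≤ N⟦F⟧ ∧
      F.lowerCentralSeries c = ⊥ := by
    rintro J hJ _ ⟨B', hB', e', rfl⟩
    obtain ⟨B, hB, h2, h3⟩ := h1.cd J hJ
    have h4 : B ⊓ B' ≠ ⊥ := fun e => by
      have h5 := relIndex_inf_le (H := B) (K := B') (L := A)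
      rw [e, relIndex_bot_left, hA, e'] at h5
      have := (Nat.pow_le_pow_iff_right hp.out.one_lt).1
        (h5.trans ((Nat.mul_le_mul_right p h2).trans_eq (pow_succ p _).symm))
      omega
    obtain ⟨a, ha, ha1⟩ := H10.exists_ne_one_of_ne_bot h4
    obtain ⟨h5, h6, -⟩ := hΦ a (hB ha.1) ha1
    exact ⟨_, h3.trans (h1.mono (inf_le_inf_left _ (cent_le_cent1 ha.1))),
      (inf_le_inf_left _ (cent_le_cent1 ha.2)).trans h5, h6⟩
  have hder : ∀ (Y : Subgroup X) (n : ℕ),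
      (derivedSeries Y n).map Y.subtype = (fun Y => ⁅Y, Y⁆)^[n] Y := fun Y n => by
    induction n with
    | zero => exact top_subtype_lowerCentralSeries Y 0
    | succ n ih => rw [derivedSeries_succ, map_commutator, ih, Function.iterate_succ_apply']
  have hG : Group.IsSolvable G := S3757.result A G h.ea
    ((Nat.pow_le_pow_right hp.out.pos hk).trans hA.ge) h.norm h.cop fun a ha ha1 =>
      ⟨⟨r, (map_eq_bot_iff_of_injective _ (subtype_injective _)).1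
        ((hder _ r).trans (hΦ a ha ha1).2.2)⟩⟩
  set H := sSup 𝒮 with hH
  have hHG : H ≤ G := sSup_le fun J hJ => h1.sub.le_G hJ
  have hAH : A ≤ N⟦H⟧ := by
    rw [hH, sSup_eq_iSup']; exact norm_iSup fun J => h1.inv J J.2
  let Ψ : Set (MulAut H) := {α | ∃ a ∈ A, ∀ x : H, (α x : X) = a * x * a⁻¹}
  have hΨ : ∀ a (ha : a ∈ A), H.normalizerMonoidHom ⟨a, hAH ha⟩ ∈ Ψ := fun a ha => ⟨a, ha, fun _ => rfl⟩
  let 𝒞 : Set (Subgroup H) := (fun C => C.subgroupOf H) '' C0 p A G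
  let F : Finset (Subgroup H) := (Set.toFinite 𝒮).toFinset.image fun C => C.subgroupOf H
  have hmem : ∀ J, J ∈ F ↔ ∃ K ∈ 𝒮, K.subgroupOf H = J := fun J => by simp [F]
  have htop : ∀ D : Subgroup H, (∀ J ∈ F, J ≤ D) → D = ⊤ := fun D hD => by
    have : H ≤ D.map H.subtype := sSup_le fun J hJ x hx =>
      ⟨⟨x, le_sSup hJ hx⟩, hD _ ((hmem _).2 ⟨J, hJ, rfl⟩) hx, rfl⟩
    refine eq_top_iff.2 fun x _ => ?_
    obtain ⟨y, hy, e⟩ := this x.2
    exact (Subtype.ext e : y = x) ▸ hy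
  have hgen : ∀ T D : Subgroup H, Inv Ψ T → (∀ C ∈ 𝒞, T ⊓ C ≤ D) → T ≤ D := fun T D hT hD => by
    rw [← map_subtype_le_map_subtype]
    refine h.gen ((map_subtype_le T).trans hHG) (fun a ha => mem_norm_of_forall ?_) ?_
    · rintro _ ⟨x, hx, rfl⟩
      exact ⟨_, hT _ (hΨ a ha) x hx, rfl⟩
    · rintro C hC _ ⟨⟨x, hx, rfl⟩, hx'⟩
      exact ⟨x, hD _ ⟨C, hC, rfl⟩ ⟨hx, hx'⟩, rfl⟩
  have hcm : ∀ U V : Subgroup X, ⁅U.subgroupOf H, V.subgroupOf H⁆ ≤ (⁅U, V⁆).subgroupOf H :=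
    fun U V => commutator_le.2 fun x hx y hy => commutator_mem_commutator (g₁ := (x : X)) hx hy
  have hfam : Fam Ψ 𝒞 F (c + 1) := by
    refine ⟨fun J hJ => ?_, htop _ fun J hJ => le_iSup₂_of_le (f := fun J (_ : J ∈ F) => J) J hJ le_rfl,
      hgen, fun J₁ h2 J₂ h3 => ?_, fun J hJ => ?_⟩
    · obtain ⟨K, hK, rfl⟩ := (hmem _).1 hJ
      rintro α ⟨a, ha, hα⟩ x hx
      rw [mem_subgroupOf, hα]
      exact (mem_normalizer_iff.1 (h1.inv K hK ha) _).1 hx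
    · obtain ⟨K₁, h4, rfl⟩ := (hmem _).1 h2
      obtain ⟨K₂, h5, rfl⟩ := (hmem _).1 h3
      rintro _ ⟨C, hC, rfl⟩
      obtain ⟨K, hK, hle⟩ := hcl _ ⟨K₁, h4, K₂, h5, C, hC, rfl⟩
      exact ⟨_, (hmem _).2 ⟨K, hK, rfl⟩, fun x hx => hle ⟨hcm _ _ hx.1, hx.2⟩⟩
    · obtain ⟨K, hK, rfl⟩ := (hmem _).1 hJ
      rintro _ ⟨C, hC, rfl⟩
      obtain ⟨F', h2, h3, h4⟩ := hF K hK C hC
      have : ∀ m, (fun Y => ⁅Y, K.subgroupOf H⁆)^[m + 1] (C.subgroupOf H) ≤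
          (F'.lowerCentralSeries m).subgroupOf H := fun m => by
        induction m with
        | zero =>
          exact (hcm _ _).trans (comap_mono ((commutator_mono le_rfl h2).trans (commg_le_right h3)))
        | succ m ih =>
          rw [Function.iterate_succ_apply']
          exact (commutator_mono ih le_rfl).trans ((hcm _ _).trans
            (comap_mono (commutator_mono le_rfl h2)))
      have h5 := this c
      rwa [h4, bot_subgroupOf, le_bot_iff] at h5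
  have hnil : Group.IsNilpotent H := by
    refine nil_of_fam (𝒞 := 𝒞) (F := F) (sol_of_le hG hHG) htop
      (fun n D => hgen _ D fun α _ x hx => aut_lcs α hx) fun J hJ => ?_
    obtain ⟨K, hK, rfl⟩ := (hmem _).1 hJ
    rintro _ ⟨C, hC, rfl⟩ π y hy hπ x hx
    obtain ⟨F', h2, h3, h4⟩ := hF K hK C hC
    have h5 : (y : X) ∈ piCoreOf π F' := le_piCoreOf_of_nil
      ((isNilpotent_iff_lowerCentralSeries F').2 ⟨c, h4⟩) (zpowers_le.2 (h2 hy))
      (isPi_zpowers.2 (isPiElt_iff.2 ((orderOf_coe y).symm ▸ isPiElt_iff.1 hπ))) (mem_zpowers _)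
    have h6 := (isPi_piCoreOf π F').elt (commg_le_right (norm_piCoreOf π h3)
      (commutator_mem_commutator (g₁ := (x : X)) hx h5))
    rw [isPiElt_iff] at h6 ⊢
    rw [← orderOf_coe]
    exact h6
  obtain ⟨a, ha, ha1⟩ := H10.exists_ne_one_of_ne_bot h.ne
  have h2 := hfam.cls (p := p) (H10.coprime_card_of_le hHG h.cop) hnil (hΨ a ha)
    (by
      rw [← map_pow, show (⟨a, hAH ha⟩ : N⟦H⟧) ^ p = 1 from Subtype.ext (h.ea.2 a ha), map_one])
    (by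
      rintro β ⟨b, hb, hβ⟩
      ext x
      rw [MulAut.mul_apply, MulAut.mul_apply, hβ]
      show b * (a * x * a⁻¹) * b⁻¹ = a * β x * a⁻¹
      have := comm_iff.1 h.ea.1 a ha b hb
      rw [hβ]
      calc b * (a * x * a⁻¹) * b⁻¹ = (b * a) * x * (b * a)⁻¹ := by group
        _ = _ := by rw [← this]; group)
    (C := (G ⊓ C₁⟦a⟧).subgroupOf H) (fun x hx => ⟨hHG x.2, by
      have : a * x * a⁻¹ = x := congrArg Subtype.val hx
      exact mem_centralizer_singleton_iff.2 (mul_inv_eq_iff_eq_mul.1 this).symm⟩) (r := r) (by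
      have : ∀ m, (fun Y => ⁅Y, Y⁆)^[m] ((G ⊓ C₁⟦a⟧).subgroupOf H) ≤
          ((fun Y => ⁅Y, Y⁆)^[m] (G ⊓ C₁⟦a⟧)).subgroupOf H := fun m => by
        induction m with
        | zero => exact le_rfl
        | succ m ih =>
          rw [Function.iterate_succ_apply', Function.iterate_succ_apply']
          exact (commutator_mono ih ih).trans (hcm _ _)
      have h5 := this r
      rwa [(hΦ a ha ha1).2.2, bot_subgroupOf, le_bot_iff] at h5)
  have h3 : F.card ≤ t := Finset.card_image_le.trans (by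
    rw [← Set.ncard_eq_toFinset_card]; exact h1.card)
  have h4 : cb p F.card (c + 1) r ≤ fb p t c r :=
    Finset.le_sup (f := fun j => cb p j (c + 1) r) (Finset.mem_range.2 (Nat.lt_succ_of_le h3))
  have h5 : (⊤ : Subgroup H).lowerCentralSeries (fb p t c r) = ⊥ :=
    eq_bot_iff.2 ((lcs_anti h4).trans h2.le)
  rw [← top_subtype_lowerCentralSeries, h5, Subgroup.map_bot]

end amb

end Cfsg.Agent.H25.GK
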