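import Cfsg.Agent.H25.GK3

/-! The derived and lower central families, and the passage to the holomorph. -/

set_option autoImplicit false
set_option linter.style.haveILetI false

namespace Cfsg.Agent.H25.GK

open Subgroup Cfsg.Agent.H20 Cfsg.Agent.H21 Cfsg.Agent.H1.Lie
open scoped commutatorElement

universe u

section amb

variable {X : Type u} [Group X] {p : ℕ} {A G : Subgroup X}

theorem der_mono (n : ℕ) : Monotone (fun Y : Subgroup X => ⁅Y, Y⁆)^[n] :=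
  Monotone.iterate (fun _ _ h => commutator_mono h h) n

theorem der_le_lcs (Y : Subgroup X) (n : ℕ) :
    (fun Y : Subgroup X => ⁅Y, Y⁆)^[n] Y ≤ Y.lowerCentralSeries n := by
  induction n with
  | zero => exact le_rfl
  | succ n ih =>
    rw [Function.iterate_succ_apply']
    exact commutator_mono ih (ih.trans (Y.lowerCentralSeries_antitone (Nat.zero_le n)))

theorem norm_der_iter (Y : Subgroup X) (n : ℕ) : Y ≤ N⟦(fun Y : Subgroup X => ⁅Y, Y⁆)^[n] Y⟧ := by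
  induction n with
  | zero => exact le_normalizer
  | succ n ih => rw [Function.iterate_succ_apply']; exact norm_der ih

theorem map_der {G : Type*} [Group G] (f : G →* X) (n : ℕ) :
    (derivedSeries G n).map f = (fun Y => ⁅Y, Y⁆)^[n] ((⊤ : Subgroup G).map f) := by
  induction n with
  | zero => rfl
  | succ n ih => rw [derivedSeries_succ, map_commutator, ih, Function.iterate_succ_apply']

/-- Number of derived special subgroups. -/
def td (s : ℕ) : ℕ → ℕ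
  | 0 => s
  | i + 1 => td s i * (td s i * s)

/-- Number of lower central special subgroups. -/
def tg (s : ℕ) : ℕ → ℕ
  | 0 => s
  | i + 1 => tg s i * (s * s)

variable [Finite X] [hp : Fact p.Prime]

theorem Amb.fam_der (h : Amb p A G) (d : ℕ) : ∃ 𝒮, Good p A G 𝒮 (2 ^ d) (td (2 ^ ♯A) d)
    (fun Y => ⁅Y, Y⁆)^[d] ∧ Le (star p A G 𝒮 𝒮) 𝒮 ∧ sSup 𝒮 = (fun Y => ⁅Y, Y⁆)^[d] G := by
  induction d with
  | zero => exact ⟨_, h.good0, star_le, h.sSup0⟩
  | succ d ih =>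
    obtain ⟨𝒮, h1, h2, h3⟩ := ih
    refine ⟨star p A G 𝒮 𝒮, ?_, h2.star h2, ?_⟩
    · rw [pow_succ, mul_two, Function.iterate_succ']
      exact h1.star h h1
    · rw [h1.sSup_star h h1 h2 le_rfl, h3, Function.iterate_succ_apply']

theorem Amb.fam_lcs (h : Amb p A G) (d : ℕ) : ∃ 𝒮, Good p A G 𝒮 (d + 1) (tg (2 ^ ♯A) d)
    (fun Y => Y.lowerCentralSeries d) ∧ Le (star p A G 𝒮 (C0 p A G)) 𝒮 ∧
    sSup 𝒮 = G.lowerCentralSeries d := by
  induction d with
  | zero => exact ⟨_, h.good0, star_le, h.sSup0⟩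
  | succ d ih =>
    obtain ⟨𝒮, h1, h2, h3⟩ := ih
    refine ⟨star p A G 𝒮 (C0 p A G), h1.star h h.good0, h2.star (Le.refl _), ?_⟩
    rw [h1.sSup_star h h.good0 h2 h1.sub.sSup, h3, h.sSup0]; rfl

theorem Amb.main_der (h : Amb p A G) {k c d : ℕ} (hA : ♯A = p ^ k) (hk : 3 ≤ k)
    (hd : 2 ^ d + 2 ≤ k) (hc : ∀ a ∈ A, a ≠ 1 →
      ((fun Y => ⁅Y, Y⁆)^[d] (G ⊓ C₁⟦a⟧)).lowerCentralSeries c = ⊥) :
    ((fun Y => ⁅Y, Y⁆)^[d] G).lowerCentralSeries (fb p (td (2 ^ p ^ k) d) c (c + d)) = ⊥ := by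
  obtain ⟨𝒮, h1, h2, h3⟩ := h.fam_der d
  rw [← h3, ← hA]
  refine h1.main h hA hk hd h2 fun a ha ha1 => ⟨norm_der_iter _ _, hc a ha ha1, ?_⟩
  rw [Function.iterate_add_apply]
  exact eq_bot_iff.2 ((der_le_lcs _ _).trans (hc a ha ha1).le)

theorem Amb.main_lcs (h : Amb p A G) {k c : ℕ} (hA : ♯A = p ^ k) (hk : 3 ≤ k)
    (hc : ∀ a ∈ A, a ≠ 1 →
      ((G ⊓ C₁⟦a⟧).lowerCentralSeries (k - 3)).lowerCentralSeries c = ⊥) :
    (G.lowerCentralSeries (k - 3)).lowerCentralSeries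
      (fb p (tg (2 ^ p ^ k) (k - 3)) c (c + (k - 3))) = ⊥ := by
  obtain ⟨𝒮, h1, h2, h3⟩ := h.fam_lcs (k - 3)
  rw [← h3, ← hA]
  refine h1.main h hA hk (by omega) (((Le.refl _).star h1.sub).trans h2) fun a ha ha1 =>
    ⟨self_le_normalizer_lowerCentralSeries _ _, hc a ha ha1, ?_⟩
  rw [Function.iterate_add_apply]
  exact eq_bot_iff.2 ((der_mono c (der_le_lcs _ _)).trans ((der_le_lcs _ _).trans (hc a ha ha1).le))

end amb

section hol

variable {G : Type u} [Group G] {p : ℕ} {A : Subgroup (MulAut G)}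

theorem hol_amb [Finite G] [hp : Fact p.Prime] (hc : (Nat.card G).Coprime p)
    (hA : IsElementaryAbelian p A) {k : ℕ} (hk : 3 ≤ k) (hcard : Nat.card A = p ^ k) :
    Amb p ((⊤ : Subgroup A).map (Hol.r A.subtype)) ((⊤ : Subgroup G).map (Hol.l A.subtype)) := by
  refine ⟨⟨comm_iff.2 ?_, ?_⟩, fun e => ?_, Hol.le_norm_top _, by rwa [Hol.card_l_top]⟩
  · rintro _ ⟨a, -, rfl⟩ _ ⟨b, -, rfl⟩
    rw [← map_mul, ← map_mul, show a * b = b * a from Subtype.ext (comm_iff.1 hA.1 _ a.2 _ b.2)]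
  · rintro _ ⟨a, -, rfl⟩
    rw [← map_pow, show a ^ p = 1 from Subtype.ext (hA.2 _ a.2), map_one]
  · have := Hol.card_r_top A.subtype
    rw [e, card_bot, hcard] at this
    have h1 := Nat.one_lt_pow (n := k) (by omega) hp.out.one_lt
    omega

theorem hol_cent (a : A) : (⊤ : Subgroup G).map (Hol.l A.subtype) ⊓ C₁⟦Hol.r A.subtype a⟧ =
    (⊤ : Subgroup ↥((a : MulAut G).toMonoidHom.eqLocus (MonoidHom.id G))).map
      ((Hol.l A.subtype).comp (Subgroup.subtype _)) := by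
  ext x
  constructor
  · rintro ⟨⟨y, -, rfl⟩, hy⟩
    exact ⟨⟨y, (Hol.comm_iff _).1 (mem_centralizer_singleton_iff.1 hy)⟩, trivial, rfl⟩
  · rintro ⟨y, -, rfl⟩
    exact ⟨⟨y, trivial, rfl⟩, mem_centralizer_singleton_iff.2 ((Hol.comm_iff _).2 y.2)⟩

end hol

end Cfsg.Agent.H25.GK
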