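import Cfsg.Agent.H21.Base5
import Cfsg.Agent.H3.PNil
import Cfsg.Agent.H26.ClassSize
import Cfsg.Agent.H26.Frob
import Cfsg.Agent.H4.Frobenius
import Cfsg.Agent.S0575
import Cfsg.Agent.FT

set_option autoImplicit false

namespace Cfsg.Agent.H25
open Subgroup Cfsg.Agent.H20 Cfsg.Agent.H21
open scoped commutatorElement Pointwise

variable {G : Type*} [Group G] [Finite G]

theorem solvable_of_selfnorm_comm_two {P : Subgroup G} (hP : IsPGroup 2 P)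
    (hc : IsMulCommutative P) (hn : N⟦P⟧ ≤ P) : Group.IsSolvable G := by
  have h1 : SylowOf 2 P ⊤ := sylowOf_of_max hP le_top fun Q hQ h1 _ =>
    (eq_of_nilpotent_of_inf_norm_le hQ.isNilpotent h1 (inf_le_right.trans hn)).symm
  obtain ⟨S, rfl⟩ := h1.exists_sylow_top
  have h2 : N⟦(S : Subgroup G)⟧ ≤ C⟦(S : Subgroup G)⟧ := hn.trans (le_centralizer _)
  have h3 := MonoidHom.ker_transferSylow_isComplement' S h2
  have h4 : Odd (Nat.card (MonoidHom.transferSylow S h2).ker) := by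
    rw [← h3.index_eq_card, ← Nat.not_even_iff_odd, even_iff_two_dvd]
    exact S.not_dvd_index
  haveI := FT.solvable_of_odd h4
  haveI : Group.IsSolvable (S : Subgroup G) := isSolvable_of_comm fun a b => mul_comm' a b
  exact solvable_of_ker_le_range (MonoidHom.transferSylow S h2).ker.subtype
    (MonoidHom.transferSylow S h2) (by rw [range_subtype])

theorem mem_of_pow_mem_of_coprime {H : Subgroup G} {v : G} {n : ℕ} (h : v ^ n ∈ H)
    (hc : (orderOf v).Coprime n) : v ∈ H := by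
  have : v ∈ zpowers (v ^ n) := (mem_zpowers_pow_iff (g := v) (k := n)).mpr
    (by rw [Nat.gcd_comm]; exact hc)
  exact zpowers_le.mpr h this

theorem exists_pow_prime_mod {H : Subgroup G} {x : G} (hx : x ∉ H) :
    ∃ k p : ℕ, p.Prime ∧ x ^ k ∉ H ∧ (x ^ k) ^ p ∈ H := by
  classical
  have h : ∃ n, 0 < n ∧ x ^ n ∈ H := ⟨orderOf x, orderOf_pos x, by simp⟩
  obtain ⟨h0, h1⟩ := Nat.find_spec h
  have h2 : Nat.find h ≠ 1 := fun e => hx (by simpa [e] using h1)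
  obtain ⟨p, hp, k, hk⟩ := Nat.exists_prime_and_dvd h2
  have hk0 : 0 < k := Nat.pos_of_ne_zero fun e => by rw [e] at hk; omega
  refine ⟨k, p, hp, fun h3 => Nat.find_min h (m := k) ?_ ⟨hk0, h3⟩, ?_⟩
  · rw [hk]; exact lt_mul_of_one_lt_left hk0 hp.one_lt
  · rwa [← pow_mul, mul_comm, ← hk]

/-- Hypothesis: centralizers of the elements of `N` noncentral in `N` are maximal subgroups. -/
def MC (N : Subgroup G) : Prop := ∀ x : G, x ∈ N → x ∉ C⟦N⟧ → IsCoatom C₁⟦x⟧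

/-- The part of the partition containing `x`. -/
def mcA (N : Subgroup G) (x : G) : Subgroup G := N ⊓ C⟦C₁⟦x⟧⟧

section
variable {N : Subgroup G} {x y : G}

omit [Finite G] in
theorem mem_mcA : y ∈ mcA N x ↔ y ∈ N ∧ C₁⟦x⟧ ≤ C₁⟦y⟧ := by
  rw [mcA, mem_inf, H26.le_cent_iff]

omit [Finite G] in
theorem self_mem_mcA (hx : x ∈ N) : x ∈ mcA N x := mem_mcA.mpr ⟨hx, le_rfl⟩

omit [Finite G] in
theorem mcA_le : mcA N x ≤ N := inf_le_left

omit [Finite G] in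
theorem mcA_le_cent : mcA N x ≤ C₁⟦x⟧ := fun _ hy =>
  H26.mem_cent_comm.mp ((mem_mcA.mp hy).2 (H26.mem_cent_self x))

omit [Finite G] in
theorem mcA_comm {a b : G} (ha : a ∈ mcA N x) (hb : b ∈ mcA N x) : a * b = b * a :=
  H26.mem_cent.mp ((mem_mcA.mp hb).2 (mcA_le_cent ha))

omit [Finite G] in
theorem mem_mcA_of_center (hy : y ∈ N) (h : y ∈ center G) : y ∈ mcA N x :=
  mem_mcA.mpr ⟨hy, by rw [H26.cent_eq_top_iff.mpr h]; exact le_top⟩

omit [Finite G] in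
theorem mcA_congr (h : C₁⟦x⟧ = C₁⟦y⟧) : mcA N x = mcA N y := by rw [mcA, mcA, h]

omit [Finite G] in
theorem not_le_cent (hx : x ∉ C⟦N⟧) : ¬ N ≤ C₁⟦x⟧ := fun h => hx (H26.le_cent_iff.mp h)

omit [Finite G] in
theorem cent_le_norm_mcA : C₁⟦x⟧ ≤ N⟦mcA N x⟧ := by
  exact norm_of_cent (cent_symm inf_le_right)

omit [Finite G] in
theorem mc_ker (a : N) : (QuotientGroup.mk' (center N) a = 1) ↔ (a : G) ∈ C⟦N⟧ := by
  rw [QuotientGroup.mk'_apply, QuotientGroup.eq_one_iff, mem_center_iff, mem_centralizer_iff]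
  constructor
  · intro h g hg; exact congrArg Subtype.val (h ⟨g, hg⟩)
  · intro h g; exact Subtype.ext (h g g.2)

omit [Finite G] in
theorem coatom_dec {M L : Subgroup G} (hM : IsCoatom M) [L.Normal] (h : ¬ L ≤ M) (g : G) :
    ∃ m ∈ M, ∃ l ∈ L, m * l = g := by
  have h1 : M ⊔ L = ⊤ := hM.2 _ (lt_of_le_of_ne le_sup_left fun e => h (e ▸ le_sup_right))
  have h2 : g ∈ M ⊔ L := h1 ▸ mem_top g
  exact mem_sup_of_normal_right.mp h2

namespace MC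
variable (h : MC N)
include h

omit [Finite G] in
theorem eq (hx : x ∈ N) (hx' : x ∉ C⟦N⟧) (hy' : y ∉ C⟦N⟧) (hle : C₁⟦x⟧ ≤ C₁⟦y⟧) :
    C₁⟦y⟧ = C₁⟦x⟧ :=
  ((h x hx hx').le_iff_eq fun e => not_le_cent hy' (by rw [e]; exact le_top)).mp hle

omit [Finite G] in
theorem eq_of_mem (hx : x ∈ N) (hx' : x ∉ C⟦N⟧) (hy : y ∈ mcA N x) (hy' : y ∉ C⟦N⟧) :
    C₁⟦y⟧ = C₁⟦x⟧ := h.eq hx hx' hy' (mem_mcA.mp hy).2

omit [Finite G] in
theorem pow_eq (hx : x ∈ N) {k : ℕ} (hk : x ^ k ∉ C⟦N⟧) : C₁⟦x ^ k⟧ = C₁⟦x⟧ :=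
  h.eq hx (fun e => hk (pow_mem e k)) hk (H26.cent_le_cent_pow x k)

/-- The case where `N / Z(N)` is a `p`-group. -/
theorem elem [hN : N.Normal] {p : ℕ} (hp : p.Prime)
    (hv : ∀ v ∈ N, (orderOf v).Coprime p → v ∈ C⟦N⟧) :
    IsElementaryAbelian p (⊤ : Subgroup (N ⧸ center N)) := by
  haveI := Fact.mk hp
  have hpg : IsPGroup p (N ⧸ center N) := by
    intro g
    obtain ⟨a, rfl⟩ := QuotientGroup.mk'_surjective (center N) g
    obtain ⟨u, v, hu, hv', ⟨k, hk⟩, hc, e⟩ := H3.exists_p_part p a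
    have h1 : QuotientGroup.mk' (center N) v = 1 :=
      (mc_ker v).mpr (hv _ v.2 (by rwa [orderOf_coe]))
    refine ⟨k, ?_⟩
    rw [e, map_mul, h1, mul_one, ← map_pow, hk, map_one]
  have hnil : Group.IsNilpotent N := of_quotient_center_nilpotent hpg.isNilpotent
  set R := piCoreOf {p} N with hR
  haveI hRn : R.Normal := (piCoreOf_normalIn_of {p} (NormalIn.of_normal N)).normal
  have hRp : IsPGroup p R := (pCoreOf_sylow_of_nil hnil).isPGroup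
  have hRN : R ≤ N := (piCoreOf_normalIn {p} N).le
  have hF : (frattini R).map R.subtype ≤ C⟦N⟧ := by
    intro f hf
    have hfN : f ∈ N := hRN (map_subtype_le _ hf)
    rw [mem_centralizer_iff]
    intro n hn
    by_cases hc : n ∈ C⟦N⟧
    · exact (mem_centralizer_iff.mp hc f hfN).symm
    · exact (H26.mem_cent.mp (frattini_le_coatom (h n hn hc) (S0575.result R hf))).symm
  have hrep : ∀ g : N ⧸ center N, ∃ u : N, (u : G) ∈ R ∧ QuotientGroup.mk' (center N) u = g := by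
    intro g
    obtain ⟨a, rfl⟩ := QuotientGroup.mk'_surjective (center N) g
    obtain ⟨u, v, hu, hv', ⟨k, hk⟩, hc, e⟩ := H3.exists_p_part p a
    have h1 : QuotientGroup.mk' (center N) v = 1 :=
      (mc_ker v).mpr (hv _ v.2 (by rwa [orderOf_coe]))
    refine ⟨u, ?_, by rw [e, map_mul, h1, mul_one]⟩
    refine le_pCoreOf_of_nil hnil (zpowers_le.mpr u.2) ?_ (mem_zpowers _)
    refine IsPGroup.of_card_dvd_pow (n := k) ?_
    rw [Nat.card_zpowers]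
    exact orderOf_dvd_of_pow_eq_one (by rw [← coe_pow, hk, coe_one])
  refine ⟨H3.isMulCommutative_iff_mem.mpr fun a _ b _ => ?_, fun a _ => ?_⟩
  · obtain ⟨u, hu, rfl⟩ := hrep a
    obtain ⟨v, hv, rfl⟩ := hrep b
    rw [← commutatorElement_eq_one_iff_mul_comm, ← map_commutatorElement, mc_ker]
    exact hF (H3.commutator_le_frattiniOf hRp (commutator_mem_commutator hu hv))
  · obtain ⟨u, hu, rfl⟩ := hrep a
    rw [← map_pow, mc_ker]
    exact hF (H3.pow_mem_frattiniOf hRp hu)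

/-- If `N / Z(N)` is not of prime power order, then `Z(N)` is central. -/
theorem cent_le_center [hN : N.Normal]
    (hv : ∀ p : ℕ, p.Prime → ∃ v ∈ N, (orderOf v).Coprime p ∧ v ∉ C⟦N⟧) :
    N ⊓ C⟦N⟧ ≤ center G := by
  have hc : IsMulCommutative ↥(N ⊓ C⟦N⟧) := H1.isMulCommutative_inf_centralizer N
  have hnil : Group.IsNilpotent ↥(N ⊓ C⟦N⟧) := H21.nil_of_comm hc
  refine le_of_nil_forall_pCoreOf hnil fun p hp _ z hz => ?_
  haveI := Fact.mk hp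
  obtain ⟨v, hvN, hvc, hv'⟩ := hv p hp
  obtain ⟨hz1, hz2⟩ := mem_inf.mp ((piCoreOf_normalIn {p} _).le hz)
  obtain ⟨k, hk⟩ := (pCoreOf_sylow_of_nil (p := p) hnil).isPGroup ⟨z, hz⟩
  have hk' : z ^ p ^ k = 1 := congrArg Subtype.val hk
  have hcop : (orderOf v).Coprime (orderOf z) :=
    (hvc.pow_right k).coprime_dvd_right (orderOf_dvd_of_pow_eq_one hk')
  have hcm : Commute v z := mem_centralizer_iff.mp hz2 v hvN
  have h1 := H26.cent_mul_of_coprime hcm hcop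
  have h2 : v * z ∉ C⟦N⟧ := fun e => hv' (by simpa using mul_mem e (inv_mem hz2))
  have h3 := h.eq (mul_mem hvN hz1) h2 hv' (h1 ▸ inf_le_left)
  have h4 : C₁⟦v⟧ ≤ C₁⟦z⟧ := by rw [h3, h1]; exact inf_le_right
  rw [← H26.cent_eq_top_iff, eq_top_iff]
  intro g _
  obtain ⟨m, hm, l, hl, rfl⟩ := coatom_dec (h v hvN hv') (not_le_cent hv') g
  exact mul_mem (h4 hm) (H26.le_cent_iff.mpr hz2 hl)

omit [Finite G] in
theorem pow_mem_aux (hZ : N ⊓ C⟦N⟧ ≤ center G) (hx : x ∈ N) (hx' : x ∉ C⟦N⟧) {p : ℕ}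
    (hp : x ^ p ∈ C⟦N⟧) {v : G} (hv : v ∈ N) (hvx : v ∈ C₁⟦x⟧) (hv' : v ∉ mcA N x) :
    v ^ p ∈ C⟦N⟧ := by
  by_contra hc
  have hcm : Commute x v := (H26.mem_cent.mp hvx).symm
  have hz : x ^ p ∈ center G := hZ (mem_inf.mpr ⟨pow_mem hx p, hp⟩)
  have h1 : (x * v) ^ p ∉ C⟦N⟧ := by
    rw [hcm.mul_pow]
    exact fun e => hc (by simpa using mul_mem (inv_mem hp) e)
  have h2 := h.pow_eq (mul_mem hx hv) h1
  have h3 := h.pow_eq hv hc
  have h4 : C₁⟦v ^ p⟧ ≤ C₁⟦(x * v) ^ p⟧ := by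
    intro g hg
    rw [hcm.mul_pow, H26.mem_cent_comm]
    exact mul_mem (H26.center_le_cent g hz) (H26.mem_cent_comm.mp hg)
  have h5 : C₁⟦v⟧ ≤ C₁⟦x⟧ := by
    intro g hg
    have h6 : g ∈ C₁⟦x * v⟧ := h2 ▸ h4 (h3 ▸ hg)
    rw [H26.mem_cent_comm] at hg h6 ⊢
    simpa using mul_mem h6 (inv_mem hg)
  have h7 := h.eq hv (fun e => hc (pow_mem e p)) hx' h5
  exact hv' (mem_mcA.mpr ⟨hv, h7.le⟩)

/-- Type II elements: the centralizer has prime exponent modulo the centre. -/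
theorem type_two (hZ : N ⊓ C⟦N⟧ ≤ center G) (hx : x ∈ N) (hx' : x ∉ C⟦N⟧)
    (h2 : ¬ N ⊓ C₁⟦x⟧ ≤ mcA N x) : ∃ p : ℕ, p.Prime ∧ ∀ w ∈ N ⊓ C₁⟦x⟧, w ^ p ∈ C⟦N⟧ := by
  obtain ⟨k, p, hp, h3, h4⟩ := exists_pow_prime_mod hx'
  have e := h.pow_eq hx h3
  have key : ∀ v ∈ N ⊓ C₁⟦x⟧, v ∉ mcA N x → v ^ p ∈ C⟦N⟧ := fun v hv hv' =>
    h.pow_mem_aux hZ (pow_mem hx k) h3 h4 (mem_inf.mp hv).1 (e ▸ (mem_inf.mp hv).2)
      (mcA_congr e ▸ hv')
  refine ⟨p, hp, fun w hw => ?_⟩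
  by_cases hwA : w ∈ mcA N x
  · obtain ⟨v, hv, hv'⟩ := SetLike.not_le_iff_exists.mp h2
    have h5 := key (w * v) (mul_mem hw hv) fun e => hv' (by simpa using mul_mem (inv_mem hwA) e)
    have hcm : Commute w v := (H26.mem_cent.mp ((mem_mcA.mp hwA).2 (mem_inf.mp hv).2)).symm
    rw [hcm.mul_pow] at h5
    simpa using mul_mem h5 (inv_mem (key v hv hv'))
  · exact key w hw hwA

/-- The Frobenius case. -/
theorem frob [hN : N.Normal] (hZ : N ⊓ C⟦N⟧ ≤ center G) (hx : x ∈ N) (hx' : x ∉ C⟦N⟧)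
    (h1 : N ⊓ C₁⟦x⟧ ≤ mcA N x) (hn : ¬ (C₁⟦x⟧).Normal) :
    ∃ (Q K : Subgroup (N ⧸ center N)) (p : ℕ), p.Prime ∧ IsFrobeniusComplement Q ∧
      (Nat.card Q).Prime ∧ K.Normal ∧ (K : Set (N ⧸ center N)) = frobeniusKernel Q ∧
      IsElementaryAbelian p K := by
  set π := QuotientGroup.mk' (center N) with hπ
  set A := mcA N x with hA
  have hM := h x hx hx'
  have hCn : (C⟦N⟧).Normal := inferInstance
  have hZA : ∀ z ∈ N, z ∈ C⟦N⟧ → z ∈ A := fun z h1 h2 =>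
    mem_mcA_of_center h1 (hZ (mem_inf.mpr ⟨h1, h2⟩))
  have hconj : ∀ g y : G, g⁻¹ * y * g ∈ C⟦N⟧ → y ∈ C⟦N⟧ := fun g y hy => by
    simpa [mul_assoc] using hCn.conj_mem _ hy g
  set Q := (A.subgroupOf N).map π with hQ
  have memQ : ∀ a : N, π a ∈ Q ↔ (a : G) ∈ A := by
    intro a
    refine ⟨?_, fun ha => mem_map_of_mem π ha⟩
    rintro ⟨b, hb, e⟩
    have h2 : π (b⁻¹ * a) = 1 := by rw [map_mul, map_inv, e, inv_mul_cancel]
    have h3 := hZA _ (b⁻¹ * a).2 ((mc_ker _).mp h2)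
    simpa using mul_mem (show (b : G) ∈ A from hb) h3
  have hNM : N⟦C₁⟦x⟧⟧ ≤ C₁⟦x⟧ :=
    ((hM.le_iff_eq fun e => hn (normalizer_eq_top_iff.mp e)).mp le_normalizer).le
  have hF : IsFrobeniusComplement Q := by
    refine ⟨fun e => hx' ?_, fun e => not_le_cent hx' fun n hn => ?_, fun g hg => ?_⟩
    · have : π ⟨x, hx⟩ ∈ Q := (memQ _).mpr (self_mem_mcA hx)
      rw [e, mem_bot] at this
      exact (mc_ker _).mp this
    · exact mcA_le_cent ((memQ ⟨n, hn⟩).mp (e ▸ mem_top _))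
    · obtain ⟨n, rfl⟩ := QuotientGroup.mk'_surjective (center N) g
      rw [eq_bot_iff]
      intro q hq
      obtain ⟨a, rfl⟩ := QuotientGroup.mk'_surjective (center N) q
      obtain ⟨h2, h3⟩ := mem_inf.mp hq
      rw [H4.mem_mulAut_conj_smul_iff, ← map_inv, ← map_mul, ← map_mul] at h3
      have h4 := (memQ _).mp h2
      have h5 : (n : G)⁻¹ * a * n ∈ A := (memQ _).mp h3
      rw [mem_bot, mc_ker]
      by_contra hc
      have e1 := h.eq_of_mem hx hx' h4 hc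
      have e2 := h.eq_of_mem hx hx' h5 fun e => hc (hconj _ _ e)
      apply hg
      refine (memQ n).mpr (h1 (mem_inf.mpr ⟨n.2, hNM ?_⟩))
      rw [mem_normalizer_iff]
      intro y
      conv_lhs => rw [← e2]
      rw [← e1, H26.mem_cent, H26.mem_cent]
      constructor
      · intro e
        calc (n : G) * y * (n : G)⁻¹ * a = n * (y * ((n : G)⁻¹ * a * n)) * (n : G)⁻¹ := by group
          _ = _ := by rw [e]; group
      · intro e
        calc y * ((n : G)⁻¹ * a * n) = (n : G)⁻¹ * (n * y * (n : G)⁻¹ * a) * n := by group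
          _ = _ := by rw [e]; group
  obtain ⟨Kb, hK1, hK2, hK3⟩ := H4.frobenius_theorem Q hF
  set K := (Kb.comap π).map N.subtype with hK
  have memK' : ∀ a : N, (a : G) ∈ K ↔ π a ∈ Kb := by
    intro a
    refine ⟨?_, fun ha => mem_map_of_mem N.subtype (show a ∈ Kb.comap π from ha)⟩
    rintro ⟨b, hb, e⟩
    rwa [← Subtype.ext e]
  have hKN : K ≤ N := map_subtype_le _
  have memK : ∀ g ∈ N, g ∈ K ↔ g ∈ C⟦N⟧ ∨ ∀ n ∈ N, n⁻¹ * g * n ∉ A := by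
    intro g hg
    rw [memK' ⟨g, hg⟩, ← SetLike.mem_coe, hK1, frobeniusKernel, Set.mem_setOf_eq, mc_ker]
    refine or_congr Iff.rfl ⟨fun h2 n hn h3 => h2 (π ⟨n, hn⟩) ?_, fun h2 n h3 => ?_⟩
    · rw [H4.mem_mulAut_conj_smul_iff, ← map_inv, ← map_mul, ← map_mul, memQ]
      exact h3
    · obtain ⟨n, rfl⟩ := QuotientGroup.mk'_surjective (center N) n
      rw [H4.mem_mulAut_conj_smul_iff, ← map_inv, ← map_mul, ← map_mul] at h3
      exact h2 n n.2 ((memQ _).mp h3)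
  haveI hKn : K.Normal := by
    refine ⟨fun k hk g => ?_⟩
    rw [memK _ (hN.conj_mem _ (hKN hk) g)]
    rcases (memK k (hKN hk)).mp hk with h2 | h2
    · exact Or.inl (hCn.conj_mem _ h2 g)
    · refine Or.inr fun n hn h3 => ?_
      obtain ⟨m, hm, l, hl, e⟩ := coatom_dec hM (not_le_cent hx') (n⁻¹ * g)
      apply h2 l⁻¹ (inv_mem hl)
      rw [mem_normalizer_iff.mp (cent_le_norm_mcA (N := N) hm)]
      have : m * (l⁻¹⁻¹ * k * l⁻¹) * m⁻¹ = (m * l) * k * (m * l)⁻¹ := by group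
      rw [this, e]
      convert h3 using 1
      group
  have hKA : ∀ k ∈ K, k ∈ A → k ∈ C⟦N⟧ := fun k hk ha =>
    ((memK k (hKN hk)).mp hk).resolve_right fun h2 => h2 1 (one_mem _) (by simpa using ha)
  have hdec : ∀ n ∈ N, ∃ k ∈ K, ∃ a ∈ A, k * a = n := by
    intro n hn
    obtain ⟨⟨k, q⟩, e⟩ := hK3.2 (π ⟨n, hn⟩)
    obtain ⟨a, ha, e2⟩ := q.2
    refine ⟨n * (a : G)⁻¹, (memK' (⟨n, hn⟩ * a⁻¹)).mpr ?_, a, ha, by group⟩
    rw [map_mul, map_inv, e2, ← e]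
    simp
  have hKM : ¬ K ≤ C₁⟦x⟧ := fun e => not_le_cent hx' fun n hn => by
    obtain ⟨k, hk, a, ha, rfl⟩ := hdec n hn
    exact mul_mem (e hk) (mcA_le_cent ha)
  have hCe : ∀ e ∈ K, e ∉ C⟦N⟧ → ∀ y ∈ N, y ∈ C₁⟦e⟧ → y ∈ K := by
    intro e he he' y hy hye
    by_contra hyK
    rw [memK y hy] at hyK
    push Not at hyK
    obtain ⟨h2, n, hn, h3⟩ := hyK
    have e1 := h.eq_of_mem hx hx' h3 fun e => h2 (hconj _ _ e)
    refine ((memK e (hKN he)).mp he).elim he' fun h4 => h4 n hn (h1 (mem_inf.mpr ⟨?_, ?_⟩))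
    · exact mul_mem (mul_mem (inv_mem hn) (hKN he)) hn
    · rw [← e1, H26.mem_cent]
      rw [H26.mem_cent] at hye
      calc n⁻¹ * e * n * (n⁻¹ * y * n) = n⁻¹ * (e * y) * n := by group
        _ = _ := by rw [← hye]; group
  have hKe : ∀ e ∈ K, e ∉ C⟦N⟧ → K ≤ C₁⟦e⟧ := by
    intro e he he'
    by_contra hc
    obtain ⟨m, hm, l, hl, e1⟩ := coatom_dec (h e (hKN he) he') hc x
    have h2 : m ∈ N := by simpa [← e1] using mul_mem hx (inv_mem (hKN hl))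
    exact hx' (hKA x (e1 ▸ mul_mem (hCe e he he' m h2 hm) hl) (self_mem_mcA hx))
  have hKc : ∀ a ∈ K, ∀ b ∈ K, a * b = b * a := by
    intro a ha b hb
    by_cases hc : b ∈ C⟦N⟧
    · exact mem_centralizer_iff.mp hc a (hKN ha)
    · exact H26.mem_cent.mp (hKe b hb hc ha)
  obtain ⟨e, he, he2⟩ := SetLike.not_le_iff_exists.mp hKM
  have he' : e ∉ C⟦N⟧ := fun h2 => he2 (mcA_le_cent (hZA e (hKN he) h2))
  obtain ⟨j, p, hp, h3, h4⟩ := exists_pow_prime_mod he'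
  let E : Subgroup G :=
    { carrier := {k | k ∈ K ∧ k ^ p ∈ C⟦N⟧}
      mul_mem' := fun {a b} ha hb => ⟨mul_mem ha.1 hb.1, by
        rw [Commute.mul_pow (hKc a ha.1 b hb.1)]; exact mul_mem ha.2 hb.2⟩
      one_mem' := ⟨one_mem _, by simp⟩
      inv_mem' := fun {a} ha => ⟨inv_mem ha.1, by rw [inv_pow]; exact inv_mem ha.2⟩ }
  haveI hEn : E.Normal := ⟨fun k hk g => ⟨hKn.conj_mem _ hk.1 g, by
    rw [conj_pow]; exact hCn.conj_mem _ hk.2 g⟩⟩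
  have hEM : ¬ E ≤ C₁⟦x⟧ := fun h5 =>
    h3 (hKA _ (pow_mem he j) (h1 (mem_inf.mpr ⟨hKN (pow_mem he j), h5 ⟨pow_mem he j, h4⟩⟩)))
  have hKp : ∀ k ∈ K, k ^ p ∈ C⟦N⟧ := by
    intro k hk
    obtain ⟨m, hm, l, hl, e1⟩ := coatom_dec hM hEM k
    have h5 : m ∈ K := by simpa [← e1] using mul_mem hk (inv_mem hl.1)
    have h6 : m ∈ E := ⟨h5, pow_mem (hKA m h5 (h1 (mem_inf.mpr ⟨hKN h5, hm⟩))) p⟩
    exact (e1 ▸ mul_mem h6 hl : k ∈ E).2
  refine ⟨Q, Kb, p, hp, hF, ?_, hK2, hK1, H3.isMulCommutative_iff_mem.mpr fun a ha b hb => ?_,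
    fun a ha => ?_⟩
  · obtain ⟨i, r, hr, h5, h6⟩ := exists_pow_prime_mod hx'
    haveI := Fact.mk hr
    have haA : x ^ i ∈ A := pow_mem (self_mem_mcA hx) i
    have haN : x ^ i ∈ N := pow_mem hx i
    have hcom : ∀ g : G, ⁅g, x ^ i⁆ ∈ K := by
      intro g
      obtain ⟨m, hm, l, hl, rfl⟩ := coatom_dec hM hKM g
      have h7 : m * x ^ i = x ^ i * m := H26.mem_cent.mp (H26.cent_le_cent_pow x i hm)
      have h8 : ⁅m * l, x ^ i⁆ = m * (l * (x ^ i * l⁻¹ * (x ^ i)⁻¹)) * m⁻¹ := by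
        rw [commutatorElement_def]
        calc m * l * x ^ i * (m * l)⁻¹ * (x ^ i)⁻¹ = m * l * x ^ i * l⁻¹ * (x ^ i * m)⁻¹ := by group
          _ = _ := by rw [← h7]; group
      rw [h8]
      exact hKn.conj_mem _ (mul_mem hl (hKn.conj_mem _ (inv_mem hl) _)) m
    haveI := H3.normal_sup_zpowers hcom
    have hL : ¬ K ⊔ zpowers (x ^ i) ≤ C₁⟦e⟧ := fun h7 =>
      h5 (hKA _ (hCe e he he' _ haN (h7 (mem_sup_right (mem_zpowers _)))) haA)
    have hQz : Q = zpowers (π ⟨x ^ i, haN⟩) := by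
      refine le_antisymm ?_ (zpowers_le.mpr ((memQ _).mpr haA))
      rintro _ ⟨b, hb, rfl⟩
      have hb' : (b : G) ∈ A := hb
      obtain ⟨m, hm, l, hl, e1⟩ := coatom_dec (h e (hKN he) he') hL (b : G)
      have hlN : l ∈ N := (sup_le hKN (zpowers_le.mpr haN)) hl
      have h7 : m ∈ N := by simpa [← e1] using mul_mem b.2 (inv_mem hlN)
      have h8 : (b : G) ∈ K ⊔ zpowers (x ^ i) :=
        e1 ▸ mul_mem (mem_sup_left (hCe e he he' m h7 hm)) hl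
      obtain ⟨k, hk, t, e2⟩ := (H3.mem_sup_zpowers_iff (by
        rw [normalizer_eq_top]; exact mem_top _)).mp h8
      have h9 : k ∈ A := by simpa [e2] using mul_mem hb' (inv_mem (zpow_mem haA t))
      have h10 : b = ⟨k, hKN hk⟩ * ⟨x ^ i, haN⟩ ^ t := Subtype.ext (by simpa using e2)
      rw [h10, map_mul, (mc_ker ⟨k, hKN hk⟩).mpr (hKA k hk h9), one_mul, map_zpow]
      exact zpow_mem (mem_zpowers _) t
    rw [hQz, Nat.card_zpowers, orderOf_eq_prime (p := r)]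
    · exact hr
    · rw [← map_pow, mc_ker]; exact h6
    · exact fun e => h5 ((mc_ker _).mp e)
  · obtain ⟨u, rfl⟩ := QuotientGroup.mk'_surjective (center N) a
    obtain ⟨v, rfl⟩ := QuotientGroup.mk'_surjective (center N) b
    rw [← map_mul, ← map_mul]
    congr 1
    exact Subtype.ext (hKc _ ((memK' u).mpr ha) _ ((memK' v).mpr hb))
  · obtain ⟨u, rfl⟩ := QuotientGroup.mk'_surjective (center N) a
    rw [← map_pow, mc_ker]
    exact hKp _ ((memK' u).mpr ha)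

omit [Finite G] in
theorem norm_aux [hN : N.Normal] (hZ : N ⊓ C⟦N⟧ ≤ center G)
    (hall : ∀ y ∈ N, y ∉ C⟦N⟧ → N ⊓ C₁⟦y⟧ ≤ mcA N y → (C₁⟦y⟧).Normal)
    (hx : x ∈ N) (hx' : x ∉ C⟦N⟧) (h1 : N ⊓ C₁⟦x⟧ ≤ mcA N x) {p : ℕ} (hp : x ^ p ∈ C⟦N⟧)
    (hy : y ∈ N) (hy' : y ∉ mcA N x) : N ⊓ C₁⟦y⟧ ≤ mcA N y ∧ y ^ p ∈ C⟦N⟧ := by
  have hyc : y ∉ C⟦N⟧ := fun e => hy' (mem_mcA_of_center hy (hZ (mem_inf.mpr ⟨hy, e⟩)))
  have hyx : y ∉ C₁⟦x⟧ := fun e => hy' (h1 (mem_inf.mpr ⟨hy, e⟩))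
  haveI := hall x hx hx' h1
  have hM := h x hx hx'
  have hsup : C₁⟦x⟧ ⊔ zpowers y = ⊤ :=
    hM.2 _ (lt_of_le_of_ne le_sup_left fun e => hyx (e ▸ mem_sup_right (mem_zpowers y)))
  have h2 : N ⊓ C₁⟦y⟧ ≤ mcA N y := by
    intro w hw
    obtain ⟨hw1, hw2⟩ := mem_inf.mp hw
    obtain ⟨m, hm, k, e⟩ := (H3.mem_sup_zpowers_iff (N := C₁⟦x⟧) (x := y) (y := w) (by
      rw [normalizer_eq_top]; exact mem_top _)).mp (hsup ▸ mem_top w)
    have h3 : m ∈ N := by simpa [e] using mul_mem hw1 (inv_mem (zpow_mem hy k))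
    have h4 : m ∈ C₁⟦y⟧ := by
      simpa [e] using mul_mem hw2 (inv_mem (zpow_mem (H26.mem_cent_self y) k))
    have h5 : m ∈ C⟦N⟧ := by
      by_contra hc
      exact hyx (h.eq_of_mem hx hx' (h1 (mem_inf.mpr ⟨h3, hm⟩)) hc ▸ H26.mem_cent_comm.mp h4)
    rw [e]
    exact mul_mem (mem_mcA_of_center h3 (hZ (mem_inf.mpr ⟨h3, h5⟩))) (zpow_mem (self_mem_mcA hy) k)
  refine ⟨h2, ?_⟩
  haveI := hall y hy hyc h2
  have n1 : (mcA N x).Normal := by unfold mcA; infer_instance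
  have n2 : (mcA N y).Normal := by unfold mcA; infer_instance
  have c1 : x⁻¹ * y⁻¹ * x * y ∈ mcA N x := by
    have := mul_mem (inv_mem (self_mem_mcA hx)) (n1.conj_mem _ (self_mem_mcA hx) y⁻¹)
    simpa [mul_assoc] using this
  have c2 : x⁻¹ * y⁻¹ * x * y ∈ mcA N y := by
    have := mul_mem (n2.conj_mem _ (inv_mem (self_mem_mcA hy)) x⁻¹) (self_mem_mcA hy)
    simpa [mul_assoc] using this
  have c3 : x⁻¹ * y⁻¹ * x * y ∈ center G := by
    refine hZ (mem_inf.mpr ⟨mcA_le c1, ?_⟩)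
    by_contra hc
    have e1 := h.eq_of_mem hx hx' c1 hc
    have e2 := h.eq_of_mem hy hyc c2 hc
    exact hyx (e1 ▸ e2 ▸ H26.mem_cent_self y)
  set c := x⁻¹ * y⁻¹ * x * y with hc
  have e1 : x * y = y * x * c := by rw [hc]; group
  have e2 := H26.pow_mul_of_central c3 e1 p
  have e3 : c ^ p = 1 := by
    rw [← mem_center_iff.mp (hZ (mem_inf.mpr ⟨pow_mem hx p, hp⟩)) y] at e2
    simpa using e2
  have e4 : y * x = x * y * c⁻¹ := by rw [e1]; group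
  have e5 := H26.pow_mul_of_central (inv_mem c3) e4 p
  rw [inv_pow, e3, inv_one, mul_one] at e5
  by_contra hc
  have e6 := h.eq_of_mem hx hx' (h1 (mem_inf.mpr ⟨pow_mem hy p, H26.mem_cent.mpr e5⟩)) hc
  exact hyx (e6 ▸ H26.cent_le_cent_pow y p (H26.mem_cent_self y))

theorem not_norm [hN : N.Normal] (hZ : N ⊓ C⟦N⟧ ≤ center G)
    (hv : ∀ p : ℕ, p.Prime → ∃ v ∈ N, (orderOf v).Coprime p ∧ v ∉ C⟦N⟧)
    (hall : ∀ y ∈ N, y ∉ C⟦N⟧ → N ⊓ C₁⟦y⟧ ≤ mcA N y → (C₁⟦y⟧).Normal)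
    (hx : x ∈ N) (hx' : x ∉ C⟦N⟧) : ¬ N ⊓ C₁⟦x⟧ ≤ mcA N x := by
  intro h1
  obtain ⟨k, p, hp, h3, h4⟩ := exists_pow_prime_mod hx'
  have e := h.pow_eq hx h3
  have h1' : N ⊓ C₁⟦x ^ k⟧ ≤ mcA N (x ^ k) := by rwa [mcA_congr e, e]
  obtain ⟨y, hy, hy'⟩ := SetLike.not_le_iff_exists.mp (not_le_cent h3)
  have hyA : y ∉ mcA N (x ^ k) := fun e => hy' (mcA_le_cent e)
  have hyc : y ∉ C⟦N⟧ := fun e => hyA (mem_mcA_of_center hy (hZ (mem_inf.mpr ⟨hy, e⟩)))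
  obtain ⟨h5, h6⟩ := h.norm_aux hZ hall (pow_mem hx k) h3 h1' h4 hy hyA
  obtain ⟨v, hv1, hv2, hv3⟩ := hv p hp
  apply hv3
  refine mem_of_pow_mem_of_coprime ?_ hv2
  by_cases hc : v ∈ mcA N (x ^ k)
  · refine (h.norm_aux hZ hall hy hyc h5 h6 hv1 fun h7 => hy' ?_).2
    rw [← h.eq_of_mem (pow_mem hx k) h3 hc hv3, h.eq_of_mem hy hyc h7 hv3]
    exact H26.mem_cent_self y
  · exact (h.norm_aux hZ hall (pow_mem hx k) h3 h1' h4 hv1 hc).2

theorem not_all_two [hN : N.Normal] (hZ : N ⊓ C⟦N⟧ ≤ center G)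
    (hv : ∀ p : ℕ, p.Prime → ∃ v ∈ N, (orderOf v).Coprime p ∧ v ∉ C⟦N⟧)
    (hall : ∀ y ∈ N, y ∉ C⟦N⟧ → ¬ N ⊓ C₁⟦y⟧ ≤ mcA N y) : False := by
  set π := QuotientGroup.mk' (center N) with hπ
  have hs := QuotientGroup.mk'_surjective (center N)
  have h2 := fun y hy hy' => h.type_two hZ hy hy' (hall y hy hy')
  have hprime : ∀ g : N ⧸ center N, g ≠ 1 → (orderOf g).Prime := by
    intro g hg
    obtain ⟨a, rfl⟩ := hs g
    obtain ⟨p, hp, h3⟩ := h2 a a.2 fun e => hg ((mc_ker a).mpr e)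
    haveI := Fact.mk hp
    rw [orderOf_eq_prime (p := p) _ hg]
    · exact hp
    · rw [← map_pow, mc_ker]; exact h3 _ (mem_inf.mpr ⟨a.2, H26.mem_cent_self _⟩)
  have hnt : (⊤ : Subgroup (N ⧸ center N)) ≠ ⊥ := by
    obtain ⟨v, hv1, -, hv3⟩ := hv 2 Nat.prime_two
    exact fun e => hv3 ((mc_ker ⟨v, hv1⟩).mp (mem_bot.mp (e ▸ mem_top _)))
  have hV : ∃ (p : ℕ) (V : Subgroup (N ⧸ center N)), p.Prime ∧ V ≠ ⊥ ∧ V.Normal ∧
      ∀ a ∈ V, a ^ p = 1 := by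
    have hsol : Group.IsSolvable (N ⧸ center N) → ∃ (p : ℕ) (V : Subgroup (N ⧸ center N)),
        p.Prime ∧ V ≠ ⊥ ∧ V.Normal ∧ ∀ a ∈ V, a ^ p = 1 := by
      intro hsol
      obtain ⟨p, V, hp, h3, -, h4, h5⟩ := exists_elem_normalIn (NormalIn.of_normal ⊤)
        (inferInstance : Group.IsSolvable (⊤ : Subgroup (N ⧸ center N))) hnt
      exact ⟨p, V, hp, h3.1, h4.normal, h5.2⟩
    rcases Nat.even_or_odd (Nat.card (N ⧸ center N)) with he | he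
    · obtain ⟨g, hg⟩ := exists_prime_orderOf_dvd_card' 2 he.two_dvd
      obtain ⟨a, rfl⟩ := hs g
      have ha1 : π a ≠ 1 := fun e => by rw [e] at hg; simp at hg
      have ha : (a : G) ∉ C⟦N⟧ := fun e => ha1 ((mc_ker a).mpr e)
      obtain ⟨p, hp, h3⟩ := h2 a a.2 ha
      have hp2 : p = 2 := by
        refine ((Nat.prime_dvd_prime_iff_eq Nat.prime_two hp).mp ?_).symm
        rw [← hg]
        apply orderOf_dvd_of_pow_eq_one
        rw [← map_pow, mc_ker]; exact h3 _ (mem_inf.mpr ⟨a.2, H26.mem_cent_self _⟩)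
      subst hp2
      set P := ((C₁⟦(a : G)⟧).subgroupOf N).map π with hP
      have hexp : ∀ b ∈ P, b ^ 2 = 1 := by
        rintro _ ⟨b, hb, rfl⟩
        rw [← map_pow, mc_ker]; exact h3 _ (mem_inf.mpr ⟨b.2, hb⟩)
      have memP : ∀ b : N, π b ∈ P ↔ (b : G) ∈ C₁⟦(a : G)⟧ := by
        intro b
        refine ⟨?_, fun hb => mem_map_of_mem π hb⟩
        rintro ⟨c, hc, e⟩
        have h4 : π (c⁻¹ * b) = 1 := by rw [map_mul, map_inv, e, inv_mul_cancel]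
        have h5 := H26.center_le_cent (a : G) (hZ (mem_inf.mpr ⟨(c⁻¹ * b).2, (mc_ker _).mp h4⟩))
        simpa using mul_mem (show (c : G) ∈ C₁⟦(a : G)⟧ from hc) h5
      by_cases hPn : P.Normal
      · refine ⟨2, P, hp, fun e => ha1 ?_, hPn, hexp⟩
        exact mem_bot.mp (e ▸ (memP a).mpr (H26.mem_cent_self _))
      apply hsol
      refine solvable_of_selfnorm_comm_two (P := P) (fun b => ⟨1, Subtype.ext (hexp b b.2)⟩)
        (H3.isMulCommutative_iff_mem.mpr fun b hb c hc => ?_) ?_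
      · have i1 : ∀ b ∈ P, b⁻¹ = b := fun b hb => by
          rw [inv_eq_iff_mul_eq_one, ← sq, hexp b hb]
        rw [← i1 _ (mul_mem hb hc), mul_inv_rev, i1 b hb, i1 c hc]
      · have h4 : C₁⟦(a : G)⟧ ≤ N⟦N ⊓ C₁⟦(a : G)⟧⟧ :=
          norm_inf (by rw [normalizer_eq_top]; exact le_top) le_normalizer
        have h5 : N⟦N ⊓ C₁⟦(a : G)⟧⟧ = C₁⟦(a : G)⟧ := by
          refine ((h a a.2 ha).le_iff_eq fun e => hPn ⟨fun b hb g => ?_⟩).mp h4
          obtain ⟨b, rfl⟩ := hs b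
          obtain ⟨g, rfl⟩ := hs g
          rw [← map_inv, ← map_mul, ← map_mul]
          exact (memP _).mpr (mem_inf.mp ((normalizer_eq_top_iff.mp e).conj_mem _
            (mem_inf.mpr ⟨b.2, (memP b).mp hb⟩) g)).2
        intro g hg
        obtain ⟨g, rfl⟩ := hs g
        refine (memP g).mpr (h5 ▸ ?_)
        refine mem_normalizer_fintype fun y hy => ?_
        obtain ⟨hy1, hy2⟩ := mem_inf.mp hy
        refine mem_inf.mpr ⟨hN.conj_mem _ hy1 _, (memP (g * ⟨y, hy1⟩ * g⁻¹)).mp ?_⟩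
        rw [map_mul, map_mul, map_inv]
        exact (mem_normalizer_iff.mp hg _).mp ((memP ⟨y, hy1⟩).mpr hy2)
    · exact hsol (FT.solvable_of_odd he)
  obtain ⟨p, V, hp, hV1, hV2, hV3⟩ := hV
  obtain ⟨v, hv1, hv2, hv3⟩ := hv p hp
  obtain ⟨q, hq, h3⟩ := h2 v hv1 hv3
  have hpq : q ≠ p := by
    rintro rfl
    exact hv3 (mem_of_pow_mem_of_coprime (h3 v (mem_inf.mpr ⟨hv1, H26.mem_cent_self v⟩)) hv2)
  obtain ⟨w, hw, hw'⟩ := SetLike.not_le_iff_exists.mp (hall v hv1 hv3)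
  obtain ⟨hw1, hw2⟩ := mem_inf.mp hw
  haveI := Fact.mk hp
  haveI := Fact.mk hq
  set B := zpowers (π ⟨v, hv1⟩) ⊔ zpowers (π ⟨w, hw1⟩) with hB
  have hBq : ∀ b ∈ B, b ^ q = 1 := by
    have : B ≤ ((C₁⟦v⟧).subgroupOf N).map π :=
      sup_le (zpowers_le.mpr (mem_map_of_mem π (H26.mem_cent_self v)))
        (zpowers_le.mpr (mem_map_of_mem π hw2))
    intro b hb
    obtain ⟨c, hc, rfl⟩ := this hb
    rw [← map_pow, mc_ker]; exact h3 _ (mem_inf.mpr ⟨c.2, hc⟩)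
  haveI : IsMulCommutative B := by
    refine H3.isMulCommutative_sup_zpowers inferInstance ?_
    rw [← H26.le_cent_iff, zpowers_le, H26.mem_cent, ← map_mul, ← map_mul]
    congr 1
    exact Subtype.ext (H26.mem_cent.mp hw2).symm
  have hcyc : IsCyclic B := by
    refine H1.isCyclic_of_fpf hV1 (by rw [normalizer_eq_top]; exact le_top) fun b hb hb1 => ?_
    rw [eq_bot_iff]
    intro e he
    obtain ⟨he1, he2⟩ := mem_inf.mp he
    rw [mem_bot]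
    by_contra hne
    have o1 := orderOf_eq_prime (hV3 e he1) hne
    have o2 := orderOf_eq_prime (hBq b hb) hb1
    have hcm : Commute e b := H26.mem_cent.mp he2
    have o3 := hcm.orderOf_mul_eq_mul_orderOf_of_coprime (by
      rw [o1, o2]; exact (Nat.coprime_primes hp hq).mpr hpq.symm)
    rw [o1, o2] at o3
    have o4 := hprime (e * b) fun e1 => by
      rw [e1, orderOf_one] at o3
      exact hp.ne_one (Nat.eq_one_of_mul_eq_one_right o3.symm)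
    rw [o3] at o4
    exact Nat.not_prime_mul hp.ne_one hq.ne_one o4
  obtain ⟨g, hg⟩ := hcyc.exists_generator
  have hvB : π ⟨v, hv1⟩ ∈ B := mem_sup_left (mem_zpowers _)
  have hwB : π ⟨w, hw1⟩ ∈ B := mem_sup_right (mem_zpowers _)
  have hv4 : (⟨_, hvB⟩ : B) ≠ 1 := fun e => hv3 ((mc_ker ⟨v, hv1⟩).mp (congrArg Subtype.val e))
  have hg1 : g ≠ 1 := by
    rintro rfl
    exact hv4 (by simpa using hg ⟨_, hvB⟩)
  have hcard : Nat.card B = q := by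
    rw [← orderOf_eq_card_of_forall_mem_zpowers hg]
    exact orderOf_eq_prime (Subtype.ext (hBq g g.2)) hg1
  obtain ⟨t, ht⟩ := mem_zpowers_of_prime_card hcard (g' := ⟨_, hwB⟩) hv4
  have ht' : π ⟨v, hv1⟩ ^ t = π ⟨w, hw1⟩ := congrArg Subtype.val ht
  have h4 : π ((⟨v, hv1⟩ ^ t)⁻¹ * ⟨w, hw1⟩) = 1 := by
    rw [map_mul, map_inv, map_zpow, ht', inv_mul_cancel]
  have h5 := mem_mcA_of_center (x := v) ((⟨v, hv1⟩ ^ t)⁻¹ * ⟨w, hw1⟩ : N).2
    (hZ (mem_inf.mpr ⟨Subtype.prop _, (mc_ker _).mp h4⟩))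
  exact hw' (by simpa using mul_mem (zpow_mem (self_mem_mcA (N := N) hv1) t) h5)

theorem main [hN : N.Normal] :
    (∃ p : ℕ, p.Prime ∧ IsElementaryAbelian p (⊤ : Subgroup (N ⧸ center N))) ∨
    ∃ (Q K : Subgroup (N ⧸ center N)) (p : ℕ), p.Prime ∧ IsFrobeniusComplement Q ∧
      (Nat.card Q).Prime ∧ K.Normal ∧ (K : Set (N ⧸ center N)) = frobeniusKernel Q ∧
      IsElementaryAbelian p K := by
  by_cases hv : ∀ p : ℕ, p.Prime → ∃ v ∈ N, (orderOf v).Coprime p ∧ v ∉ C⟦N⟧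
  · right
    have hZ := h.cent_le_center hv
    by_contra hc
    refine h.not_all_two hZ hv fun y hy hy' => h.not_norm hZ hv (fun z hz hz' h1 => ?_) hy hy'
    by_contra hn
    exact hc (h.frob hZ hz hz' h1 hn)
  · push Not at hv
    obtain ⟨p, hp, hv⟩ := hv
    exact Or.inl ⟨p, hp, h.elem hp hv⟩

end MC
end

end Cfsg.Agent.H25
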