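import Mathlib
import Cfsg.Agent.H25.Nd3

/-!
No divisibility among the nonlinear degrees and a disconnected degree graph.
-/

set_option autoImplicit false
set_option linter.dupNamespace false

namespace Cfsg.Agent.H25.Nd

open Cfsg Cfsg.Agent.H4 Cfsg.Agent.H5 Cfsg.Agent.H8 Cfsg.Agent.H2.RDeg Cfsg.Agent.H3
open Cfsg.Agent.H25.Gar
open scoped commutatorElement

variable {G : Type*} [Group G] [Finite G] {K N : Subgroup G}

theorem ND.cases (h : ND G) (F : FrobQ K N) (hNt : N ≠ ⊤) {c : ℕ} (hc : c ∈ charDegrees G) :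
    c = 1 ∨ c = N.index ∨ (haveI := F.nN; c ∈ relCharDegrees (⁅N, N⁆ : Subgroup G)) := by
  haveI := F.nN
  obtain ⟨χ, hχ, h1⟩ := mem_cd.1 hc
  by_cases h2 : ⁅N, N⁆ ≤ charKer χ
  · have h3 := cd_quotient_commutator_dvd N (mem_cd_of (d := c) (hχ.deflate h2) (by
      rw [← h1]; exact deflate_mk h2 1))
    by_cases h4 : c = 1
    · exact Or.inl h4
    · exact Or.inr (Or.inl (h _ hc _ F.index_mem_cd h4 h3))
  · exact Or.inr (Or.inr (rel_iff.2 ⟨χ, hχ, h1, h2⟩))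

theorem ND.two_of_comm (h : ND G) (F : FrobQ K N) (hNt : N ≠ ⊤)
    (h1 : (⁅N, N⁆ : Subgroup G) = ⊥) : ∀ c ∈ charDegrees G, c = 1 ∨ c = N.index := fun c hc => by
  haveI := F.nN
  rcases h.cases F hNt hc with h2 | h2 | h2
  · exact Or.inl h2
  · exact Or.inr h2
  · obtain ⟨χ, -, -, h3⟩ := rel_iff.1 h2
    exact absurd (h1 ▸ bot_le) h3

theorem ND.res (h : ND G) (F : FrobQ K N) (hNt : N ≠ ⊤) {q : ℕ} (hq : q.Prime)
    (hexp : ∀ n ∈ N, n ^ q ∈ K) (hcop : ∀ c ∈ charDegrees G, q ∣ c → c.Coprime N.index)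
    {ψ : N → ℂ} (hψ : IsIrrCharacter N ψ) {d c : ℕ} (hd : ψ 1 = d) (h1 : d ≠ 1)
    (hc : haveI := F.nN; Ov N c ψ) : (haveI := F.nN; In N ψ = ⊤) ∧ c = d := by
  haveI := F.nN
  have h2 := over_dvd hψ hd hc
  have h3 := hcop c (over_mem_cd hc)
    ((h.dvd F hNt hq hexp (mem_cd_of hψ hd) h1).trans (over_deg_dvd hψ hd hc))
  refine ⟨Subgroup.index_eq_one.1 (Nat.eq_one_of_dvd_coprimes h3 ((dvd_mul_right _ _).trans h2)
    (Subgroup.index_dvd_of_le (le_In hψ))), ?_⟩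
  obtain ⟨χ, hχ, h4, h5⟩ := hc
  have h6 := (irr_res_of_coprime (NEmb.ofNormal N) hχ h4 (by
    rw [NEmb.ofNormal_range]; exact h3.symm)).eq_of_classInner_ne_zero hψ h5
  have h7 := congrFun h6 1
  rw [map_one, h4, hd] at h7
  exact_mod_cast h7

theorem ND.three [Group.IsSolvable G] (h : ND G) (F : FrobQ K N) (hle : commutator G ≤ N)
    (hNt : N ≠ ⊤) {q : ℕ} (hq : q.Prime) (hqf : ¬ q ∣ N.index) (hexp : ∀ n ∈ N, n ^ q ∈ K)
    (hcop : ∀ c ∈ charDegrees G, q ∣ c → c.Coprime N.index) (hN : (⁅N, N⁆ : Subgroup G) ≠ ⊥) :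
    ∃ m, q ∣ m ∧ charDegrees G = {1, N.index, m} := by
  haveI := F.nN
  have h1 : charDegrees N ⊆ charDegrees G := fun d hd => by
    by_cases h1 : d = 1
    · rw [h1]; exact one_mem_cd
    obtain ⟨ψ, hψ, h2⟩ := mem_cd.1 hd
    obtain ⟨c, hc⟩ := exists_over (E := NEmb.ofNormal N) hψ
    rw [← (h.res F hNt hq hexp hcop hψ h2 h1 hc).2]
    exact over_mem_cd hc
  have h2 : ND N := fun a ha b hb => h a (h1 ha) b (h1 hb)
  have h3 : commutator N ≠ ⊥ := fun h3 => hN (by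
    rw [← map_derivedSeries_one, derivedSeries_one, h3, Subgroup.map_bot])
  have h4 : ∃ m, ∀ d ∈ charDegrees N, d = 1 ∨ d = m := by
    obtain ⟨K₁, hK₁, h4, ⟨p, hp, h5⟩ | ⟨N₁, F₁, h5, h6, r, hr, h7, h8⟩⟩ :=
      min_quot (G := N) inferInstance h3
    · obtain ⟨e, he⟩ := h2.pquot hp h5 h4
      exact ⟨_, he⟩
    refine ⟨_, h2.two_of_comm F₁ h6 ?_⟩
    have hf1 : N.index ≠ 1 := fun h3 => hNt (Subgroup.index_eq_one.1 h3)
    obtain ⟨l, hl, hlf⟩ := Nat.exists_prime_and_dvd hf1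
    haveI := Fact.mk hl
    obtain ⟨P⟩ : Nonempty (Sylow l G) := inferInstance
    obtain ⟨g, hgP, hgN⟩ := SetLike.not_le_iff_exists.1 (fun h9 : (P : Subgroup G) ≤ N =>
      P.not_dvd_index (hlf.trans (Subgroup.index_dvd_of_le h9)))
    obtain ⟨a, ha⟩ := P.isPGroup' ⟨g, hgP⟩
    have ha' : g ^ l ^ a = 1 := congrArg Subtype.val ha
    let E := NEmb.ofNormal N
    have e : ∀ n : N, ((E.act g n : N) : G) = g * n * g⁻¹ := fun n => E.f_act g n
    have h9 : ∀ (k : ℕ) (n : N), (E.actEquiv g).toMonoidHom^[k] n = E.act (g ^ k) n := by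
      intro k
      induction k with
      | zero => simp
      | succ k ih => intro n; rw [Function.iterate_succ_apply', ih, pow_succ', E.act_mul]; rfl
    have h10 := F₁.index_mem_cd
    have h11 : N₁.index ≠ 1 := fun h3 => h6 (Subgroup.index_eq_one.1 h3)
    refine core (σ := (E.actEquiv g).toMonoidHom) (a := a) h2 hl (fun n => by rw [h9, ha', E.act_one])
      (fun ψ hψ h12 n => ?_) F₁ h5 h6 hr h8 (fun h12 => hl.one_lt.ne' (Nat.eq_one_of_dvd_coprimes
        (hcop _ (h1 h10) (h.dvd F hNt hq hexp h10 h11)) h12 hlf)) h7 (K₀ := K.subgroupOf N)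
      (Subgroup.commutator_le.2 fun x _ y _ => F.comm _ x.2 _ y.2)
      (fun h12 => F.ne (F.le.antisymm (Subgroup.subgroupOf_eq_top.1 h12))) fun x hx => ?_
    · obtain ⟨d, -, hd⟩ := hψ.exists_degree
      obtain ⟨c, hc⟩ := exists_over (E := NEmb.ofNormal N) hψ
      have h13 := (h.res F hNt hq hexp hcop hψ hd (by rintro rfl; exact h12 (by simpa using hd)) hc).1
      exact (NEmb.mem_inertia _).1 (show g ∈ In N ψ from h13 ▸ Subgroup.mem_top g) n
    · refine F.fpf g hgN x x.2 ?_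
      rw [← e]; exact hx
  obtain ⟨m, hm⟩ := h4
  obtain ⟨d, hd, hd1⟩ := exists_cd_ne_one h3
  obtain rfl := (hm d hd).resolve_left hd1
  refine ⟨d, h.dvd F hNt hq hexp hd hd1, Set.Subset.antisymm (fun c hc => ?_) ?_⟩
  · rcases h.cases F hNt hc with h5 | h5 | h5
    · exact Or.inl h5
    · exact Or.inr (Or.inl h5)
    · obtain ⟨θ, e, hθ, h6, h7, h8⟩ := exists_of_rel_der h5
      rw [(h.res F hNt hq hexp hcop hθ h6 h7 h8).2]
      exact Or.inr (Or.inr ((hm e (mem_cd_of hθ h6)).resolve_left h7))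
  · rintro c (rfl | rfl | rfl)
    · exact one_mem_cd
    · exact F.index_mem_cd
    · exact h1 hd

omit [Finite G] in
theorem reach {c : ℕ} (hc : c ∈ charDegrees G) (u v : degreePrimes G) (hu : u.1 ∣ c)
    (hv : v.1 ∣ c) : ((degreeGraph G).induce (degreePrimes G)).Reachable u v := by
  by_cases h : u = v
  · rw [h]
  · have h1 : u.1 ≠ v.1 := fun h1 => h (Subtype.ext h1)
    exact SimpleGraph.Adj.reachable ⟨h1, u.2.1, v.2.1, c, hc,
      ((Nat.coprime_primes u.2.1 v.2.1).2 h1).mul_dvd_of_dvd_of_dvd hu hv⟩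

omit [Finite G] in
theorem reach_two {m : ℕ} (h : ∀ d ∈ charDegrees G, d = 1 ∨ d = m) (u v : degreePrimes G) :
    ((degreeGraph G).induce (degreePrimes G)).Reachable u v := by
  obtain ⟨hu, c, hc, h1⟩ := u.2
  obtain ⟨hv, d, hd, h2⟩ := v.2
  have h3 := (h c hc).resolve_left (by rintro rfl; exact hu.not_dvd_one h1)
  have h4 := (h d hd).resolve_left (by rintro rfl; exact hv.not_dvd_one h2)
  exact reach hc u v h1 (by rw [h3, ← h4]; exact h2)

theorem three_of_disc [Group.IsSolvable G] (h : ND G)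
    (h2 : ¬ ∀ u v, ((degreeGraph G).induce (degreePrimes G)).Reachable u v) :
    Nat.card (charDegrees G) = 3 := by
  have h3 : commutator G ≠ ⊥ := fun h3 => h2 (reach_two (m := 1) fun d hd => Or.inl
    (comm_iff_cd.1 (comm_of_derivedSeries_one (by rw [derivedSeries_one, h3])) d hd))
  obtain ⟨K, hK, h4, ⟨p, hp, h5⟩ | ⟨N, F, h5, h6, q, hq, h7, h8⟩⟩ :=
    min_quot (G := G) inferInstance h3
  · obtain ⟨e, he⟩ := h.pquot hp h5 h4
    exact absurd (reach_two he) h2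
  haveI := F.nN
  have h9 : (⁅N, N⁆ : Subgroup G) ≠ ⊥ := fun h9 => h2 (reach_two (h.two_of_comm F h6 h9))
  obtain ⟨m, h10, h11⟩ := h.three F h5 h6 hq h7 h8 (fun c hc hqc => by
    by_contra h10
    obtain ⟨p, hp, h11, h12⟩ := Nat.Prime.not_coprime_iff_dvd.1 h10
    let w : degreePrimes G := ⟨q, hq, c, hc, hqc⟩
    have h13 : ∀ u, ((degreeGraph G).induce (degreePrimes G)).Reachable u w := by
      intro u
      obtain ⟨hu, d, hd, h13⟩ := u.2
      rcases h.cases F h6 hd with h14 | h14 | h14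
      · exact absurd (h14 ▸ h13) hu.not_dvd_one
      · exact (reach hd u ⟨p, hp, c, hc, h11⟩ h13 (h14 ▸ h12)).trans (reach hc _ w h11 hqc)
      · obtain ⟨θ, e, hθ, h15, h16, h17⟩ := exists_of_rel_der h14
        exact reach hd u w h13
          ((h.dvd F h6 hq h8 (mem_cd_of hθ h15) h16).trans (over_deg_dvd hθ h15 h17))
    exact h2 fun u v => (h13 u).trans (h13 v).symm) h9
  rw [h11, Nat.card_coe_set_eq]
  refine Set.ncard_eq_three.2 ⟨_, _, _, fun h12 => h6 (Subgroup.index_eq_one.1 h12.symm), ?_, ?_, rfl⟩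
  · rintro rfl; exact hq.not_dvd_one h10
  · rintro rfl; exact h7 h10

end Cfsg.Agent.H25.Nd
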