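import Cfsg.Agent.H25.OC1
import Cfsg.Agent.S3909

/-! Groups in which abelian subgroups of equal order are conjugate: quotients. -/

set_option autoImplicit false

namespace Cfsg.Agent.H25

open Subgroup Cfsg.Agent.H20 Cfsg.Agent.H21
open scoped commutatorElement

universe u

/-- abelian subgroups of equal order are conjugate -/
def BG (G : Type*) [Group G] : Prop :=
  ∀ A B : Subgroup G, IsMulCommutative A → IsMulCommutative B → ♯A = ♯B → ∃ g, B = cj g A

variable {G : Type*} [Group G] [Finite G] {p : ℕ}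

theorem BG.mem (h : BG G) {N : Subgroup G} [N.Normal] {m a : G} (hm : m ∈ N) (e : orderOf m = orderOf a) : a ∈ N :=
  (S3909.result h N).1 a ⟨m, hm, e⟩

theorem BG.uniq [hp : Fact p.Prime] (h : BG G) {N : Subgroup G} [N.Normal] (hN : p ∣ ♯N) {y : G}
    (hy : y ^ p = 1) : y ∈ N := by
  by_cases e : y = 1
  · exact e ▸ one_mem _
  obtain ⟨m, hm, o⟩ := exists_prime_order_mem hp.out hN
  exact h.mem hm (o.trans (orderOf_eq_prime hy e).symm)

theorem BG.sylow [hp : Fact p.Prime] (h : BG G) {N : Subgroup G} [N.Normal] (hN : IsElementaryAbelian p N)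
    (h0 : N ≠ ⊥) : ♯N = p ∨ SylowOf p N ⊤ := by
  obtain ⟨t, ht⟩ := IsPGroup.iff_card.1 (isPGroup_of_elem hN)
  rcases t with _ | _ | t
  · exact absurd (eq_bot_of_card ht) h0
  · exact Or.inl (by simpa using ht)
  · exact Or.inr ((S3909.result h N).2 p _ (by omega) ht hN default ▸ sylowOf_top _)

theorem gens [hp : Fact p.Prime] {S N : Subgroup G} (hS : IsPGroup p S) (hN : ♯N = p)
    (h : ∀ y ∈ S, y ^ p = 1 → y ∈ N) : IsCyclic S ∨ (p = 2 ∧ ∃ (n : ℕ) (a b : G), a ∈ S ∧ b ∈ S ∧ 1 ≤ n ∧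
      orderOf a = 2 * 2 ^ n ∧ ♯S = 2 * orderOf a ∧ b ∉ zpowers a ∧ (∀ c ∈ S, c ∉ zpowers a → b⁻¹ * c ∈ zpowers a) ∧
      ∀ c ∈ S, c ∉ zpowers a → orderOf c = 4) := by
  have m : ∀ x y : S, y ∈ zpowers x ↔ (y : G) ∈ zpowers (x : G) := fun x y =>
    ⟨fun ⟨k, e⟩ => ⟨k, congrArg Subtype.val e⟩, fun ⟨k, e⟩ => ⟨k, Subtype.ext e⟩⟩
  refine (H1.isCyclic_or_quaternion_gens hS fun x y hx hy => ?_).imp_right ?_
  · rw [m, eq_zpowers_of_card_prime (X := N) (hN ▸ hp.out) (h x x.2 (by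
      rw [← hx, ← orderOf_coe]; exact pow_orderOf_eq_one _)) (fun e => hp.out.one_lt.ne (by
      rw [← hx, ← orderOf_coe, e, orderOf_one]))]
    exact h y y.2 (congrArg Subtype.val hy)
  rintro ⟨rfl, n, a, b, h1, h2, h3, h4, h5, h6⟩
  refine ⟨rfl, n, a, b, a.2, b.2, h1, by rwa [orderOf_coe], ?_, fun e => h3 ((m _ _).2 e),
    fun c hc e => (m a (b⁻¹ * ⟨c, hc⟩)).1 (h6 _ fun e' => e ((m _ _).1 e')), fun c hc e => ?_⟩
  · rw [← (zpowers a).index_mul_card, Nat.card_zpowers, orderOf_coe, index_eq_two_iff'.2 ⟨b⁻¹, fun c => ?_⟩]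
    by_cases e : c ∈ zpowers a
    · exact Or.inr ⟨e, fun e' => h3 (by simpa using mul_mem e (inv_mem e'))⟩
    · exact Or.inl ⟨h6 c e, e⟩
  · obtain ⟨k, hk⟩ := h6 ⟨c, hc⟩ fun e' => e ((m _ _).1 e')
    have e1 : (⟨c, hc⟩ : S) ^ 2 = a ^ 2 ^ n := by
      rw [← mul_inv_cancel_left b ⟨c, hc⟩, ← hk]
      calc _ = (b * a * b⁻¹) ^ k * (b * b) * a ^ k := by simp only [conj_zpow, sq]; group
        _ = _ := by rw [h4, h5]; group
    rw [show c = ((⟨c, hc⟩ : S) : G) from rfl, orderOf_coe]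
    refine orderOf_eq_prime_pow (p := 2) (n := 1) (fun e => ?_) ?_
    · rw [pow_one, e1, ← orderOf_dvd_iff_pow_eq_one, h2] at e
      have := Nat.le_of_dvd (by positivity) e
      have : 0 < 2 ^ n := by positivity
      omega
    · rw [pow_succ, pow_one, pow_mul, e1, ← pow_mul, mul_comm, ← h2, pow_orderOf_eq_one]

theorem BG.quat [hp : Fact p.Prime] [Group.IsSolvable G] (h : BG G) {S N : Subgroup G} [N.Normal] (hN : ♯N = p)
    (hS : SylowOf p S ⊤) : IsCyclic S ∨ (p = 2 ∧ ♯S = 8 ∧ S ≤ pPrimePCoreOf 2 ⊤) := by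
  refine (gens hS.isPGroup hN fun y _ => h.uniq hN.symm.dvd).imp_right ?_
  rintro ⟨rfl, n, a, b, ha, hb, h1, h2, h3, h4, h5, h6⟩
  set K := pPrimePCoreOf 2 (⊤ : Subgroup G) with hK
  have nK : K ⊴ ⊤ := ppcore_normalIn 2 ⊤
  have := nK.normal
  have o4 : ∃ x ∈ K, orderOf x = 4 := by
    by_contra hx
    have l : S ⊓ K ≤ N := fun x m => h.uniq hN.symm.dvd (by_contra fun e => by
      obtain ⟨y, y1, y2⟩ := exists_orderOf_sq (hS.isPGroup.to_le inf_le_left) m e
      exact hx ⟨y, zpowers_le.2 m.2 y1, y2⟩)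
    have c : b ∈ C⟦N⟧ := fun x m => by
      classical
      by_cases x1 : x = 1
      · simp [x1]
      have e := eq_zpowers_of_card_prime (X := N) (hN ▸ hp.out) m x1
      have x2 : orderOf x = 2 := by rw [← Nat.card_zpowers, e, hN]
      have m2 : b * x * b⁻¹ ∈ zpowers x := e ▸ Normal.conj_mem inferInstance x m b
      rw [mem_zpowers_iff_mem_range_orderOf, x2, Finset.mem_image] at m2
      obtain ⟨k, hk, e2⟩ := m2
      rw [Finset.mem_range] at hk
      interval_cases k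
      · exact absurd (by simpa using e2.symm) x1
      · rw [pow_one] at e2; exact mul_inv_eq_iff_eq_mul.1 e2.symm |>.symm
    exact hx ⟨b, cent_sylow_ppcore_le inferInstance (hS.inf_normalIn nK) ⟨mem_top _, cent_anti l c⟩, h6 b hb h4⟩
  obtain ⟨x, x1, x2⟩ := o4
  have out : ∀ c ∈ S, c ∉ zpowers a → c ∈ K := fun c hc e => h.mem x1 (x2.trans (h6 c hc e).symm)
  have sK : S ≤ K := fun c hc => by
    by_cases e : c ∈ zpowers a
    · simpa using mul_mem (inv_mem (out b hb h4)) (out (b * c) (mul_mem hb hc) fun e' =>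
        h4 (by simpa using mul_mem e' (inv_mem e)))
    · exact out c hc e
  refine ⟨rfl, ?_, sK⟩
  by_contra h8
  have n2 : 2 ≤ n := by
    by_contra l
    exact h8 (by rw [h3, h2, show n = 1 by omega]; norm_num)
  obtain ⟨c, c1, c2⟩ := exists_orderOf_eq_pow_of_dvd (x := a) (n := 4) (by
    rw [h2]; exact Dvd.dvd.mul_left (pow_dvd_pow 2 n2) 2)
  obtain ⟨g, hg⟩ := h (zpowers c) (zpowers b) inferInstance inferInstance (by
    rw [Nat.card_zpowers, Nat.card_zpowers, c2, h6 b hb h4])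
  have sk := hS.of_le sK le_top
  obtain ⟨k, hk, y, hy, rfl⟩ := sk.frattini_mem (nK.2 (mem_top g))
  rw [hK, ← ppcore_eq_sup sk] at hk
  obtain ⟨o, ho, s, hs, rfl⟩ := (mem_sup_of_norm' (le_top.trans (piCoreOf_normalIn _ ⊤).2)).1 hk
  have ny := mul_mem (le_normalizer hs) hy
  rw [mul_assoc, cj_mul] at hg
  generalize s * y = y at ny hg
  obtain ⟨d, d1, d2⟩ := mem_cj'.1 (hg.le (mem_zpowers b))
  have dS : d ∈ S := cj_le_of_mem_norm ny (zpowers_le.2 (zpowers_le.2 ha c1)) d1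
  have e : d = b := by
    rw [← mul_inv_eq_one, ← mem_bot, ← inf_eq_bot_coprime (coprime_of_isPGroup hS.isPGroup
      ((isPi_compl_singleton_iff_coprime hp.out).1 (isPi_piCoreOf _ ⊤)))]
    refine mem_inf.2 ⟨S.mul_mem dS (S.inv_mem hb), ?_⟩
    have := mul_mem (conj_mem_of_norm ((piCoreOf_normalIn _ ⊤).2 (mem_top d)) ho) (inv_mem ho)
    rwa [← d2, show d * (o * d * o⁻¹)⁻¹ = d * o * d⁻¹ * o⁻¹ by group]
  have a' : y * a * y⁻¹ ∈ zpowers a := by_contra fun e => by
    have := h6 _ (conj_mem_of_norm ny ha) e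
    rw [← MulAut.conj_apply, MulEquiv.orderOf_eq, h2] at this
    have := Nat.pow_le_pow_right two_pos n2
    omega
  refine h4 (zpowers_le.2 a' ?_)
  rw [← cj_zpowers, ← e]
  exact cj_mono y (zpowers_le.2 c1) d1

theorem BG.quot [hp : Fact p.Prime] (h : BG G) {N : Subgroup G} [N.Normal] (hN : IsElementaryAbelian p N)
    (h2 : ♯N = p → ∀ P : Subgroup G, IsPGroup p P → IsMulCommutative P ∨ SylowOf p P ⊤) : BG (G ⧸ N) := by
  by_cases h0 : N = ⊥
  · intro A B hA hB e
    have i : Function.Injective (QuotientGroup.mk' N) := by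
      rw [← MonoidHom.ker_eq_bot_iff, QuotientGroup.ker_mk', h0]
    have c : ∀ {A : Subgroup (G ⧸ N)}, IsMulCommutative A → IsMulCommutative (A.comap (QuotientGroup.mk' N)) :=
      fun hA => comm_iff.2 fun a ha b hb => i (by rw [map_mul, map_mul, comm_iff.1 hA _ ha _ hb])
    obtain ⟨g, hg⟩ := h _ _ (c hA) (c hB) (by rw [card_comap_mk, card_comap_mk, e])
    have := congrArg (map (QuotientGroup.mk' N)) hg
    rw [map_cj, map_comap_eq_self_of_surjective (QuotientGroup.mk'_surjective N),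
      map_comap_eq_self_of_surjective (QuotientGroup.mk'_surjective N)] at this
    exact ⟨_, this⟩
  have nP := isPGroup_of_elem hN
  have nN : ∀ {X : Subgroup G}, X ≤ N⟦N⟧ := fun {_} => le_top.trans (normalizer_eq_top N).ge
  have dec : ∀ X : Subgroup G, N ≤ X → ⁅X, X⁆ ≤ N → ∃ P D, SylowOf p P X ∧ N ≤ P ∧ IsComplIn P D X ∧
      IsMulCommutative D ∧ (P = N ∨ D ≤ C⟦P⟧ ∧ ♯N = p) := fun X h1 h3 => by
    obtain ⟨P, hP, hle⟩ := exists_sylowOf_ge nP h1
    have n := NormalIn.of_der_le hP.le (h3.trans hle)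
    obtain ⟨D, hD⟩ := hP.exists_compl n
    refine ⟨P, D, hP, hle, hD, comm_iff_le_cent.2 (commg_eq_bot.1 (eq_bot_iff.2 ((le_inf
      ((commutator_mono (Compl.right_le hD) (Compl.right_le hD)).trans (h3.trans hle)) (der_le D)).trans
      (Compl.inf_eq hD).le))), or_iff_not_imp_left.2 fun e => ?_⟩
    have c := (h.sylow hN h0).resolve_right fun s => e (s.pgroup_eq_of_le hP.isPGroup hle le_top)
    have cp := coprime_of_isPGroup hP.isPGroup ((isPi_compl_singleton_iff_coprime hp.out).1 (hP.compl_isPi hD))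
    have := coprime_sup_cent_of_commg_le hle nN (coprime_of_le_left cp hle) (Or.inr (sol_of_pgroup nP))
      ((commutator_mono hP.le (Compl.right_le hD)).trans h3)
    obtain ⟨y, y1, y2⟩ := exists_prime_order_mem hp.out (dvd_card_of_isPGroup (hP.isPGroup.to_le inf_le_left)
      (A := P ⊓ C⟦D⟧) fun b => e (by rw [← this, b, sup_bot_eq]))
    have y3 : y ≠ 1 := fun e => hp.out.one_lt.ne (by rw [← y2, e, orderOf_one])
    rw [sup_eq_right.2 ((eq_zpowers_of_card_prime (c ▸ hp.out) (h.uniq c.symm.dvd (y2 ▸ pow_orderOf_eq_one y))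
      y3).ge.trans (zpowers_le.2 y1))] at this
    exact ⟨cent_symm (this.ge.trans inf_le_right), c⟩
  suffices ∀ X Y : Subgroup G, N ≤ X → ⁅X, X⁆ ≤ N → N ≤ Y → ⁅Y, Y⁆ ≤ N → ♯X = ♯Y → ∃ g, Y = cj g X by
    intro A B hA hB e
    have c : ∀ {A : Subgroup (G ⧸ N)}, IsMulCommutative A →
        ⁅A.comap (QuotientGroup.mk' N), A.comap (QuotientGroup.mk' N)⁆ ≤ N := fun {A} hA => by
      conv_rhs => rw [← QuotientGroup.ker_mk' N]
      rw [← Subgroup.map_eq_bot_iff, map_commutator,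
        map_comap_eq_self_of_surjective (QuotientGroup.mk'_surjective N), commg_eq_bot]
      exact comm_iff_le_cent.1 hA
    obtain ⟨g, hg⟩ := this _ _ (QuotientGroup.le_comap_mk' N A) (c hA) (QuotientGroup.le_comap_mk' N B) (c hB)
      (by rw [card_comap_mk, card_comap_mk, e])
    have := congrArg (map (QuotientGroup.mk' N)) hg
    rw [map_cj, map_comap_eq_self_of_surjective (QuotientGroup.mk'_surjective N),
      map_comap_eq_self_of_surjective (QuotientGroup.mk'_surjective N)] at this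
    exact ⟨_, this⟩
  intro X Y x1 x2 y1 y2 e
  obtain ⟨P, D, p1, p2, p3, p4, p5⟩ := dec X x1 x2
  obtain ⟨Q, E, q1, q2, q3, q4, q5⟩ := dec Y y1 y2
  have pq : ♯P = ♯Q := by rw [p1.card_eq_pow, q1.card_eq_pow, e]
  obtain ⟨g, rfl⟩ := h D E p4 q4 (Nat.eq_of_mul_eq_mul_left (card_pos P) (by
    rw [Compl.card p3, pq, Compl.card q3, e]))
  rw [← Compl.sup_eq p3, ← Compl.sup_eq q3]
  by_cases b : P = N
  · exact ⟨g, by rw [cj_sup, ← eq_of_le_card q2 (by rw [← pq, b]), b, cj_eq_of_mem_norm (nN (mem_top g))]⟩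
  obtain ⟨p6, c⟩ := p5.resolve_left b
  obtain ⟨q6, -⟩ := q5.resolve_left fun e => b (eq_of_le_card p2 (by rw [pq, e])).symm
  by_cases s : SylowOf p P ⊤ ∨ SylowOf p Q ⊤
  · have : SylowOf p P ⊤ ∧ SylowOf p Q ⊤ := by
      have k : ∀ {P Q : Subgroup G}, SylowOf p P ⊤ → IsPGroup p Q → ♯P = ♯Q → SylowOf p Q ⊤ := fun {P Q} h1 h2 e => by
        obtain ⟨g, -, hg⟩ := h1.exists_le_cj h2 le_top
        rw [eq_of_le_card hg (by rw [card_cj, e])]
        exact h1.cj_of_mem (mem_top g)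
      exact s.elim (fun s => ⟨s, k s q1.isPGroup pq⟩) fun s => ⟨k s p1.isPGroup pq.symm, s⟩
    obtain ⟨x, hx, ex⟩ := ((this.1.cj_of_mem (mem_top g)).of_le (cent_symm (cent_cj g p6)) le_top).exists_cj_eq
      (this.2.of_le (cent_symm q6) le_top)
    exact ⟨x * g, by rw [cj_mul, cj_sup, cj_sup, ex, cj_eq_of_mem_norm (cent_le_norm _ hx)]⟩
  push Not at s
  exact h _ _ (comm_sup ((h2 c P p1.isPGroup).resolve_right s.1) p4 (cent_symm p6))
    (comm_sup ((h2 c Q q1.isPGroup).resolve_right s.2) q4 (cent_symm q6))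
    (by rw [Compl.sup_eq p3, Compl.sup_eq q3, e])

theorem BG.quot_of (n : ℕ) : ∀ (G : Type u) [Group G] [Finite G], Nat.card G = n → BG G →
    ∀ (M : Subgroup G) [M.Normal], Odd ♯M ∨ Group.IsSolvable G → BG (G ⧸ M) := by
  induction n using Nat.strong_induction_on with
  | _ n ih =>
  rintro G _ _ rfl h M _ hM
  by_cases h0 : M = ⊥
  · have := Fact.mk Nat.prime_two
    exact h.quot (p := 2) (h0 ▸ ⟨inferInstance, fun a ha => by rw [mem_bot.1 ha, one_pow]⟩) fun e => by
      rw [h0, card_bot] at e; omega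
  obtain ⟨p, N, hp, n1, n0, n2, n3⟩ := exists_elem_normalIn (NormalIn.of_normal M)
    (hM.elim FT.solvable_of_odd fun _ => inferInstance) h0
  have := Fact.mk hp
  have := n2.normal
  have q := h.quot n3 fun c P hP => by
    obtain ⟨S, s1, s2⟩ := exists_sylowOf_ge hP le_top
    rcases hM with hM | hM
    · exact Or.inl (comm_of_cyclic ((gens hP c fun y _ => h.uniq c.symm.dvd).resolve_right fun e =>
        ne_two_of_odd hM (c.symm.dvd.trans (card_dvd n0)) e.1))
    rcases h.quat c s1 with e | ⟨rfl, e, -⟩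
    · exact Or.inl (comm_of_cyclic (cyclic_of_le s2 e))
    rcases s2.lt_or_eq with l | rfl
    · have := card_lt l
      obtain ⟨k, hk⟩ := IsPGroup.iff_card.1 hP
      have k2 : k ≤ 2 := by
        by_contra l
        have := Nat.pow_le_pow_right two_pos (show 3 ≤ k by omega)
        omega
      interval_cases k
      · exact Or.inl (by rw [eq_bot_of_card hk]; infer_instance)
      · exact Or.inl (comm_of_cyclic (isCyclic_of_card_prime (by rw [hk]; norm_num)))
      · exact Or.inl (IsPGroup.isMulCommutative_of_card_eq_prime_sq hk)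
    · exact Or.inr s1
  have q2 := ih _ (by
      rw [card_eq_card_quotient_mul_card_subgroup N]
      exact lt_mul_of_one_lt_right Nat.card_pos (one_lt_card n1.1)) _ rfl q (M.map (QuotientGroup.mk' N))
    (hM.imp (fun o => o.of_dvd_nat (card_map_dvd _ _)) fun (_ : Group.IsSolvable G) => inferInstance)
  intro A B hA hB e
  let φ := QuotientGroup.quotientQuotientEquivQuotient N M n0
  have c : ∀ {A : Subgroup (G ⧸ M)}, IsMulCommutative A → IsMulCommutative (A.map φ.symm.toMonoidHom) :=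
    fun hA => inferInstance
  obtain ⟨g, hg⟩ := q2 _ _ (c hA) (c hB) (by
    rw [card_map_of_injective (f := φ.symm.toMonoidHom) φ.symm.injective,
      card_map_of_injective (f := φ.symm.toMonoidHom) φ.symm.injective, e])
  refine ⟨φ g, map_injective (f := φ.symm.toMonoidHom) φ.symm.injective ?_⟩
  simpa [map_cj] using hg

end Cfsg.Agent.H25
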