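import Cfsg.Agent.H25.OC2
import Cfsg.Agent.BG.Rank
import Cfsg.Agent.H9.PCons

/-! Solvable groups in which abelian subgroups of equal order are conjugate. -/

set_option autoImplicit false

namespace Cfsg.Agent.H25

open Subgroup Cfsg.Agent.H20 Cfsg.Agent.H21
open scoped commutatorElement

universe u

variable {G : Type*} [Group G] [Finite G] {p q : ℕ} [hp : Fact p.Prime] [hq : Fact q.Prime] {V U M Q : Subgroup G}

theorem BG.lines (h : BG G) (hV : IsElementaryAbelian p V) [M.Normal] (h1 : U < V) (h0 : U ≠ ⊥) (hM : M ≤ N⟦U⟧)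
    (hMV : M ≤ N⟦V⟧) {v : G} (hv : v ∈ V) : M ≤ N⟦zpowers v⟧ := fun m hm => mem_norm_of_cj_le (by
  rw [cj_zpowers, zpowers_le]
  by_contra hw
  have w := conj_mem_of_norm (hMV hm) hv
  have v1 : v ≠ 1 := by rintro rfl; simp at hw
  have l1 := zpowers_le.2 hv
  have l2 := zpowers_le.2 w
  obtain ⟨B, hB⟩ := BG.elem_exists_compl hV (sup_le l1 l2)
  have l3 := sup_le l1 (Compl.right_le hB)
  obtain ⟨n, hn⟩ := IsPGroup.iff_card.1 ((isPGroup_of_elem hV).to_le h1.le)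
  obtain ⟨k, hk⟩ := IsPGroup.iff_card.1 (isPGroup_of_elem hV)
  have nk := card_lt h1
  rw [hn, hk, Nat.pow_lt_pow_iff_right hp.out.one_lt] at nk
  have d := card_sup_dvd (Or.inl (le_norm_of_comm hV.1 l3 l2))
  rw [sup_right_comm, Compl.sup_eq hB, hk, BG.card_zpowers_of_pow (hV.2 _ w) (fun e => hw (e ▸ one_mem _))] at d
  obtain ⟨R, r1, r2, r3⟩ := BG.pgroup_exists_between ((isPGroup_of_elem hV).to_le l3) (n := n) le_sup_left (by
    rw [BG.card_zpowers_of_pow (hV.2 _ hv) v1, ← hn]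
    exact dvd_card_of_isPGroup ((isPGroup_of_elem hV).to_le h1.le) h0)
    (Nat.dvd_of_mul_dvd_mul_right hp.out.pos ((pow_succ p n ▸ pow_dvd_pow p nk).trans d))
  obtain ⟨g, rfl⟩ := h U R (comm_of_le h1.le hV.1) (comm_of_le (r2.trans l3) hV.1) (hn.trans r3.symm)
  have := norm_cj g hM
  rw [cj_eq_of_mem_norm ((normalizer_eq_top M).ge (mem_top g))] at this
  have m : m * v * m⁻¹ ∈ (zpowers v ⊔ B) ⊓ (zpowers v ⊔ zpowers (m * v * m⁻¹)) :=
    ⟨r2 (conj_mem_of_norm (this hm) (r1 (mem_zpowers v))), mem_sup_right (mem_zpowers _)⟩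
  rw [modular_left (Or.inl (le_norm_of_comm hV.1 l1 (Compl.right_le hB))) le_sup_left, inf_comm,
    Compl.inf_eq hB, sup_bot_eq] at m
  exact hw m)

theorem cent_of_lines (hV : IsElementaryAbelian p V) {m : G} (h : ∀ v ∈ V, m ∈ N⟦zpowers v⟧)
    (h0 : V ⊓ C₁⟦m⟧ ≠ ⊥) : m ∈ C⟦V⟧ := fun v hv => by
  obtain ⟨u, ⟨u1, u2⟩, u0⟩ := exists_ne_one h0
  replace u2 : u * m = m * u := mem_cent1.1 u2
  by_cases b : v ∈ zpowers u
  · exact zpowers_le.2 (mem_cent1.2 u2) b |> mem_cent1.1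
  obtain ⟨j, hj⟩ := conj_mem_of_norm (h _ (mul_mem hv u1)) (mem_zpowers _)
  have c : Commute v u := comm_iff.1 hV.1 v hv u u1
  have e : (v ^ j)⁻¹ * (m * v * m⁻¹) = u ^ (j - 1) := by
    have : m * (v * u) * m⁻¹ = m * v * m⁻¹ * u := by rw [← mul_assoc, mul_assoc _ u, mul_assoc _ m⁻¹]; congr 1
                                                     rw [eq_inv_mul_iff_mul_eq, ← mul_assoc, ← u2]; simp
    rw [this] at hj
    simp only [c.mul_zpow] at hj
    rw [zpow_sub_one, ← mul_inv_eq_iff_eq_mul.2 hj.symm]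
    group
  have o : u ^ (j - 1) = 1 := by
    rcases prime_inf_eq_bot_or_le (X := zpowers v) (A := zpowers u) (by
      rw [BG.card_zpowers_of_pow (hV.2 v hv) (by rintro rfl; simp at b)]; exact hp.out) with i | i
    · exact i.le (mem_inf.2 ⟨e ▸ mul_mem (inv_mem (zpow_mem (mem_zpowers v) j))
        (conj_mem_of_norm (h v hv) (mem_zpowers v)), zpow_mem (mem_zpowers u) _⟩)
    · exact absurd (i (mem_zpowers v)) b
  have o2 : v ^ (j - 1) = 1 := by
    rw [← orderOf_dvd_iff_zpow_eq_one] at o ⊢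
    rwa [BG.elem_orderOf hV hv (by rintro rfl; simp at b), ← BG.elem_orderOf hV u1 u0]
  rw [o, inv_mul_eq_one, ← sub_add_cancel j 1, zpow_add_one, o2, one_mul] at e
  exact eq_mul_inv_iff_mul_eq.1 e

theorem BG.cyc_of_normal (h : BG G) (hV : IsElementaryAbelian p V) [V.Normal] [(Q ⊔ V).Normal] (h0 : V ≠ ⊥)
    (hQ : Q ⊓ C⟦V⟧ = ⊥) (h1 : IsMulCommutative Q ∨ ∃ U < V, U ≠ ⊥ ∧ Q ≤ N⟦U⟧) : IsCyclic Q := by
  have nV : ∀ {X : Subgroup G}, X ≤ N⟦V⟧ := fun {_} => le_top.trans (normalizer_eq_top V).ge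
  have k : ∀ U < V, U ≠ ⊥ → Q ≤ N⟦U⟧ → (∀ v ∈ V, Q ≤ N⟦zpowers v⟧) ∧ ∀ m ∈ Q, m ≠ 1 → V ⊓ C₁⟦m⟧ = ⊥ :=
    fun U h1 h2 h3 => by
      have l : ∀ v ∈ V, Q ≤ N⟦zpowers v⟧ := fun v hv => le_sup_left.trans
        (h.lines (M := Q ⊔ V) hV h1 h2 (sup_le h3 (le_norm_of_comm hV.1 le_rfl h1.le)) nV hv)
      exact ⟨l, fun m hm m1 => by_contra fun e => m1 (hQ.le ⟨hm, cent_of_lines hV (fun v hv => l v hv hm) e⟩)⟩
  rcases h1 with c | ⟨U, h1, h2, h3⟩
  · refine H1.isCyclic_of_fpf h0 nV fun m hm m1 => by_contra fun e => e ?_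
    exact (k _ (lt_of_le_of_ne inf_le_left fun e => m1 (hQ.le ⟨hm, le_cent1_iff.1 (e.ge.trans inf_le_right)⟩)) e
      (norm_inf nV (norm_cent1 (le_cent1_iff.2 (comm_iff_le_cent.1 c hm))))).2 m hm m1
  obtain ⟨k1, k2⟩ := k U h1 h2 h3
  obtain ⟨v, hv, v1⟩ := exists_ne_one h0
  have : IsMulCommutative Q := comm_iff_le_cent.2 (commg_eq_bot.1 (eq_bot_iff.2 fun m hm => by_contra fun m1 =>
    v1 ((k2 m (der_le Q hm) m1).le ⟨hv, mem_cent1_comm.1 (cent_zpowers v ▸
      BG.der1_cent_cyclic inferInstance (k1 v hv) hm)⟩)))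
  exact H1.isCyclic_of_fpf h0 nV k2

theorem normal_of_der_le {T : Subgroup G} (h : ⁅(⊤ : Subgroup G), (⊤ : Subgroup G)⁆ ≤ T) : T.Normal :=
  (NormalIn.of_der_le le_top h).normal

theorem BG.abs [Group.IsSolvable G] (h : BG G)
    (hm : ∀ s : ℕ, s.Prime → piCoreOf {s} (⊤ : Subgroup G) ≠ ⊥ → ∃ N : Subgroup G, N.Normal ∧ ♯N = s)
    (hQ : IsPGroup q Q) : IsCyclic Q ∨ Q.Normal := by
  by_contra hne
  push Not at hne
  have st : ∀ s : ℕ, s.Prime → piCoreOf {s} (⊤ : Subgroup G) ≠ ⊥ → ∀ T : Subgroup G, IsPGroup s T → ¬ IsCyclic T →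
      s = 2 ∧ ♯T = 8 ∧ SylowOf 2 T ⊤ ∧ T ≤ pPrimePCoreOf 2 ⊤ ∧ ∃ a ∈ T, ∃ b ∈ T, orderOf a = 4 ∧ b ∉ zpowers a ∧
        ∀ c ∈ T, c ∉ zpowers a → orderOf c = 4 := fun s hs h0 T hT hc => by
    have := Fact.mk hs
    obtain ⟨N, _, hN⟩ := hm s hs h0
    obtain ⟨S, s1, s2⟩ := exists_sylowOf_ge hT le_top
    obtain ⟨rfl, e, l⟩ := (h.quat hN s1).resolve_left fun c => hc (cyclic_of_le s2 c)
    obtain ⟨-, n, a, b, ha, hb, h1, h2, h3, h4, -, h6⟩ :=
      (gens hT hN fun y _ => h.uniq hN.symm.dvd).resolve_left hc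
    have := Nat.pow_le_pow_right two_pos h1
    have := card_le s2
    obtain rfl := eq_of_le_card s2 (by omega)
    exact ⟨rfl, e, s1, l, a, ha, b, hb, by omega, h4, h6⟩
  have nT : ∀ s : ℕ, (piCoreOf {s} (⊤ : Subgroup G)).Normal := fun s => (piCoreOf_normalIn _ ⊤).normal
  have cy : ∀ T : Subgroup G, T.Normal → IsCyclic T → ∀ x : G, (zpowers x ⊔ C⟦T⟧).Normal := fun T _ c x =>
    normal_of_der_le ((BG.der1_cent_cyclic c (normalizer_eq_top T).ge).trans le_sup_right)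
  by_cases b : piCoreOf {q} (⊤ : Subgroup G) ≠ ⊥
  · obtain ⟨rfl, -, s1, s2, a, ha, b, hb, h1, h2, h3⟩ := st q hq.out b Q hQ hne.1
    have nO := piCoreOf_normalIn {2}ᶜ (⊤ : Subgroup G)
    have o := (isPi_compl_singleton_iff_coprime hq.out).1 (isPi_piCoreOf {2}ᶜ (⊤ : Subgroup G))
    have c : Q ≤ C⟦piCoreOf {2}ᶜ ⊤⟧ := coprime_cent_fittingOf (le_top.trans nO.2) (coprime_of_isPGroup hQ o).symm
      inferInstance (cent_symm (fittingOf_le_of_forall_pCoreOf fun s hs d => ?_))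
    · have sk := s1.of_le s2 le_top
      refine hne.2 (sk.normalIn_trans ⟨s2, ?_⟩ (ppcore_normalIn 2 ⊤)).normal
      rw [← ppcore_eq_sup sk]
      exact sup_le (norm_of_cent (cent_symm c)) le_normalizer
    have := Fact.mk hs
    refine (piCoreOf_le_of_normalIn nO).trans (cent_symm ?_)
    set T := piCoreOf {s} (⊤ : Subgroup G) with hT
    by_cases t : T = ⊥
    · rw [t, cent_bot]; exact le_top
    have := nT s
    have := cy T (nT s) (by_contra fun e => by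
      obtain ⟨rfl, -⟩ := st s hs t T (isPGroup_piCoreOf s ⊤) e
      exact hs.one_lt.ne' ((Nat.coprime_self _).1 (o.coprime_dvd_left (d.trans (card_dvd (fittingOf_le _)))))) a
    obtain ⟨x, x1, y, y1, e⟩ := (mem_sup_of_norm (le_top.trans (normalizer_eq_top _).ge)).1
      (h.mem (mem_sup_left (mem_zpowers a) : a ∈ zpowers a ⊔ C⟦T⟧) (h1.trans (h3 b hb h2).symm))
    have y2 : orderOf y = 4 := h3 y (by
      rw [← inv_mul_cancel_left x y, e]; exact mul_mem (inv_mem (zpowers_le.2 ha x1)) hb)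
      fun m => h2 (e ▸ mul_mem x1 m)
    have out : ∀ c ∈ Q, c ∉ zpowers a → c ∈ C⟦T⟧ := fun c hc e => h.mem y1 (y2.trans (h3 c hc e).symm)
    intro c hc
    by_cases e : c ∈ zpowers a
    · simpa using mul_mem (inv_mem (out b hb h2)) (out (b * c) (mul_mem hb hc) fun e' =>
        h2 (by simpa using mul_mem e' (inv_mem e)))
    · exact out c hc e
  push Not at b
  obtain ⟨y, y1, y2⟩ := exists_prime_order_mem hq.out (dvd_card_of_isPGroup hQ (by
    rintro rfl; exact hne.2 inferInstance))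
  have y3 : y ≠ 1 := fun e => hq.out.one_lt.ne (by rw [← y2, e, orderOf_one])
  obtain ⟨s, hs, c⟩ : ∃ s : ℕ, s.Prime ∧ y ∉ C⟦piCoreOf {s} (⊤ : Subgroup G)⟧ := by
    by_contra hc
    push Not at hc
    exact y3 (b.le (le_pCoreOf_of_le_fittingOf (zpowers_le.2 (cent_fittingOf_le inferInstance ⟨mem_top y,
      le_cent1_iff.1 (fittingOf_le_of_forall_pCoreOf fun s hs _ => le_cent1_iff.2 (hc s hs))⟩))
      (hQ.to_le (zpowers_le.2 y1)) (mem_zpowers y)))
  have := Fact.mk hs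
  set T := piCoreOf {s} (⊤ : Subgroup G) with hT
  have := nT s
  have t : T ≠ ⊥ := fun e => c (by rw [e, cent_bot]; trivial)
  have i : Q ⊓ C⟦T⟧ = ⊥ := by_contra fun e => c (h.uniq ((dvd_card_of_isPGroup (hQ.to_le inf_le_left) e).trans
    (card_dvd inf_le_right)) (y2 ▸ pow_orderOf_eq_one y))
  by_cases cT : IsCyclic T
  · have : IsMulCommutative Q := comm_iff_le_cent.2 (commg_eq_bot.1 (eq_bot_iff.2 ((le_inf (der_le Q)
      (BG.der1_cent_cyclic cT (le_top.trans (normalizer_eq_top T).ge))).trans i.le)))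
    refine hne.1 (H1.isCyclic_subgroup_of_unique_order_p hQ fun x hx z hz h1 h2 => ?_)
    have := cy T (nT s) cT x
    have m : z ∈ (zpowers x ⊔ C⟦T⟧) ⊓ Q := ⟨h.uniq (h1 ▸ orderOf_dvd_natCard _ (mem_sup_left (mem_zpowers x))) h2, hz⟩
    rwa [modular_left (Or.inl (le_top.trans (normalizer_eq_top _).ge)) (zpowers_le.2 hx), inf_comm, i,
      sup_bot_eq] at m
  obtain ⟨rfl, e, -, -, a, ha, -, -, h1, -⟩ := st s hs t T (isPGroup_piCoreOf s ⊤) cT
  have q2 : q ≠ 2 := by rintro rfl; exact t b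
  have ri : ((zpowers a).subgroupOf T).index = 2 := Nat.eq_of_mul_eq_mul_left (by norm_num : 0 < 4) (by
    have := card_mul_relIndex (zpowers_le.2 ha)
    rwa [Nat.card_zpowers, h1, e] at this)
  have fx : ∀ x ∈ Q, x ∈ C₁⟦a⟧ → x = 1 := fun x hx c => i.le ⟨hx, zpowers_le.1 (coprime_cent_of_stable
    (N := zpowers a) (coprime_of_isPGroup_ne ((isPGroup_piCoreOf 2 ⊤).to_le (zpowers_le.2 ha))
      (hQ.to_le (zpowers_le.2 hx)) q2.symm) (commutator_le.2 fun u hu w hw => by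
      have n : w ∈ N⟦zpowers a⟧ := cent_le_norm _ (cent_zpowers a ▸ zpowers_le.2 c hw)
      have := (mul_mem_iff_of_index_two ri (a := ⟨u, hu⟩)
        (b := ⟨w * u⁻¹ * w⁻¹, Normal.conj_mem inferInstance _ (inv_mem hu) w⟩)).2 (by
        simp only [mem_subgroupOf]
        rw [← mem_normalizer_iff.1 n, inv_mem_iff])
      simpa [mem_subgroupOf, commutatorElement_def, mul_assoc] using this) (cent_zpowers a ▸ zpowers_le.2 c))⟩
  have l := Nat.card_le_card_of_injective (fun x : Q => (⟨x * a * x⁻¹, Normal.conj_mem inferInstance a ha x⟩ : T))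
    fun x z e => Subtype.ext (inv_mul_eq_one.1 (fx _ (mul_mem (inv_mem x.2) z.2) (mem_cent1.2 (by
      have : (x : G) * a * (x : G)⁻¹ = z * a * (z : G)⁻¹ := congrArg Subtype.val e
      rw [mul_assoc, inv_mul_eq_iff_eq_mul, ← mul_assoc, ← mul_assoc, this]; simp))))
  obtain ⟨k, hk⟩ := IsPGroup.iff_card.1 hQ
  refine hne.1 (isCyclic_of_card_dvd_prime (p := q) ?_)
  rw [hk] at l ⊢
  have q3 : 3 ≤ q := by have := hq.out.two_le; omega
  have : k ≤ 1 := by
    by_contra l2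
    have := (Nat.pow_le_pow_left q3 2).trans (Nat.pow_le_pow_right hq.out.pos (show 2 ≤ k by omega))
    omega
  simpa using pow_dvd_pow q this

theorem cyc_of_map {G' : Type*} [Group G'] (f : G →* G') {A : Subgroup G} (h : A ⊓ f.ker = ⊥)
    (c : IsCyclic (A.map f)) : IsCyclic A :=
  isCyclic_of_injective (f.subgroupMap A) fun a b e => H9.injective_comp_subtype h (congrArg Subtype.val e)

theorem BG.cyc0 [Group.IsSolvable G] (h : BG G) (hV : IsElementaryAbelian p V) [V.Normal] (hS : SylowOf p V ⊤)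
    (hC : C⟦V⟧ ≤ V) (h1 : U < V) (h0 : U ≠ ⊥) (hQ : IsPGroup q Q) (hpq : q ≠ p) (hn : Q ≤ N⟦U⟧) : IsCyclic Q := by
  have V0 : V ≠ ⊥ := (bot_le.trans_lt h1).ne'
  have hf := QuotientGroup.mk'_surjective V
  have dj : ∀ (s : ℕ) [Fact s.Prime] (P : Subgroup G), IsPGroup s P → s ≠ p → P ⊓ V = ⊥ := fun s _ P hP e =>
    inf_eq_bot_coprime (coprime_of_isPGroup_ne hP (isPGroup_of_elem hV) e)
  have nm : ∀ P : Subgroup G, (P.map (QuotientGroup.mk' V)).Normal → (P ⊔ V).Normal := fun P n => by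
    have := n.comap (QuotientGroup.mk' V)
    rwa [comap_map_eq, QuotientGroup.ker_mk'] at this
  have hm : ∀ s : ℕ, s.Prime → piCoreOf {s} (⊤ : Subgroup (G ⧸ V)) ≠ ⊥ →
      ∃ N : Subgroup (G ⧸ V), N.Normal ∧ ♯N = s := fun s hs b => by
    have := Fact.mk hs
    obtain ⟨r, N, hr, n1, n0, n2, n3⟩ := exists_elem_normalIn (piCoreOf_normalIn {s} ⊤) inferInstance b
    have := Fact.mk hr
    obtain rfl : r = s := by_contra fun e => n1.1 (by
      simpa using inf_eq_bot_coprime (coprime_of_isPGroup_ne (isPGroup_of_elem n3)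
        ((isPGroup_piCoreOf s ⊤).to_le n0) e))
    obtain ⟨P, p1, rfl, -⟩ := exists_plift V (isPGroup_of_elem n3)
    have rp : r ≠ p := by
      rintro rfl
      exact n1.1 ((Subgroup.map_eq_bot_iff _).2 (by
        rw [QuotientGroup.ker_mk']
        exact hS.pgroup_le_of_norm p1 le_top (Or.inl (le_top.trans (normalizer_eq_top V).ge))))
    have := nm P n2.normal
    have c := h.cyc_of_normal hV V0 (eq_bot_iff.2 ((inf_le_inf_left _ hC).trans (dj r P p1 rp).le))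
      (Or.inl (comm_iff_le_cent.2 (commg_eq_bot.1 (eq_bot_iff.2 ((le_inf (der_le P) (by
        conv_rhs => rw [← QuotientGroup.ker_mk' V]
        rw [← Subgroup.map_eq_bot_iff, map_commutator, commg_eq_bot]
        exact comm_iff_le_cent.1 n3.1)).trans (dj r P p1 rp).le)))))
    exact ⟨_, n2.normal, ((Nat.dvd_prime hr).1 ((BG.elem_cyclic_iff n3).1 (cyclic_map _ c))).resolve_left
      fun e => n1.1 (eq_bot_of_card e)⟩
  rcases (BG.quot_of _ G rfl h V (Or.inr inferInstance)).abs hm (hQ.map (QuotientGroup.mk' V))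
    with c | c
  · exact cyc_of_map _ (by rw [QuotientGroup.ker_mk']; exact dj q Q hQ hpq) c
  · have := nm Q c
    exact h.cyc_of_normal hV V0 (eq_bot_iff.2 ((inf_le_inf_left _ hC).trans (dj q Q hQ hpq).le))
      (Or.inr ⟨U, h1, h0, hn⟩)

theorem BG.cyc1 [Group.IsSolvable G] (h : BG G) (hV : IsElementaryAbelian p V) [V.Normal] (hS : SylowOf p V ⊤)
    (h1 : U < V) (h0 : U ≠ ⊥) (hQ : IsPGroup q Q) (hd : ¬ q ∣ ♯C⟦V⟧) (hn : Q ≤ N⟦U⟧) : IsCyclic Q := by
  set D := piCoreOf {p}ᶜ C⟦V⟧ with hD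
  have : D.Normal := (piCoreOf_normalIn_of _ (NormalIn.of_normal _)).normal
  have vc : V ≤ C⟦V⟧ := comm_iff_le_cent.1 hV.1
  have dc := (isPi_compl_singleton_iff_coprime hp.out).1 (isPi_piCoreOf {p}ᶜ C⟦V⟧)
  have vp := isPGroup_of_elem hV
  have i : V ⊓ (QuotientGroup.mk' D).ker = ⊥ := by
    rw [QuotientGroup.ker_mk']; exact inf_eq_bot_coprime (coprime_of_isPGroup vp dc)
  have : (V.map (QuotientGroup.mk' D)).Normal := Normal.map inferInstance _ (QuotientGroup.mk'_surjective D)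
  have cm : ∀ A ≤ V, ♯(A.map (QuotientGroup.mk' D)) = ♯A := fun A hA =>
    H9.card_map_of_disjoint (eq_bot_iff.2 ((inf_le_inf_right _ hA).trans i.le))
  refine cyc_of_map (QuotientGroup.mk' D) (by
    rw [QuotientGroup.ker_mk']
    exact inf_eq_bot_coprime (coprime_of_isPGroup hQ (hq.out.coprime_iff_not_dvd.2 fun e =>
      hd (e.trans (card_dvd (piCoreOf_le _ _)))).symm))
    ((BG.quot_of _ G rfl h D (Or.inr inferInstance)).cyc0 (BG.elem_map hV _) (U := U.map (QuotientGroup.mk' D))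
      (by simpa [map_top_of_surjective _ (QuotientGroup.mk'_surjective D)] using hS.map (QuotientGroup.mk' D)) ?_
      (lt_of_le_of_ne (map_mono h1.le) fun e => (card_lt h1).ne (by rw [← cm U h1.le, e, cm V le_rfl]))
      (fun e => h0 (eq_bot_of_card (by rw [← cm U h1.le, e, card_bot]))) (hQ.map _)
      (by rintro rfl; exact hd ((dvd_card_of_isPGroup vp (bot_le.trans_lt h1).ne').trans (card_dvd vc)))
      (norm_map _ hn))
  rw [H9.centralizer_map_mk'_of_coprime vp dc]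
  have s := hS.of_le vc le_top
  obtain ⟨E, hE⟩ := s.exists_compl ⟨vc, cent_le_norm V⟩
  have : E ≤ D := le_piCoreOf ⟨Compl.right_le hE, (Compl.sup_eq hE).ge.trans
    (sup_le (norm_of_cent (cent_symm (Compl.right_le hE))) le_normalizer)⟩ (s.compl_isPi hE)
  refine (map_mono (Compl.sup_eq hE).ge).trans ?_
  rw [Subgroup.map_sup, (Subgroup.map_eq_bot_iff E).2 (by rwa [QuotientGroup.ker_mk']), sup_bot_eq]

theorem BG.oc (n : ℕ) : ∀ (G : Type u) [Group G] [Finite G] [Group.IsSolvable G], Nat.card G = n → BG G → OC G := by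
  induction n using Nat.strong_induction_on with
  | _ n ih =>
  rintro G _ _ _ rfl h H K e
  by_contra hne
  have q : ∀ (N : Subgroup G) [N.Normal], N ≠ ⊥ → OC (G ⧸ N) := fun N _ h0 => ih _ (by
      rw [card_eq_card_quotient_mul_card_subgroup N]
      exact lt_mul_of_one_lt_right Nat.card_pos (one_lt_card h0)) _ rfl
    (BG.quot_of _ G rfl h N (Or.inr inferInstance))
  have hU : ∀ {N : Subgroup G}, IsMulCommutative N → ∀ U ≤ N, ∀ W ≤ N, ♯U = ♯W → ∃ g, cj g U = W :=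
    fun c U hU W hW e => (h U W (comm_of_le hU c) (comm_of_le hW c) e).imp fun _ => Eq.symm
  have sy : ∀ (s : ℕ) [Fact s.Prime] {V F : Subgroup G} [V.Normal], SylowOf s V ⊤ → V ≤ F → ∀ X : Subgroup G,
      ¬ s ∣ F.relIndex X := fun s _ V F _ h1 h2 X => by
    obtain ⟨P, hP⟩ := exists_sylowOf s X
    exact not_dvd_relIndex hP ((h1.pgroup_le_of_norm hP.isPGroup le_top
      (Or.inl (le_top.trans (normalizer_eq_top V).ge))).trans h2)
  have bad : ∀ s : ℕ, s.Prime → piCoreOf {s} (⊤ : Subgroup G) ≠ ⊥ → ∃ V : Subgroup G, V = piCoreOf {s} ⊤ ∧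
      MinNormal V ⊤ ∧ IsElementaryAbelian s V ∧ SylowOf s V ⊤ ∧ V ⊓ K ≠ ⊥ ∧ V ⊓ K < V := fun s hs b => by
    have := Fact.mk hs
    obtain ⟨r, N, hr, n1, n0, n2, n3⟩ := exists_elem_normalIn (piCoreOf_normalIn {s} ⊤) inferInstance b
    have := Fact.mk hr
    have := n2.normal
    have nP := isPGroup_of_elem n3
    obtain rfl : r = s := by_contra fun e => n1.1 (by
      simpa using inf_eq_bot_coprime (coprime_of_isPGroup_ne nP ((isPGroup_piCoreOf s ⊤).to_le n0) e))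
    rcases h.sylow n3 n1.1 with c | c
    · refine (hne ?_).elim
      by_cases d : r ∣ ♯H
      · have : ∀ X : Subgroup G, r ∣ ♯X → N ≤ X := fun X d => by
          obtain ⟨y, y1, y2⟩ := exists_prime_order_mem hr d
          rw [← eq_zpowers_of_card_prime (c ▸ hr) (h.uniq c.symm.dvd (y2 ▸ pow_orderOf_eq_one y))
            fun e => hr.one_lt.ne (by rw [← y2, e, orderOf_one])]
          exact zpowers_le.2 y1
        exact (q N n1.1).of_le e (this H d) (this K (e ▸ d))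
      have : ∀ X : Subgroup G, ¬ r ∣ ♯X → (♯N).Coprime (♯X) := fun X d => c ▸ hr.coprime_iff_not_dvd.2 d
      exact (q N n1.1).step e ((this H d).coprime_dvd_right (relIndex_dvd_card N H))
        ((this K (e ▸ d)).coprime_dvd_right (relIndex_dvd_card N K)) (hU n3.1)
        fun b => absurd (inf_eq_bot_coprime (this K (e ▸ d))) b
    have cp : ∀ X : Subgroup G, (♯N).Coprime (N.relIndex X) := fun X =>
      coprime_of_isPGroup nP (hr.coprime_iff_not_dvd.2 (sy r c le_rfl X)).symm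
    refine ⟨N, (c.pgroup_eq_of_le (isPGroup_piCoreOf r ⊤) n0 le_top).symm, n1, n3, c, fun b => hne
      ((q N n1.1).step e (cp H) (cp K) (hU n3.1) fun b' => absurd b b'), lt_of_le_of_ne inf_le_left fun b => hne ?_⟩
    have l := b.ge.trans inf_le_right
    refine (q N n1.1).of_le e ?_ l
    obtain ⟨P, hP⟩ := exists_sylowOf r H
    rw [← eq_of_le_card (c.pgroup_le_of_norm hP.isPGroup le_top (Or.inl (le_top.trans n2.2)))
      (by rw [hP.card_eq_pow, e, (c.of_le l le_top).card_eq_pow])]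
    exact hP.le
  set F := fittingOf (⊤ : Subgroup G) with hF
  have : F.Normal := (fittingOf_normalIn ⊤).normal
  have od : ∀ s : ℕ, s.Prime → s ∣ ♯F → piCoreOf {s} (⊤ : Subgroup G) ≠ ⊥ := fun s hs d =>
    have := Fact.mk hs
    (pCoreOf_sylow_fittingOf s ⊤).sylow_ne_bot d
  have cp : ∀ X : Subgroup G, (♯F).Coprime (F.relIndex X) := fun X => Nat.coprime_of_dvd fun s hs d => by
    have := Fact.mk hs
    obtain ⟨V, rfl, -, -, v, -⟩ := bad s hs (od s hs d)
    have := (piCoreOf_normalIn {s} (⊤ : Subgroup G)).normal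
    exact sy s v (pCoreOf_le_fittingOf s ⊤) X
  refine hne ((q F (fittingOf_ne_bot inferInstance fun h0 => hne ⟨1, by
    rw [le_bot_iff.1 (le_top.trans h0.le : K ≤ ⊥), le_bot_iff.1 (le_top.trans h0.le : H ≤ ⊥), cj_bot]⟩)).step e
    (cp H) (cp K) (hU (comm_iff_le_cent.2 (fittingOf_le_of_forall_pCoreOf fun s hs d => ?_)))
    fun _ E hE c => oc_of_cyc fun s hs X hX => ?_)
  · obtain ⟨V, rfl, v, -⟩ := bad s hs (od s hs d)
    exact cent_symm (v.fittingOf_cent le_top)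
  have := Fact.mk hs
  refine cyc_of_map E.subtype (by simp) ?_
  have x1 := hX.map E.subtype
  have x2 := map_subtype_le X
  generalize X.map E.subtype = Q at x1 x2
  by_cases Q0 : Q = ⊥
  · rw [Q0]; infer_instance
  obtain ⟨y, y1, y2⟩ := exists_prime_order_mem hs (dvd_card_of_isPGroup x1 Q0)
  obtain ⟨r, hr, d, c⟩ : ∃ r : ℕ, r.Prime ∧ r ∣ ♯F ∧ y ∉ C⟦piCoreOf {r} (⊤ : Subgroup G)⟧ := by
    by_contra hc
    push Not at hc
    exact hs.one_lt.ne' (y2 ▸ orderOf_eq_one_iff.2 ((inf_eq_bot_coprime c).le ⟨x2 y1,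
      cent_fittingOf_le inferInstance ⟨mem_top y,
      le_cent1_iff.1 (fittingOf_le_of_forall_pCoreOf fun s hs d => le_cent1_iff.2 (hc s hs d))⟩⟩))
  have := Fact.mk hr
  obtain ⟨V, rfl, -, v1, v2, v3, v4⟩ := bad r hr (od r hr d)
  have := (piCoreOf_normalIn {r} (⊤ : Subgroup G)).normal
  refine h.cyc1 v1 v2 v4 v3 x1 (fun d => c (h.uniq d (y2 ▸ pow_orderOf_eq_one y))) ?_
  rw [← inf_eq_left.2 (pCoreOf_le_fittingOf r ⊤), inf_assoc]
  exact norm_inf (le_top.trans (normalizer_eq_top _).ge) (x2.trans hE)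

end Cfsg.Agent.H25
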