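import Mathlib
import Cfsg.Agent.H25.Nd2

/-!
Tools on groups of automorphisms of finite abelian groups.
-/

set_option autoImplicit false
set_option linter.dupNamespace false

namespace Cfsg.Agent.H25.Pal

open Cfsg.Agent.H25.Nd
open scoped commutatorElement

theorem exists_fixed {H X : Type*} [Group H] [MulAction H X] {S : Set X} (hf : S.Finite) {g : H}
    {p n : ℕ} (hp : p.Prime) (hg : g ^ p ^ n = 1) (hS : ∀ x ∈ S, g • x ∈ S)
    (h : ¬ p ∣ S.ncard) : ∃ x ∈ S, g • x = x := by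
  classical
  haveI := Fact.mk hp
  haveI := hf.fintype
  let f : S → S := fun y => ⟨g • y.1, hS _ y.2⟩
  have h2 : ∀ (k : ℕ) (y : S), (f^[k] y).1 = g ^ k • y.1 := by
    intro k
    induction k with
    | zero => simp
    | succ k ih => intro y; rw [Function.iterate_succ_apply', pow_succ', mul_smul, ← ih]
  have h4 : Function.Bijective f := Finite.injective_iff_bijective.1 fun a b hab =>
    Subtype.ext (MulAction.injective g (congrArg Subtype.val hab))
  obtain ⟨y, hy⟩ := Equiv.Perm.exists_fixed_point_of_prime (p := p) (n := n) (α := S)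
    (by rwa [← Nat.card_eq_fintype_card, Nat.card_coe_set_eq]) (σ := Equiv.ofBijective f h4) (by
      ext y
      rw [Equiv.Perm.coe_pow]
      exact (h2 _ y).trans (by rw [hg, one_smul]; rfl))
  exact ⟨y.1, y.2, congrArg Subtype.val hy⟩

theorem part {V : Type*} [Group V] [Finite V] {ι : Type*} [Finite ι] (W : Subgroup V)
    (F : ι → Subgroup V) {c : ℕ} (hc : ∀ i, Nat.card (F i) = c) (hle : ∀ i, F i ≤ W)
    (h : ∀ w ∈ W, w ≠ 1 → ∃! i, w ∈ F i) : Nat.card W - 1 = (c - 1) * Nat.card ι := by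
  classical
  haveI := Fintype.ofFinite ι
  haveI := Fintype.ofFinite V
  have e : ∀ K : Subgroup V, ((Finset.univ.filter (· ∈ K)).erase 1).card = Nat.card K - 1 := by
    intro K
    rw [Finset.card_erase_of_mem (by simp), Nat.card_eq_fintype_card, Fintype.card_subtype]
  have h1 : (Finset.univ.filter (· ∈ W)).erase 1 =
      Finset.univ.biUnion fun i => (Finset.univ.filter (· ∈ F i)).erase 1 := by
    ext w
    simp only [Finset.mem_erase, Finset.mem_filter, Finset.mem_univ, true_and, Finset.mem_biUnion]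
    exact ⟨fun ⟨h1, h2⟩ => (h w h2 h1).exists.imp fun i hi => ⟨h1, hi⟩,
      fun ⟨i, h1, h2⟩ => ⟨h1, hle i h2⟩⟩
  rw [← e, h1, Finset.card_biUnion]
  · simp only [e, hc, Finset.sum_const, Finset.card_univ, smul_eq_mul, Nat.card_eq_fintype_card,
      mul_comm]
  · intro i _ j _ hij
    refine Finset.disjoint_left.2 fun w h1 h2 => hij ?_
    simp only [Finset.mem_erase, Finset.mem_filter, Finset.mem_univ, true_and] at h1 h2
    exact (h w (hle i h1.2) h1.1).unique h1.2 h2.2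

theorem arith {y a b n e : ℕ} (hy : y.Prime) (he : e.Prime) (ha : a ≠ 0)
    (h : y ^ a - 1 = (y ^ b - 1) * n) (h1 : e ∣ n) (h2 : e ∣ y ^ b - 1)
    (h3 : y ^ a ≤ (y ^ b) ^ (e - 1)) : False := by
  have h4 : 1 < y ^ a := Nat.one_lt_pow ha hy.one_lt
  have hb : b ≠ 0 := by
    rintro rfl
    simp only [pow_zero, Nat.sub_self, zero_mul] at h
    omega
  have h5 : 1 < y ^ b := Nat.one_lt_pow hb hy.one_lt
  have h6 : b ∣ a := by
    have h6 := Nat.pow_sub_one_gcd_pow_sub_one y b a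
    rw [Nat.gcd_eq_left ⟨n, h⟩] at h6
    have h7 := Nat.one_le_pow (b.gcd a) y hy.pos
    have h8 : b = b.gcd a := Nat.pow_right_injective hy.two_le (show y ^ b = y ^ b.gcd a by omega)
    exact h8 ▸ Nat.gcd_dvd_right b a
  obtain ⟨k, rfl⟩ := h6
  rw [pow_mul] at h h3
  generalize y ^ b = c at *
  have h7 : k ≤ e - 1 := (Nat.pow_le_pow_iff_right h5).1 h3
  have h8 : n = ∑ i ∈ Finset.range k, c ^ i := by
    rw [Nat.geomSum_eq h5, h, Nat.mul_div_cancel_left _ (by omega)]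
  have h9 : (c : ZMod e) = 1 := by
    obtain ⟨u, rfl⟩ : ∃ u, c = u + 1 := ⟨c - 1, by omega⟩
    rw [Nat.add_sub_cancel] at h2
    rw [Nat.cast_add, (ZMod.natCast_eq_zero_iff _ _).2 h2]; simp
  have h10 := (ZMod.natCast_eq_zero_iff _ _).2 h1
  rw [h8] at h10
  simp only [Nat.cast_sum, Nat.cast_pow, h9, one_pow, Finset.sum_const, Finset.card_range,
    nsmul_eq_mul, mul_one] at h10
  have h11 := Nat.le_of_dvd (Nat.pos_of_ne_zero (by rintro rfl; simp at ha))
    ((ZMod.natCast_eq_zero_iff _ _).1 h10)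
  have := he.two_le
  omega

theorem mul_pow_c {H : Type*} [Group H] {a b c : H} (h : b * a = a * b * c) (ha : Commute c a)
    (hb : Commute c b) (n : ℕ) : (a * b) ^ n = a ^ n * b ^ n * c ^ n.choose 2 := by
  have h1 : ∀ n : ℕ, b ^ n * a = a * b ^ n * c ^ n := by
    intro n
    induction n with
    | zero => simp
    | succ n ih =>
      rw [pow_succ', mul_assoc, ih, ← mul_assoc, ← mul_assoc, h, mul_assoc (a * b),
        (hb.pow_right n).eq, pow_succ' c]
      group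
  induction n with
  | zero => simp
  | succ n ih =>
    rw [pow_succ, ih, Nat.choose_succ_succ, Nat.choose_one_right, mul_assoc,
      ((ha.mul_right hb).pow_left _).eq, ← mul_assoc, ← mul_assoc, mul_assoc (a ^ n), h1,
      mul_assoc _ b, ← mul_assoc (a ^ n), mul_assoc _ (c ^ n), ← mul_assoc (c ^ n),
      (hb.pow_left n).eq, pow_add]
    group

variable {H V : Type*} [Group H] [CommGroup V] (φ : H →* MulAut V)

/-- stabilizer -/
def St (v : V) : Subgroup H where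
  carrier := {h | φ h v = v}
  one_mem' := by simp
  mul_mem' := fun {a b} ha hb => by
    simp only [Set.mem_setOf_eq] at *
    rw [map_mul, MulAut.mul_apply, hb, ha]
  inv_mem' := fun {a} ha => by
    simp only [Set.mem_setOf_eq] at *
    conv_lhs => rw [← ha]
    rw [← MulAut.mul_apply, ← map_mul, inv_mul_cancel, map_one, MulAut.one_apply]

/-- fixed points -/
def Fi (S : Set H) : Subgroup V where
  carrier := {v | ∀ h ∈ S, φ h v = v}
  one_mem' := by simp
  mul_mem' := fun {a b} ha hb h hh => by rw [map_mul, ha h hh, hb h hh]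
  inv_mem' := fun {a} ha h hh => by rw [map_inv, ha h hh]

variable {φ}

theorem mem_St {v : V} {h : H} : h ∈ St φ v ↔ φ h v = v := Iff.rfl
theorem mem_Fi {v : V} {S : Set H} : v ∈ Fi φ S ↔ ∀ h ∈ S, φ h v = v := Iff.rfl

theorem ap_mul (a b : H) (v : V) : φ (a * b) v = φ a (φ b v) := by rw [map_mul, MulAut.mul_apply]
theorem ap_inv (a : H) (v : V) : φ a⁻¹ (φ a v) = v := by rw [← ap_mul]; simp
theorem ap_inv' (a : H) (v : V) : φ a (φ a⁻¹ v) = v := by rw [← ap_mul]; simp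

theorem mem_St_ap {v : V} {g h : H} : h ∈ St φ (φ g v) ↔ g⁻¹ * h * g ∈ St φ v := by
  rw [mem_St, mem_St, ap_mul, ap_mul]
  exact ⟨fun h1 => by rw [h1, ap_inv], fun h1 => by conv_rhs => rw [← h1, ap_inv']⟩

theorem ap_ne {v : V} (hv : v ≠ 1) (g : H) : φ g v ≠ 1 := fun h => hv (by simpa using h)

theorem card_Fi_conj (S T : Set H) (g : H) (h : ∀ x, x ∈ T ↔ g⁻¹ * x * g ∈ S) {W : Subgroup V}
    (hW : ∀ h, ∀ w ∈ W, φ h w ∈ W) :
    Nat.card (W ⊓ Fi φ T : Subgroup V) = Nat.card (W ⊓ Fi φ S : Subgroup V) :=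
  Nat.card_congr
    { toFun := fun v => ⟨φ g⁻¹ v.1, hW _ _ v.2.1, fun x hx => mem_St.1 (mem_St_ap.2
        (v.2.2 _ ((h _).2 (by simpa [mul_assoc] using hx))))⟩
      invFun := fun v => ⟨φ g v.1, hW _ _ v.2.1, fun x hx => mem_St.1 (mem_St_ap.2
        (v.2.2 _ ((h _).1 hx)))⟩
      left_inv := fun v => Subtype.ext (ap_inv' _ _)
      right_inv := fun v => Subtype.ext (ap_inv _ _) }

variable [Finite H] [Finite V]

theorem gen [Nontrivial V] (X : Subgroup H) (hX : ∀ a ∈ X, ∀ b ∈ X, a * b = b * a) :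
    ∃ v : V, v ≠ 1 ∧ ∃ x₀ ∈ X, ∀ x ∈ X, ∃ k : ℕ, x * (x₀ ^ k)⁻¹ ∈ St φ v := by
  obtain ⟨_, ⟨z, hz1, rfl⟩, hmax⟩ := (wellFounded_gt (α := Subgroup H)).has_min
    {R | ∃ z : V, z ≠ 1 ∧ R = X ⊓ St φ z} (by
      obtain ⟨z, hz⟩ := exists_ne (1 : V)
      exact ⟨_, z, hz, rfl⟩)
  set R := X ⊓ St φ z with hR
  let Y := Fi φ R
  have hzY : z ∈ Y := fun g hg => hg.2
  have hY : ∀ n ∈ X, ∀ y ∈ Y, φ n y ∈ Y := fun n hn y hy g hg => by
    rw [← ap_mul, hX g hg.1 n hn, ap_mul, hy g hg]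
  let ψ : X →* MulAut Y := MonoidHom.mk' (fun n =>
    { toFun := fun y => ⟨φ n y, hY n n.2 y y.2⟩
      invFun := fun y => ⟨φ n.1⁻¹ y, hY _ (X.inv_mem n.2) y y.2⟩
      left_inv := fun y => Subtype.ext (ap_inv _ _)
      right_inv := fun y => Subtype.ext (ap_inv' _ _)
      map_mul' := fun a b => Subtype.ext (map_mul (φ n) _ _) })
    fun a b => MulEquiv.ext fun y => Subtype.ext (ap_mul _ _ _)
  have e : ∀ n y, (ψ n y : V) = φ n y := fun _ _ => rfl
  haveI : Nontrivial Y := ⟨⟨⟨z, hzY⟩, 1, fun h => hz1 (congrArg Subtype.val h)⟩⟩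
  haveI : IsMulCommutative ψ.range := ⟨⟨by
    rintro ⟨_, n, rfl⟩ ⟨_, m, rfl⟩
    apply Subtype.ext
    show ψ n * ψ m = ψ m * ψ n
    rw [← map_mul, ← map_mul]
    exact congrArg ψ (Subtype.ext (hX _ n.2 _ m.2))⟩⟩
  have hs : H1.Semireg ψ.range.subtype := by
    rintro ⟨_, n, rfl⟩ h1 y hy
    by_contra hy1
    have h2 : R ≤ X ⊓ St φ y.1 := fun g hg => ⟨hg.1, y.2 g hg⟩
    have h3 : R = X ⊓ St φ y.1 := by
      by_contra h3
      exact hmax _ ⟨y.1, fun h => hy1 (Subtype.ext h), rfl⟩ (lt_of_le_of_ne h2 h3)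
    have h4 : n.1 ∈ R := by
      rw [h3]
      exact ⟨n.2, congrArg Subtype.val hy⟩
    exact h1 (Subtype.ext (MulEquiv.ext fun v => Subtype.ext (v.2 _ h4)))
  obtain ⟨⟨_, n₀, rfl⟩, hg⟩ := (hs.isCyclic).exists_monoid_generator
  refine ⟨z, hz1, n₀, n₀.2, fun n hnN => ?_⟩
  obtain ⟨k, hk⟩ := hg ⟨ψ ⟨n, hnN⟩, _, rfl⟩
  have h1 : ψ n₀ ^ k = ψ ⟨n, hnN⟩ := congrArg Subtype.val hk
  have h2 : ψ (⟨n, hnN⟩ * (n₀ ^ k)⁻¹) = 1 := by rw [map_mul, map_inv, map_pow, h1, mul_inv_cancel]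
  have h3 := e (⟨n, hnN⟩ * (n₀ ^ k)⁻¹) ⟨z, hzY⟩
  rw [h2] at h3
  exact ⟨k, h3.symm⟩

theorem bound {E : Subgroup H} [hE : E.Normal] (hc : ∀ a ∈ E, ∀ b ∈ E, a * b = b * a) {τ : H}
    {r : ℕ} (hr : r ≠ 0) (hτ : τ ^ r = 1)
    (h1 : ∀ i, 0 < i → i < r → ∀ g ∈ E, g * τ ^ i = τ ^ i * g → g = 1)
    (h2 : ∀ v, v ∈ Fi φ E → v = 1) (h3 : (Nat.card E).Coprime (Nat.card V)) :
    Nat.card V ≤ Nat.card (Fi φ {τ}) ^ (Nat.card E - 1) := by
  classical
  haveI := Fintype.ofFinite E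
  have nm : ∀ u, ∏ g : E, φ g u = 1 := fun u => h2 _ fun x hx => by
    rw [map_prod]
    exact Fintype.prod_equiv (Equiv.mulLeft (⟨x, hx⟩ : E)) _ _ fun g => (ap_mul _ _ _).symm
  let f : ({g : E // g ≠ 1} → Fi φ {τ}) →* V := MonoidHom.mk'
    (fun u => ∏ g : {g : E // g ≠ 1}, φ g.1 (u g)) fun a b => by
      simp only [Pi.mul_apply, Subgroup.coe_mul, map_mul, Finset.prod_mul_distrib]
  have k1 : ∀ g : E, g ≠ 1 → ∀ u ∈ Fi φ {τ}, φ g u ∈ f.range := fun g hg u hu =>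
    ⟨Pi.mulSingle ⟨g, hg⟩ ⟨u, hu⟩, by
      show ∏ g' : {g : E // g ≠ 1}, _ = _
      rw [Finset.prod_eq_single ⟨g, hg⟩ (fun b _ hb => by simp [Pi.mulSingle_eq_of_ne hb])
        (by simp)]
      simp⟩
  have k2 : ∀ g : E, ∀ u ∈ Fi φ {τ}, φ g u ∈ f.range := fun g u hu => by
    by_cases hg : g = 1
    · have h4 := nm u
      rw [← Finset.mul_prod_erase _ _ (Finset.mem_univ g), mul_eq_one_iff_eq_inv] at h4
      rw [h4]
      exact Subgroup.inv_mem _ (Subgroup.prod_mem _ fun x hx =>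
        k1 x (hg ▸ (Finset.mem_erase.1 hx).1) u hu)
    · exact k1 g hg u hu
  have k3 : Function.Surjective f := fun v => by
    have h4 : ∏ g : E, φ g (∏ i ∈ Finset.range r, φ (τ ^ i) (φ g.1⁻¹ v)) ∈ f.range :=
      Subgroup.prod_mem _ fun g _ => k2 g _ fun t ht => by
        rw [Set.mem_singleton_iff.1 ht]
        exact H1.apply_prod_range_apply φ hτ _
    simp only [map_prod] at h4
    rw [Finset.prod_comm, Finset.prod_eq_single 0 ?_ (by simp [Nat.pos_of_ne_zero hr])] at h4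
    · simp only [pow_zero, map_one, MulAut.one_apply, ap_inv', Finset.prod_const,
        Finset.card_univ, ← Nat.card_eq_fintype_card] at h4
      exact mem_of_pow_mem h3 h4 (by rw [pow_card_eq_one']; exact Subgroup.one_mem _)
    · intro i hi hi0
      let s : E → E := fun g => ⟨g * (τ ^ i * g.1⁻¹ * (τ ^ i)⁻¹),
        E.mul_mem g.2 (hE.conj_mem _ (E.inv_mem g.2) _)⟩
      have hs : Function.Bijective s := Finite.injective_iff_bijective.1 fun a b hab => by
        have h5 : a.1 * (τ ^ i * a.1⁻¹ * (τ ^ i)⁻¹) = b * (τ ^ i * b.1⁻¹ * (τ ^ i)⁻¹) :=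
          congrArg Subtype.val hab
        have h6 := h1 i (Nat.pos_of_ne_zero hi0) (Finset.mem_range.1 hi) (b.1⁻¹ * a)
          (E.mul_mem (E.inv_mem b.2) a.2) (by
            calc _ = b.1⁻¹ * (a.1 * (τ ^ i * a.1⁻¹ * (τ ^ i)⁻¹)) * τ ^ i * a := by group
              _ = _ := by rw [h5]; group)
        exact Subtype.ext (inv_mul_eq_one.1 h6).symm
      rw [← nm (φ (τ ^ i) v)]
      refine Fintype.prod_bijective s hs _ _ fun g => ?_
      rw [← ap_mul, ← ap_mul, ← ap_mul]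
      congr 2
      show _ = g.1 * (τ ^ i * g.1⁻¹ * (τ ^ i)⁻¹) * τ ^ i
      group
  refine (Nat.card_le_card_of_surjective f k3).trans_eq ?_
  rw [Nat.card_fun, Nat.card_eq_fintype_card (α := {g : E // g ≠ 1}), Fintype.card_subtype_compl,
    Fintype.card_subtype_eq, Nat.card_eq_fintype_card (α := E)]

end Cfsg.Agent.H25.Pal
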