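import Mathlib
import Cfsg.Agent.H25.Pal1
import Cfsg.Agent.H8.Deg5

/-!
Groups of automorphisms in which every vector is fixed by a unique Hall subgroup.
-/

set_option autoImplicit false
set_option linter.dupNamespace false

namespace Cfsg.Agent.H25.Pal

open Cfsg.Agent.H25.Nd
open scoped commutatorElement

variable {H : Type*} [Group H]

theorem cop_fix {ρ a : H} {s : ℕ} (h : ρ ^ s = 1) (hc : Commute ρ (ρ * a * ρ⁻¹ * a⁻¹)) :
    (ρ * a * ρ⁻¹ * a⁻¹) ^ s = 1 := by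
  generalize hu : ρ * a * ρ⁻¹ * a⁻¹ = u at hc
  have h1 : ∀ n : ℕ, ρ ^ n * a * (ρ ^ n)⁻¹ = u ^ n * a := by
    intro n
    induction n with
    | zero => simp
    | succ n ih =>
      calc _ = ρ * (ρ ^ n * a * (ρ ^ n)⁻¹) * ρ⁻¹ := by rw [pow_succ']; group
        _ = u ^ n * (ρ * a * ρ⁻¹ * a⁻¹) * a := by rw [ih, ← mul_assoc, (hc.pow_right n).eq]; group
        _ = _ := by rw [hu, pow_succ]
  simpa [h] using (h1 s).symm

theorem mul_pow_mem {W Z : Subgroup H} [Z.Normal] (h : ⁅W, W⁆ ≤ Z) {x y : H} (hx : x ∈ W)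
    (hy : y ∈ W) (n : ℕ) : (x * y) ^ n ∈ Z ↔ x ^ n * y ^ n ∈ Z := by
  have h2 : QuotientGroup.mk' Z (x * y * x⁻¹ * y⁻¹) = 1 :=
    (QuotientGroup.eq_one_iff _).2 (h (cm hx hy))
  simp only [map_mul, map_inv] at h2
  rw [← commutatorElement_def, commutatorElement_eq_one_iff_commute] at h2
  rw [← QuotientGroup.eq_one_iff, ← QuotientGroup.eq_one_iff, ← QuotientGroup.mk'_apply,
    ← QuotientGroup.mk'_apply, map_pow, map_mul, h2.mul_pow, map_mul, map_pow, map_pow]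

/-- elements whose `n`-th power lies in `Z` -/
def powSub (W Z : Subgroup H) [Z.Normal] (h : ⁅W, W⁆ ≤ Z) (n : ℕ) : Subgroup H where
  carrier := {x | x ∈ W ∧ x ^ n ∈ Z}
  one_mem' := ⟨W.one_mem, by simp⟩
  mul_mem' := fun ha hb => ⟨W.mul_mem ha.1 hb.1, (mul_pow_mem h ha.1 hb.1 n).2 (Z.mul_mem ha.2 hb.2)⟩
  inv_mem' := fun ha => ⟨W.inv_mem ha.1, by rw [inv_pow]; exact Z.inv_mem ha.2⟩

instance powSub_normal (W Z : Subgroup H) [hW : W.Normal] [hZ : Z.Normal] (h : ⁅W, W⁆ ≤ Z)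
    (n : ℕ) : (powSub W Z h n).Normal :=
  ⟨fun x hx g => ⟨hW.conj_mem x hx.1 g, by rw [conj_pow]; exact hZ.conj_mem _ hx.2 g⟩⟩

theorem der_bot {W : Subgroup H} (h : ∀ a ∈ W, ∀ b ∈ W, a * b = b * a) : ⁅W, W⁆ ≤ ⊥ :=
  Subgroup.commutator_le.2 fun a ha b hb => commutatorElement_eq_one_iff_mul_comm.2 (h a ha b hb)

theorem two {K X : Subgroup H} {z ρ : H} {l : ℕ} (hc : ∀ k ∈ K, ∀ x ∈ X, k * x = x * k)
    (hz : z ∈ X) (hz1 : z ≠ 1) (hz2 : z * z = 1) (sq : ∀ k ∈ K, k ∉ X → k * k = z)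
    (cmm : ∀ g ∈ K, ∀ h ∈ K, g * h = h * g ∨ g * h = h * g * z)
    (hρK : ∀ k ∈ K, ρ * k * ρ⁻¹ ∈ K) (hρX : ∀ x ∈ X, ρ * x = x * ρ) (hl : ρ ^ l = 1)
    (h2 : Nat.Coprime 2 l) (h3 : Nat.Coprime 3 l) {a : H} (ha : a ∈ K) :
    ρ * a * ρ⁻¹ * a⁻¹ ∈ X := by
  have anti : ∀ g ∈ K, ∀ h ∈ K, g ∉ X → h ∉ X → g * h⁻¹ ∉ X → g * h = h * g * z := by
    intro g hg h hh h4 h5 h6
    refine (cmm g hg h hh).resolve_left fun h7 => hz1 ?_
    have h8 : Commute g h⁻¹ := Commute.inv_right h7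
    rw [← sq _ (K.mul_mem hg (K.inv_mem hh)) h6]
    calc _ = g * (h⁻¹ * g) * h⁻¹ := by group
      _ = (g * g) * (h * h)⁻¹ := by rw [← h8.eq]; group
      _ = 1 := by rw [sq g hg h4, sq h hh h5, mul_inv_cancel]
  have tri : ∀ g ∈ K, ∀ h ∈ K, ∀ k ∈ K, g ∉ X → h ∉ X → k ∉ X → h * g⁻¹ ∉ X → k * g⁻¹ ∉ X →
      k * h⁻¹ ∉ X → h * k * g⁻¹ ∈ X := by
    intro g hg h hh k hk g1 h1 k1 hg1 kg1 kh1
    by_contra h4
    have h5 : h * k ∉ X := fun h5 => kh1 (by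
      have h7 : k * h⁻¹ = z * (h * k)⁻¹ := by rw [← sq k hk k1]; group
      rw [h7]; exact X.mul_mem hz (X.inv_mem h5))
    have h6 := anti _ (K.mul_mem hh hk) g hg h5 g1 h4
    have h7 := anti h hh g hg h1 g1 hg1
    have h8 := anti k hk g hg k1 g1 kg1
    apply hz1
    apply mul_left_cancel (a := g * (h * k))
    rw [← h6, mul_assoc, h8, ← mul_assoc, ← mul_assoc, h7, mul_assoc _ z, ← hc k hk z hz,
      mul_assoc, mul_assoc, mul_assoc, hz2]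
    group
  let T : Subgroup H :=
    { carrier := {g | (∀ x ∈ X, g * x = x * g) ∧ g * a * g⁻¹ * a⁻¹ ∈ X}
      one_mem' := by simp
      mul_mem' := fun {g h} hg hh => ⟨fun x hx => by
        rw [mul_assoc, hh.1 x hx, ← mul_assoc, hg.1 x hx, mul_assoc], by
        have h4 := X.mul_mem hh.2 hg.2
        rw [← mul_assoc, ← mul_assoc, ← mul_assoc, ← hg.1 _ hh.2] at h4
        convert h4 using 1; group⟩
      inv_mem' := fun {g} hg => ⟨fun x hx => (Commute.inv_left (hg.1 x hx)).eq, by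
        have h4 := hg.1 _ (X.inv_mem hg.2)
        have h5 : g⁻¹ * a * g⁻¹⁻¹ * a⁻¹ = g⁻¹ * ((g * a * g⁻¹ * a⁻¹)⁻¹ * g) := by
          have h6 := hc a ha _ (X.inv_mem hg.2)
          group
        rw [h5, ← h4, inv_mul_cancel_left]
        exact X.inv_mem hg.2⟩ }
  have hT : ∀ n : ℕ, n.Coprime l → ρ ^ n * a * (ρ ^ n)⁻¹ * a⁻¹ ∈ X → ρ * a * ρ⁻¹ * a⁻¹ ∈ X :=
    fun n hn h4 => (mem_of_pow_mem (K := T) hn
      ⟨fun x hx => (Commute.pow_left (hρX x hx) n).eq, h4⟩ (hl ▸ T.one_mem)).2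
  have cj : ∀ x, x ∉ X → ρ * x * ρ⁻¹ ∉ X := fun x hx h4 => hx (by
    have h5 : ρ * x * ρ⁻¹ = x := mul_left_cancel (a := ρ) (by rw [hρX _ h4]; group)
    exact h5 ▸ h4)
  by_contra h0
  have a0 : a ∉ X := fun h4 => h0 (by rw [hρX a h4]; simp)
  have a1 := cj _ a0
  have a2 := cj _ a1
  have a3 := cj _ a2
  have k1 := hρK _ ha
  have k2 := hρK _ k1
  have k3 := hρK _ k2
  have n2 : ρ * (ρ * a * ρ⁻¹) * ρ⁻¹ * a⁻¹ ∉ X := fun h4 => h0 (hT 2 h2 (by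
    convert h4 using 1; rw [pow_two]; group))
  have n3 : ρ * (ρ * (ρ * a * ρ⁻¹) * ρ⁻¹) * ρ⁻¹ * a⁻¹ ∉ X := fun h4 => h0 (hT 3 h3 (by
    convert h4 using 1; rw [pow_three]; group))
  have t2 := tri a ha _ k1 _ k2 a0 a1 a2 h0 n2 fun h4 => cj _ h0 (by convert h4 using 1; group)
  have t3 := tri a ha _ k1 _ k3 a0 a1 a3 h0 n3 fun h4 => cj _ n2 (by convert h4 using 1; group)
  have h4 := X.mul_mem t3 (X.inv_mem t2)
  have h5 := hc _ k1 _ h4
  refine cj _ (cj _ h0) ?_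
  convert h4 using 1
  apply mul_left_cancel (a := ρ * a * ρ⁻¹)
  rw [h5]; group

/-- elements of order a power of `p` or of `r` -/
def Pi (p r : ℕ) (x : H) : Prop := (∃ k, x ^ p ^ k = 1) ∨ ∃ k, x ^ r ^ k = 1

theorem Pi.cj {p r : ℕ} {x : H} (h : Pi p r x) (g : H) : Pi p r (g * x * g⁻¹) :=
  h.imp (fun ⟨k, hk⟩ => ⟨k, by rw [conj_pow, hk]; simp⟩)
    fun ⟨k, hk⟩ => ⟨k, by rw [conj_pow, hk]; simp⟩

variable {V : Type*} [CommGroup V]

structure Cx (φ : H →* MulAut V) (A : Subgroup H) (σ τ : H) (p r y : ℕ) : Prop where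
  hp : p.Prime
  hr : r.Prime
  ne : p ≠ r
  hy : y.Prime
  hV : IsPGroup y V
  inj : Function.Injective φ
  nA : A.Normal
  cp : (Nat.card A).Coprime p
  cr : (Nat.card A).Coprime r
  der : commutator H ≤ A
  hσ : σ ^ p = 1
  hτ : τ ^ r = 1
  τ1 : τ ≠ 1
  cmm : σ * τ = τ * σ
  min : ∀ K : Subgroup H, K.Normal → σ ∈ K → τ ∈ K → K = ⊤
  exσ : ∀ v, v ≠ 1 → ∃ g, g * σ * g⁻¹ ∈ St φ v
  exτ : ∀ v, v ≠ 1 → ∃ g, g * τ * g⁻¹ ∈ St φ v
  N2 : ∀ v, v ≠ 1 → ∀ a ∈ St φ v, ∀ b ∈ St φ v, Pi p r a → Pi p r b → a * b = b * a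
  leA : ∀ N : Subgroup H, N.Normal → (∀ a ∈ A, σ * a * σ⁻¹ * a⁻¹ ∈ N) → A ≤ N

theorem cj_mem_iff {N : Subgroup H} [hN : N.Normal] {g x : H} : g * x * g⁻¹ ∈ N ↔ x ∈ N :=
  ⟨fun h => by simpa [mul_assoc] using hN.conj_mem _ h g⁻¹, fun h => hN.conj_mem _ h g⟩

variable [Finite H] [Finite V] {φ : H →* MulAut V} {A E : Subgroup H} {σ τ : H} {p r y : ℕ}

namespace Cx
variable (h : Cx φ A σ τ p r y)
include h

omit [Finite V] in
theorem eq_one {a : H} (ha : a ∈ A) (h1 : Pi p r a) : a = 1 := by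
  have h2 : a ^ Nat.card A = 1 := congrArg Subtype.val (pow_card_eq_one' (x := (⟨a, ha⟩ : A)))
  rcases h1 with ⟨k, hk⟩ | ⟨k, hk⟩
  · exact Subgroup.mem_bot.1 (mem_of_pow_mem (K := ⊥) (h.cp.pow_right k) h2 hk)
  · exact Subgroup.mem_bot.1 (mem_of_pow_mem (K := ⊥) (h.cr.pow_right k) h2 hk)

omit [Finite H] [Finite V] in
theorem pσ (g : H) : Pi p r (g * σ * g⁻¹) := Pi.cj (Or.inl ⟨1, by simpa using h.hσ⟩) g
omit [Finite H] [Finite V] in
theorem pτ (g : H) : Pi p r (g * τ * g⁻¹) := Pi.cj (Or.inr ⟨1, by simpa using h.hτ⟩) g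

omit [Finite V] in
theorem fix {ρ a : H} (h1 : Pi p r ρ) (ha : a ∈ A) (hc : Commute ρ (ρ * a * ρ⁻¹ * a⁻¹)) :
    ρ * a = a * ρ := by
  have h2 := h.eq_one (A.mul_mem (h.nA.conj_mem a ha ρ) (A.inv_mem ha))
    (h1.imp (fun ⟨k, hk⟩ => ⟨k, cop_fix hk hc⟩) fun ⟨k, hk⟩ => ⟨k, cop_fix hk hc⟩)
  rwa [← commutatorElement_def, commutatorElement_eq_one_iff_mul_comm] at h2

omit [Finite V] in
theorem cen {v : V} (hv : v ≠ 1) {ρ a : H} (hρ : ρ ∈ St φ v) (h1 : Pi p r ρ) (ha : a ∈ A)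
    (ha' : a ∈ St φ v) : ρ * a = a * ρ := by
  have h2 : Commute ρ (a * ρ⁻¹ * a⁻¹) := by
    have := h.N2 v hv _ hρ _ (Subgroup.mul_mem _ (Subgroup.mul_mem _ ha' hρ)
      (Subgroup.inv_mem _ ha')) h1 (h1.cj a)
    simpa [mul_assoc] using Commute.inv_right this
  refine h.fix h1 ha ?_
  simpa [mul_assoc] using (Commute.refl ρ).mul_right h2

omit [Finite V] in
theorem uniq {v : V} (hv : v ≠ 1) {g k : H} (h1 : g * τ * g⁻¹ ∈ St φ v)
    (h2 : k * τ * k⁻¹ ∈ St φ v) : g * τ * g⁻¹ = k * τ * k⁻¹ := by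
  have h3 : Commute (g * τ * g⁻¹) (k * τ * k⁻¹) := h.N2 v hv _ h1 _ h2 (h.pτ g) (h.pτ k)
  rw [← mul_inv_eq_one]
  refine h.eq_one (h.der ?_) (Or.inr ⟨1, ?_⟩)
  · have h4 := (commutator H).mul_mem (cm (N := ⊤) (x := g) (y := τ) trivial trivial)
      ((commutator H).inv_mem (cm (N := ⊤) (x := k) (y := τ) trivial trivial))
    convert h4 using 1; group
  · rw [pow_one, h3.inv_right.mul_pow, inv_pow, conj_pow, conj_pow, h.hτ]; simp

omit [Finite V] in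
theorem nofix [E.Normal] (hEA : E ≤ A) (hτ : τ ∉ Subgroup.centralizer (E : Set H)) {v : V}
    (hv : v ∈ Fi φ E) : v = 1 := by
  by_contra h1
  obtain ⟨g, hg⟩ := h.exτ v h1
  exact hτ (cj_mem_iff.1 fun a ha => (h.cen h1 hg (h.pτ g) (hEA ha) (hv a ha)).symm)

omit [Finite V] in
theorem τA : τ ∉ Subgroup.centralizer (A : Set H) := fun h1 => by
  have h2 : A ≤ Subgroup.centralizer {τ} := fun a ha =>
    Subgroup.mem_centralizer_singleton_iff.2 (h1 a ha)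
  have h3 := h.min _ (normal_of_le (h.der.trans h2))
    (Subgroup.mem_centralizer_singleton_iff.2 h.cmm) (Subgroup.mem_centralizer_singleton_iff.2 rfl)
  refine h.τ1 (h.inj (MulEquiv.ext fun v => ?_))
  by_cases hv : v = 1
  · simp [hv]
  · obtain ⟨g, hg⟩ := h.exτ v hv
    rw [Subgroup.mem_centralizer_singleton_iff.1
      (show g ∈ Subgroup.centralizer {τ} from h3 ▸ Subgroup.mem_top g), mul_inv_cancel_right] at hg
    rw [map_one]; exact hg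

theorem noncyc [hE : E.Normal] (hEA : E ≤ A) (hτ : τ ∉ Subgroup.centralizer (E : Set H))
    (hc : ∀ a ∈ E, ∀ b ∈ E, a * b = b * a) (hmin : ∀ L : Subgroup H, L.Normal → L ≤ E → L = ⊥ ∨ L = E)
    {e : ℕ} (he : e.Prime) {v₁ : V} (hv : v₁ ≠ 1) (hi : (St φ v₁).relIndex E = e) :
    E ⊓ St φ v₁ = ⊥ := by
  by_contra h0
  let S : V → Subgroup H := fun v => E ⊓ St φ v
  have mS : ∀ g v x, x ∈ S (φ g v) ↔ g⁻¹ * x * g ∈ S v := fun g v x =>
    and_congr (by simpa using (cj_mem_iff (N := E) (g := g⁻¹) (x := x)).symm) mem_St_ap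
  have nf : ∀ v, E ≤ S v → v = 1 := fun v h1 => h.nofix hEA hτ fun a ha => (h1 ha).2
  let Gd : V → Prop := fun v => v ≠ 1 ∧ ∀ L, S v ≤ L → L ≤ E → L = S v ∨ L = E
  have g1 : Gd v₁ := ⟨hv, fun L h1 h2 => by
    have h3 := Subgroup.relIndex_mul_relIndex (S v₁) L E h1 h2
    rw [Subgroup.inf_relIndex_left, hi] at h3
    rcases (Nat.dvd_prime he).1 (Dvd.intro _ h3) with h4 | h4
    · exact Or.inl ((Subgroup.relIndex_eq_one.1 h4).antisymm h1)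
    · rw [h4, Nat.mul_eq_left he.ne_zero] at h3
      exact Or.inr (h2.antisymm (Subgroup.relIndex_eq_one.1 h3))⟩
  have gc : ∀ g v, Gd v → Gd (φ g v) := fun g v hg => ⟨ap_ne hg.1 g, fun L h1 h2 => by
    rcases hg.2 (L.comap (MulAut.conj g).toMonoidHom) (fun x hx => h1 ((mS _ _ _).2 (by
      simpa [mul_assoc] using hx))) (fun x hx => cj_mem_iff.1 (h2 hx)) with h3 | h3
    · refine Or.inl (le_antisymm (fun x hx => (mS _ _ _).2 ?_) h1)
      rw [← h3]; simpa [mul_assoc] using hx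
    · refine Or.inr (le_antisymm h2 fun x hx => ?_)
      have h4 : g⁻¹ * x * g⁻¹⁻¹ ∈ E := hE.conj_mem x hx _
      rw [← h3] at h4
      simpa [mul_assoc] using h4⟩
  have gle : ∀ u v, Gd u → v ≠ 1 → S u ≤ S v → S u = S v := fun u v hu hv h1 =>
    ((hu.2 _ h1 inf_le_left).resolve_right fun h2 => hv (nf v h2.ge)).symm
  have both : ∀ u v t, Gd u → v ≠ 1 → ¬ S v ≤ S u → S u ≤ St φ t → S v ≤ St φ t → t = 1 := by
    intro u v t hu hv h1 h2 h3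
    refine nf t (le_inf le_rfl ?_)
    rw [← (hu.2 (S u ⊔ S v) le_sup_left (sup_le inf_le_left inf_le_left)).resolve_left
      fun h4 => h1 (h4 ▸ le_sup_right)]
    exact sup_le h2 h3
  have dv : ∀ x ∈ E, ∀ u, S u ≤ St φ (φ x u / u) := fun x hx u a ha => by
    rw [mem_St, map_div, ← ap_mul, hc a ha.1 x hx, ap_mul, ha.2]
  have C1 : ∀ u v, Gd u → Gd v → S u ≠ S v → S (u * v) ≤ S u := by
    intro u v hu hv h1 x hx
    have h2 : φ x u * φ x v = u * v := by rw [← map_mul]; exact hx.2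
    have h3 : φ x u / u = (φ x v / v)⁻¹ := by
      rw [inv_div, div_eq_div_iff_mul_eq_mul, h2, mul_comm]
    refine ⟨hx.1, div_eq_one.1 (both u v _ hu hv.1 (fun h4 => h1 (gle _ _ hv hu.1 h4).symm)
      (dv x hx.1 u) ?_)⟩
    rw [h3]
    intro a ha
    have := dv x hx.1 v ha
    rw [mem_St] at this ⊢
    rw [map_inv, this]
  have C2 : ∀ u v, Gd u → Gd v → S u ≠ S v → ∀ ρ ∈ St φ (u * v),
      S (φ ρ u) = S u ∨ S (φ ρ u) = S v := by
    intro u v hu hv h1 ρ hρ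
    by_contra h2
    push Not at h2
    obtain ⟨x, hx, h3, h4⟩ : ∃ x ∈ S (φ ρ u), x ∉ S u ∧ x ∉ S v := by
      obtain ⟨a, ha, ha'⟩ := SetLike.not_le_iff_exists.1 fun h3 => h2.1 (gle _ _ (gc ρ u hu) hu.1 h3)
      obtain ⟨b, hb, hb'⟩ := SetLike.not_le_iff_exists.1 fun h3 => h2.2 (gle _ _ (gc ρ u hu) hv.1 h3)
      by_cases h3 : a ∈ S v
      · by_cases h4 : b ∈ S u
        · exact ⟨a * b, Subgroup.mul_mem _ ha hb, fun h5 => ha' (((S u).mul_mem_cancel_right h4).1 h5),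
            fun h5 => hb' (((S v).mul_mem_cancel_left h3).1 h5)⟩
        · exact ⟨b, hb, h4, hb'⟩
      · exact ⟨a, ha, ha', h3⟩
    have n1 : φ x u / u ≠ 1 := fun h5 => h3 ⟨hx.1, div_eq_one.1 h5⟩
    have n2 : φ x v / v ≠ 1 := fun h5 => h4 ⟨hx.1, div_eq_one.1 h5⟩
    have e1 := gle _ _ hu n1 (le_inf inf_le_left (dv x hx.1 u))
    have e2 := gle _ _ hv n2 (le_inf inf_le_left (dv x hx.1 v))
    have ga : Gd (φ x u / u) := ⟨n1, e1 ▸ hu.2⟩
    have gb : Gd (φ x v / v) := ⟨n2, e2 ▸ hv.2⟩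
    have h5 : φ x u / u * (φ x v / v) = φ x (φ ρ v) / φ ρ v := by
      have h6 : φ ρ u * φ ρ v = u * v := by rw [← map_mul]; exact hρ
      have h7 : φ x (φ ρ u) = φ ρ u := hx.2
      rw [div_mul_div_comm, ← map_mul, ← h6, map_mul, h7, mul_div_mul_left_eq_div]
    have h6 : S (φ ρ v) ≤ S (φ x u / u * (φ x v / v)) := by
      rw [h5]; exact le_inf inf_le_left (dv x hx.1 _)
    have h7 := C1 _ _ ga gb (e1 ▸ e2 ▸ h1)
    have h8 := C1 _ _ gb ga (e1 ▸ e2 ▸ h1.symm)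
    rw [mul_comm] at h8
    exact h1 ((gle _ _ (gc ρ v hv) hu.1 (e1 ▸ h6.trans h7)).symm.trans
      (gle _ _ (gc ρ v hv) hv.1 (e2 ▸ h6.trans h8)))
  let Nm : V → Subgroup H := fun u =>
    { carrier := {g | S (φ g u) = S u}
      one_mem' := by simp
      mul_mem' := fun {a b} ha hb => by
        simp only [Set.mem_setOf_eq] at *
        ext x; rw [ap_mul, mS, hb, ← mS, ha]
      inv_mem' := fun {a} ha => by
        simp only [Set.mem_setOf_eq] at *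
        ext x; rw [mS, ← ha, mS]; simp [mul_assoc, ha] }
  have C3 : ∀ u v, Gd u → Gd v → S u ≠ S v → ∀ ρ ∈ St φ (u * v), ρ ^ 2 ∈ Nm u := by
    intro u v hu hv h1 ρ hρ
    show S (φ (ρ ^ 2) u) = S u
    rw [pow_two, ap_mul]
    rcases C2 u v hu hv h1 ρ hρ with h2 | h2
    · ext x; rw [mS, h2, ← mS, h2]
    · rcases C2 v u hv hu h1.symm ρ (by rwa [mul_comm]) with h3 | h3
      · refine absurd (Subgroup.ext fun x => ?_) h1
        have h4 := mS ρ u (ρ * x * ρ⁻¹)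
        rw [h2, ← h3, mS] at h4
        simpa [mul_assoc] using h4.symm
      · ext x; rw [mS, h2, ← mS, h3]
  have C4 : ∀ u v, Gd u → Gd v → S u ≠ S v → ∀ ρ ∈ St φ (u * v), Pi p r ρ → ∀ l : ℕ, l.Prime →
      l ≠ 2 → ρ ^ l = 1 → ρ ∈ Subgroup.centralizer (E : Set H) := by
    intro u v hu hv h1 ρ hρ hP l hl hl2 hρl
    have hcop := (Nat.coprime_primes Nat.prime_two hl).2 hl2.symm
    have h2 : S (φ ρ u) = S u := mem_of_pow_mem (K := Nm u) hcop (C3 u v hu hv h1 ρ hρ)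
      (hρl ▸ Subgroup.one_mem _)
    have h3 : S (φ ρ v) = S v := mem_of_pow_mem (K := Nm v) hcop
      (C3 v u hv hu h1.symm ρ (by rwa [mul_comm])) (hρl ▸ Subgroup.one_mem _)
    have h4 : φ ρ u * φ ρ v = u * v := by rw [← map_mul]; exact hρ
    have h5 : φ ρ u / u = v / φ ρ v := by rw [div_eq_div_iff_mul_eq_mul, h4, mul_comm]
    have nle : ¬ S v ≤ S u := fun h4 => h1 (gle _ _ hv hu.1 h4).symm
    have h6 := both u v (φ ρ u / u) hu hv.1 nle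
      (fun a ha => by rw [mem_St, map_div, ha.2, (h2 ▸ ha : a ∈ S (φ ρ u)).2])
      (fun a ha => by rw [h5, mem_St, map_div, ha.2, (h3 ▸ ha : a ∈ S (φ ρ v)).2])
    have h7 : ρ ∈ St φ u := div_eq_one.1 h6
    have h8 : ρ ∈ St φ v := (div_eq_one.1 (h5 ▸ h6)).symm
    have h9 : E ≤ Subgroup.centralizer {ρ} := by
      rw [← (hu.2 (S u ⊔ S v) le_sup_left (sup_le inf_le_left inf_le_left)).resolve_left
        fun h4 => nle (h4 ▸ le_sup_right)]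
      exact sup_le (fun a ha => Subgroup.mem_centralizer_singleton_iff.2
        (h.cen hu.1 h7 hP (hEA ha.1) ha.2).symm) fun a ha =>
        Subgroup.mem_centralizer_singleton_iff.2 (h.cen hv.1 h8 hP (hEA ha.1) ha.2).symm
    exact fun a ha => Subgroup.mem_centralizer_singleton_iff.1 (h9 ha)
  have hN : Nm v₁ ≠ ⊤ := fun h1 => by
    have h2 : (S v₁).Normal := ⟨fun x hx g => by
      have h3 : S (φ g v₁) = S v₁ := (h1 ▸ Subgroup.mem_top g : g ∈ Nm v₁)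
      rw [← h3, mS]; simpa [mul_assoc] using hx⟩
    exact (hmin _ h2 inf_le_left).elim h0 fun h3 => hv (nf _ h3.ge)
  obtain ⟨g, hg⟩ : ∃ g, g ∉ Nm v₁ := by
    by_contra h1; push Not at h1; exact hN (eq_top_iff.2 fun x _ => h1 x)
  have h1 : S v₁ ≠ S (φ g v₁) := fun h1 => hg h1.symm
  have h2 : v₁ * φ g v₁ ≠ 1 := fun h2 => hv (nf _ ((show E ≤ S (v₁ * φ g v₁) from
    fun a ha => ⟨ha, by rw [h2]; exact map_one _⟩).trans (C1 _ _ g1 (gc g _ g1) h1)))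
  by_cases h3 : r = 2
  · obtain ⟨k, hk⟩ := h.exσ _ h2
    have h4 := cj_mem_iff.1 (C4 _ _ g1 (gc g _ g1) h1 _ hk (h.pσ k) p h.hp (h3 ▸ h.ne)
      (by rw [conj_pow, h.hσ]; simp))
    have h5 : Subgroup.centralizer (E : Set H) ≤ Nm v₁ := fun c hc' => Subgroup.ext fun x => by
      rw [mS]
      exact ⟨fun h5 => by
        have h6 := hc' _ h5.1
        rw [mul_assoc c⁻¹, mul_assoc, mul_inv_cancel_left, inv_mul_eq_iff_eq_mul, ← mul_assoc,
          mul_left_inj] at h6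
        rwa [mul_assoc, h6, inv_mul_cancel_left] at h5,
        fun h5 => by rwa [mul_assoc, hc' x h5.1, inv_mul_cancel_left]⟩
    have h6 := h.leA (Subgroup.centralizer (E : Set H)) inferInstance fun a _ => by
      have := Subgroup.mul_mem _ h4 (Subgroup.Normal.conj_mem inferInstance _
        (Subgroup.inv_mem _ h4) a)
      simpa [mul_assoc] using this
    haveI := normal_of_le (h.der.trans (h6.trans h5))
    obtain ⟨k, hk⟩ := h.exτ _ hv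
    exact hN (h.min _ inferInstance (h5 h4) (cj_mem_iff.1 (congrArg S hk)))
  · obtain ⟨k, hk⟩ := h.exτ _ h2
    exact hτ (cj_mem_iff.1 (C4 _ _ g1 (gc g _ g1) h1 _ hk (h.pτ k) r h.hr h3
      (by rw [conj_pow, h.hτ]; simp)))

end Cx

end Cfsg.Agent.H25.Pal
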