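import Mathlib
import Cfsg.Agent.H25.Pal2

/-!
Reduction to a normal subgroup of prime order.
-/

set_option autoImplicit false
set_option linter.dupNamespace false

namespace Cfsg.Agent.H25.Pal

open Cfsg.Agent.H25.Nd
open scoped commutatorElement

variable {H : Type*} [Group H] {V : Type*} [CommGroup V] [Finite H] [Finite V]
  {φ : H →* MulAut V} {A E : Subgroup H} {σ τ : H} {p r y : ℕ}

namespace Cx
variable (h : Cx φ A σ τ p r y)
include h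

theorem ne_y [Nontrivial V] [E.Normal] (hEA : E ≤ A) (hτ : τ ∉ Subgroup.centralizer (E : Set H))
    {e : ℕ} (he : e.Prime) (hE : IsPGroup e E) : e.Coprime (Nat.card V) := by
  haveI := Fact.mk h.hy
  obtain ⟨n, hn⟩ := IsPGroup.iff_card.1 h.hV
  rw [hn]
  refine Nat.Coprime.pow_right n ((Nat.coprime_primes he h.hy).2 ?_)
  rintro rfl
  letI : MulAction E V := MulAction.compHom V (φ.comp E.subtype)
  obtain ⟨b, hb, h1⟩ := hE.exists_fixed_point_of_prime_dvd_card_of_fixed_point V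
    (by
      rw [hn]
      refine dvd_pow_self e ?_
      rintro rfl
      exact Finite.one_lt_card.ne' (hn.trans (pow_zero e))) (a := 1)
    (fun g => map_one (φ g))
  exact h1 (h.nofix hEA hτ fun a ha => hb ⟨a, ha⟩).symm

theorem semireg [hE : E.Normal] (hτ : τ ∉ Subgroup.centralizer (E : Set H)) {z : H}
    (hz1 : z ≠ 1) (hzE : ∀ a ∈ E, a * z = z * a) (hzτ : ∀ g, g * τ * g⁻¹ * z = z * (g * τ * g⁻¹))
    {m : ℕ} (hm : z ^ m = 1) (hc : m.Coprime (Nat.card V)) {v : V} (hv : φ z v = v) : v = 1 := by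
  by_contra h1
  obtain ⟨u, hu⟩ : ∃ u, φ z u ≠ u := by
    by_contra h2; push Not at h2
    exact hz1 (h.inj (MulEquiv.ext fun u => by rw [map_one]; exact h2 u))
  have k1 : ∀ u, φ z (φ z u / u) = φ z u / u → φ z u / u = 1 := fun u h2 => by
    have h3 : ∀ n : ℕ, φ (z ^ n) u = (φ z u / u) ^ n * u := by
      intro n
      induction n with
      | zero => simp
      | succ n ih => rw [pow_succ', ap_mul, ih, map_mul, map_pow, h2, pow_succ, mul_assoc, div_mul_cancel]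
    have h4 := h3 m
    rw [hm, map_one, MulAut.one_apply, right_eq_mul] at h4
    exact Subgroup.mem_bot.1 (mem_of_pow_mem (K := ⊥) hc h4 pow_card_eq_one')
  have h2 : φ z u / u ≠ 1 := fun h2 => hu (div_eq_one.1 h2)
  obtain ⟨k, hk⟩ := h.exτ _ h2
  have k2 : ∀ w, w ≠ 1 → φ z w = w → k * τ * k⁻¹ ∈ St φ w := fun w hw hzw => by
    have h3 : w * (φ z u / u) ≠ 1 := fun h3 => h2 (k1 u (by
      rw [eq_inv_of_mul_eq_one_right h3, map_inv, hzw]))
    obtain ⟨g, hg⟩ := h.exτ _ h3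
    have h4 : φ (g * τ * g⁻¹) w * φ (g * τ * g⁻¹) (φ z u / u) = w * (φ z u / u) := by
      rw [← map_mul]; exact hg
    have h5 := hzτ g
    have h9 := fun hh => h.uniq h2 (g := g) hh hk
    generalize g * τ * g⁻¹ = t at *
    have h6 : φ t w / w = φ z (u / φ t u) / (u / φ t u) := by
      rw [map_div, ← ap_mul, ← h5, ap_mul, div_eq_iff_eq_mul, ← mul_left_inj (φ t (φ z u / u)), h4,
        map_div]
      apply Additive.ofMul.injective
      simp only [ofMul_mul, ofMul_div]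
      abel
    have h7 := k1 (u / φ t u) (by rw [← h6, map_div, ← ap_mul, ← h5, ap_mul, hzw])
    rw [← h6, div_eq_one] at h7
    rw [h7, mul_right_inj] at h4
    rw [← h9 h4]; exact h7
  refine hτ (cj_mem_iff (g := k).1 fun x hx => ?_)
  have h3 := mem_St_ap.1 (k2 (φ x v) (ap_ne h1 x) (by rw [← ap_mul, ← hzE x hx, ap_mul, hv]))
  have h4 := h.uniq h1 (g := x⁻¹ * k) (k := k) (by convert h3 using 1; group) (k2 v h1 hv)
  calc _ = x * (x⁻¹ * k * τ * (x⁻¹ * k)⁻¹) := by rw [h4]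
    _ = _ := by group

theorem exE [Group.IsSolvable H] [Nontrivial V] : ∃ (E : Subgroup H) (_ : E.Normal) (e : ℕ),
    e.Prime ∧ E ≤ A ∧ Nat.card E = e ∧ τ ∉ Subgroup.centralizer (E : Set H) := by
  obtain ⟨E, ⟨hE, hEA, hτ⟩, hmin⟩ := (wellFounded_lt (α := Subgroup H)).has_min
    {E | E.Normal ∧ E ≤ A ∧ τ ∉ Subgroup.centralizer (E : Set H)} ⟨A, h.nA, le_rfl, h.τA⟩
  let Z := E ⊓ Subgroup.centralizer (Subgroup.normalClosure {τ} : Set H)
  have hΓ : ∀ g, g * τ * g⁻¹ ∈ Subgroup.normalClosure {τ} := fun g =>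
    cj_mem_iff.2 (Subgroup.subset_normalClosure rfl)
  have hΓ1 : τ ∈ Subgroup.normalClosure {τ} := Subgroup.subset_normalClosure rfl
  have hlt : ∀ L : Subgroup H, L.Normal → L ≤ E → L ≠ E → L ≤ Z := fun L hL h1 h2 => by
    have h3 : τ ∈ Subgroup.centralizer (L : Set H) := by
      by_contra h3; exact hmin L ⟨hL, h1.trans hEA, h3⟩ (lt_of_le_of_ne h1 h2)
    exact le_inf h1 (Subgroup.le_centralizer_iff.1
      (Subgroup.normalClosure_le_normal (Set.singleton_subset_iff.2 h3)))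
  have hgen : ∀ L : Subgroup H, L.Normal → L ≤ E → (∀ a ∈ E, τ * a * τ⁻¹ * a⁻¹ ∈ L) → L = E := by
    intro L hL h1 h2
    by_contra h3
    exact hτ fun a ha => (h.fix (Or.inr ⟨1, by simpa using h.hτ⟩) (hEA ha)
      ((hlt L hL h1 h3 (h2 a ha)).2 τ hΓ1)).symm
  have hE1 : E ≠ ⊥ := fun h1 => hτ fun a ha => by
    rw [h1] at ha; rw [Subgroup.mem_bot.1 ha]; simp
  have hD := H1.commutator_lt_of_isSolvable (inferInstance : Group.IsSolvable E) hE1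
  have hEZ : ⁅E, E⁆ ≤ Z := hlt _ inferInstance hD.le hD.ne
  have hτE : ∀ a ∈ E, τ * a * τ⁻¹ * a⁻¹ ∈ E := fun a ha =>
    E.mul_mem (hE.conj_mem a ha τ) (E.inv_mem ha)
  have hZc : ∀ a ∈ E, ∀ z ∈ Z, a * z = z * a := by
    have h1 := hgen (E ⊓ Subgroup.centralizer (Z : Set H)) inferInstance inf_le_left fun a ha =>
      ⟨hτE a ha, fun z hz => by
        have h1 := hz.2 τ hΓ1
        have h2 := (Subgroup.Normal.conj_mem (inferInstance : Z.Normal) z hz a⁻¹).2 τ hΓ1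
        calc _ = (z * τ) * a * τ⁻¹ * a⁻¹ := by group
          _ = τ * a * τ⁻¹ * (τ * (a⁻¹ * z * a⁻¹⁻¹)) * τ⁻¹ * a⁻¹ := by rw [← h1]; group
          _ = _ := by rw [h2]; group⟩
    intro a ha z hz
    rw [← h1] at ha
    exact (ha.2 z hz).symm
  have hZE : ¬ E ≤ Z := fun h1 => hτ fun a ha => ((h1 ha).2 τ hΓ1).symm
  obtain ⟨e, he, hee⟩ : ∃ e : ℕ, e.Prime ∧ ∀ a ∈ E, a ^ e ∈ Z := by
    obtain ⟨a, ha, haZ⟩ := SetLike.not_le_iff_exists.1 hZE
    have h1 : orderOf (a : H ⧸ Z) ≠ 1 := fun h1 =>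
      haZ ((QuotientGroup.eq_one_iff _).1 (orderOf_eq_one_iff.1 h1))
    obtain ⟨e, he, m, hm⟩ := Nat.exists_prime_and_dvd h1
    refine ⟨e, he, fun b hb => ?_⟩
    have h2 : powSub E Z hEZ e = E := by
      by_contra h2
      have h3 := hlt (powSub E Z hEZ e) inferInstance (fun x hx => hx.1) h2 (show a ^ m ∈ powSub E Z hEZ e from
        ⟨E.pow_mem ha m, by
          rw [← QuotientGroup.eq_one_iff, ← pow_mul, QuotientGroup.mk_pow, mul_comm, ← hm,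
            pow_orderOf_eq_one]⟩)
      rw [← QuotientGroup.eq_one_iff, QuotientGroup.mk_pow, ← orderOf_dvd_iff_pow_eq_one, hm] at h3
      have h4 : 0 < m := Nat.pos_of_ne_zero (by
        rintro rfl; exact (orderOf_pos (a : H ⧸ Z)).ne' (by simpa using hm))
      have h5 := Nat.le_of_dvd h4 h3
      have := he.two_le
      nlinarith
    rw [← h2] at hb
    exact hb.2
  let Z₁ := powSub Z ⊥ (der_bot fun a ha b hb => hZc a ha.1 b hb) e
  have hE1' : ⁅E, E⁆ ≤ Z₁ := Subgroup.commutator_le.2 fun a ha b hb => ⟨hEZ (cm ha hb), by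
    have h1 : Commute (a * b * a⁻¹ * b⁻¹) b := (hZc b hb _ (hEZ (cm ha hb))).symm
    have h2 := h1.mul_pow e
    rw [inv_mul_cancel_right, conj_pow, hZc a ha _ (hee b hb), mul_inv_cancel_right,
      right_eq_mul] at h2
    exact h2⟩
  have hee1 : ∀ a ∈ E, a ^ e ∈ Z₁ := by
    have h1 := hgen (powSub E Z₁ hE1' e) inferInstance (fun x hx => hx.1) fun a ha =>
      ⟨hτE a ha, by
        rw [mul_pow_mem hE1' (hE.conj_mem a ha τ) (E.inv_mem ha), conj_pow, (hee a ha).2 τ hΓ1,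
          inv_pow]
        simp⟩
    intro a ha
    rw [← h1] at ha
    exact ha.2
  have hee2 : ∀ a ∈ E, a ^ (e * e) = 1 := fun a ha => by rw [pow_mul]; exact (hee1 a ha).2
  have hcop := h.ne_y hEA hτ he fun a => ⟨2, Subtype.ext (by simpa [pow_two] using hee2 a a.2)⟩
  by_cases hZ : Z = ⊥
  · have hc : ∀ a ∈ E, ∀ b ∈ E, a * b = b * a := fun a ha b hb =>
      commutatorElement_eq_one_iff_mul_comm.1 (Subgroup.mem_bot.1 (hZ ▸ hEZ (cm ha hb)))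
    obtain ⟨v, hv, x₀, hx₀, hx⟩ := gen (φ := φ) E hc
    have h1 : (St φ v).relIndex E = e := by
      have h1 : (E ⊓ St φ v).subgroupOf E |>.Normal := ⟨fun a ha g => by
        have : g * a * g⁻¹ = a := Subtype.ext (by simp [hc _ g.2 _ a.2])
        rwa [this]⟩
      have h2 : Nat.card (E ⧸ (E ⊓ St φ v).subgroupOf E) ∣ e := by
        have h2 : Subgroup.zpowers ((⟨x₀, hx₀⟩ : E) : E ⧸ (E ⊓ St φ v).subgroupOf E) = ⊤ :=
          eq_top_iff.2 fun q _ => by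
            obtain ⟨a, rfl⟩ := QuotientGroup.mk_surjective q
            obtain ⟨k, hk⟩ := hx a a.2
            refine Subgroup.mem_zpowers_iff.2 ⟨k, ?_⟩
            rw [zpow_natCast, ← QuotientGroup.mk_pow, eq_comm, QuotientGroup.eq_iff_div_mem,
              div_eq_mul_inv]
            exact ⟨E.mul_mem a.2 (E.inv_mem (E.pow_mem hx₀ k)), hk⟩
        rw [← Subgroup.card_top, ← h2, Nat.card_zpowers, orderOf_dvd_iff_pow_eq_one,
          ← QuotientGroup.mk_pow]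
        have : (⟨x₀, hx₀⟩ : E) ^ e = 1 := Subtype.ext (Subgroup.mem_bot.1 (hZ ▸ hee x₀ hx₀))
        rw [this]; rfl
      rw [← Subgroup.inf_relIndex_left]
      refine ((Nat.dvd_prime he).1 h2).resolve_left fun h3 => hv (h.nofix hEA hτ fun a ha => ?_)
      exact (Subgroup.relIndex_eq_one.1 h3 ha).2
    have h2 := h.noncyc hEA hτ hc (fun L hL h2 => (eq_or_ne L E).symm.imp_left fun h3 =>
      le_bot_iff.1 (hZ ▸ hlt L hL h2 h3)) he hv h1
    exact ⟨E, hE, e, he, hEA, by rw [← h1, ← Subgroup.inf_relIndex_left, h2,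
      Subgroup.relIndex_bot_left], hτ⟩
  exfalso
  have sr : ∀ z ∈ Z, z ≠ 1 → ∀ v, v ≠ 1 → z ∉ St φ v := fun z hz hz1 v hv h1 =>
    hv (h.semireg hτ hz1 (fun a ha => hZc a ha z hz) (fun g => hz.2 _ (hΓ g)) (hee2 z hz.1)
      (hcop.mul_left hcop) h1)
  obtain ⟨z₀, hz₀, hz₁⟩ : ∃ z₀ ∈ Z₁, z₀ ≠ 1 := by
    obtain ⟨⟨z, hz⟩, h1⟩ := Subgroup.ne_bot_iff_exists_ne_one.1 hZ
    by_cases h2 : z ^ e = 1
    · exact ⟨z, ⟨hz, h2⟩, fun h3 => h1 (Subtype.ext h3)⟩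
    · exact ⟨_, hee1 z hz.1, h2⟩
  obtain ⟨X, ⟨hXE, hZX, hXc, hXe⟩, hmax⟩ := (wellFounded_gt (α := Subgroup H)).has_min
    {X | X ≤ E ∧ Z₁ ≤ X ∧ (∀ a ∈ X, ∀ b ∈ X, a * b = b * a) ∧ ∀ a ∈ X, a ^ e = 1}
    ⟨Z₁, fun a ha => ha.1.1, le_rfl, fun a ha b hb => hZc a ha.1.1 b hb.1, fun a ha => ha.2⟩
  let K := E ⊓ Subgroup.centralizer (X : Set H)
  have hmx : ∀ u ∈ K, u ^ e = 1 → u ∈ X := fun u hu h1 => by
    have h2 := H8.comm_sup_zpowers hXc fun a ha => (hu.2 a ha).symm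
    have h3 : X ≤ powSub (X ⊔ Subgroup.zpowers u) ⊥ (der_bot h2) e := fun a ha =>
      ⟨Subgroup.mem_sup_left ha, hXe a ha⟩
    by_contra h4
    refine hmax (powSub (X ⊔ Subgroup.zpowers u) ⊥ (der_bot h2) e) ⟨fun a ha => (sup_le hXE (Subgroup.zpowers_le.2 hu.1)) ha.1, hZX.trans h3,
      fun a ha b hb => h2 a ha.1 b hb.1, fun a ha => ha.2⟩ (lt_of_le_of_ne h3 fun h5 => h4 ?_)
    rw [h5]
    exact ⟨Subgroup.mem_sup_right (Subgroup.mem_zpowers u), h1⟩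
  obtain ⟨v, hv, x₀, hx₀, hx⟩ := gen (φ := φ) X hXc
  have cX : ∀ ρ ∈ St φ v, Pi p r ρ → ρ * z₀ = z₀ * ρ → ∀ x ∈ X, ρ * x = x * ρ := by
    intro ρ hρ hP h1
    have h2 : ∀ x ∈ X, x ∈ St φ v → x ∈ Subgroup.centralizer {ρ} := fun x hx h2 =>
      Subgroup.mem_centralizer_singleton_iff.2 (h.cen hv hρ hP (hEA (hXE hx)) h2).symm
    have h3 : ∀ x ∈ X, ∀ k : ℕ, x * (x₀ ^ k)⁻¹ ∈ X := fun x hx k =>
      X.mul_mem hx (X.inv_mem (X.pow_mem hx₀ k))
    obtain ⟨k, hk⟩ := hx z₀ (hZX hz₀)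
    have h4 : x₀ ∈ Subgroup.centralizer {ρ} := by
      refine mem_of_pow_mem (m := e) (n := k) ((Nat.Prime.coprime_iff_not_dvd he).2 ?_)
        (by rw [hXe _ hx₀]; exact Subgroup.one_mem _) ?_
      · rintro ⟨m, rfl⟩
        rw [pow_mul, hXe _ hx₀] at hk
        exact sr z₀ hz₀.1 hz₁ v hv (by simpa using hk)
      · exact Subgroup.inv_mem_iff _ |>.1 ((Subgroup.mul_mem_cancel_left _
          (Subgroup.mem_centralizer_singleton_iff.2 h1.symm)).1 (h2 _ (h3 _ (hZX hz₀) k) hk))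
    intro x hx'
    obtain ⟨k, hk⟩ := hx x hx'
    exact (Subgroup.mem_centralizer_singleton_iff.1 ((Subgroup.mul_mem_cancel_right _
      (Subgroup.inv_mem _ (Subgroup.pow_mem _ h4 k))).1 (h2 _ (h3 _ hx' k) hk))).symm
  have kK : ∀ ρ, (∀ x ∈ X, ρ * x = x * ρ) → ∀ a ∈ K, ρ * a * ρ⁻¹ ∈ K := fun ρ h1 a ha =>
    ⟨hE.conj_mem a ha.1 ρ, Subgroup.mul_mem _ (Subgroup.mul_mem _ (fun x hx => (h1 x hx).symm) ha.2)
      (Subgroup.inv_mem _ fun x hx => (h1 x hx).symm)⟩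
  have cE : ∀ ρ, Pi p r ρ → (∀ x ∈ X, ρ * x = x * ρ) → (∀ a ∈ K, ρ * a * ρ⁻¹ * a⁻¹ ∈ X) →
      ρ ∈ Subgroup.centralizer (E : Set H) := by
    intro ρ hP h1 h2 a ha
    have h3 : ρ * a⁻¹ * ρ⁻¹ * a⁻¹⁻¹ ∈ K := ⟨E.mul_mem (hE.conj_mem _ (E.inv_mem ha) ρ)
      (E.inv_mem (E.inv_mem ha)), fun x hx => by
        have h3 : a * x * a⁻¹ ∈ X := by
          simpa using X.mul_mem (hZX (hE1' (cm ha (hXE hx)))) hx
        have h4 := h1 _ h3
        have h5 := h1 _ hx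
        calc _ = (x * ρ) * a⁻¹ * ρ⁻¹ * a := by group
          _ = ρ * a⁻¹ * ρ⁻¹ * (ρ * (a * x * a⁻¹)) * ρ⁻¹ * a := by rw [← h5]; group
          _ = _ := by rw [h4]; group⟩
    have h4 := h.fix hP (hEA h3.1) (h1 _ (h2 _ h3))
    exact (Commute.inv_right_iff.1 (h.fix hP (hEA (E.inv_mem ha)) h4)).symm
  have st : ∀ ρ, (∀ x ∈ X, ρ * x = x * ρ) → (e ≠ 2 ∨ ∀ a ∈ E, ∀ b ∈ E, a * b = b * a) →
      ∀ a ∈ K, ρ * a * ρ⁻¹ * a⁻¹ ∈ X := by
    intro ρ h1 h2 a ha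
    have h3 := kK ρ h1 a ha
    refine hmx _ (K.mul_mem h3 (K.inv_mem ha)) ?_
    have h4 : (ρ * a * ρ⁻¹) ^ e * a⁻¹ ^ e = 1 := by
      rw [conj_pow, h1 _ (hZX (hee1 a ha.1)), inv_pow]; simp
    generalize ρ * a * ρ⁻¹ = b at h3 h4
    rcases h2 with h2 | h2
    · have h5 := hE1' (cm ha.1 (E.inv_mem h3.1))
      rw [mul_pow_c (c := a * b⁻¹ * a⁻¹ * b⁻¹⁻¹) (by group) (hZc _ h3.1 _ h5.1).symm
        (hZc _ (E.inv_mem ha.1) _ h5.1).symm, h4, one_mul]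
      obtain ⟨m, hm⟩ := he.dvd_choose_self two_ne_zero (lt_of_le_of_ne he.two_le h2.symm)
      rw [hm, pow_mul, Subgroup.mem_bot.1 h5.2, one_pow]
    · rw [Commute.mul_pow (h2 _ h3.1 _ (E.inv_mem ha.1)), h4]
  obtain ⟨g, hg⟩ := h.exτ v hv
  have hgX := cX _ hg (h.pτ g) (hz₀.1.2 _ (hΓ g))
  have fin : (∀ a ∈ K, g * τ * g⁻¹ * a * (g * τ * g⁻¹)⁻¹ * a⁻¹ ∈ X) → False := fun h1 =>
    hτ (cj_mem_iff.1 (cE _ (h.pτ g) hgX h1))
  by_cases h2 : e = 2
  swap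
  · exact fin (st _ hgX (Or.inl h2))
  subst h2
  have hz2 : z₀ * z₀ = 1 := by simpa [pow_two] using hz₀.2
  have u1 : ∀ z ∈ Z₁, z ≠ 1 → z = z₀ := by
    have h2 : ∀ z ∈ Z₁, z ≠ 1 → z * x₀⁻¹ ∈ St φ v := fun z hz h1 => by
      obtain ⟨k, hk⟩ := hx z (hZX hz)
      rw [pow_eq_pow_mod k (hXe _ hx₀)] at hk
      rcases Nat.mod_two_eq_zero_or_one k with h3 | h3
      · exact absurd (by simpa [h3] using hk) (sr z hz.1 h1 v hv)
      · simpa [h3] using hk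
    intro z hz h1
    by_contra h3
    refine sr _ (Z.mul_mem hz.1 (Z.inv_mem hz₀.1)) (fun h4 => h3 (mul_inv_eq_one.1 h4)) v hv ?_
    simpa using Subgroup.mul_mem _ (h2 z hz h1) (Subgroup.inv_mem _ (h2 z₀ hz₀ hz₁))
  have tw : ∀ ρ, (∀ x ∈ X, ρ * x = x * ρ) → ∀ l : ℕ, l.Prime → l ≠ 3 → (Nat.card A).Coprime l →
      ρ ^ l = 1 → ∀ a ∈ K, ρ * a * ρ⁻¹ * a⁻¹ ∈ X := fun ρ h1 l hl h3 hc hρ a ha =>
    two (K := K) (z := z₀) (fun k hk x hx => (hk.2 x hx).symm) (hZX hz₀) hz₁ hz2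
      (fun k hk h4 => u1 _ (by simpa [pow_two] using hee1 k hk.1) fun h5 =>
        h4 (hmx k hk (by rw [pow_two, h5])))
      (fun a ha b hb => by
        by_cases h4 : a⁻¹ * b⁻¹ * a⁻¹⁻¹ * b⁻¹⁻¹ = 1
        · exact Or.inl (Commute.inv_inv_iff.1 (commutatorElement_eq_one_iff_commute.1 h4))
        · right
          have h5 := u1 _ (hE1' (cm (E.inv_mem ha.1) (E.inv_mem hb.1))) h4
          rw [← h5]
          group)
      (kK ρ h1) h1 hρ (hc.coprime_dvd_left (by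
        haveI := Fact.mk Nat.prime_two
        have h7 := Subgroup.orderOf_dvd_natCard A (hEA hz₀.1.1)
        rwa [orderOf_eq_prime (p := 2) (by rw [pow_two, hz2]) hz₁] at h7))
      ((Nat.coprime_primes Nat.prime_three hl).2 h3.symm) ha
  by_cases h3 : r = 3
  swap
  · exact fin (tw _ hgX r h.hr h3 h.cr (by rw [conj_pow, h.hτ]; simp))
  obtain ⟨k, hk⟩ := h.exσ v hv
  have h4 := cX _ hk (h.pσ k) (by
    rw [← mul_inv_eq_iff_eq_mul]
    exact u1 _ (Subgroup.Normal.conj_mem inferInstance _ hz₀ _) (fun h5 => hz₁ (conj_eq_one_iff.1 h5)))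
  have h5 := cj_mem_iff.1 (cE _ (h.pσ k) h4
    (tw _ h4 p h.hp (h3 ▸ h.ne) h.cp (by rw [conj_pow, h.hσ]; simp)))
  have h6 := h.leA (Subgroup.centralizer (E : Set H)) inferInstance fun a _ => by
    have := Subgroup.mul_mem _ h5 (Subgroup.Normal.conj_mem inferInstance _
      (Subgroup.inv_mem _ h5) a)
    simpa [mul_assoc] using this
  exact fin (st _ hgX (Or.inr fun a ha b hb => h6 (hEA hb) a ha))

end Cx

end Cfsg.Agent.H25.Pal
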