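import Mathlib
import Cfsg.Agent.H25.Pal3
import Cfsg.Agent.H25.Nd3
import Cfsg.Agent.H25.Gar5
import Cfsg.Agent.H2.SS

/-!
The module lemma behind the three primes theorem.
-/

set_option autoImplicit false
set_option linter.dupNamespace false

namespace Cfsg.Agent.H25.Pal

open Cfsg Cfsg.Agent.H4 Cfsg.Agent.H5 Cfsg.Agent.H8 Cfsg.Agent.H2.RDeg Cfsg.Agent.H3
open Cfsg.Agent.H25.Gar Cfsg.Agent.H25.Nd
open scoped commutatorElement

variable {H : Type*} [Group H]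

/-- actions by automorphisms -/
abbrev Act (H V : Type*) [Group H] [CommGroup V] := H →* MulAut V

/-- the action on the linear characters of a normal subgroup -/
noncomputable def dual (N : Subgroup H) [N.Normal] : Act H (N →* ℂˣ) where
  toFun g :=
    { toFun := fun μ => μ.comp (MulAut.conjNormal g⁻¹).toMonoidHom
      invFun := fun μ => μ.comp (MulAut.conjNormal g).toMonoidHom
      left_inv := fun μ => by ext n; simp
      right_inv := fun μ => by ext n; simp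
      map_mul' := fun _ _ => rfl }
  map_one' := by ext μ n; simp
  map_mul' := fun a b => by ext μ n; simp

theorem dual_apply {N : Subgroup H} [hN : N.Normal] (g : H) (μ : N →* ℂˣ) (n : N) :
    dual N g μ n = μ ⟨g⁻¹ * n * g⁻¹⁻¹, hN.conj_mem _ n.2 _⟩ := rfl

theorem St_dual {N : Subgroup H} [N.Normal] (μ : N →* ℂˣ) : St (dual N) μ = In N (lin μ) := by
  ext g
  rw [mem_St, ← inv_mem_iff (x := g) (H := In N (lin μ)), NEmb.mem_inertia]
  exact ⟨fun h1 n => congrArg Units.val (DFunLike.congr_fun h1 n),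
    fun h1 => MonoidHom.ext fun n => Units.ext (h1 n)⟩

theorem mem_St_dual {N : Subgroup H} [hN : N.Normal] {μ : N →* ℂˣ} {g : H} : g ∈ St (dual N) μ ↔
    ∀ n (hn : n ∈ N), μ ⟨g * n * g⁻¹ * n⁻¹, N.mul_mem (hN.conj_mem _ hn _) (N.inv_mem hn)⟩ = 1 := by
  rw [St_dual, NEmb.mem_inertia]
  have e : ∀ n (hn : n ∈ N), (⟨g * n * g⁻¹ * n⁻¹, N.mul_mem (hN.conj_mem _ hn _) (N.inv_mem hn)⟩ : N) =
    (NEmb.ofNormal N).act g ⟨n, hn⟩ * (⟨n, hn⟩ : N)⁻¹ := fun _ _ => rfl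
  refine ⟨fun h n hn => ?_, fun h n => ?_⟩
  · rw [e n hn, map_mul, map_inv, mul_inv_eq_one]; exact Units.ext (h _)
  · have := h n n.2
    rw [e n n.2, map_mul, map_inv, mul_inv_eq_one] at this
    exact congrArg Units.val this

theorem mem_der {N : Subgroup H} {a : N} : a ∈ commutator N ↔ (a : H) ∈ (⁅N, N⁆ : Subgroup H) := by
  rw [← Subgroup.map_subtype_commutator]
  exact ⟨fun h => ⟨a, h, rfl⟩, fun ⟨b, hb, h⟩ => Subtype.ext h ▸ hb⟩

theorem lin_der {N : Subgroup H} (μ : N →* ℂˣ) {a : N} (h : (a : H) ∈ (⁅N, N⁆ : Subgroup H)) :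
    μ a = 1 := Abelianization.commutator_subset_ker μ (mem_der.2 h)

variable [Finite H]

theorem sep {x : H} (h : ∀ μ : H →* ℂˣ, μ x = 1) : x ∈ commutator H := by
  by_contra h1
  obtain ⟨μ, hμ⟩ := exists_linear_ne_one (G := Abelianization H) mul_comm
    (u := Abelianization.of x) fun h5 => h1 ((QuotientGroup.eq_one_iff _).1 h5)
  exact hμ (h (μ.comp Abelianization.of))

theorem col {x z : H} (h : ∀ χ, IsIrrCharacter H χ → z ∉ charKer χ → χ x = 0) :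
    IsConj x (x * z) := by
  by_contra h1
  have h2 := column_orthogonality_of_not_isConj h1
  rw [Finset.sum_congr rfl (g := fun χ : IrrCharacter H => χ.1 x * (starRingEnd ℂ) (χ.1 x)),
    column_orthogonality_of_isConj (IsConj.refl x)] at h2
  · exact natCard_ne_zero' h2
  · intro χ _
    by_cases h3 : z ∈ charKer χ.1
    · rw [χ.2.isClassFunction.apply_mul_of_mem_charKer' h3]
    · rw [h χ.1 χ.2 h3, zero_mul, zero_mul]

theorem dvd_index {T : Subgroup H} [T.Normal] {x : H} {p : ℕ} (hp : p.Prime) (h1 : x ^ p = 1)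
    (h2 : x ∉ T) : p ∣ T.index := by
  haveI := Fact.mk hp
  rw [← orderOf_eq_prime (x := (x : H ⧸ T)) (p := p) (by rw [← QuotientGroup.mk_pow, h1]; rfl)
    fun h3 => h2 ((QuotientGroup.eq_one_iff _).1 h3)]
  exact orderOf_dvd_natCard _

theorem pow_card_mem {A : Subgroup H} {a : H} (ha : a ∈ A) : a ^ Nat.card A = 1 :=
  congrArg Subtype.val (pow_card_eq_one' (x := (⟨a, ha⟩ : A)))

variable {V : Type*} [CommGroup V] [Finite V] {φ : H →* MulAut V} {A : Subgroup H} {σ τ : H}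
  {p r y : ℕ}

theorem Cx.fin [Group.IsSolvable H] [Nontrivial V] [hA : A.Normal] (h : Cx φ A σ τ p r y)
    (hT : ∀ a ∈ A, τ * a * τ⁻¹ * a⁻¹ ∈ (⁅A, A⁆ : Subgroup H))
    (hlin : ∀ ν : A →* ℂˣ, σ ∈ St (dual A) ν → ν = 1) : ∃ d ∈ charDegrees H, p * r ∣ d := by
  by_contra hno
  obtain ⟨E, hE, e, he, hEA, hEe, hτ⟩ := h.exE
  haveI := Fact.mk he
  haveI := Fact.mk h.hy
  haveI := finite_lin A
  have cenE : ∀ g ∈ E, g ≠ 1 → ∀ t, g * t = t * g → t ∈ Subgroup.centralizer (E : Set H) := by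
    intro g hg h1 t ht
    have h2 : Subgroup.zpowers g = E := by
      refine Subgroup.eq_of_le_of_card_ge (Subgroup.zpowers_le.2 hg) ?_
      have h2 := Subgroup.orderOf_dvd_natCard E hg
      rw [hEe] at h2 ⊢
      rw [Nat.card_zpowers, ((Nat.dvd_prime he).1 h2).resolve_left (by simpa using h1)]
    rw [← h2]
    rintro _ ⟨k, rfl⟩
    exact (Commute.zpow_left ht k).eq
  haveI : IsCyclic E := isCyclic_of_prime_card hEe
  have hAE : A ≤ Subgroup.centralizer (E : Set H) := h.leA _ inferInstance fun a _ =>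
    H2.commutator_le_centralizer_of_isCyclic E (cm (N := ⊤) trivial trivial)
  have hEc : ∀ a ∈ E, ∀ b ∈ E, a * b = b * a := fun a ha b hb => hAE (hEA hb) a ha
  obtain ⟨z₀, hz₀, hz1⟩ : ∃ z₀ ∈ E, τ * z₀ * τ⁻¹ * z₀⁻¹ ≠ 1 := by
    by_contra h1; push Not at h1
    exact hτ fun a ha => (commutatorElement_eq_one_iff_mul_comm.1 (h1 a ha)).symm
  have hzE := E.mul_mem (hE.conj_mem _ hz₀ τ) (E.inv_mem hz₀)
  have hzD := hT _ (hEA hz₀)
  generalize hz : τ * z₀ * τ⁻¹ * z₀⁻¹ = z at hz1 hzE hzD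
  have hze : z ^ e = 1 := hEe ▸ pow_card_mem hzE
  have inv : ∀ χ, IsIrrCharacter A χ → (⟨z, hEA hzE⟩ : A) ∉ charKer χ → σ ∈ In A χ := by
    intro χ hχ h1
    by_contra h2
    haveI := normal_of_le (h.der.trans (le_In hχ))
    have h3 : τ ∉ In A χ := fun h3 => h1 (by
      obtain ⟨lam, h4, h5⟩ := exists_linear_charCenter hχ.apply_one_ne_zero
      have h6 : ∀ a (ha : a ∈ E), (⟨a, hEA ha⟩ : A) ∈ charCenter χ := fun a ha =>
        hχ.center_le_charCenter (Subgroup.mem_center_iff.2 fun g =>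
          Subtype.ext (hAE g.2 a ha).symm)
      have h7 := h4 ⟨_, h6 _ hzE⟩ ⟨z₀, hEA hz₀⟩
      have h8 : χ (⟨z, hEA hzE⟩ * ⟨z₀, hEA hz₀⟩) = χ ⟨z₀, hEA hz₀⟩ := by
        rw [← h3 ⟨z₀, hEA hz₀⟩]
        exact congrArg χ (Subtype.ext (by
          show z * z₀ = τ * z₀ * τ⁻¹
          rw [← hz]; group))
      have h9 := h4 ⟨_, h6 _ hz₀⟩ 1
      rw [mul_one] at h9
      refine (h5 ⟨_, h6 _ hzE⟩).1 (Units.ext ?_)
      rw [h8, eq_comm, mul_eq_right₀] at h7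
      · exact h7
      · rw [h9]; exact mul_ne_zero (Units.ne_zero _) hχ.apply_one_ne_zero)
    obtain ⟨c, hc⟩ := exists_over (E := NEmb.ofNormal A) hχ
    obtain ⟨d, -, hd⟩ := hχ.exists_degree
    exact hno ⟨c, over_mem_cd hc, (((Nat.coprime_primes h.hp h.hr).2 h.ne).mul_dvd_of_dvd_of_dvd
      (dvd_index h.hp h.hσ h2) (dvd_index h.hr h.hτ h3)).trans
      ((dvd_mul_right _ _).trans (over_dvd hχ hd hc))⟩
  have sur : ∀ μ : A →* ℂˣ, ∃ ν : A →* ℂˣ, dual A σ⁻¹ ν / ν = μ := by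
    refine Finite.injective_iff_surjective.1 fun a b hab => ?_
    rw [← div_eq_one]
    refine hlin _ (Subgroup.inv_mem_iff _ |>.1 ?_)
    rw [mem_St, map_div, div_eq_div_iff_div_eq_div]
    exact hab
  have van : ∀ x : A, x ∉ commutator A → IsConj x (x * ⟨z, hEA hzE⟩) := fun x hx =>
    col fun χ hχ h1 => by
      by_contra h2
      refine hx (sep fun μ => ?_)
      obtain ⟨ν, rfl⟩ := sur μ
      have h3 := inv _ (lin_mul_irr hχ ν) (fun h3 => h1 (by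
        rw [hχ.isCharacter.mem_charKer]
        simpa [lin, lin_der ν (a := ⟨z, hEA hzE⟩) hzD] using apply_of_mem_charKer h3)) x
      rw [Pi.mul_apply, Pi.mul_apply, inv χ hχ h1 x] at h3
      rw [MonoidHom.div_apply, div_eq_one, dual_apply]
      simp only [inv_inv]
      exact Units.ext (mul_right_cancel₀ h2 h3)
  have cσ : ∀ g, ∀ x ∈ A, g * σ * g⁻¹ * x = x * (g * σ * g⁻¹) → x ∈ (⁅A, A⁆ : Subgroup H) := by
    intro g x hx h1
    rw [← cj_mem_iff (g := g⁻¹)]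
    refine mem_der.1 (sep (x := (⟨_, hA.conj_mem x hx g⁻¹⟩ : A)) fun μ => ?_)
    obtain ⟨ν, rfl⟩ := sur μ
    rw [MonoidHom.div_apply, div_eq_one, dual_apply]
    refine congrArg ν (Subtype.ext ?_)
    calc _ = g⁻¹ * (g * σ * g⁻¹ * x) * g * σ⁻¹ := by group
      _ = _ := by rw [h1]; group
  obtain ⟨c, hc, hc1, hc2⟩ : ∃ c ∈ A, c ∉ (⁅A, A⁆ : Subgroup H) ∧ τ * c * τ⁻¹ = c := by
    obtain ⟨a, ha, ha1⟩ := SetLike.exists_of_lt (H1.commutator_lt_of_isSolvable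
      (inferInstance : Group.IsSolvable A) fun h1 => hz1 (Subgroup.mem_bot.1 (h1 ▸ hEA hzE)))
    obtain ⟨_, ⟨x, hx, rfl⟩, h1⟩ := exists_fixed (S := (a * ·) '' (⁅A, A⁆ : Subgroup H))
      (Set.toFinite _) (g := MulAut.conj τ) (n := 1) h.hr (by rw [← map_pow, pow_one, h.hτ, map_one])
      (by
        rintro _ ⟨x, hx, rfl⟩
        refine ⟨a⁻¹ * (τ * (a * x) * τ⁻¹ * (a * x)⁻¹) * a⁻¹⁻¹ * x, Subgroup.mul_mem _
          (Subgroup.Normal.conj_mem inferInstance _ (hT _ (A.mul_mem ha (der_le A hx))) _) hx, ?_⟩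
        show _ = τ * (a * x) * τ⁻¹
        group)
      (by
        rw [Set.ncard_image_of_injective _ (mul_right_injective a), ← Nat.card_coe_set_eq]
        exact fun h1 => h.hr.one_lt.ne' (Nat.eq_one_of_dvd_coprimes h.cr
          (h1.trans (Subgroup.card_dvd_of_le (der_le A))) dvd_rfl))
    exact ⟨a * x, A.mul_mem ha (der_le A hx), fun h2 => ha1 ((Subgroup.mul_mem_cancel_right _ hx).1 h2), h1⟩
  obtain ⟨x, k, hx, hx1, hx2, hx3⟩ : ∃ x, ∃ k : ℕ, x ∈ A ∧ x ∉ (⁅A, A⁆ : Subgroup H) ∧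
      τ * x = x * τ ∧ x ^ e ^ k = 1 := by
    obtain ⟨k, m, hm, h1⟩ := Nat.exists_eq_pow_mul_and_not_dvd (orderOf_pos c).ne' e he.ne_one
    refine ⟨c ^ m, k, A.pow_mem hc m, fun h2 => hc1 (mem_of_pow_mem
      (((Nat.Prime.coprime_iff_not_dvd he).2 hm).symm.pow_right k) h2 ?_),
      (Commute.pow_right (mul_inv_eq_iff_eq_mul.1 hc2) m).eq,
      by rw [← pow_mul, mul_comm, ← h1, pow_orderOf_eq_one]⟩
    by_contra h3
    obtain ⟨u, hu⟩ := isConj_iff.1 (van ⟨_, A.pow_mem hc (e ^ k)⟩ fun h4 => h3 (mem_der.1 h4))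
    have h4 : (u * c ^ e ^ k * (u : H)⁻¹ : H) = c ^ e ^ k * z := congrArg Subtype.val hu
    have h5 : (c ^ e ^ k) ^ m = 1 := by rw [← pow_mul, ← h1, pow_orderOf_eq_one]
    have h6 : 1 = (c ^ e ^ k * z) ^ m := by rw [← h4, conj_pow, h5]; simp
    rw [Commute.mul_pow (hAE (A.pow_mem hc _) z hzE).symm, h5, one_mul] at h6
    exact hz1 (Subgroup.mem_bot.1 (mem_of_pow_mem (K := ⊥)
      ((Nat.Prime.coprime_iff_not_dvd he).2 hm) hze h6.symm))
  have hcop := h.ne_y hEA hτ he (IsPGroup.of_card (hEe.trans (pow_one e).symm))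
  obtain ⟨a, ha⟩ := IsPGroup.iff_card.1 h.hV
  obtain ⟨b, hb⟩ := IsPGroup.iff_card.1 (h.hV.to_subgroup (Fi φ {τ}))
  have h1 := part (ι := {t // IsConj τ t}) (⊤ : Subgroup V) (fun t => Fi φ {t.1}) (c := y ^ b)
    (fun t => by
      obtain ⟨g, hg⟩ := isConj_iff.1 t.2
      have := card_Fi_conj (φ := φ) {τ} {t.1} g (fun x => by
        rw [← hg, Set.mem_singleton_iff, Set.mem_singleton_iff]
        exact ⟨fun h1 => by rw [h1]; group, fun h1 => by rw [← h1]; group⟩) (W := ⊤) (by simp)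
      rwa [top_inf_eq, top_inf_eq, hb] at this) (fun _ => le_top) fun w _ hw => by
      obtain ⟨g, hg⟩ := h.exτ w hw
      refine ⟨⟨_, isConj_iff.2 ⟨g, rfl⟩⟩, fun t ht => ht ▸ hg, fun t ht => Subtype.ext ?_⟩
      obtain ⟨k, hk⟩ := isConj_iff.1 t.2
      rw [← hk]
      exact h.uniq hw (hk ▸ ht _ rfl) hg
  rw [Subgroup.card_top, ha] at h1
  refine arith h.hy he (fun h2 => Finite.one_lt_card.ne' (ha.trans (by rw [h2, pow_zero]))) h1 ?_ ?_ ?_
  · by_contra h2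
    obtain ⟨t, ht, h3⟩ := exists_fixed (S := {t | IsConj τ t}) (Set.toFinite _) (g := MulAut.conj z)
      (n := 1) he (by rw [← map_pow, pow_one, hze, map_one])
      (fun t ht => ht.trans (isConj_iff.2 ⟨z, rfl⟩)) (by rwa [← Nat.card_coe_set_eq])
    obtain ⟨g, rfl⟩ := isConj_iff.1 ht
    exact hτ (cj_mem_iff.1 (cenE z hzE hz1 _ (mul_inv_eq_iff_eq_mul.1 h3)))
  · by_contra h2
    obtain ⟨v, hv, h3⟩ := exists_fixed (S := (Fi φ {τ} : Set V) \ {1}) (Set.toFinite _) (g := φ x)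
      (n := k) he (by rw [← map_pow, hx3, map_one])
      (fun v hv => ⟨fun t ht => by
        show φ t (φ x v) = φ x v
        rw [← ap_mul, Set.mem_singleton_iff.1 ht, hx2, ap_mul, hv.1 τ rfl], ap_ne hv.2 x⟩)
      (by rwa [Set.ncard_diff_singleton_of_mem (one_mem _), ← Nat.card_coe_set_eq,
        SetLike.coe_sort_coe, hb])
    obtain ⟨g, hg⟩ := h.exσ v hv.2
    exact hx1 (cσ g x hx (h.cen hv.2 hg (h.pσ g) hx h3))
  · rw [← ha, ← hb, ← hEe]
    refine bound hEc h.hr.ne_zero h.hτ (fun i h2 h3 g hg h4 => ?_) (fun v hv => h.nofix hEA hτ hv)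
      (hEe ▸ hcop)
    by_contra h5
    exact hτ (mem_of_pow_mem (Nat.coprime_of_lt_prime h2.ne' h3 h.hr) (h.hτ ▸ Subgroup.one_mem _)
      (cenE g hg h5 _ h4))

omit [Finite H] in
theorem Pi.symm {x : H} (h : Pi p r x) : Pi r p x := Or.symm h

theorem exists_cj {S : Subgroup H} {x : H} {k : ℕ} (hp : p.Prime) (hx : x ^ p ^ k = 1)
    (hS : ¬ p ∣ S.index) : ∃ g, g * x * g⁻¹ ∈ S := by
  obtain ⟨q, -, hq⟩ := exists_fixed (S := (Set.univ : Set (H ⧸ S))) (Set.toFinite _) hp hx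
    (fun _ _ => trivial) (by rwa [Set.ncard_univ])
  obtain ⟨g, rfl⟩ := QuotientGroup.mk_surjective q
  have h1 : ((x * g : H) : H ⧸ S) = g := hq
  exact ⟨g⁻¹, by simpa [mul_assoc] using QuotientGroup.eq.1 h1.symm⟩

theorem lift {H' : Type*} [Group H'] (π : H →* H') {S : Subgroup H} {q : H'} {k : ℕ} (hp : p.Prime)
    (hq : q ∈ S.map π) (h : q ^ p ^ k = 1) : ∃ s ∈ S, π s = q ∧ ∃ j, s ^ p ^ j = 1 := by
  obtain ⟨s, hs, rfl⟩ := hq
  obtain ⟨j, m, hm, h1⟩ := Nat.exists_eq_pow_mul_and_not_dvd (orderOf_pos s).ne' p hp.ne_one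
  obtain ⟨u, hu⟩ : π s ∈ Subgroup.zpowers (π s ^ m) := mem_of_pow_mem
    (((Nat.Prime.coprime_iff_not_dvd hp).2 hm).pow_left k) (h ▸ Subgroup.one_mem _)
    (Subgroup.mem_zpowers _)
  refine ⟨(s ^ m) ^ u, S.zpow_mem (S.pow_mem hs m) u, by simpa using hu, j, ?_⟩
  rw [← zpow_natCast, ← zpow_mul, mul_comm, zpow_mul, zpow_natCast, ← pow_mul, mul_comm, ← h1,
    pow_orderOf_eq_one, one_zpow]

theorem relIndex_dvd (S K : Subgroup H) [K.Normal] : S.relIndex K ∣ S.index := by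
  obtain ⟨m, hm⟩ := Subgroup.relIndex_dvd_index_of_normal K S
  have h1 := Subgroup.relIndex_mul_index (inf_le_right : S ⊓ K ≤ K)
  rw [← Subgroup.relIndex_mul_index (inf_le_left : S ⊓ K ≤ S), Subgroup.inf_relIndex_left,
    Subgroup.inf_relIndex_right, hm, mul_left_comm] at h1
  exact ⟨m, (Nat.eq_of_mul_eq_mul_left (Nat.pos_of_ne_zero fun h2 =>
    Subgroup.index_ne_zero_of_finite (hm.trans (by rw [h2, zero_mul]))) h1).symm⟩

theorem step [Group.IsSolvable H] (hp : p.Prime) {S : Subgroup H} (hS : ¬ p ∣ S.index)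
    (N2 : ∀ a ∈ S, ∀ b ∈ S, Pi p r a → Pi p r b → a * b = b * a) (hσ : σ ∈ S) (hτ : τ ∈ S)
    (pσ : Pi p r σ) (pτ : Pi p r τ) (min : ∀ K : Subgroup H, K.Normal → σ ∈ K → τ ∈ K → K = ⊤) :
    commutator H ≤ pPrimeCore p H ∧ ∃ a, (pPrimeCore p H).index = p ^ a := by
  haveI := Fact.mk hp
  let π := QuotientGroup.mk' (pPrimeCore p H)
  have hs : Function.Surjective π := QuotientGroup.mk'_surjective _
  obtain ⟨n, hn⟩ := IsPGroup.iff_card.1 (H1.isPGroup_pCore p (H ⧸ pPrimeCore p H))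
  have h1 : pCore p _ ≤ S.map π := le_of_not_dvd_index (K := ⊥)
    (by rw [Subgroup.relIndex_bot_left, hn]) bot_le fun h1 => hS (h1.trans (Subgroup.index_map_dvd _ hs))
  have h2 : ∀ q ∈ pCore p _, ∃ s ∈ S, π s = q ∧ Pi p r s := fun q hq => by
    obtain ⟨s, h2, h3, h4⟩ := lift π hp (h1 hq) (hn ▸ pow_card_mem hq)
    exact ⟨s, h2, h3, Or.inl h4⟩
  have h3 : ∀ ρ ∈ S, Pi p r ρ → ρ ∈ (pCore p _).comap π := fun ρ hρ h3 =>
    H1.centralizer_pCore_le_of_isSolvable inferInstance (H1.pPrimeCore_quotient_pPrimeCore p)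
      fun q hq => by
        obtain ⟨s, h4, rfl, h5⟩ := h2 q hq
        rw [← map_mul, N2 s h4 ρ hρ h5 h3, map_mul]
  have h4 := min _ inferInstance (h3 σ hσ pσ) (h3 τ hτ pτ)
  have h5 : ∀ x, π x ∈ pCore p _ := fun x => (h4 ▸ Subgroup.mem_top x : x ∈ (pCore p _).comap π)
  refine ⟨Subgroup.commutator_le.2 fun a _ b _ => ?_, n, ?_⟩
  · obtain ⟨s, h6, h7, h8⟩ := h2 _ (h5 a)
    obtain ⟨t, h9, h10, h11⟩ := h2 _ (h5 b)
    rw [← QuotientGroup.eq_one_iff, ← QuotientGroup.mk'_apply, map_commutatorElement,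
      commutatorElement_eq_one_iff_mul_comm]
    show π a * π b = π b * π a
    rw [← h7, ← h10, ← map_mul, N2 s h6 t h9 h8 h11, map_mul]
  · rw [← hn, Subgroup.index, ← Subgroup.card_top]
    congr 2
    exact (eq_top_iff.2 fun q _ => by obtain ⟨x, rfl⟩ := hs q; exact h5 x).symm

theorem mkCx [Group.IsSolvable H] [Nontrivial V] [hA : A.Normal] (hp : p.Prime) (hr : r.Prime)
    (ne : p ≠ r) (hy : y.Prime) (hV : IsPGroup y V) (inj : Function.Injective φ)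
    (cp : (Nat.card A).Coprime p) (cr : (Nat.card A).Coprime r) (der : commutator H ≤ A)
    (hσ : σ ^ p = 1) (hτ : τ ^ r = 1) (τ1 : τ ≠ 1) (cmm : σ * τ = τ * σ)
    (min : ∀ K : Subgroup H, K.Normal → σ ∈ K → τ ∈ K → K = ⊤)
    (N1 : ∀ v, v ≠ 1 → ¬ p ∣ (St φ v).index ∧ ¬ r ∣ (St φ v).index)
    (N2 : ∀ v, v ≠ 1 → ∀ a ∈ St φ v, ∀ b ∈ St φ v, Pi p r a → Pi p r b → a * b = b * a)
    (hl : ∀ ν : A →* ℂˣ, σ ∈ St (dual A) ν → τ ∈ St (dual A) ν → ν = 1)
    (hall : ∀ ν : A →* ℂˣ, τ ∈ St (dual A) ν) : ∃ d ∈ charDegrees H, p * r ∣ d := by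
  refine Cx.fin (φ := φ) (A := A) (σ := σ) (τ := τ) ⟨hp, hr, ne, hy, hV, inj, hA, cp, cr, der, hσ, hτ,
    τ1, cmm, min, fun v hv => exists_cj (k := 1) hp (by simpa using hσ) (N1 v hv).1,
    fun v hv => exists_cj (k := 1) hr (by simpa using hτ) (N1 v hv).2, N2, fun N hN h1 => ?_⟩
    (fun a ha => mem_der.1 (sep (x := (⟨_, _⟩ : A)) fun μ => mem_St_dual.1 (hall μ) a ha))
    fun ν h1 => hl ν h1 (hall ν)
  by_contra h2
  haveI : Nontrivial (A ⧸ N.subgroupOf A) := QuotientGroup.nontrivial_iff.2 fun h3 =>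
    h2 (Subgroup.subgroupOf_eq_top.1 h3)
  obtain ⟨x, -, hx⟩ := SetLike.exists_of_lt
    (Group.IsSolvable.commutator_lt_top_of_nontrivial (A ⧸ N.subgroupOf A))
  refine hx (sep fun μ => ?_)
  obtain ⟨x, rfl⟩ := QuotientGroup.mk'_surjective _ x
  refine DFunLike.congr_fun (hl (μ.comp (QuotientGroup.mk' _)) (mem_St_dual.2 fun a ha => ?_)
    (hall _)) x
  rw [MonoidHom.comp_apply, QuotientGroup.mk'_apply, (QuotientGroup.eq_one_iff _).2, map_one]
  exact h1 a ha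

universe u in
theorem lemL (hp : p.Prime) (hr : r.Prime) (ne : p ≠ r) (hy : y.Prime) (hV : IsPGroup y V)
    [Nontrivial V] (n : ℕ) : ∀ {H : Type u} [Group H] [Finite H] [Group.IsSolvable H]
    {φ : H →* MulAut V}, Nat.card H = n → Function.Injective φ → p ∣ n → r ∣ n →
    (∀ v, v ≠ 1 → ¬ p ∣ (St φ v).index ∧ ¬ r ∣ (St φ v).index) →
    (∀ v, v ≠ 1 → ∀ a ∈ St φ v, ∀ b ∈ St φ v, Pi p r a → Pi p r b → a * b = b * a) →
    ∃ d ∈ charDegrees H, p * r ∣ d := by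
  induction n using Nat.strong_induction_on with
  | _ n ih =>
  intro H _ _ _ φ hn inj h1 h2 N1 N2
  haveI := Fact.mk hp
  haveI := Fact.mk hr
  obtain ⟨v, hv⟩ := exists_ne (1 : V)
  have ex : ∀ l : ℕ, l.Prime → l ∣ n → ¬ l ∣ (St φ v).index → ∃ x ∈ St φ v, orderOf x = l := by
    intro l hl h3 h4
    haveI := Fact.mk hl
    rw [← hn, ← Subgroup.card_mul_index (St φ v)] at h3
    obtain ⟨x, hx⟩ := exists_prime_orderOf_dvd_card' l ((hl.dvd_mul.1 h3).resolve_right h4)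
    exact ⟨x, x.2, by rw [Subgroup.orderOf_coe, hx]⟩
  obtain ⟨σ, hσ, oσ⟩ := ex p hp h1 (N1 v hv).1
  obtain ⟨τ, hτ, oτ⟩ := ex r hr h2 (N1 v hv).2
  have eσ : σ ^ p = 1 := oσ ▸ pow_orderOf_eq_one σ
  have eτ : τ ^ r = 1 := oτ ▸ pow_orderOf_eq_one τ
  have pσ : Pi p r σ := Or.inl ⟨1, by simpa using eσ⟩
  have pτ : Pi p r τ := Or.inr ⟨1, by simpa using eτ⟩
  by_cases min : ∀ K : Subgroup H, K.Normal → σ ∈ K → τ ∈ K → K = ⊤
  swap
  · push Not at min
    obtain ⟨K, hK, h3, h4, h5⟩ := min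
    obtain ⟨d, hd, h6⟩ := ih _ (hn ▸ (H1.card_lt_of_ne_top h5)) (φ := φ.comp K.subtype) rfl
      (inj.comp K.subtype_injective) (oσ ▸ Subgroup.orderOf_dvd_natCard K h3)
      (oτ ▸ Subgroup.orderOf_dvd_natCard K h4)
      (fun v hv => ⟨fun h6 => (N1 v hv).1 (h6.trans (relIndex_dvd (St φ v) K)),
        fun h6 => (N1 v hv).2 (h6.trans (relIndex_dvd (St φ v) K))⟩)
      fun v hv a ha b hb pa pb => Subtype.ext (N2 v hv a ha b hb
        (pa.imp (fun ⟨k, hk⟩ => ⟨k, congrArg Subtype.val hk⟩) fun ⟨k, hk⟩ => ⟨k, congrArg Subtype.val hk⟩)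
        (pb.imp (fun ⟨k, hk⟩ => ⟨k, congrArg Subtype.val hk⟩) fun ⟨k, hk⟩ => ⟨k, congrArg Subtype.val hk⟩))
    obtain ⟨e, -, he⟩ := cd_over_normal K hd
    exact ⟨_, he, h6.mul_left e⟩
  obtain ⟨d1, a, ha⟩ := step hp (N1 v hv).1 (N2 v hv) hσ hτ pσ pτ min
  obtain ⟨d2, b, hb⟩ := step hr (N1 v hv).2 (fun a ha b hb h3 h4 => N2 v hv a ha b hb h3.symm h4.symm)
    hσ hτ pσ.symm pτ.symm min
  let A := pPrimeCore p H ⊓ pPrimeCore r H
  have cp : (Nat.card A).Coprime p := (H1.coprime_card_pPrimeCore p H).coprime_dvd_left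
    (Subgroup.card_dvd_of_le inf_le_left)
  have cr : (Nat.card A).Coprime r := (H1.coprime_card_pPrimeCore r H).coprime_dvd_left
    (Subgroup.card_dvd_of_le inf_le_right)
  have der : commutator H ≤ A := le_inf d1 d2
  have hl : ∀ ν : A →* ℂˣ, σ ∈ St (dual A) ν → τ ∈ St (dual A) ν → ν = 1 := by
    intro ν h3 h4
    rw [St_dual] at h3 h4
    have h5 := min _ (normal_of_le (der.trans (le_In (isIrrCharacter_linear ν)))) h3 h4
    obtain ⟨μ, h6, h7⟩ := exists_lin_ext (T := ⊤) le_top h5.ge (linear_pow_card ν) (by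
      rw [Subgroup.relIndex_top_right, ← Subgroup.relIndex_mul_index inf_le_right,
        Subgroup.inf_relIndex_right, hb]
      exact Nat.Coprime.mul_left ((cp.symm.pow_left a).coprime_dvd_left
        (ha ▸ Subgroup.relIndex_dvd_index_of_normal _ _)) (cr.symm.pow_left b))
    have h8 : ∀ (x : H) (l : ℕ), (Nat.card A).Coprime l → x ^ l = 1 →
        x ∈ (μ.comp Subgroup.topEquiv.symm.toMonoidHom).ker := fun x l h8 h9 =>
      mem_of_pow_mem h8 (by
        rw [MonoidHom.mem_ker, map_pow]; exact DFunLike.congr_fun h7 _) (h9 ▸ Subgroup.one_mem _)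
    have h9 := min _ inferInstance (h8 σ p cp eσ) (h8 τ r cr eτ)
    ext a
    rw [← h6]
    have h10 : (a : H) ∈ (μ.comp Subgroup.topEquiv.symm.toMonoidHom).ker := by rw [h9]; trivial
    exact congrArg Units.val h10
  by_contra hno
  have hor : ∀ ν : A →* ℂˣ, σ ∈ St (dual A) ν ∨ τ ∈ St (dual A) ν := fun ν => by
    by_contra h3
    rw [St_dual, not_or] at h3
    have hν := isIrrCharacter_linear ν
    haveI := normal_of_le (der.trans (le_In hν))
    obtain ⟨c, hc⟩ := exists_over (E := NEmb.ofNormal A) hν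
    exact hno ⟨c, over_mem_cd hc, (((Nat.coprime_primes hp hr).2 ne).mul_dvd_of_dvd_of_dvd
      (dvd_index hp eσ h3.1) (dvd_index hr eτ h3.2)).trans
      ((dvd_mul_right _ _).trans (over_dvd hν (d := 1) (by simp) hc))⟩
  have cmm := N2 v hv σ hσ τ hτ pσ pτ
  by_cases hall : ∀ ν : A →* ℂˣ, τ ∈ St (dual A) ν
  · exact hno (mkCx hp hr ne hy hV inj cp cr der eσ eτ
      (fun h3 => hr.ne_one (by rw [← oτ, h3, orderOf_one])) cmm min N1 N2 hl hall)
  · push Not at hall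
    obtain ⟨μ, hμ⟩ := hall
    rw [mul_comm] at hno
    refine hno (mkCx hr hp ne.symm hy hV inj cr cp der eτ eσ
      (fun h3 => hp.ne_one (by rw [← oσ, h3, orderOf_one])) cmm.symm (fun K h3 h4 h5 => min K h3 h5 h4)
      (fun v hv => (N1 v hv).symm) (fun v hv a ha b hb h3 h4 => N2 v hv a ha b hb h3.symm h4.symm)
      (fun ν h3 h4 => hl ν h4 h3) fun ν => (hor ν).elim id fun h3 => ?_)
    have h4 := (hor μ).resolve_right hμ
    have h5 := (hor (μ * ν)).resolve_right fun h5 => hμ (by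
      rw [mem_St] at h3 h5 ⊢
      rwa [map_mul, h3, mul_left_inj] at h5)
    rw [mem_St] at h4 h5 ⊢
    rwa [map_mul, h4, mul_right_inj] at h5

end Cfsg.Agent.H25.Pal
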