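import Mathlib
import Cfsg.Agent.H25.Pal4

/-!
Tools for the three primes theorem.
-/

set_option autoImplicit false
set_option linter.dupNamespace false

namespace Cfsg.Agent.H25.Pal

open Cfsg Cfsg.Agent.H4 Cfsg.Agent.H5 Cfsg.Agent.H8 Cfsg.Agent.H2.RDeg Cfsg.Agent.H3
open Cfsg.Agent.H25.Gar Cfsg.Agent.H25.Nd
open scoped commutatorElement

variable {H : Type*} [Group H] {p q r l : ℕ}

/-- elements of order a power of `l` -/
def El (l : ℕ) (x : H) : Prop := ∃ k, x ^ l ^ k = 1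

theorem El.cj {x : H} (h : El l x) (g : H) : El l (g * x * g⁻¹) :=
  h.imp fun k hk => by rw [conj_pow, hk]; simp

theorem El.map {H' : Type*} [Group H'] (f : H →* H') {x : H} (h : El l x) : El l (f x) :=
  h.imp fun k hk => by rw [← map_pow, hk, map_one]

theorem El.syl {P : Subgroup H} (hP : IsPGroup l P) {x : H} (hx : x ∈ P) : El l x :=
  (hP ⟨x, hx⟩).imp fun _ hk => congrArg Subtype.val hk

/-- the elements of order a power of `l` commute -/
def Cm (l : ℕ) (H : Type*) [Group H] : Prop := ∀ a b : H, El l a → El l b → a * b = b * a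

/-- the subgroup of these elements -/
def elt (h : Cm l H) : Subgroup H where
  carrier := {x | El l x}
  one_mem' := ⟨0, by simp⟩
  mul_mem' := fun {a b} ha hb => by
    have h1 := Commute.mul_pow (h a b ha hb)
    obtain ⟨i, hi⟩ := ha
    obtain ⟨j, hj⟩ := hb
    exact ⟨i + j, by rw [h1, pow_add, pow_mul, hi, mul_comm (l ^ i), pow_mul, hj]; simp⟩
  inv_mem' := fun ⟨k, hk⟩ => ⟨k, by rw [inv_pow, hk, inv_one]⟩

instance elt_normal (h : Cm l H) : (elt h).Normal := ⟨fun _ hx g => El.cj hx g⟩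

theorem qcomm {Z : Subgroup H} [Z.Normal] {a b : H} : a * b * a⁻¹ * b⁻¹ ∈ Z ↔
    QuotientGroup.mk' Z a * QuotientGroup.mk' Z b = QuotientGroup.mk' Z b * QuotientGroup.mk' Z a := by
  rw [← QuotientGroup.eq_one_iff, ← commutatorElement_eq_one_iff_mul_comm, ← map_commutatorElement]
  rfl

variable [Finite H]

theorem El.mem {N : Subgroup H} [N.Normal] (hl : l.Prime) (h : ¬ l ∣ N.index) {x : H} (hx : El l x) :
    x ∈ N := by
  obtain ⟨k, hk⟩ := hx
  exact mem_of_pow_mem (((Nat.Prime.coprime_iff_not_dvd hl).2 h).pow_left k)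
    (hk ▸ N.one_mem) (N.pow_index_mem x)

theorem El.lift {Z : Subgroup H} [Z.Normal] (hl : l.Prime) {S : Subgroup H} {x : H ⧸ Z}
    (h1 : x ∈ S.map (QuotientGroup.mk' Z)) (hx : El l x) :
    ∃ s ∈ S, QuotientGroup.mk' Z s = x ∧ El l s := by
  obtain ⟨k, hk⟩ := hx
  exact Pal.lift _ hl h1 hk

theorem Cm.of {Z : Subgroup H} [Z.Normal] (hl : l.Prime)
    (h : ∀ a b : H, El l a → El l b → a * b * a⁻¹ * b⁻¹ ∈ Z) : Cm l (H ⧸ Z) := fun a b ha hb => by
  have h1 : ∀ x : H ⧸ Z, x ∈ (⊤ : Subgroup H).map (QuotientGroup.mk' Z) := fun x => by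
    rw [Subgroup.map_top_of_surjective _ (QuotientGroup.mk'_surjective Z)]; trivial
  obtain ⟨s, -, rfl, h2⟩ := ha.lift hl (h1 a)
  obtain ⟨t, -, rfl, h3⟩ := hb.lift hl (h1 b)
  exact qcomm.1 (h s t h2 h3)

theorem Cm.mem (hl : l.Prime) (h : Cm l H) {S : Subgroup H} (hS : ¬ l ∣ S.index) {x : H}
    (hx : El l x) : x ∈ S := by
  haveI := Fact.mk hl
  obtain ⟨n, hn⟩ := IsPGroup.iff_card.1 (show IsPGroup l (elt h) from fun x =>
    x.2.imp fun _ hk => Subtype.ext hk)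
  exact le_of_not_dvd_index (K := ⊥) (V := elt h) (by rw [Subgroup.relIndex_bot_left, hn]) bot_le hS hx

theorem Cm.mem' {Z : Subgroup H} [Z.Normal] (hl : l.Prime) (h : Cm l (H ⧸ Z)) {S : Subgroup H}
    (hS : ¬ l ∣ S.index) {x : H} (hx : El l x) : ∃ s ∈ S, s⁻¹ * x ∈ Z := by
  obtain ⟨s, hs, h1⟩ := h.mem hl (S := S.map (QuotientGroup.mk' Z)) (fun h1 => hS (h1.trans
    (Subgroup.index_map_dvd _ (QuotientGroup.mk'_surjective Z)))) (hx.map (QuotientGroup.mk' Z))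
  exact ⟨s, hs, QuotientGroup.eq.1 h1⟩

theorem Cm.not_dvd (hl : l.Prime) (h : Cm l H) {d : ℕ} (hd : d ∈ charDegrees H) : ¬ l ∣ d := by
  haveI := Fact.mk hl
  let P : Sylow l H := default
  exact fun h1 => P.not_dvd_index ((h1.trans (cd_dvd_index_of_comm (A := elt h)
    (fun a ha b hb => h a b ha hb) hd)).trans (Subgroup.index_dvd_of_le fun x hx =>
      El.syl P.isPGroup' hx))

theorem comm_of_cd [Group.IsSolvable H] (hp : p.Prime) (hr : r.Prime)
    (h : ∀ b ∈ charDegrees H, ¬ p ∣ b ∧ ¬ r ∣ b) {a b : H} (ha : Pi p r a) (hb : Pi p r b) :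
    a * b = b * a := by
  haveI := Fact.mk hp
  haveI := Fact.mk hr
  obtain ⟨h1, h2⟩ := ito (H9.isPSolvable_of_isSolvable (G := H) inferInstance) fun d hd => (h d hd).1
  obtain ⟨h3, h4⟩ := ito (H9.isPSolvable_of_isSolvable (G := H) inferInstance) fun d hd => (h d hd).2
  have h5 : ∀ a b : H, El p a → El r b → a * b = b * a := fun a b ha hb => by
    by_cases h5 : p = r
    · exact h2 a (El.mem hp h1 ha) b (El.mem hp h1 (h5 ▸ hb))
    · exact Subgroup.commute_of_normal_of_disjoint _ _ inferInstance inferInstance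
        (IsPGroup.disjoint_of_ne p r h5 _ _ (H1.isPGroup_pCore p H) (H1.isPGroup_pCore r H)) a b
        (ha.mem hp h1) (hb.mem hr h3)
  rcases ha with ha | ha <;> rcases hb with hb | hb
  · exact h2 a (El.mem hp h1 ha) b (El.mem hp h1 hb)
  · exact h5 a b ha hb
  · exact (h5 b a hb ha).symm
  · exact h4 a (El.mem hr h3 ha) b (El.mem hr h3 hb)

theorem comm_mod [Group.IsSolvable H] (hp : p.Prime) (hr : r.Prime) {Z T : Subgroup H} [Z.Normal]
    (h : ∀ b ∈ charDegrees (T ⧸ Z.subgroupOf T), ¬ p ∣ b ∧ ¬ r ∣ b) {a b : H} (ha : a ∈ T)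
    (hb : b ∈ T) (pa : Pi p r a) (pb : Pi p r b) : a * b * a⁻¹ * b⁻¹ ∈ Z := by
  have h1 : ∀ a (ha : a ∈ T), Pi p r a → Pi p r (QuotientGroup.mk' (Z.subgroupOf T) ⟨a, ha⟩) :=
    fun a ha pa => pa.imp (fun ⟨k, hk⟩ => El.map _ ⟨k, Subtype.ext hk⟩)
      fun ⟨k, hk⟩ => El.map _ ⟨k, Subtype.ext hk⟩
  exact (qcomm (Z := Z.subgroupOf T)).2 (comm_of_cd hp hr h (h1 a ha pa) (h1 b hb pb))

theorem exists_syl [Fact p.Prime] {S : Subgroup H} (hS : ¬ p ∣ S.index) :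
    ∃ P : Sylow p H, (P : Subgroup H) ≤ S := by
  let P : Sylow p S := default
  refine ⟨(P.isPGroup'.map S.subtype).toSylow ?_, Subgroup.map_subtype_le _⟩
  rw [Subgroup.index_map_subtype]
  exact fun h => ((Fact.out : p.Prime).dvd_mul.1 h).elim P.not_dvd_index hS

theorem sylcount [Fact p.Prime] (hq : q.Prime) {V : Type*} [CommGroup V] [Finite V]
    (φ : H →* MulAut V) {W : Subgroup V} (hW : ∀ h, ∀ w ∈ W, φ h w ∈ W) (hV : IsPGroup q V)
    (h : ∀ w ∈ W, w ≠ 1 → ¬ p ∣ (St φ w).index ∧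
      ∀ a ∈ St φ w, ∀ b ∈ St φ w, El p a → El p b → a * b = b * a) :
    Good q (Nat.card (Sylow p H)) (Nat.card W) := by
  haveI := Fact.mk hq
  let P₀ : Sylow p H := default
  obtain ⟨a, ha⟩ := IsPGroup.iff_card.1 (hV.to_subgroup W)
  obtain ⟨b, hb⟩ := IsPGroup.iff_card.1 (hV.to_subgroup (W ⊓ Fi φ P₀))
  refine ⟨a, b, ha, ha ▸ part W (fun P : Sylow p H => W ⊓ Fi φ P) (fun P => ?_)
    (fun _ => inf_le_left) fun w hw h1 => ?_⟩
  · obtain ⟨g, rfl⟩ := MulAction.exists_smul_eq H P₀ P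
    rw [← hb]
    refine card_Fi_conj _ _ g (fun x => ?_) hW
    rw [Sylow.coe_smul, Set.mem_smul_set_iff_inv_smul_mem]
    simp
  · obtain ⟨P, hP⟩ := exists_syl (h w hw h1).1
    refine ⟨P, ⟨hw, fun x hx => hP hx⟩, fun R hR => Sylow.ext ?_⟩
    have h2 : (R : Subgroup H) ≤ Subgroup.normalizer (P : Set H) := fun x hx =>
      Subgroup.centralizer_le_normalizer _ fun z hz =>
        (h w hw h1).2 z (hP hz) x (hR.2 x hx) (El.syl P.isPGroup' hz) (El.syl R.isPGroup' hx)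
    have h3 := R.isPGroup'.inf_normalizer_sylow P
    rw [inf_eq_left.2 h2] at h3
    exact (R.is_maximal' P.isPGroup' (h3 ▸ inf_le_right)).symm

omit [Finite H] in
theorem ext_split {Y M T : Subgroup H} [hY : Y.Normal] (h1 : Y ⊔ M = ⊤) (h2 : Y ⊓ M = ⊥)
    {lam : Y →* ℂˣ} (hYT : Y ≤ T) (hT : T ≤ In Y (lin lam)) :
    ∃ μ : T →* ℂˣ, ∀ n : Y, μ ⟨n, hYT n.2⟩ = lam n := by
  have h3 : ∀ g : H, ∃ y : Y, (y : H)⁻¹ * g ∈ M := fun g => by
    obtain ⟨y, hy, m, hm, rfl⟩ := Subgroup.mem_sup_of_normal_left.1 (h1 ▸ Subgroup.mem_top g)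
    exact ⟨⟨y, hy⟩, by simpa using hm⟩
  choose f hf using h3
  have h4 : ∀ g (y : Y), (y : H)⁻¹ * g ∈ M → f g = y := fun g y hy => Subtype.ext (by
    have h4 : (y : H)⁻¹ * f g ∈ Y ⊓ M := ⟨(y⁻¹ * f g).2, by
      simpa [mul_assoc] using M.mul_mem hy (M.inv_mem (hf g))⟩
    rw [h2, Subgroup.mem_bot, inv_mul_eq_one] at h4
    exact h4.symm)
  refine ⟨MonoidHom.mk' (fun t => lam (f t)) fun a b => ?_, fun n => congrArg lam (h4 _ n (by simp))⟩
  have h5 : ((f a : H)⁻¹ * a) ∈ T := T.mul_mem (T.inv_mem (hYT (f a).2)) a.2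
  rw [← Units.ext (hT h5 (f b)), ← map_mul]
  refine congrArg lam (h4 _ _ ?_)
  convert M.mul_mem (hf a) (hf b) using 1
  show ((f a : H) * (((f a : H)⁻¹ * a) * f b * ((f a : H)⁻¹ * a)⁻¹))⁻¹ * (a * b) = _
  group

theorem nonlin {A : Subgroup H} [A.Normal] (hc : A.index.Coprime (Nat.card A)) {α : A → ℂ}
    (hα : IsIrrCharacter A α) {d : ℕ} (hd : α 1 = d) {b : ℕ}
    (hb : b ∈ charDegrees (In A α ⧸ A.subgroupOf (In A α))) :
    (In A α).index * (b * d) ∈ charDegrees H := by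
  have h0 : ∀ n, (NEmb.ofNormal A).f n ∈ In A α := fun n => le_In hα n.2
  obtain ⟨φ, hφ, h3, -⟩ := ((NEmb.ofNormal A).restrict _ h0).exists_ext_of_coprime hα
    (fun g n => (NEmb.mem_inertia _).1 g.2 n) (by
      rw [NEmb.restrict_range, NEmb.ofNormal_range]
      exact hc.coprime_dvd_left (Subgroup.relIndex_dvd_index_of_normal A _))
  obtain ⟨χ, hχ, h4, -⟩ := exists_over_inertia hα hd (le_In hα) le_rfl hφ.isCharacter h3 hb
  exact mem_cd_of hχ h4

theorem card_lin (h : ∀ a b : H, a * b = b * a) : Nat.card (H →* ℂˣ) = Nat.card H := by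
  rw [card_monoidHom_units, eq_bot_iff.2 (show commutator H ≤ ⊥ from der_bot fun a _ b _ => h a b),
    Subgroup.index_bot]

end Cfsg.Agent.H25.Pal
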