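import Mathlib
import Cfsg.Agent.H25.Pal5

/-!
The three primes theorem for solvable groups.
-/

set_option autoImplicit false
set_option linter.dupNamespace false

namespace Cfsg.Agent.H25.Pal

open Cfsg Cfsg.Agent.H4 Cfsg.Agent.H5 Cfsg.Agent.H8 Cfsg.Agent.H2.RDeg Cfsg.Agent.H3
open Cfsg.Agent.H25.Gar Cfsg.Agent.H25.Nd
open scoped commutatorElement

variable {G : Type*} [Group G] {p q r l : ℕ}

theorem either {V : Type*} [CommGroup V] {φ : G →* MulAut V} {ρ σ : G} {μ : V} (hμ : ρ ∉ St φ μ)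
    (h : ∀ ν, ρ ∈ St φ ν ∨ σ ∈ St φ ν) (ν : V) : σ ∈ St φ ν := (h ν).elim (fun h3 => by
  have h4 := (h μ).resolve_left hμ
  have h5 := (h (μ * ν)).resolve_left fun h5 => hμ (by
    rw [mem_St] at h3 h5 ⊢
    rwa [map_mul, h3, mul_left_inj] at h5)
  rw [mem_St] at h4 h5 ⊢
  rwa [map_mul, h4, mul_right_inj] at h5) id

variable [Finite G]

theorem lift_St {V : Type*} [CommGroup V] {φ : G →* MulAut V} {Z : Subgroup G} [Z.Normal]
    (hφ : Z ≤ φ.ker) (w : V) :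
    (St (QuotientGroup.lift Z φ hφ) w).index ∣ (St φ w).index ∧ ∀ l : ℕ, l.Prime →
      ∀ a ∈ St (QuotientGroup.lift Z φ hφ) w, El l a →
        ∃ s ∈ St φ w, QuotientGroup.mk' Z s = a ∧ El l s := by
  have h1 : St (QuotientGroup.lift Z φ hφ) w = (St φ w).map (QuotientGroup.mk' Z) := by
    rw [← Subgroup.map_comap_eq_self_of_surjective (QuotientGroup.mk'_surjective Z) (St _ w)]
    rfl
  rw [h1]
  exact ⟨Subgroup.index_map_dvd _ (QuotientGroup.mk'_surjective Z), fun l hl a ha h2 => h2.lift hl ha⟩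

theorem cnt {V : Type*} [CommGroup V] {φ : G →* MulAut V} {Q : Subgroup G} [Q.Normal] (hp : p.Prime)
    (hφ : Q ≤ φ.ker) (w : V) (h1 : ¬ p ∣ (St φ w).index)
    (h2 : ∀ a ∈ St φ w, ∀ b ∈ St φ w, El p a → El p b → a * b * a⁻¹ * b⁻¹ ∈ Q) :
    ¬ p ∣ (St (QuotientGroup.lift Q φ hφ) w).index ∧ ∀ a ∈ St (QuotientGroup.lift Q φ hφ) w,
      ∀ b ∈ St (QuotientGroup.lift Q φ hφ) w, El p a → El p b → a * b = b * a := by
  refine ⟨fun h3 => h1 (h3.trans (lift_St hφ w).1), fun a ha b hb h3 h4 => ?_⟩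
  obtain ⟨s, h5, rfl, h6⟩ := (lift_St hφ w).2 p hp a ha h3
  obtain ⟨t, h7, rfl, h8⟩ := (lift_St hφ w).2 p hp b hb h4
  exact qcomm.1 (h2 s h5 t h7 h6 h8)

theorem fixq {Q Z : Subgroup G} [Z.Normal] (hc : l.Coprime (Nat.card Q)) {ρ a : G} (hρ : El l ρ)
    (h1 : ρ * a * ρ⁻¹ * a⁻¹ ∈ Q)
    (h2 : ρ * (ρ * a * ρ⁻¹ * a⁻¹) * ρ⁻¹ * (ρ * a * ρ⁻¹ * a⁻¹)⁻¹ ∈ Z) : ρ * a * ρ⁻¹ * a⁻¹ ∈ Z := by
  obtain ⟨k, hk⟩ := hρ.map (QuotientGroup.mk' Z)
  have h3 := qcomm.1 h2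
  simp only [map_mul, map_inv] at h3
  refine mem_of_pow_mem (hc.pow_left k) ?_ (pow_card_mem h1 ▸ Z.one_mem)
  rw [← QuotientGroup.eq_one_iff, ← QuotientGroup.mk'_apply, map_pow]
  simpa only [map_mul, map_inv] using cop_fix hk h3

theorem sep' {N : Subgroup G} [hN : N.Normal] {ρ : G} (h : ∀ μ : N →* ℂˣ, ρ ∈ St (dual N) μ) {a : G}
    (ha : a ∈ N) : ρ * a * ρ⁻¹ * a⁻¹ ∈ (⁅N, N⁆ : Subgroup G) :=
  mem_der.1 (sep (x := (⟨_, _⟩ : N)) fun μ => mem_St_dual.1 (h μ) a ha)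

omit [Finite G] in
theorem pg_lin {N : Subgroup G} [Finite N] {n : ℕ} (h : Nat.card N = q ^ n) :
    IsPGroup q (N →* ℂˣ) := fun μ => ⟨n, h ▸ linear_pow_card μ⟩

theorem caseA [Group.IsSolvable G] (hp : p.Prime) (hq : q.Prime) (hr : r.Prime) (hpq : p ≠ q)
    (hrq : r ≠ q) (hpr : p ≠ r) {Y Q : Subgroup G} [nY : Y.Normal] [nQ : Q.Normal]
    (hQ : IsPGroup q Q) (hi : ¬ q ∣ Q.index) (hY : ⁅Q, Q⁆ = Y) (Y1 : Y ≠ ⊥)
    (hQY : ∀ a ∈ Q, ∀ y ∈ Y, a * y = y * a) (Nqr : ∀ d ∈ charDegrees G, ¬ q * r ∣ d)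
    (Npr : ∀ d ∈ charDegrees G, ¬ p * r ∣ d) (ρp : ∃ d ∈ charDegrees (G ⧸ Y), p ∣ d)
    (ρr : ∃ d ∈ charDegrees (G ⧸ Y), r ∣ d)
    (N1 : ∀ μ : Y →* ℂˣ, μ ≠ 1 → ¬ p ∣ (St (dual Y) μ).index)
    (K : ∀ μ : Y →* ℂˣ, μ ≠ 1 → ∀ a ∈ St (dual Y) μ, ∀ b ∈ St (dual Y) μ, Pi p r a → Pi p r b →
      a * b * a⁻¹ * b⁻¹ ∈ Q) (hC : ∀ ρ, El r ρ → ∀ μ : Y →* ℂˣ, ρ ∈ St (dual Y) μ) : False := by
  haveI := Fact.mk hp
  haveI := Fact.mk hq
  haveI := Fact.mk hr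
  haveI := finite_lin Y
  haveI := finite_lin Q
  obtain ⟨n, hn⟩ := IsPGroup.iff_card.1 hQ
  have hcop : Q.index.Coprime (Nat.card Q) :=
    hn ▸ ((Nat.Prime.coprime_iff_not_dvd hq).2 hi).symm.pow_right n
  have cpQ : p.Coprime (Nat.card Q) := hn ▸ ((Nat.coprime_primes hp hq).2 hpq).pow_right n
  have crQ : r.Coprime (Nat.card Q) := hn ▸ ((Nat.coprime_primes hr hq).2 hrq).pow_right n
  have cpr := (Nat.coprime_primes hp hr).2 hpr
  have hYQ : Y ≤ Q := hY ▸ der_le Q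
  have hYc : ∀ a b : Y, a * b = b * a := fun a b => Subtype.ext (hQY a (hYQ a.2) b b.2)
  obtain ⟨y₀, hy₀⟩ := Subgroup.ne_bot_iff_exists_ne_one.1 Y1
  obtain ⟨μ₀, hμ₀⟩ := exists_linear_ne_one hYc hy₀
  replace hμ₀ : μ₀ ≠ 1 := fun h => hμ₀ (by rw [h]; rfl)
  have cr : Cm r (G ⧸ Q) := Cm.of hr fun a b ha hb =>
    K μ₀ hμ₀ a (hC a ha _) b (hC b hb _) (Or.inr ha) (Or.inr hb)
  have norho : ∀ l : ℕ, l.Prime → l.Coprime (Nat.card Q) → Cm l (G ⧸ Q) →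
      (∀ ρ, El l ρ → ∀ a ∈ Q, ρ * a * ρ⁻¹ * a⁻¹ ∈ Y) → ∀ d ∈ charDegrees (G ⧸ Y), ¬ l ∣ d :=
    fun l hl h1 h2 h3 d => Cm.not_dvd hl (Cm.of hl fun a b ha hb =>
      fixq h1 ha (qcomm.2 (h2 _ _ (ha.map _) (hb.map _)))
        (h3 a ha _ (qcomm.2 (h2 _ _ (ha.map _) (hb.map _)))))
  have inv : ∀ l : ℕ, l.Prime → Cm l (G ⧸ Q) → ∀ θ, IsIrrCharacter Q θ → ¬ l ∣ (In Q θ).index →
      ∀ ρ, El l ρ → ρ ∈ In Q θ := fun l hl h1 θ hθ h2 ρ hρ => by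
    obtain ⟨s, hs, h3⟩ := h1.mem' hl h2 hρ
    simpa using Subgroup.mul_mem _ hs (le_In hθ h3)
  obtain ⟨ρ₀, hρ₀, a₀, ha₀, hx₀⟩ : ∃ ρ, El r ρ ∧ ∃ a ∈ Q, ρ * a * ρ⁻¹ * a⁻¹ ∉ Y := by
    by_contra h1; push Not at h1
    obtain ⟨d, hd, h2⟩ := ρr
    exact norho r hr crQ cr h1 d hd h2
  have lin1 : ∀ μ : Q →* ℂˣ, ∀ b ∈ charDegrees (In Q (lin μ) ⧸ Q.subgroupOf (In Q (lin μ))),
      r ∣ (In Q (lin μ)).index → ¬ p ∣ (In Q (lin μ)).index * b := fun μ b hb h1 h2 =>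
    Npr _ (nonlin hcop (isIrrCharacter_linear μ) (d := 1) (by simp) hb)
      (cpr.mul_dvd_of_dvd_of_dvd (by rwa [mul_one]) (h1.mul_right _))
  by_cases cp : Cm p (G ⧸ Q)
  · obtain ⟨μ, hμ⟩ : ∃ μ : Q →* ℂˣ, ρ₀ ∉ St (dual Q) μ := by
      by_contra h1; push Not at h1
      exact hx₀ (hY ▸ sep' h1 ha₀)
    obtain ⟨d, hd, h2⟩ := ρp
    refine norho p hp cpQ cp (fun σ hσ a ha => hY ▸ sep' (either hμ fun ν => ?_) ha) d hd h2
    rw [St_dual]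
    by_cases h3 : r ∣ (In Q (lin ν)).index
    · exact Or.inr (inv p hp cp _ (isIrrCharacter_linear ν)
        (by simpa using lin1 ν 1 one_mem_cd h3) σ hσ)
    · exact Or.inl (inv r hr cr _ (isIrrCharacter_linear ν) h3 ρ₀ hρ₀)
  have tY : Q ≤ (dual Y).ker := fun x hx => MulEquiv.ext fun μ => mem_St_dual.2 fun n hn =>
    (congrArg μ (Subtype.ext (by simp [hQY x hx n hn]))).trans (map_one μ)
  have tQ : Q ≤ (dual Q).ker := fun x hx => MulEquiv.ext fun μ => mem_St_dual.2 fun n hn =>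
    lin_der μ (cm hx hn)
  have cY := fun (μ : Y →* ℂˣ) (hμ : μ ≠ 1) => cnt (V := Y →* ℂˣ) hp tY μ (N1 μ hμ) fun a ha b hb h1 h2 =>
    K μ hμ a ha b hb (Or.inl h1) (Or.inl h2)
  have np : 1 < Nat.card (Sylow p (G ⧸ Q)) := by
    by_contra h1
    haveI : Subsingleton (Sylow p (G ⧸ Q)) := Finite.card_le_one_iff_subsingleton.1 (not_lt.1 h1)
    obtain ⟨P, hP⟩ := exists_syl (cY μ₀ hμ₀).1
    have h2 : ∀ x : G ⧸ Q, El p x → x ∈ P := fun x ⟨k, hk⟩ => by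
      obtain ⟨R, hR⟩ := (show IsPGroup p (Subgroup.zpowers x) from fun ⟨_, j, rfl⟩ =>
        ⟨k, Subtype.ext (by
          show (x ^ j) ^ p ^ k = 1
          rw [← zpow_natCast, ← zpow_mul, mul_comm, zpow_mul, zpow_natCast, hk, one_zpow])⟩).exists_le_sylow
      exact Subsingleton.elim R P ▸ hR (Subgroup.mem_zpowers x)
    exact cp fun a b ha hb => (cY μ₀ hμ₀).2 a (hP (h2 a ha)) b (hP (h2 b hb)) ha hb
  obtain ⟨m, hm⟩ := IsPGroup.iff_card.1 (hQ.to_le hYQ)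
  have g1 := sylcount (V := Y →* ℂˣ) hq (QuotientGroup.lift Q (dual Y) tY) (W := ⊤) (fun _ _ _ => trivial) (pg_lin hm)
    fun μ _ hμ => cY μ hμ
  rw [Subgroup.card_top, card_lin hYc] at g1
  have cen : ∀ ρ, El r ρ → ∀ y ∈ Y, ρ * y * ρ⁻¹ * y⁻¹ ∈ (⊥ : Subgroup G) := fun ρ hρ y hy =>
    der_bot (fun a ha b hb => hQY a (hYQ ha) b hb) (sep' (hC ρ hρ) hy)
  let C₀ := Q ⊓ Subgroup.centralizer {ρ | El r ρ}
  haveI nC : C₀.Normal := ⟨fun a ha g => ⟨nQ.conj_mem a ha.1 g, fun ρ hρ => by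
    have h1 := ha.2 _ (El.cj hρ g⁻¹)
    calc _ = g * (g⁻¹ * ρ * g⁻¹⁻¹ * a) * g⁻¹ := by group
      _ = _ := by rw [h1]; group⟩⟩
  have hYC : Y ≤ C₀ := fun y hy => ⟨hYQ hy, fun ρ hρ =>
    commutatorElement_eq_one_iff_mul_comm.1 (cen ρ hρ y hy)⟩
  let W : Subgroup (Q →* ℂˣ) :=
    { carrier := {μ | ∀ a : Q, (a : G) ∈ C₀ → μ a = 1}
      one_mem' := fun _ _ => rfl
      mul_mem' := fun ha hb a h => by rw [MonoidHom.mul_apply, ha a h, hb a h, one_mul]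
      inv_mem' := fun ha a h => by rw [MonoidHom.inv_apply, ha a h, inv_one] }
  have hW : ∀ μ ∈ W, μ ≠ 1 → r ∣ (In Q (lin μ)).index := fun μ hμ h1 => by
    by_contra h2
    have h3 := inv r hr cr _ (isIrrCharacter_linear μ) h2
    rw [← St_dual] at h3
    let R : Sylow r G := default
    obtain ⟨j, hj⟩ := IsPGroup.iff_card.1 R.isPGroup'
    have h4 : Q ≤ μ.ker.map Q.subtype := by
      conv_lhs => rw [← H1.commutator_sup_centralizer (A := R) (K := Q) Subgroup.le_normalizer_of_normal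
        (hj ▸ crQ.pow_left j) (Or.inl inferInstance)]
      refine sup_le ?_ fun c hc => ⟨⟨c, hc.1⟩, hμ _ ⟨hc.1, fun ρ hρ => ?_⟩, rfl⟩
      · rw [Subgroup.commutator_comm, Subgroup.commutator_le]
        exact fun ρ hρ a ha => ⟨_, mem_St_dual.1 (h3 ρ (El.syl R.isPGroup' hρ)) a ha, rfl⟩
      · obtain ⟨s, hs, h4⟩ := cr.mem' hr R.not_dvd_index hρ
        have h5 : ρ * c * ρ⁻¹ * c⁻¹ ∈ Y := by
          have h5 := nY.conj_mem _ (hY ▸ cm h4 hc.1) s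
          convert h5 using 1
          calc _ = ρ * c * ρ⁻¹ * (s * c) * c⁻¹ * s⁻¹ * c⁻¹ := by group
            _ = ρ * c * ρ⁻¹ * s * ((c * s) * s⁻¹) * c⁻¹ * c⁻¹ * s⁻¹ := by
              have h6 : Commute s c := hc.2 s hs
              rw [mul_assoc _ s⁻¹, h6.inv_inv.eq]; group
            _ = _ := by group
        exact commutatorElement_eq_one_iff_mul_comm.1 (fixq crQ hρ (hYQ h5) (cen ρ hρ _ h5))
    refine h1 (MonoidHom.ext fun a => ?_)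
    obtain ⟨b, hb, h5⟩ := h4 a.2
    exact Subtype.ext h5 ▸ hb
  have g2 := sylcount (V := Q →* ℂˣ) hq (QuotientGroup.lift Q (dual Q) tQ) (W := W) (fun g μ hμ a ha => by
      obtain ⟨g, rfl⟩ := QuotientGroup.mk_surjective g
      exact hμ _ (nC.conj_mem _ ha g⁻¹)) (pg_lin hn) fun μ hμ h1 => cnt (V := Q →* ℂˣ) hp tQ μ
    (by rw [St_dual]; simpa using lin1 μ 1 one_mem_cd (hW μ hμ h1)) fun a ha b hb h2 h3 => by
      rw [St_dual] at ha hb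
      exact comm_mod hp hp (fun b hb => and_self_iff.2 fun h4 =>
        lin1 μ b hb (hW μ hμ h1) (h4.mul_left _)) ha hb (Or.inl h2) (Or.inl h3)
  have hxQ := Q.mul_mem (nQ.conj_mem _ ha₀ ρ₀) (Q.inv_mem ha₀)
  have hx1 := fun h => hx₀ (fixq (Z := Y) crQ hρ₀ hxQ h)
  have hxC : ∀ c ∈ C₀, c * (ρ₀ * a₀ * ρ₀⁻¹ * a₀⁻¹) = ρ₀ * a₀ * ρ₀⁻¹ * a₀⁻¹ * c := fun c hc => by
    have h1 : Commute ρ₀ c := hc.2 _ hρ₀
    have h2 : Commute (a₀ * ρ₀ * a₀⁻¹) c := hc.2 _ (hρ₀.cj a₀)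
    simpa [mul_assoc] using (h1.mul_left h2.inv_left).symm.eq
  generalize ρ₀ * a₀ * ρ₀⁻¹ * a₀⁻¹ = x at hxQ hx1 hxC
  have nl : ∀ χ, IsIrrCharacter Q χ → χ 1 ≠ 1 → ρ₀ ∈ In Q χ := fun χ hχ h1 => by
    obtain ⟨d, -, hd⟩ := hχ.exists_degree
    obtain ⟨k, rfl⟩ := exists_pow_of_mem_cd hQ (mem_cd_of hχ hd)
    refine inv r hr cr χ hχ (fun h2 => Nqr _ (nonlin hcop hχ hd one_mem_cd) ?_) ρ₀ hρ₀
    rw [mul_comm q, one_mul]
    exact mul_dvd_mul h2 (dvd_pow_self q (by rintro rfl; exact h1 (by simpa using hd)))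
  have cj : ∀ y : Y, ∃ u : Q, (u : G) * x * (u : G)⁻¹ = x * y := fun y => by
    obtain ⟨u, hu⟩ := isConj_iff.1 (cam (x := (⟨x, hxQ⟩ : Q)) (y := ⟨y, hYQ y.2⟩) (fun χ hχ h1 => by
      by_contra h2
      refine hx1 (hY ▸ mem_der.1 (sep (x := (NEmb.ofNormal Q).act ρ₀ ⟨x, hxQ⟩ * (⟨x, hxQ⟩ : Q)⁻¹) fun μ => ?_))
      have h3 := nl _ (lin_mul_irr hχ μ) (by simpa [lin] using h1) ⟨x, hxQ⟩
      rw [Pi.mul_apply, Pi.mul_apply, nl χ hχ h1 _] at h3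
      rw [map_mul, map_inv, Units.ext (mul_right_cancel₀ h2 h3), mul_inv_cancel])
      (mem_der.2 (hY ▸ y.2)))
    exact ⟨u, congrArg Subtype.val hu⟩
  choose f hf using cj
  let D := Q ⊓ Subgroup.centralizer {x}
  have c1 : Nat.card Y ≤ D.relIndex Q := Nat.card_le_card_of_injective
    (fun y => (f y : Q ⧸ D.subgroupOf Q)) fun a b hab => by
      have h1 : ((f a : G)⁻¹ * f b) * x = x * ((f a : G)⁻¹ * f b) :=
        Subgroup.mem_centralizer_singleton_iff.1 (QuotientGroup.eq.1 hab).2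
      refine Subtype.ext (mul_left_cancel (a := x) ?_)
      rw [← hf a, ← hf b]
      calc _ = f a * (x * ((f a : G)⁻¹ * f b)) * (f b : G)⁻¹ := by group
        _ = _ := by rw [← h1]; group
  have hCD : C₀ ≤ D := fun c hc => ⟨hc.1, Subgroup.mem_centralizer_singleton_iff.2 (hxC c hc)⟩
  have c2 : D.relIndex Q < C₀.relIndex Q := by
    rw [← Subgroup.relIndex_mul_relIndex C₀ D Q hCD inf_le_left]
    refine lt_mul_left (Nat.pos_of_ne_zero Subgroup.index_ne_zero_of_finite) ?_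
    have h1 : C₀.relIndex D ≠ 0 := Subgroup.index_ne_zero_of_finite
    have h2 : C₀.relIndex D ≠ 1 := fun h2 => hx1 (by
      rw [(Subgroup.relIndex_eq_one.1 h2 ⟨hxQ, Subgroup.mem_centralizer_singleton_iff.2 rfl⟩).2 _ hρ₀]
      simp)
    exact Nat.one_lt_iff_ne_zero_and_ne_one.2 ⟨h1, h2⟩
  have c3 : C₀.relIndex Q ≤ Nat.card W := by
    rw [Subgroup.relIndex, Subgroup.index, ← card_lin fun a b => by
      obtain ⟨a, rfl⟩ := QuotientGroup.mk'_surjective _ a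
      obtain ⟨b, rfl⟩ := QuotientGroup.mk'_surjective _ b
      exact qcomm.1 (hYC (hY ▸ cm a.2 b.2))]
    refine Nat.card_le_card_of_injective (fun μ => ⟨μ.comp (QuotientGroup.mk' _), fun a ha => ?_⟩)
      fun a b hab => MonoidHom.ext fun z => ?_
    · rw [MonoidHom.comp_apply, QuotientGroup.mk'_apply, (QuotientGroup.eq_one_iff _).2, map_one]
      exact ha
    · obtain ⟨z, rfl⟩ := QuotientGroup.mk'_surjective _ z
      exact DFunLike.congr_fun (congrArg Subtype.val hab) z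
  have c4 : Nat.card Y ≠ 1 := fun h => Y1 (Subgroup.card_eq_one.1 h)
  have c5 : 0 < Nat.card Y := Nat.card_pos
  have c6 := (c1.trans_lt c2).trans_le c3
  exact c6.ne (Good.eq hq np g1 g2 c4 (lt_of_le_of_lt c5 c6).ne')

theorem main0 [Group.IsSolvable G] (hp : p.Prime) (hq : q.Prime) (hr : r.Prime) (hpq : p ≠ q)
    (hrq : r ≠ q) (hpr : p ≠ r) {Y : Subgroup G} [nY : Y.Normal] (hY : H2.IsMinNormal Y)
    (Nq : ∀ d ∈ charDegrees (G ⧸ Y), ¬ q ∣ d) (ρp : ∃ d ∈ charDegrees G, p ∣ d)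
    (ρq : ∃ d ∈ charDegrees G, q ∣ d) (ρr : ∃ d ∈ charDegrees G, r ∣ d)
    (Nqp : ∀ d ∈ charDegrees G, ¬ q * p ∣ d) (Nqr : ∀ d ∈ charDegrees G, ¬ q * r ∣ d)
    (Npr : ∀ d ∈ charDegrees G, ¬ p * r ∣ d)
    (hw : p ∣ (dual Y).ker.index ∨ ¬ r ∣ (dual Y).ker.index) : False := by
  haveI := Fact.mk hp
  haveI := Fact.mk hq
  haveI := Fact.mk hr
  haveI := finite_lin Y
  obtain ⟨hc, y, hy, hYy⟩ := hY.exists_prime_of_isSolvable inferInstance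
  haveI := Fact.mk hy
  have hYp := H2.isPGroup_of_forall_pow_eq_one hYy
  have hYc : ∀ a ∈ Y, ∀ b ∈ Y, a * b = b * a := fun a ha b hb => H2.mul_comm_of_mem ha hb
  have hs := QuotientGroup.mk'_surjective Y
  obtain ⟨i1, i2⟩ := ito (H9.isPSolvable_of_isSolvable (G := G ⧸ Y) inferInstance) Nq
  let X := (pCore q (G ⧸ Y)).comap (QuotientGroup.mk' Y)
  have iX : ¬ q ∣ X.index := by rwa [Subgroup.index_comap_of_surjective _ hs]
  have hYX : Y ≤ X := QuotientGroup.le_comap_mk' Y _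
  have hXab : ∀ a ∈ X, ∀ b ∈ X, a * b * a⁻¹ * b⁻¹ ∈ Y := fun a ha b hb => qcomm.2 (i2 _ ha _ hb)
  have hXY : ⁅X, X⁆ = Y := (hY.min _ inferInstance (Subgroup.commutator_le.2 hXab)).resolve_left
    fun h => by
      obtain ⟨d, hd, h1⟩ := ρq
      exact iX (h1.trans (cd_dvd_index_of_comm (A := X) (fun a ha b hb =>
        commutatorElement_eq_one_iff_mul_comm.1 (Subgroup.mem_bot.1 (h ▸ cm ha hb))) hd))
  obtain ⟨n, hn⟩ := IsPGroup.iff_card.1 (H1.isPGroup_pCore q (G ⧸ Y))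
  have hrel : Y.relIndex X = q ^ n := by
    rw [H9.relIndex_eq_card_map_mk', Subgroup.map_comap_eq_self_of_surjective hs, hn]
  have nq : ∀ c ∈ charDegrees G, q ∣ c → ¬ p ∣ c ∧ ¬ r ∣ c := fun c hc h1 =>
    ⟨fun h2 => Nqp c hc (((Nat.coprime_primes hq hp).2 hpq.symm).mul_dvd_of_dvd_of_dvd h1 h2),
      fun h2 => Nqr c hc (((Nat.coprime_primes hq hr).2 hrq.symm).mul_dvd_of_dvd_of_dvd h1 h2)⟩
  have qd : ∀ d ∈ charDegrees X, d ≠ 1 → q ∣ d := fun d hd h1 => by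
    have h2 := cd_dvd_index_of_comm (A := Y.subgroupOf X)
      (fun a ha b hb => Subtype.ext (hYc _ ha _ hb)) hd
    obtain ⟨k, -, rfl⟩ := (Nat.dvd_prime_pow hq).1 (h2.trans hrel.dvd)
    exact dvd_pow_self q (by rintro rfl; exact h1 (pow_zero q))
  have rel : ∀ c ∈ relCharDegrees Y, ¬ p ∣ c ∧ ¬ r ∣ c := fun c hc => by
    obtain ⟨θ, d, hθ, hd, h1, h2⟩ := exists_of_rel_der (N := X) (hXY ▸ hc)
    exact nq c (rel_cd hc) ((qd d (mem_cd_of hθ hd) h1).trans (over_deg_dvd hθ hd h2))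
  have down : ∀ l, (∀ c ∈ relCharDegrees Y, ¬ l ∣ c) → (∃ d ∈ charDegrees G, l ∣ d) →
      ∃ d ∈ charDegrees (G ⧸ Y), l ∣ d := fun l h1 ⟨d, hd, h2⟩ => by
    obtain ⟨χ, hχ, h3⟩ := mem_cd.1 hd
    have h4 : Y ≤ charKer χ := by
      by_contra h4; exact h1 d (rel_iff.2 ⟨χ, hχ, h3, h4⟩) h2
    exact ⟨d, mem_cd_of (hχ.deflate h4) ((deflate_mk h4 1).trans h3), h2⟩
  have σp := down p (fun c hc => (rel c hc).1) ρp
  have σr := down r (fun c hc => (rel c hc).2) ρr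
  have ne1 : ∀ μ : Y →* ℂˣ, μ ≠ 1 → lin μ ≠ fun _ => 1 := fun μ h1 h2 =>
    h1 (MonoidHom.ext fun a => Units.ext (congrFun h2 a))
  have N1 : ∀ μ : Y →* ℂˣ, μ ≠ 1 → ¬ p ∣ (St (dual Y) μ).index ∧ ¬ r ∣ (St (dual Y) μ).index := by
    intro μ h1
    have hμ := isIrrCharacter_linear μ
    obtain ⟨c, hc⟩ := exists_over (E := NEmb.ofNormal Y) hμ
    have h2 := (dvd_mul_right _ _).trans (over_dvd hμ (d := 1) (by simp) hc)
    have h3 := rel c (rel_of_ov hμ (ne1 μ h1) hc)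
    rw [St_dual]
    exact ⟨fun h4 => h3.1 (h4.trans h2), fun h4 => h3.2 (h4.trans h2)⟩
  obtain ⟨y₀, hy₀⟩ := Subgroup.ne_bot_iff_exists_ne_one.1 hY.ne_bot
  obtain ⟨μ₀, hμ₀⟩ := exists_linear_ne_one (fun a b : Y => Subtype.ext (hYc _ a.2 _ b.2)) hy₀
  replace hμ₀ : μ₀ ≠ 1 := fun h => hμ₀ (by rw [h]; rfl)
  have big : ∀ Z : Subgroup G, (∀ a ∈ Z, ∀ y ∈ Y, a * y = y * a) →
      (∀ μ : Y →* ℂˣ, μ ≠ 1 → ∀ a ∈ St (dual Y) μ, ∀ b ∈ St (dual Y) μ, Pi p r a → Pi p r b →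
        a * b * a⁻¹ * b⁻¹ ∈ Z) → ∀ ρ, El r ρ → ∀ μ : Y →* ℂˣ, ρ ∈ St (dual Y) μ := by
    intro Z hZ K ρ hρ μ
    have tZ : Z ≤ (dual Y).ker := fun x hx => MulEquiv.ext fun μ => mem_St_dual.2 fun n hn =>
      (congrArg μ (Subtype.ext (by simp [hZ x hx n hn]))).trans (map_one μ)
    by_cases h1 : r ∣ (dual Y).ker.index
    swap
    · rw [mem_St, MonoidHom.mem_ker.1 (hρ.mem hr h1)]; rfl
    obtain ⟨m, hm⟩ := IsPGroup.iff_card.1 hYp
    haveI : Nontrivial (Y →* ℂˣ) := ⟨μ₀, 1, hμ₀⟩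
    have h2 : ∀ v, ∀ a ∈ St (QuotientGroup.lift _ (dual Y) le_rfl) v, Pi p r a →
        ∃ s ∈ St (dual Y) v, QuotientGroup.mk' _ s = a ∧ Pi p r s := fun v a ha h2 => h2.elim
      (fun h2 => ((lift_St le_rfl v).2 p hp a ha h2).imp fun s h => ⟨h.1, h.2.1, Or.inl h.2.2⟩)
      fun h2 => ((lift_St le_rfl v).2 r hr a ha h2).imp fun s h => ⟨h.1, h.2.1, Or.inr h.2.2⟩
    obtain ⟨d, hd, h3⟩ := lemL hp hr hpr hy (pg_lin hm) _ (H := G ⧸ (dual Y).ker)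
      (φ := QuotientGroup.lift _ (dual Y) le_rfl) rfl (QuotientGroup.kerLift_injective _)
      (hw.resolve_right (not_not.2 h1)) h1
      (fun v hv => ⟨fun h3 => (N1 v hv).1 (h3.trans (lift_St le_rfl v).1),
        fun h3 => (N1 v hv).2 (h3.trans (lift_St le_rfl v).1)⟩) fun v hv a ha b hb h3 h4 => by
        obtain ⟨s, h5, rfl, h6⟩ := h2 v a ha h3
        obtain ⟨t, h7, rfl, h8⟩ := h2 v b hb h4
        exact qcomm.1 (tZ (K v hv s h5 t h7 h6 h8))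
    exact absurd h3 (Npr d (cd_quotient_subset _ hd))
  by_cases hyq : y = q
  · subst hyq
    have hQ : IsPGroup y X := (H1.isPGroup_pCore y _).comap_of_ker_isPGroup _
      (by rwa [QuotientGroup.ker_mk'])
    have hQY : ∀ a ∈ X, ∀ z ∈ Y, a * z = z * a := fun a ha z hz =>
      (((hY.min (Y ⊓ Subgroup.centralizer (X : Set G)) inferInstance inf_le_left).resolve_left
        (H2.inf_centralizer_ne_bot_of_isPGroup hYp hQ Subgroup.le_normalizer_of_normal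
          hY.ne_bot)).ge hz).2 a ha
    obtain ⟨j, hj⟩ := IsPGroup.iff_card.1 hQ
    have cq := ((Nat.Prime.coprime_iff_not_dvd hq).2 iX).symm
    have K : ∀ μ : Y →* ℂˣ, μ ≠ 1 → ∀ a ∈ St (dual Y) μ, ∀ b ∈ St (dual Y) μ, Pi p r a → Pi p r b →
        a * b * a⁻¹ * b⁻¹ ∈ X := by
      intro μ h1 a ha b hb pa pb
      rw [St_dual] at ha hb
      have hμ := isIrrCharacter_linear μ
      obtain ⟨χ, h2, h3⟩ := exists_sInv_over_of_ab (S := In Y (lin μ)) (G := X) (N := Y)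
        Subgroup.le_normalizer_of_normal Subgroup.le_normalizer_of_normal
        Subgroup.le_normalizer_of_normal
        (hrel ▸ (cq.pow_right n).coprime_dvd_left (Subgroup.relIndex_dvd_index_of_normal _ _))
        hXab hYX (θ := ⟨lin μ, hμ⟩)
        fun s hs g g' h => (congrArg (lin μ) (Subtype.ext h)).trans (hs g)
      obtain ⟨d, -, hd⟩ := χ.2.exists_degree
      have h4 := ne_one_of_un hYX χ.2 hμ (fun h4 => h2 (Nat.cast_eq_zero.1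
        ((gmul_cast hYX χ.2.isCharacter hμ.isCharacter).trans h4))) hXY.ge (ne1 μ h1) hd
      refine comm_mod hp hr (T := In X χ.1) (fun e he => ?_) (fun n => h3 a ha n _ rfl)
        (fun n => h3 b hb n _ rfl) pa pb
      have h5 := nq _ (nonlin (hj ▸ cq.pow_right j) χ.2 hd he)
        (((qd d (mem_cd_of χ.2 hd) h4).mul_left _).mul_left _)
      exact ⟨fun h6 => h5.1 ((h6.mul_right _).mul_left _), fun h6 => h5.2 ((h6.mul_right _).mul_left _)⟩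
    exact caseA hp hq hr hpq hrq hpr hQ iX hXY hY.ne_bot hQY Nqr Npr σp σr
      (fun μ h1 => (N1 μ h1).1) K (big X hQY K)
  let P : Sylow q G := default
  have hPX : (P : Subgroup G) ≤ X := fun x hx => (El.syl P.isPGroup' hx).mem hq iX
  have hXP : ∀ x ∈ X, ∃ s ∈ (P : Subgroup G), s⁻¹ * x ∈ Y := fun x hx => by
    obtain ⟨s, h1, h2⟩ := le_of_not_dvd_index (K := ⊥) (I := (P : Subgroup G).map (QuotientGroup.mk' Y))
      (by rw [Subgroup.relIndex_bot_left, hn]) bot_le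
      (fun h => P.not_dvd_index (h.trans (Subgroup.index_map_dvd _ hs))) hx
    exact ⟨s, h1, QuotientGroup.eq.1 h2⟩
  have h1 : Y ⊔ Subgroup.normalizer (P : Set G) = ⊤ := by
    rw [eq_top_iff, ← Sylow.normalizer_sup_eq_top' P hPX]
    refine sup_le le_sup_right fun x hx => ?_
    obtain ⟨s, h1, h2⟩ := hXP x hx
    simpa using Subgroup.mul_mem _ (Subgroup.mem_sup_right (Subgroup.le_normalizer h1))
      (Subgroup.mem_sup_left h2)
  have h2 : Y ⊓ Subgroup.normalizer (P : Set G) = ⊥ := (hY.min (Y ⊓ Subgroup.normalizer (P : Set G)) ⟨fun a ha g =>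
      ⟨nY.conj_mem a ha.1 g, by
        obtain ⟨z, hz, m, hm, rfl⟩ := Subgroup.mem_sup_of_normal_left.1 (h1 ▸ Subgroup.mem_top g)
        have h2 : z * m * a * (z * m)⁻¹ = m * a * m⁻¹ := by
          rw [← mul_inv_cancel_right (m * a * m⁻¹) z, ← hYc z hz _ (nY.conj_mem a ha.1 m)]; group
        rw [h2]
        exact Subgroup.mul_mem _ (Subgroup.mul_mem _ hm ha.2) (Subgroup.inv_mem _ hm)⟩⟩
      inf_le_left).resolve_right fun h2 => by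
    have h3 := IsPGroup.disjoint_of_ne y q hyq _ _ hYp P.isPGroup'
    have h4 : ∀ s ∈ (P : Subgroup G), ∀ t ∈ (P : Subgroup G), Commute s t := fun s hs t ht =>
      commutatorElement_eq_one_iff_commute.1 (Subgroup.disjoint_def.1 h3 (hXab s (hPX hs) t (hPX ht))
        (der_le _ (cm hs ht)))
    have h5 : ∀ s ∈ (P : Subgroup G), ∀ z ∈ Y, Commute s z := fun s hs z hz =>
      commutatorElement_eq_one_iff_commute.1 (Subgroup.disjoint_def.1 h3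
        (hXab s (hPX hs) z (hYX hz)) (by
          have := Subgroup.mul_mem _ hs ((Subgroup.mem_normalizer_iff.1 (h2.ge hz).2 _).1
            (Subgroup.inv_mem _ hs))
          simpa [commutatorElement_def, mul_assoc] using this))
    refine hY.ne_bot (le_bot_iff.1 (hXY ▸ der_bot fun a ha b hb => ?_))
    obtain ⟨s, k1, k2⟩ := hXP a ha
    obtain ⟨t, k3, k4⟩ := hXP b hb
    simpa using (((h4 s k1 t k3).mul_right (h5 s k1 _ k4)).mul_left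
      ((h5 t k3 _ k2).symm.mul_right (hYc _ k2 _ k4))).eq
  have K : ∀ μ : Y →* ℂˣ, μ ≠ 1 → ∀ a ∈ St (dual Y) μ, ∀ b ∈ St (dual Y) μ, Pi p r a → Pi p r b →
      a * b * a⁻¹ * b⁻¹ ∈ Y := by
    intro μ h3 a ha b hb pa pb
    rw [St_dual] at ha hb
    have hμ := isIrrCharacter_linear μ
    obtain ⟨ν, hν⟩ := ext_split h1 h2 (le_In hμ) le_rfl
    refine comm_mod hp hr (fun e he => ?_) ha hb pa pb
    have h5 := rel _ (rel_of_ov hμ (ne1 μ h3) (ov_of_ext ν hν he))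
    exact ⟨fun h6 => h5.1 (h6.mul_left _), fun h6 => h5.2 (h6.mul_left _)⟩
  obtain ⟨d, hd, h3⟩ := σr
  have h4 := big Y hYc K
  exact (Cm.of hr fun a b ha hb =>
    K μ₀ hμ₀ a (h4 a ha _) b (h4 b hb _) (Or.inr ha) (Or.inr hb)).not_dvd hr hd h3

universe u in
theorem palfy (hp : p.Prime) (hq : q.Prime) (hr : r.Prime) (hpq : p ≠ q) (hqr : q ≠ r) (hpr : p ≠ r)
    (n : ℕ) : ∀ {G : Type u} [Group G] [Finite G] [Group.IsSolvable G], Nat.card G = n →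
    (∃ d ∈ charDegrees G, p ∣ d) → (∃ d ∈ charDegrees G, q ∣ d) → (∃ d ∈ charDegrees G, r ∣ d) →
    (∀ d ∈ charDegrees G, ¬ p * q ∣ d) → (∀ d ∈ charDegrees G, ¬ q * r ∣ d) →
    (∀ d ∈ charDegrees G, ¬ p * r ∣ d) → False := by
  induction n using Nat.strong_induction_on with
  | _ n ih =>
  intro G _ _ _ hn ρp ρq ρr Npq Nqr Npr
  haveI : Nontrivial G := by
    obtain ⟨d, hd, h1⟩ := ρp
    exact Finite.one_lt_card_iff_nontrivial.1 (hp.one_lt.trans_le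
      (Nat.le_of_dvd Nat.card_pos (h1.trans (dvd_card_of_mem_cd hd))))
  obtain ⟨Y, hY⟩ := H2.exists_isMinNormal (G := G)
  haveI := hY.normal
  have key : ∀ p q r : ℕ, p.Prime → q.Prime → r.Prime → p ≠ q → r ≠ q → p ≠ r →
      (∃ d ∈ charDegrees G, p ∣ d) → (∃ d ∈ charDegrees G, q ∣ d) → (∃ d ∈ charDegrees G, r ∣ d) →
      (∀ d ∈ charDegrees G, ¬ q * p ∣ d) → (∀ d ∈ charDegrees G, ¬ q * r ∣ d) →
      (∀ d ∈ charDegrees G, ¬ p * r ∣ d) → ∃ d ∈ charDegrees (G ⧸ Y), q ∣ d := by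
    intro p q r hp hq hr h1 h2 h3 ρp ρq ρr N1 N2 N3
    by_contra h4; push Not at h4
    by_cases h5 : p ∣ (dual Y).ker.index
    · exact main0 hp hq hr h1 h2 h3 hY h4 ρp ρq ρr N1 N2 N3 (Or.inl h5)
    · exact main0 hr hq hp h2 h1 h3.symm hY h4 ρr ρq ρp N2 N1 (by rwa [mul_comm]) (Or.inr h5)
  have Nqp : ∀ d ∈ charDegrees G, ¬ q * p ∣ d := by rwa [mul_comm]
  have Nrq : ∀ d ∈ charDegrees G, ¬ r * q ∣ d := by rwa [mul_comm]
  have Nrp : ∀ d ∈ charDegrees G, ¬ r * p ∣ d := by rwa [mul_comm]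
  exact ih _ (hn ▸ H1.card_quotient_lt hY.ne_bot) rfl
    (key q p r hq hp hr hpq.symm hpr.symm hqr ρq ρp ρr Npq Npr Nqr)
    (key p q r hp hq hr hpq hqr.symm hpr ρp ρq ρr Nqp Nqr Npr)
    (key p r q hp hr hq hpr hqr hpq ρp ρr ρq Nrp Nrq Npq)
    (fun d hd => Npq d (cd_quotient_subset _ hd)) (fun d hd => Nqr d (cd_quotient_subset _ hd))
    fun d hd => Npr d (cd_quotient_subset _ hd)

end Cfsg.Agent.H25.Pal
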