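import Mathlib
import Cfsg.Prelude.Def_OddOrderLocal
import Cfsg.Agent.H25.ClassCount

/-! Normal `π`-complements from normal `r`-complements. -/

namespace Cfsg.Agent.H25

open scoped commutatorElement

universe u
variable {G : Type u} [Group G] [Finite G]

theorem exists_normal_pi_compl (π : Finset ℕ) (hπ : ∀ r ∈ π, r.Prime)
    (h : ∀ r ∈ π, HasNormalPComplement r G) :
    ∃ N : Subgroup G, N.Normal ∧ (∀ r : ℕ, r.Prime → r ∣ Nat.card N → r ∉ π) ∧
      (∀ r : ℕ, r.Prime → r ∣ N.index → r ∈ π) ∧ ∀ x, x ∈ N ↔ ∀ r ∈ π, x ∈ pResidual r G := by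
  classical
  induction π using Finset.induction_on with
  | empty => exact ⟨⊤, inferInstance, by simp, by
      intro r hr h; simp only [Subgroup.index_top, Nat.dvd_one] at h; exact absurd h hr.ne_one, by simp⟩
  | insert s π hs ih =>
    obtain ⟨N, hN, h1, h2, h3⟩ := ih (fun r hr => hπ r (Finset.mem_insert_of_mem hr))
      (fun r hr => h r (Finset.mem_insert_of_mem hr))
    have : Fact s.Prime := ⟨hπ s (Finset.mem_insert_self _ _)⟩
    refine ⟨N ⊓ pResidual s G, inferInstance, fun r hr hd hm => ?_, fun r hr hd => ?_, fun x => ?_⟩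
    · rcases Finset.mem_insert.mp hm with rfl | hm
      · exact H3.hasNormalPComplement_iff_not_dvd.mp (h r (Finset.mem_insert_self _ _))
          (hd.trans (Subgroup.card_dvd_of_le inf_le_right))
      · exact h1 r hr (hd.trans (Subgroup.card_dvd_of_le inf_le_left)) hm
    · rw [← Subgroup.relIndex_mul_index (inf_le_right : N ⊓ pResidual s G ≤ _),
        Subgroup.inf_relIndex_right] at hd
      rcases (Nat.Prime.dvd_mul hr).mp hd with hd | hd
      · have h4 : N.relIndex (pResidual s G) ∣ N.index := Subgroup.relIndex_dvd_index_of_normal _ _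
        exact Finset.mem_insert_of_mem (h2 r hr (hd.trans h4))
      · obtain ⟨n, hn⟩ := H3.exists_index_pResidual (p := s) (G := G)
        rw [hn] at hd
        rw [(Nat.prime_dvd_prime_iff_eq hr this.out).mp (hr.dvd_of_dvd_pow hd)]
        exact Finset.mem_insert_self _ _
    · rw [Subgroup.mem_inf, h3]
      simp only [Finset.mem_insert, forall_eq_or_imp]
      exact and_comm

theorem commutator_le_pResidual {p : ℕ} [Fact p.Prime] (P : Sylow p G)
    (hP : IsMulCommutative (P : Subgroup G)) : commutator G ≤ pResidual p G := by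
  rw [commutator_def, Subgroup.commutator_le]
  intro a _ b _
  obtain ⟨n, hn, x, hx, rfl⟩ := H3.exists_eq_pResidual_mul_sylow P a
  obtain ⟨m, hm, y, hy, rfl⟩ := H3.exists_eq_pResidual_mul_sylow P b
  have hxy : x * y = y * x := congrArg Subtype.val (hP.is_comm.comm ⟨x, hx⟩ ⟨y, hy⟩)
  rw [← QuotientGroup.eq_one_iff, commutatorElement_def]
  rw [← QuotientGroup.eq_one_iff] at hn hm
  simp only [QuotientGroup.mk_mul, QuotientGroup.mk_inv, hn, hm, one_mul]
  rw [← QuotientGroup.mk_mul, hxy, QuotientGroup.mk_mul]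
  group

theorem exists_abelian_hall (π : Finset ℕ) (hπ : ∀ r ∈ π, r.Prime)
    (h : ∀ r ∈ π, HasNormalPComplement r G) (hab : ∀ r ∈ π, commutator G ≤ pResidual r G) :
    ∃ H : Subgroup G, IsPiHall (↑π : Set ℕ) H ∧ IsMulCommutative H := by
  obtain ⟨N, hN, h1, h2, h3⟩ := exists_normal_pi_compl π hπ h
  have hc : Nat.Coprime (Nat.card N) N.index := by
    rw [Nat.coprime_iff_gcd_eq_one]
    by_contra hne
    obtain ⟨r, hr, hd⟩ := Nat.exists_prime_and_dvd hne
    exact h1 r hr (hd.trans (Nat.gcd_dvd_left _ _)) (h2 r hr (hd.trans (Nat.gcd_dvd_right _ _)))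
  obtain ⟨H, hH⟩ := Subgroup.exists_right_complement'_of_coprime hc
  refine ⟨H, ⟨fun r hr hd => h2 r hr ?_, fun r hr hm hd => h1 r hr ?_ hm⟩, ⟨⟨fun a b => ?_⟩⟩⟩
  · rwa [hH.symm.index_eq_card]
  · rwa [← hH.index_eq_card]
  · have h4 : ⁅(a : G), (b : G)⁆ ∈ N ⊓ H := by
      refine ⟨(h3 _).mpr fun r hr => hab r hr ?_, ?_⟩
      · exact Subgroup.commutator_mem_commutator (Subgroup.mem_top _) (Subgroup.mem_top _)
      · rw [commutatorElement_def]
        exact H.mul_mem (H.mul_mem (H.mul_mem a.2 b.2) (H.inv_mem a.2)) (H.inv_mem b.2)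
    rw [hH.disjoint.eq_bot, Subgroup.mem_bot, commutatorElement_eq_one_iff_mul_comm] at h4
    exact Subtype.ext h4

end Cfsg.Agent.H25
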