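import Cfsg.Agent.H25.QB3

/-! Root elements fixed by a coprime group. -/

set_option autoImplicit false

namespace Cfsg.Agent.H25.QB

open Subgroup Cfsg.Agent.H20 Cfsg.Agent.H21 Cfsg.Agent.H29 Module

theorem cnt2 {E : Type*} [AddCommGroup E] [DecidableEq E] (S : Finset E) (f : E → E)
    (h : ∀ s ∈ S, ∀ t ∈ S, f s = f t → s = t ∨ s = -t) : S.card ≤ 2 * (S.image f).card := by
  refine Finset.card_le_mul_card_image S 2 fun a ha => ?_
  obtain ⟨t, ht, rfl⟩ := Finset.mem_image.1 ha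
  refine (Finset.card_le_card (t := {t, -t}) fun s hs => ?_).trans Finset.card_le_two
  rw [Finset.mem_filter] at hs
  simpa using h s hs.1 t ht hs.2

theorem cnt2' {E : Type*} [AddCommGroup E] [DecidableEq E] (S : Finset E) (f : E → E) (h0 : 0 ∈ S)
    (h : ∀ s ∈ S, ∀ t ∈ S, f s = f t → s = t ∨ s = -t) : S.card + 1 ≤ 2 * (S.image f).card := by
  have e1 := cnt2 (S.erase 0) f fun s hs t ht => h s (Finset.mem_of_mem_erase hs) t (Finset.mem_of_mem_erase ht)
  have e2 : S.image f = insert (f 0) ((S.erase 0).image f) := by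
    rw [← Finset.image_insert, Finset.insert_erase h0]
  rw [e2, Finset.card_insert_of_notMem (by
    intro hm
    obtain ⟨s, hs, e⟩ := Finset.mem_image.1 hm
    have := h s (Finset.mem_of_mem_erase hs) 0 h0 e
    simp only [neg_zero, or_self] at this
    exact Finset.ne_of_mem_erase hs this)]
  have := Finset.card_erase_add_one h0
  omega

/-- a finite special Jordan division algebra has no anticommuting elements -/
theorem anticomm {k E : Type*} [Field k] [Ring E] [Algebra k E] [Finite E] (h2 : (2 : k) ≠ 0)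
    (J : Submodule k E) (hJ : ∀ c ∈ J, ∀ d ∈ J, c * d + d * c ∈ J)
    (hd : ∀ c ∈ J, ∀ d ∈ J, c * d = 0 → c = 0 ∨ d = 0) {u v : E} (hu : u ∈ J) (hv : v ∈ J)
    (h : u * v + v * u = 0) : u = 0 ∨ v = 0 := by
  classical
  have := Fintype.ofFinite E
  by_contra hne
  push Not at hne
  have hm : ∀ c ∈ J, ∀ d ∈ J, Commute c d → c * d ∈ J := fun c hc d hd e => by
    have := J.smul_mem (2 : k)⁻¹ (hJ c hc d hd)
    rwa [← e.eq, ← two_smul k, smul_smul, inv_mul_cancel₀ h2, one_smul] at this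
  have uv : u * v = -(v * u) := eq_neg_of_add_eq_zero_left h
  have pv : Commute v (u * u) := by
    show v * (u * u) = u * u * v
    rw [mul_assoc, uv, mul_neg, ← mul_assoc u v, uv]; noncomm_ring
  have qu : Commute u (v * v) := by
    show u * (v * v) = v * v * u
    rw [← mul_assoc, uv, neg_mul, mul_assoc v u, uv]; noncomm_ring
  let Z : E → Prop := fun w => w ∈ J ∧ Commute w (u * u) ∧ Commute w (v * v)
  have zu : Z u := ⟨hu, (Commute.refl u).mul_right (Commute.refl u), qu⟩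
  have zv : Z v := ⟨hv, pv, (Commute.refl v).mul_right (Commute.refl v)⟩
  have zm : ∀ c d, Z c → Z d → Commute c d → Z (c * d) := fun c d hc hd e =>
    ⟨hm c hc.1 d hd.1 e, hc.2.1.mul_left hd.2.1, hc.2.2.mul_left hd.2.2⟩
  have za : ∀ c d, Z c → Z d → Z (c + d) := fun c d hc hd =>
    ⟨J.add_mem hc.1 hd.1, hc.2.1.add_left hd.2.1, hc.2.2.add_left hd.2.2⟩
  let S : Finset E := Finset.univ.filter fun z => Z z ∧ ∀ w, Z w → Commute z w
  have mS : ∀ z, z ∈ S ↔ Z z ∧ ∀ w, Z w → Commute z w := fun z => by simp [S]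
  have sm : ∀ c ∈ S, ∀ d ∈ S, c * d ∈ S := fun c hc d hd => by
    rw [mS] at hc hd ⊢
    exact ⟨zm c d hc.1 hd.1 (hc.2 d hd.1), fun w hw => (hc.2 w hw).mul_left (hd.2 w hw)⟩
  have sP : u * u ∈ S := (mS _).2 ⟨zm u u zu zu (Commute.refl u), fun w hw => hw.2.1.symm⟩
  have sQ : v * v ∈ S := (mS _).2 ⟨zm v v zv zv (Commute.refl v), fun w hw => hw.2.2.symm⟩
  have s0 : (0 : E) ∈ S := (mS _).2 ⟨⟨J.zero_mem, Commute.zero_left _, Commute.zero_left _⟩,
    fun w _ => Commute.zero_left w⟩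
  have sq : ∀ c d, c ∈ J → d ∈ J → Commute c d → c * c = d * d → c = d ∨ c = -d := fun c d hc hd' e h =>
    (hd _ (J.sub_mem hc hd') _ (J.add_mem hc hd') (by
      rw [sub_mul, mul_add, mul_add, h, e.eq]; abel)).imp sub_eq_zero.1 eq_neg_of_add_eq_zero_left
  have c1 := cnt2' S (fun c => c * c) s0 fun s hs t ht e =>
    sq s t ((mS s).1 hs).1.1 ((mS t).1 ht).1.1 (((mS s).1 hs).2 t ((mS t).1 ht).1) e
  have c2 := cnt2' S (fun c => u * u + c * c * (v * v)) s0 fun s hs t ht e => by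
    refine sq s t ((mS s).1 hs).1.1 ((mS t).1 ht).1.1 (((mS s).1 hs).2 t ((mS t).1 ht).1)
      (sub_eq_zero.1 ((hd _ (J.sub_mem ((mS _).1 (sm s hs s hs)).1.1 ((mS _).1 (sm t ht t ht)).1.1) _
        ((mS _).1 sQ).1.1 ?_).resolve_right fun e => (hd v hv v hv e).elim hne.2 hne.2))
    rw [sub_mul, add_left_cancel e, sub_self]
  have nd : ¬ Disjoint (S.image fun c => c * c) (S.image fun c => u * u + c * c * (v * v)) := fun hdj => by
    have := Finset.card_le_card (s := (S.image fun c => c * c) ∪ S.image fun c => u * u + c * c * (v * v))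
      (t := S) (Finset.union_subset (Finset.image_subset_iff.2 fun c hc => sm c hc c hc)
      (Finset.image_subset_iff.2 fun c hc => by
        have h1 := (mS _).1 (sm _ (sm c hc c hc) _ sQ)
        have h2 := (mS _).1 sP
        exact (mS _).2 ⟨za _ _ h2.1 h1.1, fun w hw => (h2.2 w hw).add_left (h1.2 w hw)⟩))
    rw [Finset.card_union_of_disjoint hdj] at this
    omega
  obtain ⟨_, h1, h3⟩ := Finset.not_disjoint_iff.1 nd
  obtain ⟨γ, hγ, rfl⟩ := Finset.mem_image.1 h1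
  obtain ⟨β, hβ, e⟩ := Finset.mem_image.1 h3
  rw [mS] at hγ hβ
  have bu := (hβ.2 u zu).eq
  have bv := (hβ.2 v zv).eq
  have zw := za _ _ zu (zm _ _ hβ.1 zv bv)
  have e2 : (u + β * v) * (u + β * v) = γ * γ := by
    rw [← e]
    calc _ = u * u + (u * β) * v + β * (v * u) + β * (v * β) * v := by noncomm_ring
      _ = u * u + β * (u * v + v * u) + β * β * (v * v) := by rw [← bu, ← bv]; noncomm_ring
      _ = _ := by rw [h]; simp
  have cw : Commute (u + β * v) v := by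
    rcases sq _ _ zw.1 hγ.1.1 (hγ.2 _ zw).symm e2 with e | e <;> rw [e]
    exacts [hγ.2 v zv, (hγ.2 v zv).neg_left]
  have e3 : u * v = v * u := by
    have := cw.eq
    rw [add_mul, mul_add, ← mul_assoc v β, ← bv] at this
    exact add_right_cancel this
  rw [← e3, ← two_smul k, smul_eq_zero] at h
  exact (hd u hu v hv (h.resolve_left h2)).elim hne.1 hne.2

variable {p : ℕ} [hp : Fact p.Prime] {M : Type*} [AddCommGroup M] [Module (ZMod p) M]
  {G : Subgroup (End (ZMod p) M)ˣ} [Finite M] (h3 : 3 < p)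

theorem EE_left {a b c : End (ZMod p) M} (hc : c ∈ EE G a) (e : a * b * a = a) : a * b * c = c := by
  have := mul_eq_zero_of_range_le (y := 1 - a * b) hc.2.2.1 (by rw [sub_mul, e, one_mul, sub_self])
  rw [sub_mul, one_mul, sub_eq_zero] at this
  exact this.symm

theorem EE_right {a b c : End (ZMod p) M} (hc : c ∈ EE G a) (e : a * b * a = a) : c * b * a = c := by
  have := mul_eq_zero_of_ker_le (y := 1 - b * a) hc.2.1 (by rw [mul_sub, ← mul_assoc, e, mul_one, sub_self])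
  rw [mul_sub, mul_one, sub_eq_zero] at this
  rw [mul_assoc, ← this]

omit [Finite M] in
theorem cn_w {s s' b : End (ZMod p) M} (hs : s * s = 0) (hs' : s' * s' = 0)
    (h1 : s' * b = 0) (h2 : b * s' = 0) (h4 : s' * s * b = b) (h5 : b * s * s' = b) :
    cn (U1 s hs * (U1 s' hs')⁻¹ * U1 s hs) b = -(s * b * s) := by
  have a1 : (1 + s) * (1 - s') * (1 + s) * b = (1 + s) * (s * b) := by
    calc _ = (1 + s) * (b + s * b - s' * b - s' * s * b) := by noncomm_ring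
      _ = _ := by rw [h1, h4]; congr 1; abel
  have a2 : b * ((1 - s) * ((1 + s') * (1 - s))) = -(b * s) * (1 - s) := by
    calc _ = (b + b * s' - b * s - b * s * s') * (1 - s) := by noncomm_ring
      _ = _ := by rw [h2, h5]; congr 1; abel
  have a3 : s * (s * b) = 0 := by rw [← mul_assoc, hs, zero_mul]
  simp only [cn, mul_inv_rev, inv_inv, Units.val_mul, U1_val, U1_inv]
  rw [a1, add_mul, one_mul, a3, add_zero, mul_assoc s, a2, neg_mul, mul_sub, mul_one, mul_assoc b, hs]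
  simp [mul_assoc]

include h3 in
theorem orb (hG : PX G) {a : End (ZMod p) M} (ha : a ∈ QTd G) : ∃ f : End (ZMod p) M → End (ZMod p) M,
    (∀ s ∈ EE G a, s ≠ 0 → f s ∈ EE G a ∧ f s ≠ 0 ∧ ∃ h ∈ G, cn h a = f s) ∧
    ∀ s ∈ EE G a, ∀ t ∈ EE G a, f s = f t → s = t ∨ s = -t := by
  obtain ⟨b, hb, e1, e2⟩ := hG.opp ha
  have w : ∀ s ∈ EE G a, s ≠ 0 → ∃ h ∈ G, cn h b = -(s * b * s) := fun s hs s0 => by
    obtain ⟨s', hs', s0', f1, f2⟩ := exists_partner' (two_ne h3) (card_ne h3) ha hb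
      (by rw [e1]; exact ha.2.1) hs s0
    have m : b ∈ EE G s' := by rw [EE.eq hb hs' s0']; exact EE.self hb.1
    exact ⟨_, mul_mem (mul_mem (QT.U1_mem hs.1) (inv_mem (QT.U1_mem hs'.1))) (QT.U1_mem hs.1),
      cn_w hs.1.1 hs'.1.1 (EE.mul hs' (EE.self hb.1)) (EE.mul (EE.self hb.1) hs') (EE_left m f2)
        (EE_right m f2)⟩
  have sq : ∀ s ∈ EE G a, s * b * s ∈ EE G a := fun s hs => by
    by_cases s0 : s = 0
    · simp [s0]
    obtain ⟨h, hh, e⟩ := w s hs s0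
    refine EE.mk' (u := s * b * s * b) (v := b * s * b * s) ha.1.1 (by
      rw [← neg_neg (s * b * s), ← e]; exact QT.neg (QT.conj hb.1 hh)) ?_ ?_
    · rw [mul_assoc _ s, mul_assoc (s * b), EE_right hs e1]
    · rw [← mul_assoc, ← mul_assoc, ← mul_assoc, EE_left hs e1]
  have dv : ∀ c ∈ EE G a, ∀ d ∈ EE G a, c * b * d = 0 → c = 0 ∨ d = 0 := fun c hc d hd h => by
    by_cases d0 : d = 0
    · exact Or.inr d0
    rw [← EE_right hc e1]
    exact Or.inl (mul_eq_zero_of_range_le (EE.range_eq ha hd d0).ge h)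
  refine ⟨fun s => s * b * s, fun s hs s0 => ⟨sq s hs, fun e => (dv s hs s hs e).elim s0 s0, ?_⟩,
    fun s hs t ht e => ?_⟩
  · obtain ⟨h, hh, e⟩ := w s hs s0
    have := cn_w (s := -b) (s' := -a) (b := a) (by simp [hb.1.1]) (by simp [ha.1.1])
      (by simp [ha.1.1]) (by simp [ha.1.1]) (by simp [e1]) (by simp [e1])
    refine ⟨_, mul_mem hh (mul_mem (mul_mem (QT.U1_mem (QT.neg hb.1)) (inv_mem (QT.U1_mem (QT.neg ha.1))))
      (QT.U1_mem (QT.neg hb.1))), ?_⟩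
    rw [cn_mul, this, neg_mul, neg_mul_neg, e2, cn, mul_neg, neg_mul, ← cn, e, neg_neg]
  · have z : ∀ c ∈ EE G a, c * b = 0 → c = 0 := fun c hc h => by rw [← EE_right hc e1, h, zero_mul]
    have := anticomm (two_ne h3) ((EE G a).map (LinearMap.mulRight (ZMod p) b)) (by
      rintro _ ⟨c, hc, rfl⟩ _ ⟨d, hd, rfl⟩
      refine ⟨_, sub_mem (sub_mem (sq _ (add_mem hc hd)) (sq c hc)) (sq d hd), ?_⟩
      simp only [LinearMap.mulRight_apply]; noncomm_ring) (by
      rintro _ ⟨c, hc, rfl⟩ _ ⟨d, hd, rfl⟩ h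
      simp only [LinearMap.mulRight_apply] at h ⊢
      refine (dv c hc d hd ?_).imp (fun e => by simp [e]) (fun e => by simp [e])
      rw [← EE_right hd e1, ← mul_assoc, h, zero_mul]) ⟨_, sub_mem hs ht, rfl⟩ ⟨_, add_mem hs ht, rfl⟩ (by
      simp only [LinearMap.mulRight_apply]
      calc _ = (s * b * s - t * b * t) * b + (s * b * s - t * b * t) * b := by noncomm_ring
        _ = 0 := by rw [show s * b * s = t * b * t from e]; simp)
    exact this.imp (fun h => sub_eq_zero.1 (z _ (sub_mem hs ht) h))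
      fun h => eq_neg_of_add_eq_zero_left (z _ (add_mem hs ht) h)

include h3 in
theorem three (hG : PX G) {x a b c : End (ZMod p) M} (hx : x ∈ QTd G) (ha : a ∈ EE G x) (hb : b ∈ EE G x)
    (hc : c ∈ EE G x) (a0 : a ≠ 0) (b0 : b ≠ 0) (c0 : c ≠ 0) :
    ∃ h ∈ G, cn h a = b ∨ cn h a = c ∨ cn h b = c := by
  classical
  have := Fintype.ofFinite (End (ZMod p) M)
  let S : Finset (End (ZMod p) M) := Finset.univ.filter fun s => s ∈ EE G x ∧ s ≠ 0
  have mS : ∀ s, s ∈ S ↔ s ∈ EE G x ∧ s ≠ 0 := fun s => by simp [S]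
  have o : ∀ a ∈ EE G x, a ≠ 0 → ∃ O ⊆ S, S.card ≤ 2 * O.card ∧ ∀ s ∈ O, ∃ h ∈ G, cn h a = s :=
    fun a ha a0 => by
      obtain ⟨f, f1, f2⟩ := orb h3 hG (EE.mem_QTd hx ha a0)
      rw [EE.eq hx ha a0] at f1 f2
      refine ⟨S.image f, Finset.image_subset_iff.2 fun s hs => ?_,
        cnt2 S f fun s hs t ht => f2 s ((mS s).1 hs).1 t ((mS t).1 ht).1, fun s hs => ?_⟩
      · have := f1 s ((mS s).1 hs).1 ((mS s).1 hs).2
        exact (mS _).2 ⟨this.1, this.2.1⟩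
      · obtain ⟨t, ht, rfl⟩ := Finset.mem_image.1 hs
        exact (f1 t ((mS t).1 ht).1 ((mS t).1 ht).2).2.2
  obtain ⟨A, a1, a2, a3⟩ := o a ha a0
  obtain ⟨B, b1, b2, b3⟩ := o b hb b0
  obtain ⟨C, c1, c2, c3⟩ := o c hc c0
  have j : ∀ {a b : End (ZMod p) M} {A B : Finset (End (ZMod p) M)}, (∀ s ∈ A, ∃ h ∈ G, cn h a = s) →
      (∀ s ∈ B, ∃ h ∈ G, cn h b = s) → ¬ Disjoint A B → ∃ h ∈ G, cn h a = b := fun h1 h2 h => by
    obtain ⟨s, s1, s2⟩ := Finset.not_disjoint_iff.1 h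
    obtain ⟨g, hg, e⟩ := h1 s s1
    obtain ⟨g', hg', e'⟩ := h2 s s2
    exact ⟨g'⁻¹ * g, mul_mem (inv_mem hg') hg, by rw [cn_mul, e, ← e', ← cn_mul, inv_mul_cancel, cn_one]⟩
  by_contra hne
  have d1 : Disjoint A B := by_contra fun h => let ⟨g, hg, e⟩ := j a3 b3 h; hne ⟨g, hg, Or.inl e⟩
  have d2 : Disjoint A C := by_contra fun h => let ⟨g, hg, e⟩ := j a3 c3 h; hne ⟨g, hg, Or.inr (Or.inl e)⟩
  have d3 : Disjoint B C := by_contra fun h => let ⟨g, hg, e⟩ := j b3 c3 h; hne ⟨g, hg, Or.inr (Or.inr e)⟩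
  have := Finset.card_le_card (Finset.union_subset (Finset.union_subset a1 b1) c1)
  rw [Finset.card_union_of_disjoint (Finset.disjoint_union_left.2 ⟨d2, d3⟩),
    Finset.card_union_of_disjoint d1] at this
  have := Finset.card_pos.2 ⟨a, (mS a).2 ⟨ha, a0⟩⟩
  omega

include h3 in
theorem fixed_root (hG : PX G) {R : Subgroup (End (ZMod p) M)ˣ} (hR : R ≤ N⟦G⟧) (hc : (♯G).Coprime (♯R))
    (hs : SolOr R G) {x : End (ZMod p) M} (hx : x ∈ QTd G) (h : ∀ ρ ∈ R, sm ρ (Ch x) = Ch x) :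
    ∃ x' ∈ EE G x, x' ≠ 0 ∧ ∀ ρ ∈ R, cn ρ x' = x' := by
  obtain ⟨y, hy, e1, e2⟩ := hG.opp hx
  have ev : 2 ∣ ♯G := by
    have t := tor_mem hx.1 hy.1 e1 e2 (-1)
    have o : orderOf (tor hx.1.1 hy.1.1 e1 e2 (-1 : (ZMod p)ˣ)) = 2 :=
      orderOf_eq_prime (by rw [← map_pow, neg_one_sq, map_one]) (fun e => by
        have := tor_mul_x hx.1.1 hy.1.1 e1 e2 (-1 : (ZMod p)ˣ)
        rw [e, Units.val_one, one_mul, Units.val_neg, Units.val_one, neg_smul, one_smul, ← sub_eq_zero,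
          sub_neg_eq_add, ← two_smul (ZMod p), smul_eq_zero] at this
        exact hx.2.1 (this.resolve_left (two_ne h3)))
    exact o ▸ orderOf_dvd_natCard _ t
  have ee : ∀ ρ ∈ R, cn ρ x ∈ EE G x := fun ρ hρ =>
    EE_of_Ch hx.1.1 (QT_conjN hx.1 (hR hρ)) (by rw [Ch_cn, h ρ hρ])
  have nK : R ≤ N⟦St G (Ch x)⟧ := fun ρ hρ => mem_norm_of_forall fun k hk =>
    ⟨H21.conj_mem_of_norm (hR hρ) hk.1, by rw [sm_mul, sm_mul, h _ (inv_mem hρ), hk.2, h ρ hρ]⟩
  have kG : St G (Ch x) ≤ G := fun _ h => h.1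
  have s2 : ∀ σ ∈ R, ∃ g ∈ G, cn (σ * σ) x = cn g x := fun σ hσ => by
    have s1 : ∀ g ∈ G, cn σ x = cn g x → ∃ g ∈ G, cn (σ * σ) x = cn g x := fun g hg e =>
      ⟨σ * g * σ⁻¹ * g, mul_mem (H21.conj_mem_of_norm (hR hσ) hg) hg, by
        rw [cn_mul _ g, ← e, ← cn_mul _ σ, inv_mul_cancel_right, cn_mul σ g, ← e, cn_mul]⟩
    obtain ⟨g, hg, e | e | e⟩ := three h3 hG hx (EE.self hx.1) (ee σ hσ) (ee _ (mul_mem hσ hσ)) hx.2.1
      (cn_ne_zero hx.2.1) (cn_ne_zero hx.2.1)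
    · exact s1 g hg e.symm
    · exact ⟨g, hg, e.symm⟩
    · exact s1 _ (conj_mem_of_norm' (hR hσ) hg) (by
        rw [cn_mul, cn_mul, ← cn_mul σ⁻¹, cn_mul σ⁻¹, e, ← cn_mul, inv_mul_cancel_left])
  obtain ⟨k, hk, e⟩ := glau (A := R) (K := St G (Ch x)) cn cn_one cn_mul nK
    (coprime_of_le_left hc kG).symm (hs.imp id fun h => sol_of_le h kG) x (by
      intro ρ hρ
      obtain ⟨m, hm⟩ := exists_pow_eq_self_of_coprime (x := ρ) (n := 2)
        ((hc.coprime_dvd_left ev).coprime_dvd_right (orderOf_dvd_natCard _ hρ))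
      obtain ⟨g, hg, e⟩ := s2 _ (pow_mem hρ m)
      rw [← sq, ← pow_mul, mul_comm, pow_mul, hm] at e
      exact ⟨g, ⟨hg, by rw [← Ch_cn, ← e, Ch_cn, h ρ hρ]⟩, e⟩)
  exact ⟨_, EE_of_Ch hx.1.1 (QT.conj hx.1 hk.1) (by rw [Ch_cn, hk.2]), cn_ne_zero hx.2.1, e⟩

end Cfsg.Agent.H25.QB
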