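import Cfsg.Agent.H25.QC1
import Cfsg.Agent.H9.Involves

/-! A group generated by quadratic elements: the fixed points of a coprime group involve `PSL₂(p)`. -/

set_option autoImplicit false

namespace Cfsg.Agent.H25.QB

open Subgroup Cfsg.Agent.H20 Cfsg.Agent.H21 Cfsg.Agent.H29 Module
open scoped MatrixGroups

theorem involves_psl {F H : Type*} [Field F] [Group H] (hF : ∃ a : F, a ≠ 0 ∧ a ^ 2 ≠ 1)
    (Δ : SL(2, F) →* H) {s : SL(2, F)} (hs : Δ s ≠ 1) : Involves PSL(2, F) H := by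
  have := Matrix.ProjectiveSpecialLinearGroup.rank_two_simple' hF
  have hsurj := QuotientGroup.mk'_surjective (center SL(2, F))
  refine H9.involves_of_hom Δ _ hsurj ?_
  rcases (Δ.normal_ker.map _ hsurj).eq_bot_or_eq_top with e | e
  · rwa [Subgroup.map_eq_bot_iff] at e
  obtain ⟨a, a0, a1⟩ := hF
  have z : ∀ t, ∃ c ∈ center SL(2, F), Δ t = Δ c := fun t => by
    obtain ⟨k, hk, e⟩ := e.ge (mem_top (QuotientGroup.mk' _ t))
    exact ⟨k⁻¹ * t, QuotientGroup.eq.1 e, by rw [map_mul, map_inv, show Δ k = 1 from hk, inv_one, one_mul]⟩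
  have : commutator SL(2, F) ≤ Δ.ker := commutator_le.2 fun g _ h _ => by
    obtain ⟨c, hc, e⟩ := z g
    rw [MonoidHom.mem_ker, map_commutatorElement, e, ← map_commutatorElement,
      commutatorElement_eq_one_iff_mul_comm.2 (mem_center_iff.1 hc h).symm, map_one]
  rw [Matrix.SL2.commutator_eq_top a0 a1] at this
  exact absurd (this (mem_top s)) hs

theorem diag {Γ D : Type*} [Group Γ] [Finite Γ] [Group D] {G R R₁ : Subgroup Γ} (φ : D →* Γ)
    (h1 : ∀ s, φ s ∈ G) (hR : R ≤ N⟦G⟧) (h2 : ∀ ρ ∈ R₁, ∀ s, ρ * φ s * ρ⁻¹ = φ s)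
    (h3 : ∀ τ ∈ R, τ ∉ R₁ → ∀ s t, Commute (τ * φ s * τ⁻¹) (φ t)) :
    ∃ Δ : D →* Γ, (∀ s, Δ s ∈ G ⊓ C⟦R⟧) ∧ ∀ s t, Δ s = 1 → Commute (φ s) (φ t) := by
  classical
  let ι := R ⧸ R₁.subgroupOf R
  have := Fintype.ofFinite ι
  let ψ : ι → D →* Γ := fun i => (MulAut.conj (i.out : Γ)).toMonoidHom.comp φ
  have ψv : ∀ (τ : R) s, ψ (τ : ι) s = τ * φ s * (τ : Γ)⁻¹ := fun τ s => by
    obtain ⟨r, e⟩ := QuotientGroup.mk_out_eq_mul (R₁.subgroupOf R) τ
    show (((τ : ι).out : R) : Γ) * φ s * (((τ : ι).out : R) : Γ)⁻¹ = _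
    rw [e]
    conv_rhs => rw [← h2 r.1 r.2 s]
    simp only [coe_mul, mul_inv_rev, mul_assoc]
  have hc : Pairwise fun i j : ι => ∀ s t, Commute (ψ i s) (ψ j t) := fun i j hij s t => by
    obtain ⟨σ, rfl⟩ := QuotientGroup.mk_surjective i
    obtain ⟨τ, rfl⟩ := QuotientGroup.mk_surjective j
    have := (h3 _ (mul_mem (inv_mem τ.2) σ.2) (fun h => hij (QuotientGroup.eq.2
      (show τ⁻¹ * σ ∈ R₁.subgroupOf R from h)).symm) s t).map
      (MulAut.conj (τ : Γ))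
    rw [ψv, ψv]
    convert this using 1
    · simp [mul_assoc]
    · rfl
  have hc' : ∀ s, ((Finset.univ : Finset ι) : Set ι).Pairwise (Function.onFun Commute fun i => ψ i s) :=
    fun s _ _ _ _ h => hc h _ _
  let Δ : D →* Γ := (MonoidHom.noncommPiCoprod ψ hc).comp (MonoidHom.pi fun _ => MonoidHom.id D)
  have Δv : ∀ s, Δ s = Finset.univ.noncommProd (fun i => ψ i s) (hc' s) := fun _ => rfl
  refine ⟨Δ, fun s => ⟨?_, fun ρ hρ => ?_⟩, fun s t e => ?_⟩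
  · exact Δv s ▸ Subgroup.noncommProd_mem _ _ fun i _ => H21.conj_mem_of_norm (hR i.out.2) (h1 s)
  · rw [← mul_inv_eq_iff_eq_mul, ← MulAut.conj_apply, Δv, Finset.map_noncommProd]
    have e : (Finset.univ.1.map fun i => MulAut.conj ρ (ψ i s)) = Finset.univ.1.map fun i => ψ i s := by
      conv_rhs => rw [← Multiset.map_univ_val_equiv (MulAction.toPerm (⟨ρ, hρ⟩ : R) : ι ≃ ι), Multiset.map_map]
      refine Multiset.map_congr rfl fun i _ => ?_
      obtain ⟨σ, rfl⟩ := QuotientGroup.mk_surjective i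
      have := ψv (⟨ρ, hρ⟩ * σ) s
      rw [ψv]
      refine Eq.trans ?_ this.symm
      simp [mul_assoc]
    unfold Finset.noncommProd
    congr 1
  · rw [Δv, ← Finset.mul_noncommProd_erase _ (Finset.mem_univ ((1 : R) : ι)), mul_eq_one_iff_eq_inv] at e
    have o : ∀ s, ψ ((1 : R) : ι) s = φ s := fun s => by simpa using ψv 1 s
    rw [← o, e, ← o]
    exact (Finset.noncommProd_commute _ _ _ _ fun i hi => hc (Finset.ne_of_mem_erase hi).symm t s).symm.inv_left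

section ring

variable {F k A : Type*} [Field F] [Field k] [Ring A] [Algebra k A] (f : F →+* k) {x y : A}
  (hx : x * x = 0) (hy : y * y = 0) (e1 : x * y * x = x) (e2 : y * x * y = y)

/-- the representation of `SL₂` given by two partners -/
def rep0 : SL(2, F) →* A where
  toFun s := 1 - (x * y + y * x) + f (s.1 0 0) • (x * y) + f (s.1 0 1) • x + f (s.1 1 0) • y +
    f (s.1 1 1) • (y * x)
  map_one' := by simp; abel
  map_mul' s t := by
    have a1 : ∀ z, x * (x * z) = 0 := fun z => by rw [← mul_assoc, hx, zero_mul]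
    have a2 : ∀ z, y * (y * z) = 0 := fun z => by rw [← mul_assoc, hy, zero_mul]
    have a3 : ∀ z, x * (y * (x * z)) = x * z := fun z => by rw [← mul_assoc, ← mul_assoc, e1]
    have a4 : ∀ z, y * (x * (y * z)) = y * z := fun z => by rw [← mul_assoc, ← mul_assoc, e2]
    rw [mul_assoc] at e1 e2
    simp only [Matrix.SpecialLinearGroup.coe_mul, Matrix.mul_apply, Fin.sum_univ_two, map_add, map_mul, mul_add,
      add_mul, mul_sub, sub_mul, one_mul, mul_one, smul_mul_assoc, mul_smul_comm, mul_assoc, hx, hy, e1, e2,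
      a1, a2, a3, a4, mul_zero, smul_zero]
    module

noncomputable def rep : SL(2, F) →* Aˣ := (rep0 f hx hy e1 e2).toHomUnits

theorem rep_up (c : F) : (rep f hx hy e1 e2 (up c) : A) = 1 + f c • x := by
  simp [rep, rep0, up_val]; abel

theorem rep_lo (c : F) : (rep f hx hy e1 e2 (lo c) : A) = 1 + f c • y := by
  simp [rep, rep0, lo_val]; abel

theorem rep_comm {w : A} (h1 : Commute w x) (h2 : Commute w y) (s : SL(2, F)) :
    Commute w (rep f hx hy e1 e2 s : A) :=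
  (((((Commute.one_right w).sub_right ((h1.mul_right h2).add_right (h2.mul_right h1))).add_right
    ((h1.mul_right h2).smul_right _)).add_right (h1.smul_right _)).add_right (h2.smul_right _)).add_right
    ((h2.mul_right h1).smul_right _)

end ring

variable {p : ℕ} [hp : Fact p.Prime] {M : Type*} [AddCommGroup M] [Module (ZMod p) M]
  {G : Subgroup (End (ZMod p) M)ˣ} [Finite M] (h3 : 3 < p)

include h3 in
/-- a root element whose root subgroup is invariant under the stabilizer of its class -/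
theorem stable_root {R : Subgroup (End (ZMod p) M)ˣ} (hR : R ≤ N⟦G⟧) (hc : (♯G).Coprime (♯R))
    (hs : SolOr R G) {a : End (ZMod p) M} (ha : a ∈ QT G) (a0 : a ≠ 0) :
    ∃ x ∈ QTd G, ∃ R₁ ≤ R, (∀ ρ ∈ R₁, sm ρ (Ch x) = Ch x) ∧
      ∀ ρ ∈ R, ∀ g ∈ G, sm ρ (Ch x) = sm g (Ch x) → ρ ∈ R₁ := by
  have sub : ∀ {A B : Subgroup (End (ZMod p) M)ˣ}, A ≤ R → B ≤ G → SolOr A B := fun h1 h2 =>
    hs.imp (fun h => sol_of_le h h1) (fun h => sol_of_le h h2)
  obtain ⟨S, s1, s2⟩ := exists_inv_sylow p hR hc hs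
  obtain ⟨r, hr⟩ := exists_QTd ha a0
  obtain ⟨g, hg, e⟩ := s1.exists_cj_le (pgroup_U1 hr.1.1) (zpowers_le.2 (QT.U1_mem hr.1))
  obtain ⟨ξ, hξ, cξ⟩ := exists_central_root h3 s1.isPGroup s1.le (QTd.conj hr hg) (by
    rw [cj_zpowers, zpowers_le, ← U1_cn] at e; exact e)
  let R₁ : Subgroup (End (ZMod p) M)ˣ :=
    { carrier := {ρ | ρ ∈ R ∧ ∃ g ∈ G, sm ρ (Ch ξ) = sm g (Ch ξ)}
      mul_mem' := by
        rintro ρ σ ⟨h1, g, hg, e⟩ ⟨h2, g', hg', e'⟩
        refine ⟨mul_mem h1 h2, ρ * g' * ρ⁻¹ * g, mul_mem (H21.conj_mem_of_norm (hR h1) hg') hg, ?_⟩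
        rw [sm_mul, e', sm_mul _ g, ← e, ← sm_mul, ← sm_mul, inv_mul_cancel_right]
      one_mem' := ⟨one_mem _, 1, one_mem _, rfl⟩
      inv_mem' := by
        rintro ρ ⟨h1, g, hg, e⟩
        refine ⟨inv_mem h1, ρ⁻¹ * g⁻¹ * ρ, conj_mem_of_norm' (hR h1) (inv_mem hg), ?_⟩
        rw [sm_mul, e, ← sm_mul, inv_mul_cancel_right] }
  have r1 : R₁ ≤ R := fun _ h => h.1
  have stab : ∀ {y : End (ZMod p) M} (hy : y * y = 0), U1 y hy ∈ C⟦Jq S⟧ → Jq S ≤ St G (Ch y) :=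
    fun hy h j hj => ⟨s1.le (Jq_le S hj), by
      rw [← Ch_cn, cn_eq_iff.2 ((U1_comm_iff hy j).1 (h j hj))]⟩
  obtain ⟨m, hm, em⟩ := glau (A := R₁) (K := G ⊓ N⟦Jq S⟧) sm sm_one sm_mul
    (r1.trans (norm_inf_norm hR (norm_Jq s2))) (coprime_of_le hc inf_le_left r1).symm
    (sub r1 inf_le_left) (Ch ξ) (by
      rintro ρ ⟨h1, g, hg, e⟩
      have st : ∀ {x : (End (ZMod p) M)ˣ}, x ∈ N⟦G⟧ → cj x (Jq S) ≤ St G (sm x (Ch ξ)) := fun {x} hx j hj => by
        obtain ⟨j', hj', rfl⟩ := mem_cj'.1 hj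
        refine ⟨H21.conj_mem_of_norm hx (s1.le (Jq_le S hj')), ?_⟩
        rw [← sm_mul, inv_mul_cancel_right, sm_mul, (stab _ cξ hj').2]
      obtain ⟨n, hn, en⟩ := burnside (H := St G (sm g (Ch ξ))) s1 (fun _ h => h.1) (by
        have := st (hR h1)
        rwa [cj_eq_of_mem_norm (norm_Jq s2 h1), e] at this) (st (le_normalizer hg))
      exact ⟨n * g, ⟨mul_mem hn.1 hg, en⟩, by rw [e, sm_mul, hn.2]⟩)
  refine ⟨cn m ξ, QTd.conj hξ hm.1, R₁, r1, by rwa [Ch_cn], fun ρ hρ g hg e =>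
    ⟨hρ, ρ * m⁻¹ * ρ⁻¹ * (g * m), mul_mem (H21.conj_mem_of_norm (hR hρ) (inv_mem hm.1)) (mul_mem hg hm.1), ?_⟩⟩
  rw [Ch_cn] at e
  rw [sm_mul _ (g * m), sm_mul g, ← e, ← sm_mul, ← sm_mul]
  congr 1
  group

include h3 in
theorem thmC {F : Type*} [Field F] (f : F →+* ZMod p) (hF : ∃ a : F, a ≠ 0 ∧ a ^ 2 ≠ 1) (hG : PX G)
    {R : Subgroup (End (ZMod p) M)ˣ} (hR : R ≤ N⟦G⟧) (hc : (♯G).Coprime (♯R))
    (hs : SolOr R G) {a : End (ZMod p) M} (ha : a ∈ QT G) (a0 : a ≠ 0) :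
    Involves PSL(2, F) (G ⊓ C⟦R⟧ : Subgroup _) := by
  obtain ⟨x₀, hx₀, R₁, r1, r2, r3⟩ := stable_root h3 hR hc hs ha a0
  have hc1 := coprime_of_le hc le_rfl r1
  obtain ⟨x, m, x0, fx⟩ := fixed_root h3 hG (r1.trans hR) hc1 (hs.imp (fun h => sol_of_le h r1) id) hx₀ r2
  have hx := EE.mem_QTd hx₀ m x0
  rw [← Ch_of_EE hx₀ m x0] at r3
  obtain ⟨y₀, hy₀, f1, f2⟩ := hG x hx.1
  obtain ⟨y, hy', e1, e2, fy⟩ := partner_fix h3 (r1.trans hR) (hc1.symm.coprime_dvd_right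
    ((orderOf_eq_prime (U1_pow_p hx.1.1) fun e => x0 ((U1_eq_one _).1 e)).symm.dvd.trans
      (orderOf_dvd_natCard _ (QT.U1_mem hx.1)))) hx.1 hy₀ f1 f2 fx
  have hy : y ∈ QTd G := QTd.of_le hx hy' (fun e => x0 (by rw [← e1, e]; simp)) (by
    rw [← e2]; exact (rk_mul_le_left _ _).trans (rk_mul_le_right _ _))
  have cy : Cl G x y := cl_of_opp h3 hx hy (by rw [e1]; exact x0)
  have com : ∀ τ ∈ R, τ ∉ R₁ → ∀ u ∈ QTd G, Cl G x u → ∀ v ∈ QTd G, Cl G x v → Commute (cn τ u) v :=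
    fun τ hτ hn u hu ⟨g, hg, e⟩ v hv cv => by
      by_contra hne
      obtain ⟨g', hg', e'⟩ := cv.trans (cl_of_ne h3 hG (QTd_conjN hu (hR hτ)) hv hne).symm
      refine hn (r3 τ hτ (τ * g⁻¹ * τ⁻¹ * g') (mul_mem (H21.conj_mem_of_norm (hR hτ) (inv_mem hg)) hg') ?_)
      rw [sm_mul _ g', e', Ch_cn, ← e, ← sm_mul, ← sm_mul]
      congr 1
      group
  have cx : Cl G x x := cy.trans cy.symm
  obtain ⟨Δ, d1, d2⟩ := diag (G := G) (R := R) (R₁ := R₁) (rep f hx.1.1 hy.1.1 e1 e2) (fun s => by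
    have : (⊤ : Subgroup SL(2, F)) ≤ G.comap (rep f hx.1.1 hy.1.1 e1 e2) := by
      rw [← lower_sup_upper]
      refine sup_le (fun g hg => ?_) fun g hg => ?_
      · obtain ⟨c, rfl⟩ := mem_lower.1 hg
        exact QT.mem_of_eq (QT.smul hy.1 _) (rep_lo f _ _ e1 e2 c)
      · obtain ⟨c, rfl⟩ := mem_upper.1 hg
        exact QT.mem_of_eq (QT.smul hx.1 _) (rep_up f _ _ e1 e2 c)
    exact this (mem_top s)) hR (fun ρ hρ s => mul_inv_eq_iff_eq_mul.2 (Units.ext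
      (rep_comm f _ _ e1 e2 (cn_eq_iff.1 (fx ρ hρ)) (cn_eq_iff.1 (fy ρ hρ)) s))) (fun τ hτ hn s t => by
    have k : ∀ u ∈ QTd G, Cl G x u → Commute ((τ * rep f hx.1.1 hy.1.1 e1 e2 s * τ⁻¹ : (End (ZMod p) M)ˣ) :
        End (ZMod p) M) u := fun u hu cu => by
      have n : τ⁻¹ ∉ R₁ := fun h => hn (inv_mem_iff.1 h)
      have := congrArg (cn τ) (rep_comm f hx.1.1 hy.1.1 e1 e2 (com _ (inv_mem hτ) n u hu cu x hx cx)
        (com _ (inv_mem hτ) n u hu cu y hy cy) s).eq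
      rw [cn_mul' τ (cn τ⁻¹ u), cn_mul' τ _ (cn τ⁻¹ u), ← cn_mul, mul_inv_cancel, cn_one] at this
      exact this.symm
    exact Units.ext (rep_comm f _ _ e1 e2 (k x hx cx) (k y hy cy) t))
  refine involves_psl hF (Δ.codRestrict _ d1) (s := up 1) fun e => x0 ?_
  have := congrArg Units.val (d2 _ (lo 1) (congrArg Subtype.val e)).eq
  rw [Units.val_mul, Units.val_mul, rep_up, rep_lo, map_one, one_smul, one_smul] at this
  have c : x * y = y * x := by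
    rw [← sub_eq_zero] at this ⊢
    rw [← this]; noncomm_ring
  rw [← e1, c, mul_assoc, hx.1.1, mul_zero]

end Cfsg.Agent.H25.QB
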