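import Cfsg.Agent.H25.QC2
import Cfsg.Agent.H25.QB4
import Cfsg.Agent.H9.PCons

/-! The `ZJ` theorem under coprime action with `PSL₂(p)`-free fixed points. -/

set_option autoImplicit false

namespace Cfsg.Agent.H25.QB

open Subgroup Cfsg.Agent.H20 Cfsg.Agent.H21 Module
open scoped commutatorElement MatrixGroups

variable {p : ℕ} [hp : Fact p.Prime] {F : Type*} [Field F] (f : F →+* ZMod p)
  (hF : ∃ a : F, a ≠ 0 ∧ a ^ 2 ≠ 1) (h3 : 3 < p) {Y : Type*} [Group Y] [Finite Y] {G R : Subgroup Y} [G.Normal]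
  (hc : (♯G).Coprime (♯R)) (hs : SolOr R G) (hn : ¬ Involves PSL(2, F) (G ⊓ C⟦R⟧ : Subgroup Y))

include f hF h3 hc hs hn

theorem thmC_min {V : Subgroup Y} (h : MinNormal V ⊤) (hV : IsPGroup p V) {g : Y} (hg : g ∈ G)
    (hq : ⁅⁅V, zpowers g⁆, zpowers g⁆ = ⊥) : g ∈ C⟦V⟧ := by
  obtain ⟨q, hq', hE⟩ := h.exists_elem (sol_of_pgroup hV)
  obtain rfl : q = p := by
    have := Fact.mk hq'
    by_contra hne
    exact h.1 (by simpa using inf_eq_bot_coprime (coprime_of_isPGroup_ne (isPGroup_of_elem hE) hV hne))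
  let ρ := H9.eaRep hE h.2.1
  let φ : Y →* (End (ZMod q) (H9.EAMod hE))ˣ := ρ.toHomUnits.comp topEquiv.symm.toMonoidHom
  have φv : ∀ y, (φ y : End (ZMod q) (H9.EAMod hE)) = ρ ⟨y, mem_top y⟩ := fun _ => rfl
  have irr : IsIrreducibleFor φ.range := by
    refine ⟨?_, fun W hW => ?_⟩
    · obtain ⟨⟨v, hv⟩, v1⟩ := (ne_bot_iff_exists_ne_one).1 h.1
      exact ⟨H9.EAMod.mk hE v hv, fun e => v1 (Subtype.ext (congrArg H9.EAMod.val e))⟩
    · rcases h.eq_bot_or_eq (H9.EAMod.toSubgroup_le W) (fun y _ => mem_norm_of_forall (by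
        rintro _ ⟨v, hv, rfl⟩
        exact ⟨_, hW (φ y) ⟨y, rfl⟩ v hv, rfl⟩)) with e | e
      · exact Or.inl (eq_bot_iff.2 fun v hv => H9.EAMod.val_eq_one_iff.1
          (e.le (H9.EAMod.val_mem_toSubgroup.2 hv)))
      · exact Or.inr (eq_top_iff.2 fun v _ => H9.EAMod.val_mem_toSubgroup.1 (e.ge v.val_mem))
  have nu : H29.NU (ZMod q) (G.map φ) := (H29.nu_of_irreducible irr).normal (map_le_range φ G) (by
    rintro _ ⟨y, rfl⟩
    exact H29.conjBy_eq_self_iff.2 (norm_map φ (X := ⊤) (normalizer_eq_top G).ge ⟨y, mem_top y, rfl⟩))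
  have nR : R ≤ N⟦G⟧ := le_top.trans (normalizer_eq_top G).ge
  have sq := H9.eaRep_quadratic (hV := hE) (hH := h.2.1) ⟨g, mem_top g⟩ hq
  refine (H9.eaRep_eq_one_iff (hV := hE) (hH := h.2.1) ⟨g, mem_top g⟩).1 (sub_eq_zero.1 (by_contra fun a0 => hn ?_))
  refine H9.involves_of_map φ _ ?_
  rw [coprime_map_cent φ nR hc hs]
  exact thmC h3 f hF (px_of_nu h3 _ nu) (norm_map φ nR)
    (Nat.Coprime.coprime_dvd_left (card_map_dvd G φ) (hc.coprime_dvd_right (card_map_dvd R φ)))
    (hs.imp (sol_map φ) (sol_map φ)) (mem_QT sq (by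
      convert mem_map_of_mem φ hg using 1
      ext1
      rw [H29.U1_val, φv, add_sub_cancel])) a0

theorem thmC_chief {U V : Subgroup Y} (h : IsChiefFactor U V) (hU : IsPGroup p U) {g : Y} (hg : g ∈ G)
    (hq : ⁅⁅U, zpowers g⁆, zpowers g⁆ ≤ V) : ⁅U, zpowers g⁆ ≤ V := by
  have := h.2.1
  have := h.2.2.1
  set π := QuotientGroup.mk' V with hf
  have hsurj : Function.Surjective π := QuotientGroup.mk'_surjective V
  have : (G.map π).Normal := Normal.map inferInstance π hsurj
  have : (U.map π).Normal := Normal.map inferInstance π hsurj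
  have kb : ∀ A : Subgroup Y, A.map π = ⊥ ↔ A ≤ V := fun A => by
    rw [Subgroup.map_eq_bot_iff, hf, QuotientGroup.ker_mk']
  have nR : R ≤ N⟦G⟧ := le_top.trans (normalizer_eq_top G).ge
  have := thmC_min f hF h3 (G := G.map π) (R := R.map π) (V := U.map π)
    (Nat.Coprime.coprime_dvd_left (card_map_dvd G π) (hc.coprime_dvd_right (card_map_dvd R π)))
    (hs.imp (sol_map π) (sol_map π))
    (by rw [← coprime_map_cent π nR hc hs]; exact fun h => hn (H9.involves_of_map π _ h))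
    ⟨fun e => h.1.not_ge ((kb U).1 e), (normalizer_eq_top _).ge, fun W hW hn h1 => by
      have : W.Normal := normalizer_eq_top_iff.1 (top_le_iff.1 hn)
      rcases h.2.2.2 (W.comap π) inferInstance (fun v hv => by
        rw [mem_comap, show π v = 1 from (QuotientGroup.eq_one_iff v).2 hv]; exact one_mem _) ((comap_mono hW).trans (by
          rw [comap_map_eq, hf, QuotientGroup.ker_mk']; exact sup_le le_rfl h.1.le)) with e | e
      · exact absurd (by rw [← map_comap_eq_self_of_surjective hsurj W, e, kb]) h1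
      · rw [← e, map_comap_eq_self_of_surjective hsurj]⟩ (hU.map π) (mem_map_of_mem π hg)
    (by rw [← MonoidHom.map_zpowers, ← map_commutator, ← map_commutator, kb]; exact hq)
  rw [← kb, map_commutator, MonoidHom.map_zpowers, commutator_comm, commg_eq_bot]
  exact zpowers_le.2 this

theorem zj_amb (hi : G.index.Coprime p) (h0 : pPrimeCore p Y = ⊥) (hG : IsPConstrained p G)
    (S : Sylow p Y) : (centerThompsonOf 0 (S : Subgroup Y)).Normal := by
  have nG : G ⊴ ⊤ := ⟨le_top, (normalizer_eq_top G).ge⟩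
  have ri : ∀ A : Subgroup Y, (G.relIndex A).Coprime p := fun A =>
    hi.coprime_dvd_left (relIndex_dvd_index_of_normal G A)
  rw [pPrimeCore_eq_top] at h0
  refine H9.centerThompsonOf_normal (by omega) (dvd_zero p) ?_ (fun P _ hP => ?_) S
  · have c1 : H9.CharPGrp p G := (H9.isPConstrained_iff_of_pPrimeCore_eq_bot (by
      rw [← map_eq_bot_iff_of_injective _ G.subtype_injective, map_pPrimeCore, eq_bot_iff, ← h0]
      exact piCoreOf_le_of_normalIn nG)).1 hG
    set C := C⟦pCore p Y⟧ with hC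
    have t : piCoreOf {p} G ≤ pCore p Y := pCore_eq_top (G := Y) p ▸ piCoreOf_le_of_normalIn nG
    have z : G ⊓ C ≤ pCore p Y := fun x hx => t (by
      rw [← map_pCore] at t ⊢
      exact ⟨⟨x, hx.1⟩, c1 fun y hy => Subtype.ext (hx.2 y (t ⟨y, hy, rfl⟩)), rfl⟩)
    have zp := (H1.isPGroup_pCore p Y).to_le z
    obtain ⟨D, hD⟩ := exists_compl_of_coprime (A := G ⊓ C) (M := C)
      ⟨inf_le_right, le_top.trans (normalizer_eq_top _).ge⟩
      (by rw [inf_relIndex_right]; exact coprime_of_isPGroup zp (ri C))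
    have d : D ≤ ⊥ := h0 ▸ (le_piCoreOf ⟨Compl.right_le hD, (Compl.sup_eq hD).ge.trans (sup_le
      (norm_of_cent (cent_symm ((Compl.right_le hD).trans (cent_anti z)))) le_normalizer)⟩
      ((isPi_compl_singleton_iff_coprime hp.out).2 (by
        rw [← Compl.relIndex_left hD, inf_relIndex_right]; exact ri C))).trans
      (piCoreOf_le_of_normalIn ⟨le_top, (normalizer_eq_top C).ge⟩)
    exact (Compl.sup_eq hD).ge.trans (sup_le z (d.trans bot_le))
  · refine H9.mem_opMod_centralizer_of_forall hP fun A hA hq => ?_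
    by_cases h : pResidualOf p (H24.ncl A ⊤) ≤ C⟦P⟧
    · exact (H24.le_ncl A ⊤).trans (H9.le_opMod_of_forall ((H24.pGrpMod_pResidualOf _).mono le_rfl h))
    obtain ⟨U, V, h, hU, h5⟩ := L0.exists_chief_not_centralized hP h
    have := h.2.2.1
    obtain ⟨g, hg, h7⟩ := L0.exists_not_commutator_zpowers_le h5
    refine absurd (thmC_chief f hF h3 hc hs hn h (hP.to_le hU) (IsPi.le_of_relIndex (isPi_singleton_iff.2 hA)
      ((PiNat.compl_singleton_iff_coprime hp.out).2 (ri A)) hg) ?_) h7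
    exact ((commutator_mono (commutator_mono hU (zpowers_le.2 hg)) (zpowers_le.2 hg)).trans hq.le).trans bot_le

end Cfsg.Agent.H25.QB
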